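import Mathlib

/-! The Artin–Zorn theorem: finite alternative division rings are fields. -/

set_option autoImplicit false
open Polynomial

namespace CA.AZ

theorem hua {S : Type*} [Ring S] (J : AddSubgroup S) (h1 : (1 : S) ∈ J)
    (hu : ∀ a ∈ J, a ≠ 0 → IsUnit a)
    (H : ∀ a ∈ J, ∀ b ∈ J, a ≠ 0 → b ≠ 0 → a + b ≠ 0 → ∃ θ ∈ J, ∀ a' b' : S, a * a' = 1 →
      b * b' = 1 → θ * (a' + b') = 1) {a b : S} (ha : a ∈ J) (hb : b ∈ J) : a * b * a ∈ J := by
  have key : ∀ a ∈ J, ∀ c : Sˣ, (c : S) ∈ J → a * ↑c⁻¹ * a ∈ J := by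
    intro a ha c hc
    by_cases h0 : a = 0
    · simp [h0]
    by_cases h2 : (c : S) - a = 0
    · rw [← sub_eq_zero.1 h2]; simpa using hc
    rcases subsingleton_or_nontrivial S with hS | hS
    · exact absurd (Subsingleton.elim _ _) h0
    obtain ⟨u, rfl⟩ := hu a ha h0
    obtain ⟨v, hv⟩ := hu _ (sub_mem hc ha) h2
    obtain ⟨θ, hθ, e⟩ := H _ ha _ (sub_mem hc ha) h0 h2 (by simp)
    have h3 := e ↑u⁻¹ ↑v⁻¹ (by simp) (by simp [← hv])
    have h4 : (↑u⁻¹ + ↑v⁻¹ : S) * (u - u * ↑c⁻¹ * u) = 1 := by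
      have h5 : (u : S) - u * ↑c⁻¹ * u = v * ↑c⁻¹ * u := by rw [hv]; simp [sub_mul]
      have h6 : (u : S) - u * ↑c⁻¹ * u = u * ↑c⁻¹ * v := by rw [hv]; simp [mul_sub]
      rw [add_mul]
      nth_rw 1 [h6]
      rw [h5]
      simp only [← mul_assoc, Units.inv_mul, one_mul]
      rw [← mul_add, hv]; simp
    have h5 : θ = u - u * ↑c⁻¹ * u := by rw [← mul_one θ, ← h4, ← mul_assoc, h3, one_mul]
    have h6 := sub_mem ha hθ
    rwa [h5, sub_sub_cancel] at h6
  by_cases h0 : b = 0
  · simp [h0]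
  obtain ⟨u, rfl⟩ := hu b hb h0
  exact key a ha u⁻¹ (by simpa using key 1 h1 u hb)

theorem norm_surj {F : Type*} [Field F] [Finite F] (σ : F ≃+* F) {γ : F} (h : σ γ = γ) :
    ∃ d : F, ∏ i ∈ Finset.range (orderOf σ), (σ ^ i) d = γ := by
  classical
  have : Finite (F ≃+* F) := Finite.of_injective _ DFunLike.coe_injective
  let H := Subgroup.zpowers σ
  have hγ : γ ∈ FixedPoints.subfield H F := by
    rintro ⟨_, n, rfl⟩
    exact (MulAction.mem_stabilizer_iff.1 (zpow_mem ((MulAction.mem_stabilizer_iff (G := F ≃+* F)).2 h) n) :)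
  obtain ⟨d, hd⟩ := FiniteField.norm_surjective (FixedPoints.subfield H F) F ⟨γ, hγ⟩
  refine ⟨d, ?_⟩
  have h1 := Algebra.norm_eq_prod_automorphisms (FixedPoints.subfield H F) d
  rw [hd] at h1
  rw [Finset.prod_range, show γ = _ from h1]
  exact Fintype.prod_equiv ((finEquivZPowers (isOfFinOrder_of_finite σ)).trans
    (FixedPoints.toAlgAutMulEquiv H F).toEquiv) _ _ fun i => rfl

variable {R : Type*} [NonAssocRing R]

/-- left multiplication -/
abbrev L (a : R) : Module.End ℤ R := LinearMap.mul ℤ R a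

/-- right multiplication -/
abbrev Rr (a : R) : Module.End ℤ R := (LinearMap.mul ℤ R).flip a

variable (R) in
structure Alt : Prop where
  nz : ∀ a b : R, a * b = 0 → a = 0 ∨ b = 0
  ml : ∀ a b x : R, (a * (b * a)) * x = a * (b * (a * x))
  mr : ∀ a b x : R, x * ((a * b) * a) = ((x * a) * b) * a

theorem alt_of [Finite R] (nz : ∀ a b : R, a * b = 0 → a = 0 ∨ b = 0)
    (hl : ∀ a b : R, a ≠ 0 → b ≠ 0 → a + b ≠ 0 → ∃ θ, ∀ x x', a * x = b * x' → θ * (x + x') = a * x)
    (hr : ∀ a b : R, a ≠ 0 → b ≠ 0 → a + b ≠ 0 → ∃ θ, ∀ x x', x * a = x' * b → (x + x') * θ = x * a) :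
    Alt R := by
  have key : ∀ M : R →ₗ[ℤ] Module.End ℤ R, M 1 = 1 → (∀ a b, M a b = 0 → a = 0 ∨ b = 0) →
      (∀ a, M a 1 = a) → (∀ a b : R, a ≠ 0 → b ≠ 0 → a + b ≠ 0 →
        ∃ θ, ∀ x x', M a x = M b x' → M θ (x + x') = M a x) →
      ∀ a b x, M (M a (M b a)) x = M a (M b (M a x)) := by
    intro M h1 h2 h3 h4 a b x
    obtain ⟨c, hc⟩ := hua M.toAddMonoidHom.range ⟨1, h1⟩ (by
      rintro _ ⟨a, rfl⟩ ha
      refine (Module.End.isUnit_iff _).2 (Finite.injective_iff_bijective.1
        ((injective_iff_map_eq_zero _).2 fun b hb => (h2 a b hb).resolve_left ?_))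
      rintro rfl; exact ha (map_zero _)) (by
      rintro _ ⟨a, rfl⟩ _ ⟨b, rfl⟩ ha hb hab
      obtain ⟨θ, hθ⟩ := h4 a b (by rintro rfl; exact ha (map_zero _))
        (by rintro rfl; exact hb (map_zero _)) fun e => hab (by rw [← map_add, e, map_zero])
      refine ⟨_, ⟨θ, rfl⟩, fun a' b' e e' => LinearMap.ext fun y => ?_⟩
      have e1 : M a (a' y) = y := LinearMap.congr_fun e y
      have e2 : M b (b' y) = y := LinearMap.congr_fun e' y
      exact (hθ _ _ (e1.trans e2.symm)).trans e1) (a := M a) (b := M b) ⟨a, rfl⟩ ⟨b, rfl⟩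
    have h5 : c = M a (M b a) := by simpa [h3] using LinearMap.congr_fun hc 1
    exact h5 ▸ LinearMap.congr_fun hc x
  have h := key (LinearMap.mul ℤ R) (by ext; simp) nz mul_one hl
  have h' := key (LinearMap.mul ℤ R).flip (by ext; simp) (fun a b e => (nz b a e).symm) one_mul hr
  exact ⟨nz, h, h'⟩

namespace Alt
variable (h : Alt R)
include h

theorem flex (a x : R) : a * x * a = a * (x * a) := by
  have h1 : ∀ a x : R, a * a * x = a * (a * x) := fun a x => by simpa using h.ml a 1 x
  have h2 := h.mr a 1 x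
  have h3 := h1 (a + x) a
  simp only [add_mul, mul_add, h1, mul_one] at h2 h3
  rw [h2] at h3
  rw [add_assoc, add_assoc, add_right_inj, ← add_assoc, ← add_assoc, add_left_inj] at h3
  exact add_left_cancel h3

theorem comm_LR (a : R) : Commute (L a) (Rr a) := LinearMap.ext fun x => (h.flex a x).symm

theorem pw (a : R) (n : ℕ) : L ((L a ^ n) 1) = L a ^ n ∧ Rr ((L a ^ n) 1) = Rr a ^ n := by
  have h1 : ∀ n, (L a ^ (n + 1)) 1 = (L a ^ n) 1 * a := fun n => by
    have := LinearMap.congr_fun ((h.comm_LR a).pow_left n).eq 1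
    simpa [pow_succ] using this
  have h2 : ∀ n, (L a ^ (n + 1)) 1 = a * (L a ^ n) 1 := fun n => by rw [pow_succ']; rfl
  induction n using Nat.twoStepInduction with
  | zero => constructor <;> ext <;> simp
  | one => simp
  | more n ih _ =>
    constructor <;> ext x
    · rw [h2, h1, pow_succ, pow_succ', Module.End.mul_apply, Module.End.mul_apply]
      exact (h.ml _ _ _).trans (congrArg _ (LinearMap.congr_fun ih.1 _))
    · rw [h1, h2, pow_succ, pow_succ', Module.End.mul_apply, Module.End.mul_apply]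
      exact (h.mr _ _ _).trans (congrArg (· * a) (LinearMap.congr_fun ih.2 _))

theorem poly (a : R) (f : ℤ[X]) :
    L (aeval (L a) f 1) = aeval (L a) f ∧ Rr (aeval (L a) f 1) = aeval (Rr a) f := by
  induction f using Polynomial.induction_on' with
  | add f g hf hg => simp only [map_add, LinearMap.add_apply, hf.1, hf.2, hg.1, hg.2, and_self]
  | monomial n c =>
    simp only [aeval_monomial, ← Algebra.smul_def, LinearMap.smul_apply, map_smul, (h.pw a n).1,
      (h.pw a n).2, and_self]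

end Alt

theorem comm_aeval {A : Type*} [Ring A] {x y : A} (h : Commute x y) (f : ℤ[X]) :
    Commute (aeval x f) y := by
  induction f using Polynomial.induction_on' with
  | add f g hf hg => exact map_add (aeval x) f g ▸ hf.add_left hg
  | monomial n c => rw [aeval_monomial, ← Algebra.smul_def]; exact (h.pow_left n).smul_left c

/-- the subfield generated by an element -/
abbrev K (a : R) := Algebra.adjoin ℤ {L a}

theorem exists_poly {a : R} (c : K a) : ∃ f : ℤ[X], aeval (L a) f = c := by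
  exact (Algebra.adjoin_singleton_eq_range_aeval ℤ (L a)).le c.2

namespace Alt
variable (h : Alt R)
include h

theorem K_mul {a : R} (c : K a) (x : R) : c.1 1 * x = c • x := by
  obtain ⟨f, hf⟩ := exists_poly c
  exact LinearMap.congr_fun (hf ▸ (h.poly a f).1) x

theorem K_ext {a : R} {c d : K a} {x : R} (hx : x ≠ 0) (e : c • x = d • x) : c = d := by
  have := (h.nz ((c - d).1 1) x (by rw [h.K_mul, sub_smul, e, sub_self])).resolve_right hx
  refine Subtype.ext (LinearMap.ext fun y => sub_eq_zero.1 ?_)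
  have h2 := h.K_mul (c - d) y
  rw [this, zero_mul, sub_smul] at h2
  exact h2.symm

theorem K_right {a : R} (c d : K a) (x : R) : c • x * d.1 1 = c • (x * d.1 1) := by
  obtain ⟨f, hf⟩ := exists_poly c
  obtain ⟨g, hg⟩ := exists_poly d
  have h1 : Commute c.1 (Rr (d.1 1)) := by
    rw [← hg, (h.poly a g).2, ← hf]
    exact comm_aeval (comm_aeval (h.comm_LR a).symm g).symm f
  exact (LinearMap.congr_fun h1.eq x).symm

theorem K_right' {a : R} (c d : K a) (x : R) : x * (c * d).1 1 = x * c.1 1 * d.1 1 := by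
  obtain ⟨f, hf⟩ := exists_poly c
  obtain ⟨g, hg⟩ := exists_poly d
  have h1 := (h.poly a (g * f)).2
  rw [map_mul, map_mul, ← (h.poly a f).2, ← (h.poly a g).2, hf, hg] at h1
  rw [mul_comm c]
  exact LinearMap.congr_fun h1 x

variable [Finite R] [Nontrivial R]

omit h [Nontrivial R] in
instance (a : R) : Finite (K a) :=
  Finite.of_injective (fun c (x : R) => c.1 x) fun _ _ e => Subtype.ext (LinearMap.ext (congrFun e))

theorem isField (a : R) : IsField (K a) := by
  have : NoZeroDivisors (K a) := ⟨fun {c d} e => or_iff_not_imp_right.2 fun hd =>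
    h.K_ext (x := d • (1 : R)) (fun e' => hd (h.K_ext one_ne_zero (by simpa using e')))
      (by rw [← mul_smul, e]; simp)⟩
  have : Nontrivial (K a) := ⟨0, 1, fun e => one_ne_zero (α := R) (by
    simpa using (congrArg (· • (1 : R)) e).symm)⟩
  have := NoZeroDivisors.to_isDomain (K a)
  exact Finite.isField_of_domain _

theorem mem_of_comm {a : R} (ha : ∀ b : R, Nat.card (K b) ≤ Nat.card (K a)) {z : R}
    (hz : z * a = a * z) : ∃ c : K a, c • (1 : R) = z := by
  let _ := (h.isField a).toField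
  have hz1 : ∀ (n : ℕ) (c : K a), (L z ^ n) (c.1 1) = c • (L z ^ n) 1 := by
    have h1 : ∀ c : K a, z * c.1 1 = c • z := fun c => by
      obtain ⟨f, hf⟩ := exists_poly c
      have h2 : ∀ n, (Rr a ^ n) z = (L a ^ n) z := fun n => by
        induction n with
        | zero => rfl
        | succ n ih =>
          rw [pow_succ, Module.End.mul_apply, show Rr a z = L a z from hz, ← Module.End.mul_apply,
            ← ((h.comm_LR a).pow_right n).eq, Module.End.mul_apply, ih, pow_succ']
          rfl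
      have h3 : aeval (Rr a) f z = aeval (L a) f z := by
        simp [aeval_eq_sum_range, LinearMap.sum_apply, h2]
      rw [← (h.poly a f).2, hf] at h3
      exact h3
    intro n c
    induction n with
    | zero => rfl
    | succ n ih =>
      rw [pow_succ', Module.End.mul_apply, ih, ← h.K_mul, ← h.K_mul]
      have e1 := LinearMap.congr_fun (h.pw z n).2
      have e2 := LinearMap.congr_fun (h.pw z (n + 1)).2 (c.1 1)
      have e3 := LinearMap.congr_fun ((h.comm_LR z).pow_right n).eq (c.1 1)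
      simp only [LinearMap.flip_apply, LinearMap.mul_apply', Module.End.mul_apply, pow_succ] at e1 e2 e3
      rw [← pow_succ', LinearMap.mul_apply', e1, e3, h1, ← h.K_mul, pow_succ, Module.End.mul_apply,
        LinearMap.mul_apply', e2]
  have hz2 : ∀ (n m : ℕ) (c : K a), (L z ^ n) (c • (L z ^ m) 1) = c • (L z ^ (n + m)) 1 :=
    fun n m c => by rw [← hz1, ← hz1, pow_add]; rfl
  let ψ : (K a)[X] →ₗ[K a] R := Polynomial.lsum fun n => LinearMap.toSpanSingleton _ _ ((L z ^ n) 1)
  have hψ : ∀ n c, ψ (monomial n c) = c • (L z ^ n) 1 := fun n c => by simp [ψ]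
  have hmul : ∀ f g, ψ (f * g) = ψ f * ψ g := by
    intro f g
    induction g using Polynomial.induction_on' with
    | add f g hf hg => simp only [mul_add, map_add, hf, hg]
    | monomial m d =>
    induction f using Polynomial.induction_on' with
    | add f g hf hg => simp only [add_mul, map_add, hf, hg]
    | monomial n c =>
    have h1 : ∀ c : K a, (c ^ 2) • (L z ^ n) 1 * d • (L z ^ m) 1 =
        (c ^ 2 * d) • (L z ^ (n + m)) 1 := fun c => by
      have := h.ml (c.1 1) ((L z ^ n) 1) (d • (L z ^ m) 1)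
      have e1 := LinearMap.congr_fun (h.pw z n).1
      simp only [LinearMap.mul_apply'] at e1
      rwa [e1, e1, hz1, h.K_mul, h.K_mul, h.K_mul, ← mul_smul, ← mul_smul, hz2, ← mul_smul, ← sq,
        ← mul_assoc, ← sq] at this
    obtain ⟨u, v, rfl⟩ : ∃ u v : K a, u ^ 2 - v ^ 2 = c := by
      by_cases h2 : (2 : K a) = 0
      · obtain ⟨u, rfl⟩ := FiniteField.isSquare_of_char_two (F := K a)
          (CharP.ringChar_of_prime_eq_zero Nat.prime_two (by exact_mod_cast h2)) c
        exact ⟨u, 0, by ring⟩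
      · exact ⟨(c + 1) / 2, (c - 1) / 2, by field_simp; ring⟩
    rw [monomial_mul_monomial, hψ, hψ, hψ, sub_mul (u ^ 2), sub_smul, sub_smul, sub_mul, h1, h1]
  let I : Ideal (K a)[X] :=
    { (LinearMap.ker ψ).toAddSubmonoid with
      smul_mem' := fun f g hg => by
        change ψ (f * g) = 0
        rw [hmul, show ψ g = 0 from hg, mul_zero] }
  have hI : ∀ f, f ∈ I ↔ ψ f = 0 := fun _ => Iff.rfl
  have h1 : ψ 1 = 1 := by simpa using hψ 0 1
  have : I.IsPrime := ⟨fun e => one_ne_zero (h1.symm.trans ((hI 1).1 (e ▸ trivial))),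
    fun e => h.nz _ _ (hmul _ _ ▸ e)⟩
  have hq : ∀ f g, Ideal.Quotient.mk I f = Ideal.Quotient.mk I g ↔ ψ f = ψ g := fun f g => by
    rw [Ideal.Quotient.eq, hI, map_sub, sub_eq_zero]
  have : Finite ((K a)[X] ⧸ I) := Finite.of_injective (fun q => ψ q.out) fun q q' e => by
    rw [← Ideal.Quotient.mk_out q, ← Ideal.Quotient.mk_out q', hq]; exact e
  have := Ideal.Quotient.isDomain I
  have : IsCyclic ((K a)[X] ⧸ I)ˣ := by
    let _ := (Finite.isField_of_domain ((K a)[X] ⧸ I)).toField
    exact isCyclic_of_injective_ringHom (Units.coeHom ((K a)[X] ⧸ I)) Units.val_injective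
  obtain ⟨g, hg⟩ := IsCyclic.exists_monoid_generator (α := ((K a)[X] ⧸ I)ˣ)
  obtain ⟨g', hg'⟩ := Ideal.Quotient.mk_surjective g.1
  have h2 : ∀ f, ∃ c : K (ψ g'), c • (1 : R) = ψ f := fun f => by
    by_cases h0 : ψ f = 0
    · exact ⟨0, by simp [h0]⟩
    obtain ⟨u, hu⟩ := (Finite.isField_of_domain ((K a)[X] ⧸ I)).mul_inv_cancel
      (a := Ideal.Quotient.mk I f) fun e => h0 ((hI f).1 (Ideal.Quotient.eq_zero_iff_mem.1 e))
    obtain ⟨n, hn⟩ := hg (Units.mkOfMulEqOne _ _ hu)
    have h3 : ψ (g' ^ n) = ψ f := (hq _ _).1 (by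
      rw [map_pow, hg']; exact congrArg Units.val hn)
    refine ⟨⟨L (ψ g'), Algebra.self_mem_adjoin_singleton _ _⟩ ^ n, h3 ▸ ?_⟩
    clear hn h3
    induction n with
    | zero => simp [h1]
    | succ n ih => rw [pow_succ', mul_smul, ih, pow_succ', hmul]; rfl
  choose s hs using h2
  have h3 : Function.Injective fun c : K a => s (C c) := fun c d e => h.K_ext one_ne_zero (by
    have := congrArg (· • (1 : R)) e
    simpa [hs, ← monomial_zero_left, hψ] using this)
  obtain ⟨c, hc⟩ := (h3.bijective_of_nat_card_le (ha _)).2 (s X)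
  refine ⟨c, ?_⟩
  have := congrArg (· • (1 : R)) hc
  simpa [hs, ← monomial_zero_left, ← monomial_one_one_eq_X, hψ] using this

theorem all_comm {a : R} (ha : ∀ b : R, Nat.card (K b) ≤ Nat.card (K a)) (x : R) :
    x * a = a * x := by
  classical
  let _ := (h.isField a).toField
  have := Fintype.ofFinite (K a)
  let α : K a := ⟨L a, Algebra.self_mem_adjoin_singleton _ _⟩
  have hα : α.1 1 = a := mul_one a
  let ρ : Module.End (K a) R :=
    { toFun := fun x => x * a
      map_add' := fun x y => add_mul x y a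
      map_smul' := fun c x => by have := h.K_right c α x; rwa [hα] at this }
  have hρ : ∀ x, ρ x = x * a := fun _ => rfl
  by_contra hx
  obtain ⟨c, hc, z, hz0, hz⟩ : ∃ c : K a, c ≠ α ∧ ∃ z : R, z ≠ 0 ∧ z * a = c • z := by
    by_contra hcon
    push Not at hcon
    have h1 : ∀ s : Finset (K a), α ∉ s → ∀ y, aeval ρ (∏ c ∈ s, (X - C c)) y = 0 → y = 0 := by
      intro s
      induction s using Finset.induction_on with
      | empty => simp
      | insert c s hs ih =>
        intro hα' y hy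
        rw [Finset.prod_insert hs, mul_comm, map_mul, Module.End.mul_apply] at hy
        have := ih (fun e => hα' (Finset.mem_insert_of_mem e)) _ hy
        by_contra h0
        exact hcon c (by rintro rfl; exact hα' (Finset.mem_insert_self _ _)) y h0
          (by simpa [sub_eq_zero, hρ] using this)
    have h2 := prod_multiset_X_sub_C_of_monic_of_roots_card_eq
      (p := (X ^ Fintype.card (K a) - X : (K a)[X]))
      (monic_X_pow_sub (by simpa using Fintype.one_lt_card)) (by
        rw [FiniteField.roots_X_pow_card_sub_X, FiniteField.X_pow_card_sub_X_natDegree_eq _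
          Fintype.one_lt_card]; rfl)
    rw [FiniteField.roots_X_pow_card_sub_X, ← Finset.prod_eq_multiset_prod,
      ← Finset.prod_erase_mul _ _ (Finset.mem_univ α)] at h2
    have h3 : ∀ (n : ℕ) y, (ρ ^ n) y = y * (α ^ n).1 1 := fun n y => by
      induction n with
      | zero => simp
      | succ n ih => rw [pow_succ', Module.End.mul_apply, ih, pow_succ, h.K_right', hα]; rfl
    have h4 := h1 _ (Finset.notMem_erase α Finset.univ) (aeval ρ (X - C α) x) (by
      rw [← Module.End.mul_apply, ← map_mul, h2]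
      simp [h3, FiniteField.pow_card, hα, ρ])
    exact hx (by simpa [sub_eq_zero, hρ, ← h.K_mul, hα] using h4)
  have h1 : ∀ d : K a, ∃ d' : K a, z * d.1 1 = d' • z := fun d => by
    obtain ⟨f, hf⟩ := exists_poly d
    refine ⟨aeval c f, ?_⟩
    have h2 : ∀ n, (Rr a ^ n) z = c ^ n • z := fun n => by
      induction n with
      | zero => simp
      | succ n ih =>
        rw [pow_succ', Module.End.mul_apply, ih, pow_succ, mul_smul, ← hz]
        exact ρ.map_smul _ z
    have h3 : aeval (Rr a) f z = aeval c f • z := by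
      simp [aeval_eq_sum_range, LinearMap.sum_apply, h2, Finset.sum_smul, mul_smul,
        Int.cast_smul_eq_zsmul]
    rw [← (h.poly a f).2, hf] at h3
    exact h3
  choose σ₀ hσ₀ using h1
  let σ₁ : K a →+* K a :=
    { toFun := σ₀
      map_one' := h.K_ext hz0 (by rw [← hσ₀]; simp)
      map_mul' := fun c d => h.K_ext hz0 (by
        rw [← hσ₀, h.K_right', hσ₀, h.K_right, hσ₀, mul_smul])
      map_zero' := h.K_ext hz0 (by rw [← hσ₀]; simp)
      map_add' := fun c d => h.K_ext hz0 (by rw [← hσ₀, add_smul, ← hσ₀, ← hσ₀, ← mul_add]; rfl) }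
  let σ : K a ≃+* K a := RingEquiv.ofBijective σ₁ (Finite.injective_iff_bijective.1 σ₁.injective)
  have hσ : ∀ d : K a, z * d.1 1 = σ d • z := hσ₀
  have h2 : ∀ (n : ℕ) (d : K a), z * d • (L z ^ n) 1 = σ d • (L z ^ (n + 1)) 1 := fun n d => by
    have e1 := LinearMap.congr_fun (h.pw z n).2
    have e2 := LinearMap.congr_fun (h.pw z (n + 1)).2 ((σ d).1 1)
    have e3 := LinearMap.congr_fun ((h.comm_LR z).pow_right n).eq (d.1 1)
    simp only [LinearMap.flip_apply, LinearMap.mul_apply', Module.End.mul_apply] at e1 e2 e3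
    rw [← h.K_mul, ← h.K_mul, e1, e3, hσ, ← h.K_mul, e2, pow_succ]
    rfl
  have h3 : ∀ (n : ℕ) (d : K a), (L z ^ n) 1 * d.1 1 = (σ ^ n) d • (L z ^ n) 1 := fun n d => by
    have e1 := LinearMap.congr_fun (h.pw z n).1
    simp only [LinearMap.mul_apply'] at e1
    rw [e1]
    clear e1
    induction n with
    | zero => rfl
    | succ n ih => rw [pow_succ', Module.End.mul_apply, ih, LinearMap.mul_apply', h2, pow_succ' σ, pow_succ' (L z)]; rfl
  have h4 : ∀ n : ℕ, (L z ^ n) 1 ≠ 0 := fun n => by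
    induction n with
    | zero => exact one_ne_zero
    | succ n ih => rw [pow_succ']; exact fun e => (h.nz _ _ e).elim hz0 ih
  have hext : ∀ τ τ' : K a ≃+* K a, τ α = τ' α → τ = τ' := fun τ τ' e => RingEquiv.ext fun d => by
    obtain ⟨f, hf⟩ := exists_poly d
    have : d = aeval α f := Subtype.ext (by rw [← hf]; exact aeval_algHom_apply (K a).val α f)
    rw [this]
    exact (aeval_algHom_apply τ.toRingHom.toIntAlgHom α f).symm.trans
      ((congrArg (aeval · f) e).trans (aeval_algHom_apply τ'.toRingHom.toIntAlgHom α f))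
  obtain ⟨γ, hγ⟩ := h.mem_of_comm ha (z := (L z ^ orderOf σ) 1) (by
    have := h3 (orderOf σ) α
    rwa [hα, pow_orderOf_eq_one] at this)
  have h5 : σ γ = γ := h.K_ext hz0 (by
    rw [← hσ, ← h.K_mul, show γ.1 1 = _ from hγ]
    refine Eq.trans ?_ (LinearMap.congr_fun (h.pw z (orderOf σ)).1 z).symm
    simpa using LinearMap.congr_fun ((Commute.refl (L z)).pow_right (orderOf σ)).eq 1)
  have h6 : γ ≠ 0 := by rintro rfl; exact h4 _ (by rw [← hγ, zero_smul])
  obtain ⟨d, hd⟩ := norm_surj σ (γ := γ⁻¹) (by rw [map_inv₀, h5])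
  obtain ⟨k, hk0, hk, hkm⟩ : ∃ k : ℕ → K a, k 0 = 1 ∧ (∀ i, k (i + 1) = d * σ (k i)) ∧
      k (orderOf σ) = γ⁻¹ := ⟨fun i => ∏ j ∈ Finset.range i, (σ ^ j) d, by simp, fun i => by
        simp only [Finset.prod_range_succ', map_prod, pow_succ', mul_comm d]; rfl, hd⟩
  have hm : 0 < orderOf σ := by
    have : Finite (K a ≃+* K a) := Finite.of_injective _ DFunLike.coe_injective
    exact orderOf_pos σ
  have hd0 : d ≠ 0 := by
    rintro rfl
    obtain ⟨m, e⟩ := Nat.exists_eq_succ_of_ne_zero hm.ne'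
    rw [e, hk, zero_mul] at hkm
    exact inv_ne_zero h6 hkm.symm
  have h7 : (z - d⁻¹ • (1 : R)) * ∑ i ∈ Finset.range (orderOf σ), k i • (L z ^ i) 1 = 0 := by
    have := Finset.sum_range_sub (fun i => k i • (L z ^ i) (1 : R)) (orderOf σ)
    rw [hkm, hk0, ← hγ, smul_smul, inv_mul_cancel₀ h6, pow_zero, one_smul, one_smul,
      Module.End.one_apply, sub_self] at this
    rw [Finset.mul_sum, ← smul_zero d⁻¹, ← this, Finset.smul_sum]
    refine Finset.sum_congr rfl fun i _ => ?_
    rw [sub_mul, h2, hk, smul_sub, smul_smul, inv_mul_cancel_left₀ hd0, ← h.K_mul d⁻¹ (_ • _)]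
    rfl
  rcases h.nz _ _ h7 with h8 | h8
  · rw [sub_eq_zero.1 h8] at hz hz0
    refine hc (h.K_ext hz0 ?_)
    rw [← hz, smul_comm, ← hρ, map_smul, hρ, one_mul]
    exact congrArg _ hα.symm
  · have := ρ.eigenvectors_linearIndependent' (fun i : Fin (orderOf σ) => (σ ^ i.1) α)
      (fun i j e => Fin.ext (pow_injOn_Iio_orderOf i.2 j.2 (hext _ _ e))) (fun i => (L z ^ i.1) 1)
      fun i => ⟨Module.End.mem_eigenspace_iff.2 (by rw [hρ, ← h3, hα]), h4 _⟩
    rw [Finset.sum_range] at h8
    exact one_ne_zero (hk0 ▸ Fintype.linearIndependent_iff.1 this _ h8 ⟨0, hm⟩)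

/-- Artin–Zorn. -/
theorem assoc_comm : (∀ x y z : R, x * y * z = x * (y * z)) ∧ ∀ x y : R, x * y = y * x := by
  obtain ⟨a, ha⟩ := Finite.exists_max fun a : R => Nat.card (K a)
  have h1 : ∀ x, ∃ c : K a, c.1 1 = x := fun x => h.mem_of_comm ha (h.all_comm ha x)
  refine ⟨fun x y z => ?_, fun x y => ?_⟩
  · obtain ⟨c, rfl⟩ := h1 x
    obtain ⟨d, rfl⟩ := h1 z
    rw [h.K_mul, h.K_mul, h.K_right]
  · obtain ⟨c, rfl⟩ := h1 x
    obtain ⟨d, rfl⟩ := h1 y
    rw [h.K_mul, h.K_mul]
    exact congrArg (fun e : K a => e.1 1) (mul_comm c d)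

end Alt

end CA.AZ
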