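import Mathlib

/-! Abelian subgroups of symmetric and alternating groups: largest orders. -/

set_option autoImplicit false

namespace CA.AbSn

open Equiv Equiv.Perm Finset MulAction

/-- largest order of an abelian subgroup of `S_n` -/
def M : ℕ → ℕ
  | 0 => 1 | 1 => 1 | 2 => 2 | 3 => 3 | 4 => 4
  | n + 5 => 3 * M (n + 2)

/-- largest order of an abelian subgroup of `A_n` -/
def N : ℕ → ℕ
  | 0 => 1 | 1 => 1 | 2 => 1 | 3 => 3 | 4 => 4 | 5 => 5 | 6 => 9 | 7 => 12 | 8 => 16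
  | n + 9 => 3 * N (n + 6)

theorem M_add (n : ℕ) : M (n + 5) = 3 * M (n + 2) := rfl

theorem N_add (n : ℕ) : N (n + 9) = 3 * N (n + 6) := rfl

theorem M_small {a : ℕ} (h : a ≤ 4) : ∀ n, a * M n ≤ M (n + a)
  | 0 | 1 | 2 | 3 | 4 => by interval_cases a <;> decide
  | n + 5 => by
    have := M_small h (n + 2)
    rw [show n + 5 + a = n + a + 5 by ring, M_add, M_add, show n + a + 2 = n + 2 + a by ring]
    linarith

theorem M_mul : ∀ a n : ℕ, a * M n ≤ M (n + a)
  | 0, n | 1, n | 2, n | 3, n | 4, n => M_small (by omega) n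
  | a + 5, n => by
    have := M_mul (a + 2) n
    rw [← add_assoc, M_add, add_assoc]
    nlinarith [Nat.zero_le (a * M n)]

theorem N_pos : ∀ n, 0 < N n
  | 0 | 1 | 2 | 3 | 4 | 5 | 6 | 7 | 8 => by decide
  | n + 9 => by have := N_pos (n + 6); rw [N_add]; omega

theorem N_small {a : ℕ} (h : a ≤ 5) (h2 : a ≠ 2) : ∀ n, a * N n ≤ N (n + a)
  | 0 | 1 | 2 | 3 | 4 | 5 | 6 | 7 | 8 => by interval_cases a <;> first | decide | omega
  | n + 9 => by
    have := N_small h h2 (n + 6)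
    rw [show n + 9 + a = n + a + 9 by ring, N_add, N_add, show n + a + 6 = n + 6 + a by ring]
    linarith

theorem N_mul : ∀ a n : ℕ, a ≠ 2 → a * N n ≤ N (n + a)
  | 0, n, h | 1, n, h | 2, n, h | 3, n, h | 4, n, h | 5, n, h => N_small (by omega) h n
  | a + 6, n, _ => by
    have := N_mul (a + 3) n (by omega)
    have := N_small (a := 3) (by omega) (by omega) (n + (a + 3))
    rw [show n + (a + 6) = n + (a + 3) + 3 by ring]
    nlinarith [Nat.zero_le (a * N n)]

theorem N_five : ∀ n, n ≠ 0 → 5 * N n < N (n + 5)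
  | 1, _ | 2, _ | 3, _ | 4, _ | 5, _ | 6, _ | 7, _ | 8, _ => by decide
  | n + 9, _ => by
    have := N_five (n + 6) (by omega)
    rw [show n + 9 + 5 = n + 5 + 9 by ring, N_add, N_add, show n + 5 + 6 = n + 6 + 5 by ring]
    linarith

theorem N_one : ∀ n, 2 ≤ n → N n < N (n + 1)
  | 2, _ | 3, _ | 4, _ | 5, _ | 6, _ | 7, _ | 8, _ => by decide
  | n + 9, _ => by
    have := N_one (n + 6) (by omega)
    rw [show n + 9 + 1 = n + 1 + 9 by ring, N_add, N_add, show n + 1 + 6 = n + 6 + 1 by ring]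
    linarith

theorem N_lt {a n : ℕ} (h : 5 ≤ a) (h5 : n + a ≠ 5) : a * N n < N (n + a) := by
  obtain ⟨a, rfl⟩ := Nat.exists_eq_add_of_le' h
  rcases a with _ | a
  · exact N_five n (by omega)
  · have := N_mul (a + 3) n (by omega)
    have := N_small (a := 3) (by omega) (by omega) (n + (a + 3))
    rw [show n + (a + 1 + 5) = n + (a + 3) + 3 by ring]
    nlinarith [Nat.zero_le (a * N n), N_pos n]

theorem two_pow_lt : ∀ n, 3 ≤ n → 2 ^ ((n - 1) / 2) < N n
  | 3, _ | 4, _ | 5, _ | 6, _ | 7, _ | 8, _ | 9, _ | 10, _ | 11, _ => by decide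
  | n + 12, _ => by
    have := two_pow_lt (n + 6) (by omega)
    rw [show n + 12 = n + 3 + 9 by ring, N_add, show n + 3 + 6 = n + 9 by ring, N_add,
      show (n + 3 + 9 - 1) / 2 = (n + 6 - 1) / 2 + 3 by omega, pow_add]
    linarith

theorem M_val (k : ℕ) : M (3 * (k + 1)) = 3 ^ (k + 1) ∧ M (3 * (k + 1) + 1) = 4 * 3 ^ k ∧
    M (3 * (k + 1) + 2) = 2 * 3 ^ (k + 1) := by
  induction k with
  | zero => decide
  | succ k ih =>
    rw [show 3 * (k + 1 + 1) = 3 * k + 1 + 5 by ring, show 3 * k + 1 + 5 + 1 = 3 * k + 2 + 5 by ring,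
      show 3 * k + 1 + 5 + 2 = 3 * k + 3 + 5 by ring, M_add, M_add, M_add,
      show 3 * k + 3 + 2 = 3 * (k + 1) + 2 by ring,
      show 3 * k + 1 + 2 = 3 * (k + 1) by ring, show 3 * k + 2 + 2 = 3 * (k + 1) + 1 by ring, ih.1, ih.2.1, ih.2.2]
    refine ⟨by ring, by ring, by ring⟩

theorem N_val (k : ℕ) : N (3 * (k + 2)) = 3 ^ (k + 2) ∧ N (3 * (k + 2) + 1) = 4 * 3 ^ (k + 1) ∧
    N (3 * (k + 2) + 2) = 16 * 3 ^ k := by
  induction k with
  | zero => decide
  | succ k ih =>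
    rw [show 3 * (k + 1 + 2) = 3 * k + 9 by ring, show 3 * k + 9 + 1 = 3 * k + 1 + 9 by ring,
      show 3 * k + 9 + 2 = 3 * k + 2 + 9 by ring, N_add, N_add, N_add,
      show 3 * k + 6 = 3 * (k + 2) by ring, show 3 * k + 1 + 6 = 3 * (k + 2) + 1 by ring,
      show 3 * k + 2 + 6 = 3 * (k + 2) + 2 by ring, ih.1, ih.2.1, ih.2.2]
    refine ⟨by ring, by ring, by ring⟩

theorem M_eq_N : ∀ n, n % 3 ≠ 2 → M n = N n
  | 0, _ | 1, _ | 3, _ | 4, _ | 6, _ | 7, _ => by decide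
  | 2, h | 5, h | 8, h => absurd rfl h
  | n + 9, h => by
    rw [N_add, show n + 9 = n + 4 + 5 by ring, M_add, M_eq_N (n + 6) (by omega)]

variable {α : Type*} [Fintype α] [DecidableEq α] {A : Subgroup (Perm α)} {s : Finset α} {x : α}

/-- `A` fixes the points outside `s` -/
def Sup (A : Subgroup (Perm α)) (s : Finset α) : Prop := ∀ g ∈ A, ∀ x, x ∉ s → g x = x

/-- `A` is abelian -/
def Cm (A : Subgroup (Perm α)) : Prop := ∀ g ∈ A, ∀ h ∈ A, g * h = h * g

open Classical in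
/-- orbit as a finset -/
noncomputable def ob (A : Subgroup (Perm α)) (x : α) : Finset α := univ.filter fun y => ∃ g ∈ A, g x = y

/-- point stabiliser in `A` -/
abbrev st (A : Subgroup (Perm α)) (x : α) : Subgroup (Perm α) := A ⊓ stabilizer (Perm α) x

theorem mem_ob {y : α} : y ∈ ob A x ↔ ∃ g ∈ A, g x = y := by simp [ob]

theorem self_mem_ob : x ∈ ob A x := mem_ob.2 ⟨1, one_mem _, rfl⟩

theorem ob_pos : 0 < (ob A x).card := card_pos.2 ⟨x, self_mem_ob⟩

omit [Fintype α] [DecidableEq α] in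
theorem Sup.mem (h : Sup A s) {g : Perm α} (hg : g ∈ A) (hx : x ∈ s) : g x ∈ s := by
  by_contra h1
  exact h1 ((g.injective (h g hg _ h1)).symm ▸ hx)

theorem Sup.ob_subset (h : Sup A s) (hx : x ∈ s) : ob A x ⊆ s := fun y hy => by
  obtain ⟨g, hg, rfl⟩ := mem_ob.1 hy
  exact h.mem hg hx

theorem ob_mono {B : Subgroup (Perm α)} (h : B ≤ A) : ob B x ⊆ ob A x := fun _ hy =>
  mem_ob.2 ((mem_ob.1 hy).imp fun _ h1 => ⟨h h1.1, h1.2⟩)

theorem apply_mem_ob {g : Perm α} (hg : g ∈ A) {y : α} : g y ∈ ob A x ↔ y ∈ ob A x := by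
  simp only [mem_ob]
  exact ⟨fun ⟨a, ha, e⟩ => ⟨g⁻¹ * a, mul_mem (inv_mem hg) ha, by simp [e]⟩,
    fun ⟨a, ha, e⟩ => ⟨g * a, mul_mem hg ha, by simp [e]⟩⟩

theorem card_eq (A : Subgroup (Perm α)) (x : α) : Nat.card A = (ob A x).card * Nat.card (st A x) := by
  have h1 : (stabilizer A x).index = (ob A x).card := by
    rw [index_stabilizer, ← Set.ncard_coe_finset]
    congr 1
    ext y
    simp only [mem_coe, mem_ob, mem_orbit_iff]
    exact ⟨fun ⟨g, h⟩ => ⟨g, g.2, h⟩, fun ⟨g, hg, h⟩ => ⟨⟨g, hg⟩, h⟩⟩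
  rw [← h1, ← (stabilizer A x).index_mul_card]
  congr 1
  exact Nat.card_congr ⟨fun g => ⟨g.1.1, g.1.2, g.2⟩, fun g => ⟨⟨g.1, g.2.1⟩, g.2.2⟩,
    fun _ => rfl, fun _ => rfl⟩

theorem Sup.st (h : Sup A s) (hc : Cm A) (x : α) : Sup (st A x) (s \ ob A x) := fun g hg y hy => by
  by_cases h1 : y ∈ ob A x
  · obtain ⟨a, ha, rfl⟩ := mem_ob.1 h1
    have : g x = x := hg.2
    rw [← Perm.mul_apply, hc g hg.1 a ha, Perm.mul_apply, this]
  · exact h g hg.1 y fun h2 => hy (mem_sdiff.2 ⟨h2, h1⟩)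

omit [Fintype α] [DecidableEq α] in
theorem Cm.mono {B : Subgroup (Perm α)} (hc : Cm A) (h : B ≤ A) : Cm B :=
  fun g hg k hk => hc g (h hg) k (h hk)

theorem Sup.card_add (h : Sup A s) (hx : x ∈ s) : (s \ ob A x).card + (ob A x).card = s.card :=
  card_sdiff_add_card_eq_card (h.ob_subset hx)

omit [Fintype α] [DecidableEq α] in
theorem Sup.eq_bot (h : Sup A s) (hs : s.card ≤ 1) : A = ⊥ := by
  refine eq_bot_iff.2 fun g hg => Subgroup.mem_bot.2 (Equiv.ext fun x => ?_)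
  by_cases hx : x ∈ s
  · exact card_le_one.1 hs _ (h.mem hg hx) _ hx
  · exact h g hg x hx

theorem Sup.support_subset (h : Sup A s) {g : Perm α} (hg : g ∈ A) : g.support ⊆ s := fun x hx => by
  by_contra h1
  exact mem_support.1 hx (h g hg x h1)

theorem Sup.eq_bot' (h : Sup A s) (hA : A ≤ alternatingGroup α) (hs : s.card ≤ 2) : A = ⊥ := by
  refine eq_bot_iff.2 fun g hg => Subgroup.mem_bot.2 ?_
  by_contra h1
  have h2 := (card_le_card (h.support_subset hg)).trans hs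
  have h3 := (card_support_eq_two.1 (le_antisymm h2 (two_le_card_support_of_ne_one h1))).sign_eq
  rw [mem_alternatingGroup.1 (hA hg)] at h3
  exact absurd h3 (by decide)

theorem card_le_M (n : ℕ) : ∀ (A : Subgroup (Perm α)) (s : Finset α), s.card = n → Sup A s → Cm A →
    Nat.card A ≤ M n := by
  induction n using Nat.strong_induction_on with | _ n ih
  intro A s hn h hc
  rcases s.eq_empty_or_nonempty with rfl | ⟨x, hx⟩
  · rw [h.eq_bot (by simp), ← hn]; simp [M]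
  have h1 := h.card_add hx
  have h2 := ob_pos (A := A) (x := x)
  rw [card_eq A x, ← hn, ← h1]
  exact (Nat.mul_le_mul_left _ (ih _ (by omega) _ _ rfl (h.st hc x) (hc.mono inf_le_left))).trans
    (M_mul _ _)

theorem card_le_two (n : ℕ) : ∀ (A : Subgroup (Perm α)) (s : Finset α), s.card = n → Sup A s → Cm A →
    A ≤ alternatingGroup α → (∀ x ∈ s, (ob A x).card ≤ 2) → Nat.card A ≤ 2 ^ ((n - 1) / 2) := by
  induction n using Nat.strong_induction_on with | _ n ih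
  intro A s hn h hc hA h0
  rcases le_or_gt n 2 with h3 | h3
  · rw [h.eq_bot' hA (by omega), Subgroup.card_bot]; exact Nat.one_le_two_pow
  obtain ⟨x, hx⟩ := card_pos.1 (show 0 < s.card by omega)
  have h1 := h.card_add hx
  have h2 := ob_pos (A := A) (x := x)
  have h4 := h0 x hx
  have h5 := ih _ (by omega) _ _ rfl (h.st hc x) (hc.mono inf_le_left) (inf_le_left.trans hA)
    fun y hy => (card_le_card (ob_mono inf_le_left)).trans (h0 y (mem_sdiff.1 hy).1)
  rw [card_eq A x]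
  rcases Nat.lt_or_ge 1 (ob A x).card with h6 | h6
  · rw [show (n - 1) / 2 = ((s \ ob A x).card - 1) / 2 + 1 by omega, pow_succ']
    exact Nat.mul_le_mul h4 h5
  · rw [show (ob A x).card = 1 by omega, one_mul]
    exact h5.trans (Nat.pow_le_pow_right two_pos (by omega))

theorem card_le_N (n : ℕ) : ∀ (A : Subgroup (Perm α)) (s : Finset α), s.card = n → Sup A s → Cm A →
    A ≤ alternatingGroup α → Nat.card A ≤ N n := by
  induction n using Nat.strong_induction_on with | _ n ih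
  intro A s hn h hc hA
  rcases le_or_gt n 2 with h3 | h3
  · rw [h.eq_bot' hA (by omega), Subgroup.card_bot]; exact N_pos n
  by_cases h0 : ∀ x ∈ s, (ob A x).card ≤ 2
  · exact (card_le_two n A s hn h hc hA h0).trans (two_pow_lt n h3).le
  push Not at h0
  obtain ⟨x, hx, h0⟩ := h0
  have h1 := h.card_add hx
  rw [card_eq A x, ← hn, ← h1]
  exact (Nat.mul_le_mul_left _ (ih _ (by omega) _ _ rfl (h.st hc x) (hc.mono inf_le_left)
    (inf_le_left.trans hA))).trans (N_mul _ _ (by omega))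

/-- existence of abelian subgroups -/
def Ex (b : Prop) (n c : ℕ) : Prop :=
  ∃ A : Subgroup (Perm (Fin n)), (b → A ≤ alternatingGroup _) ∧ Cm A ∧ Nat.card A = c

theorem Ex.add {b : Prop} {n c m d : ℕ} (h : Ex b n c) (h' : Ex b m d) : Ex b (n + m) (c * d) := by
  obtain ⟨A, a1, a2, rfl⟩ := h
  obtain ⟨B, b1, b2, rfl⟩ := h'
  let φ : Perm (Fin n) × Perm (Fin m) →* Perm (Fin (n + m)) :=
    finSumFinEquiv.permCongrHom.toMonoidHom.comp (sumCongrHom _ _)
  have hφ : Function.Injective φ := finSumFinEquiv.permCongrHom.injective.comp sumCongrHom_injective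
  refine ⟨(A.prod B).map φ, ?_, ?_, ?_⟩
  · rintro hb _ ⟨⟨g, h⟩, hg, rfl⟩
    refine (sign_permCongr _ _).trans ((sign_sumCongr _ _).trans ?_)
    rw [mem_alternatingGroup.1 (a1 hb hg.1), mem_alternatingGroup.1 (b1 hb hg.2), mul_one]
  · rintro _ ⟨⟨g, h⟩, hg, rfl⟩ _ ⟨⟨g', h'⟩, hg', rfl⟩
    rw [← map_mul, ← map_mul, Prod.mk_mul_mk, Prod.mk_mul_mk, a2 g hg.1 g' hg'.1, b2 h hg.2 h' hg'.2]
  · rw [Subgroup.card_map_of_injective hφ, Nat.card_congr (A.prodEquiv B).toEquiv, Nat.card_prod]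

theorem cm_zpowers (g : Perm α) : Cm (Subgroup.zpowers g) := by
  rintro _ ⟨i, rfl⟩ _ ⟨j, rfl⟩
  exact zpow_mul_comm g i j

theorem ex_cyc {b : Prop} (n : ℕ) (h : b → Even (n + 1)) : Ex b (n + 2) (n + 2) := by
  refine ⟨Subgroup.zpowers (finRotate (n + 2)), fun hb => Subgroup.zpowers_le.2 ?_, cm_zpowers _, ?_⟩
  · rw [mem_alternatingGroup, sign_finRotate]; exact (h hb).neg_one_pow
  · rw [Nat.card_zpowers, isCycle_finRotate.orderOf, support_finRotate]; simp

theorem ex_bot (b : Prop) (n : ℕ) : Ex b n 1 :=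
  ⟨⊥, fun _ => bot_le, fun g hg h _ => by rw [Subgroup.mem_bot.1 hg]; simp, Subgroup.card_bot⟩

theorem ex_four (b : Prop) : Ex b 4 4 := by
  have h4 : Nat.card (Fin 4) = 4 := by simp
  refine ⟨(alternatingGroup.kleinFour (Fin 4)).map (alternatingGroup _).subtype,
    fun _ => Subgroup.map_subtype_le _, ?_, ?_⟩
  · rintro _ ⟨g, hg, rfl⟩ _ ⟨h, hh, rfl⟩
    have := alternatingGroup.kleinFour_isKleinFour h4
    exact congrArg (fun x : alternatingGroup.kleinFour (Fin 4) => x.1.1)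
      (IsKleinFour.isMulCommutative.is_comm.comm ⟨g, hg⟩ ⟨h, hh⟩)
  · rw [Subgroup.card_map_of_injective (Subgroup.subtype_injective _),
      alternatingGroup.kleinFour_card_of_card_eq_four h4]

theorem ex_M : ∀ n, Ex False n (M n)
  | 0 | 1 => ex_bot _ _
  | 2 => ex_cyc 0 False.elim
  | 3 => ex_cyc 1 False.elim
  | 4 => ex_four _
  | n + 5 => by rw [M_add, mul_comm]; exact (ex_M (n + 2)).add (ex_cyc 1 False.elim)

theorem ex_N : ∀ n, Ex True n (N n)
  | 0 | 1 | 2 => ex_bot _ _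
  | 3 => ex_cyc 1 fun _ => by decide
  | 4 => ex_four _
  | 5 => ex_cyc 3 fun _ => by decide
  | 6 => (ex_cyc 1 fun _ => by decide).add (ex_cyc 1 fun _ => by decide)
  | 7 => (ex_four _).add (ex_cyc 1 fun _ => by decide)
  | 8 => (ex_four _).add (ex_four _)
  | n + 9 => by rw [N_add, mul_comm]; exact (ex_N (n + 6)).add (ex_cyc 1 fun _ => by decide)

theorem greatest_M (n : ℕ) :
    IsGreatest {c : ℕ | ∃ A : Subgroup (Perm (Fin n)), IsMulCommutative A ∧ Nat.card A = c} (M n) := by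
  constructor
  · obtain ⟨A, -, h1, h2⟩ := ex_M n
    exact ⟨A, ⟨⟨fun a b => Subtype.ext (h1 _ a.2 _ b.2)⟩⟩, h2⟩
  · rintro _ ⟨A, h, rfl⟩
    exact card_le_M n A univ (by simp) (fun _ _ _ h => absurd (mem_univ _) h)
      fun a ha b hb => congrArg Subtype.val (h.is_comm.comm ⟨a, ha⟩ ⟨b, hb⟩)

theorem cm_map {A : Subgroup (alternatingGroup α)} (h : IsMulCommutative A) :
    Cm (A.map (alternatingGroup α).subtype) := by
  rintro _ ⟨a, ha, rfl⟩ _ ⟨b, hb, rfl⟩
  exact congrArg (fun x : A => x.1.1) (h.is_comm.comm ⟨a, ha⟩ ⟨b, hb⟩)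

theorem greatest_N (n : ℕ) : IsGreatest {c : ℕ | ∃ A : Subgroup (alternatingGroup (Fin n)),
    IsMulCommutative A ∧ Nat.card A = c} (N n) := by
  constructor
  · obtain ⟨A, h0, h1, h2⟩ := ex_N n
    exact ⟨A.subgroupOf _, ⟨⟨fun a b => Subtype.ext (Subtype.ext (h1 _ a.2 _ b.2))⟩⟩,
      (Nat.card_congr (Subgroup.subgroupOfEquivOfLe (h0 trivial)).toEquiv).trans h2⟩
  · rintro _ ⟨A, h, rfl⟩
    rw [← Subgroup.card_map_of_injective (Subgroup.subtype_injective _)]
    exact card_le_N n _ univ (by simp) (fun _ _ _ h => absurd (mem_univ _) h) (cm_map h)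
      (Subgroup.map_subtype_le _)

end CA.AbSn
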