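import Mathlib
import Cfsg.Agent.Lib.Perm.MinDeg
import Cfsg.Agent.Lib.Perm.SubA8
import Cfsg.Agent.Lib.Perm.Neumann3

/-! Transitive groups of degree 11. -/

set_option autoImplicit false
open MulAction CA.PermBasic CA.PermMulti CA.PermJordan CA.Sharp4 CA.PrimeDeg

namespace CA.Deg11

variable {G X : Type*} [Group G] [MulAction G X] [Fintype X] [DecidableEq X]

theorem fix_mod {p k : ℕ} (hp : p.Prime) {g : G} (hg : g ^ p ^ k = 1) :
    Fintype.card X ≡ (fixedBy X g).ncard [MOD p] := by
  have := Fact.mk hp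
  have h := ncard_modEq_fixedBy hg (Set.univ : Set X) Set.finite_univ (fun _ _ => trivial)
  rw [Set.ncard_univ, Nat.card_eq_fintype_card] at h
  convert h using 2
  ext x; simp

theorem supp_add (g : G) : (toPermHom G X g).support.card + (fixedBy X g).ncard = Fintype.card X := by
  rw [← Set.ncard_coe_finset, ← Nat.card_eq_fintype_card, ← Set.ncard_add_ncard_compl (fixedBy X g),
    add_comm]
  congr 2
  ext x; simp

theorem sign_inv {t : G} (ht : t * t = 1) : Equiv.Perm.sign (toPermHom G X t) =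
    (-1) ^ ((Fintype.card X - (fixedBy X t).ncard) / 2) := by
  rw [Equiv.Perm.sign_of_pow_two_eq_one (by rw [← map_pow, pow_two, ht, map_one]),
    ← Nat.card_eq_fintype_card (α := Function.fixedPoints _), Nat.card_coe_set_eq]
  rfl

theorem exists_pow {g : G} [Finite G] (hg : g ≠ 1) :
    ∃ q k : ℕ, q.Prime ∧ q ∣ orderOf g ∧ g ^ k ≠ 1 ∧ (g ^ k) ^ q = 1 := by
  obtain ⟨q, hq, k, hk⟩ := Nat.exists_prime_and_dvd (n := orderOf g) (by simpa using hg)
  refine ⟨q, k, hq, ⟨k, hk⟩, fun h => ?_, by rw [← pow_mul, mul_comm, ← hk, pow_orderOf_eq_one]⟩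
  have h0 := orderOf_pos g
  have h1 := Nat.le_of_dvd (by rcases k with _ | k <;> omega) (orderOf_dvd_of_pow_eq_one h)
  have := hq.two_le
  rcases k with _ | k
  · omega
  · nlinarith

theorem fix_pow_le (g : G) (k : ℕ) : (fixedBy X g).ncard ≤ (fixedBy X (g ^ k)).ncard :=
  Set.ncard_le_ncard fun _ hx => pow_mem (show g ∈ stabilizer G _ from hx) k

set_option synthInstance.maxSize 4000 in
theorem num : ∀ d ∈ [2, 5, 10], ∀ j < 230, 11 * d * (11 * j + 1) ≤ 55440 →
    110 ∣ 11 * d * (11 * j + 1) → 11 * d * (11 * j + 1) ∣ 39916800 →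
    ¬ 7 ∣ 11 * d * (11 * j + 1) → ¬ 25 ∣ 11 * d * (11 * j + 1) →
    (d % 2 = 0 → 990 ∣ 11 * d * (11 * j + 1)) →
    11 * d * (11 * j + 1) ∈ [660, 7920] ∨
      (d % 2 = 0 ∧ 11 * d * (11 * j + 1) ∈ [990, 11880, 15840]) := by decide +kernel

variable [FaithfulSMul G X] [IsPretransitive G X] (hX : Fintype.card X = 11)
  (hG : ¬ Group.IsSolvable G) (hA : ¬ alternatingGroup X ≤ (toPermHom G X).range)
include hX hG

theorem two : IsMultiplyPretransitive G X 2 :=
  have : Fact (Nat.Prime 11) := ⟨by norm_num⟩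
  CA.Neumann.two_of_insol (p := 11) (by rw [Nat.card_eq_fintype_card, hX]) hG

include hA

theorem min6 {g : G} (hg : g ≠ 1) : (fixedBy X g).ncard ≤ 5 := by
  have : Finite G := finite_of_faithful (X := X)
  have h2 := two hX hG
  have hprim := isPreprimitive_of_is_two_pretransitive h2
  by_contra h
  obtain ⟨q, k, hq, -, h1, h3⟩ := exists_pow hg
  have h4 := fix_pow_le (X := X) g k
  have h5 := CA.MinDeg.two_bound hprim hA h2 h1
  have h6 := supp_add (X := X) (g ^ k)
  have h7 : (Finset.univ.filter fun x : X => g ^ k • x ≠ x) = (toPermHom G X (g ^ k)).support := rfl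
  rw [h7, hX] at h5
  have h8 : (toPermHom G X (g ^ k)).support.card = 5 := by
    have : (toPermHom G X (g ^ k)).support.card ≤ 5 := by omega
    generalize (toPermHom G X (g ^ k)).support.card = s at h5 this
    interval_cases s <;> omega
  have h9 := fix_mod (X := X) (k := 1) hq (by rwa [pow_one])
  rw [hX, show (fixedBy X (g ^ k)).ncard = 6 by omega] at h9
  obtain rfl : q = 5 := (Nat.prime_dvd_prime_iff_eq hq (by norm_num)).1
    ((Nat.modEq_iff_dvd' (by norm_num)).1 h9.symm)
  have := Fact.mk hq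
  have h10 : orderOf (toPermHom G X (g ^ k)) = 5 := orderOf_eq_prime (by rw [← map_pow, h3, map_one])
    fun e => by rw [e] at h8; simp at h8
  exact hA (alt_le_of_prime_cycle _ (preprimitive_range hprim) hq (by omega)
    (Equiv.Perm.isCycle_of_prime_order (h10 ▸ hq) (by omega)) h8 ⟨_, rfl⟩)

theorem five {g : G} (hg : g ≠ 1) {k : ℕ} (h : g ^ 5 ^ k = 1) : (fixedBy X g).ncard = 1 := by
  have h1 := min6 hX hG hA hg
  have h2 := fix_mod (X := X) (by norm_num) h
  rw [hX, Nat.ModEq] at h2
  omega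

theorem orders : Nat.card G ∈ [660, 7920] ∨ ((∃ t : G, t * t = 1 ∧ (fixedBy X t).ncard = 1) ∧
    Nat.card G ∈ [990, 11880, 15840]) := by
  have : Finite G := finite_of_faithful (X := X)
  have : Fact (Nat.Prime 11) := ⟨by norm_num⟩
  have hX' : Nat.card X = 11 := by rw [Nat.card_eq_fintype_card, hX]
  have h2 := two hX hG
  have hprim := isPreprimitive_of_is_two_pretransitive h2
  obtain ⟨P⟩ : Nonempty (Sylow 11 G) := inferInstance
  obtain ⟨d, hd, hN⟩ := card_normalizer hX' P
  have h1 := card_sylow_modEq_one 11 G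
  rw [P.card_eq_index_normalizer] at h1
  have h3 := (Subgroup.normalizer ((P : Subgroup G) : Set G)).card_mul_index
  have h3' : Subgroup.normalizer (P : Set G) = Subgroup.normalizer ((P : Subgroup G) : Set G) := rfl
  rw [h3'] at h1
  generalize (Subgroup.normalizer ((P : Subgroup G) : Set G)).index = m at h1 h3
  obtain ⟨j, rfl⟩ : ∃ j, m = 11 * j + 1 := ⟨m / 11, by rw [Nat.ModEq] at h1; omega⟩
  rw [hN] at h3
  have b1 := CA.MinDeg.bochert hprim hA
  rw [hX] at b1
  norm_num [Nat.factorial] at b1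
  have b2 := descFactorial_dvd_card h2 (by omega)
  rw [hX'] at b2
  have b3 := (toPermHom G X).range.card_subgroup_dvd_card
  rw [card_range, Nat.card_perm, hX'] at b3
  have b4 : ¬ 7 ∣ Nat.card G := fun h => hA (alt_le_of_prime_dvd _ (preprimitive_range hprim) (p := 7)
    (by norm_num) (by rwa [card_range]) (by omega) (by omega))
  have b5 : ¬ 25 ∣ Nat.card G := fun h => by
    have : Fact (Nat.Prime 5) := ⟨by norm_num⟩
    obtain ⟨Q, hQ⟩ := Sylow.exists_subgroup_card_pow_prime (G := G) 5 (n := 2) h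
    obtain ⟨a, -, ha⟩ := exists_fixed_of_not_dvd Q (IsPGroup.of_card hQ) (Set.univ : Set X)
      (fun _ _ _ _ => trivial) (by rw [Set.ncard_univ, hX']; norm_num)
    have := card_dvd_of_semiregular_on Q ({a}ᶜ : Set X) (Set.toFinite _) (fun g hg x hx e =>
      hx (MulAction.injective g (e.trans (ha g hg).symm))) fun g hg x hx e => by
        by_contra hg1
        have h5 := five hX hG hA hg1 (k := 2) (by
          rw [← hQ]; exact congrArg Subtype.val (pow_card_eq_one' (x := (⟨g, hg⟩ : Q))))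
        exact hx ((Set.ncard_le_one (Set.toFinite _)).1 h5.le x e a (ha g hg))
    rw [Set.ncard_compl, hX', hQ, Set.ncard_singleton] at this
    norm_num at this
  have b6 : d ≠ 1 := by
    rintro rfl
    have h4 := eq_top_of_normalizer_le hX' P (Subgroup.eq_of_le_of_card_ge Subgroup.le_normalizer
      (by rw [hN, card_sylow hX' P])).ge
    exact hG ((isSolvable_iff hX' P).2 (h4 ▸ inferInstance))
  have b7 : d ∈ [2, 5, 10] := by
    have := Nat.le_of_dvd (by norm_num) hd
    interval_cases d <;> simp_all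
  have b8 : 2 ≤ d := by simp at b7; omega
  have b9 : d % 2 = 0 → 990 ∣ Nat.card G := fun h => by
    have := descFactorial_dvd_card (CA.Neumann.three_of_even hX' hG P (by
      rw [hN, Nat.even_iff]; omega)) (by omega)
    rwa [hX'] at this
  have := num d b7 j (by nlinarith) (by omega) (h3 ▸ b2) (h3 ▸ b3) (h3 ▸ b4) (h3 ▸ b5)
    (h3 ▸ b9)
  rw [h3] at this
  refine this.imp_right fun h => ⟨?_, h.2⟩
  obtain ⟨t, ht⟩ := exists_prime_orderOf_dvd_card'
    (G := Subgroup.normalizer ((P : Subgroup G) : Set G)) 2 (by rw [hN]; omega)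
  have t1 : (t : G) ^ 2 ^ 1 = 1 := by
    rw [pow_one, ← ht]; exact congrArg Subtype.val (pow_orderOf_eq_one t)
  have t2 := fix_mod (X := X) Nat.prime_two t1
  have t3 : (fixedBy X (t : G)).ncard ≤ 1 := (Set.ncard_le_one (Set.toFinite _)).2 fun x hx y hy => by
    by_contra hxy
    rw [show t = 1 from Subtype.ext (eq_one_of_mem_normalizer hX' P t.2 hxy hx hy)] at ht
    simp at ht
  rw [hX, Nat.ModEq] at t2
  exact ⟨t, by rw [← t1]; simp [pow_two], by omega⟩

variable (hev : ∀ g : G, Equiv.Perm.sign (toPermHom G X g) = 1)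
include hev

theorem three {t : G} (h1 : t ≠ 1) (ht : t * t = 1) : (fixedBy X t).ncard = 3 := by
  have h2 := min6 hX hG hA h1
  have h3 := fix_mod (X := X) (g := t) (k := 1) Nat.prime_two (by simpa [pow_two] using ht)
  have h4 := sign_inv (X := X) ht
  rw [hev, hX] at h4
  rw [hX, Nat.ModEq] at h3
  generalize (fixedBy X t).ncard = s at h2 h3 h4
  obtain rfl | rfl | rfl : s = 1 ∨ s = 3 ∨ s = 5 := by omega
  exacts [absurd h4 (by decide), rfl, absurd h4 (by decide)]

theorem orders_even : Nat.card G = 660 ∨ Nat.card G = 7920 := by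
  rcases orders hX hG hA with h | ⟨⟨t, h1, h2⟩, -⟩
  · simpa using h
  · have := three hX hG hA hev (t := t) (by rintro rfl; simp [Set.ncard_univ, hX] at h2) h1
    omega

theorem four (hc : Nat.card G = 7920) : IsMultiplyPretransitive G X 4 := by
  have : Finite G := finite_of_faithful (X := X)
  have hX' : Nat.card X = 11 := by rw [Nat.card_eq_fintype_card, hX]
  have h2 := two hX hG
  have : Nontrivial X := Fintype.one_lt_card_iff_nontrivial.1 (by omega)
  obtain ⟨a, b, hab⟩ := exists_pair_ne X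
  have h3 := CA.Neumann3.card_eq_of_two h2 hab
  rw [hc, hX'] at h3
  have sub : ∀ p k : ℕ, p.Prime → p ^ k ∣ 72 → ∃ S : Subgroup G, Nat.card S = p ^ k ∧
      ∀ g ∈ S, g • a = a ∧ g • b = b := fun p k hp h => by
    have := Fact.mk hp
    obtain ⟨S, hS⟩ := Sylow.exists_subgroup_card_pow_prime (G := ↥(stabilizer G a ⊓ stabilizer G b))
      p (n := k) (by rwa [show Nat.card ↥(stabilizer G a ⊓ stabilizer G b) = 72 by omega])
    refine ⟨S.map (Subgroup.subtype _), by
      rwa [Subgroup.card_map_of_injective (Subgroup.subtype_injective _)], ?_⟩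
    rintro _ ⟨g, -, rfl⟩
    exact g.2
  obtain ⟨S, hS, hS'⟩ := sub 2 3 Nat.prime_two (by norm_num)
  have inv : ∀ (g : G) (s : Set X), (∀ x ∈ s, g • x = x) → ∀ x ∈ sᶜ, g • x ∈ sᶜ :=
    fun g s h x hx e => hx (by rwa [← MulAction.injective g (h _ e)])
  have fx2 : ∀ g : G, g • a = a ∧ g • b = b → ∀ x ∈ ({a, b} : Set X), g • x = x := by
    rintro g h x (rfl | rfl); exacts [h.1, h.2]
  obtain ⟨c, hc1, hc2⟩ := exists_fixed_of_not_dvd S (IsPGroup.of_card hS) ({a, b}ᶜ : Set X)
    (fun g hg => inv g _ (fx2 g (hS' g hg)))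
    (by rw [Set.ncard_compl, hX', Set.ncard_pair hab]; norm_num)
  have c3 : (insert c {a, b} : Set X).ncard = 3 := by
    rw [Set.ncard_insert_of_notMem hc1, Set.ncard_pair hab]
  have fx3 : ∀ g ∈ S, ∀ x ∈ (insert c {a, b} : Set X), g • x = x := by
    rintro g hg x (rfl | hx); exacts [hc2 g hg, fx2 g (hS' g hg) x hx]
  have tr : ∀ y ∉ (insert c {a, b} : Set X), orbit S y = (insert c {a, b} : Set X)ᶜ := by
    intro y hy
    refine Set.eq_of_subset_of_ncard_le (by rintro _ ⟨g, rfl⟩; exact inv g _ (fx3 g g.2) y hy) ?_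
    have h4 := card_orbit_mul_card_stabilizer (G := S) y
    rw [(subgroup_stabilizer_eq_bot_iff S y).2 fun g hg e => ?_, Subgroup.card_bot, hS,
      Nat.card_coe_set_eq] at h4
    · rw [Set.ncard_compl, hX', c3]; omega
    by_contra hg1
    obtain ⟨q, k, hq, h5, h6, h7⟩ := exists_pow hg1
    obtain rfl : q = 2 := (Nat.prime_dvd_prime_iff_eq hq Nat.prime_two).1
      (hq.dvd_of_dvd_pow (hS ▸ h5.trans (Subgroup.orderOf_dvd_natCard S hg)))
    have h8 := three hX hG hA hev h6 (by rwa [← pow_two])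
    have h9 := fix_pow_le (X := X) g k
    have h10 := Set.ncard_le_ncard (s := insert y (insert c {a, b})) (t := fixedBy X g) (by
      rintro x (rfl | hx); exacts [e, fx3 g hg x hx])
    rw [Set.ncard_insert_of_notMem hy] at h10
    omega
  obtain ⟨r, hr, hr'⟩ : ∃ r : G, (r • a = a ∧ r • b = b) ∧ r • c ≠ c := by
    by_contra h
    push Not at h
    have : Fact (Nat.Prime 3) := ⟨by norm_num⟩
    obtain ⟨R, hR, hR'⟩ := sub 3 2 Nat.prime_three (by norm_num)
    have h4 := ncard_modEq_fixed R (IsPGroup.of_card hR) (Set.univ : Set X) Set.finite_univ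
      (fun _ _ _ _ => trivial)
    set F : Set X := {x ∈ Set.univ | ∀ g ∈ R, g • x = x}
    have h5 := Set.ncard_le_ncard (s := insert c {a, b}) (t := F) (by
      rintro x (rfl | hx)
      exacts [⟨trivial, fun g hg => h g (hR' g hg)⟩, ⟨trivial, fun g hg => fx2 g (hR' g hg) x hx⟩])
    rw [Set.ncard_univ, hX', Nat.ModEq] at h4
    have h6 : ∀ g ∈ R, ∀ x ∈ Fᶜ, g • x = x → g = 1 := fun g hg x hx e => by
      by_contra hg1
      have h7 := min6 hX hG hA hg1
      have h8 := Set.ncard_le_ncard (s := insert x F) (t := fixedBy X g) (by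
        rintro y (rfl | hy); exacts [e, hy.2 g hg])
      rw [Set.ncard_insert_of_notMem hx] at h8
      omega
    have h7 := card_dvd_of_semiregular_on R Fᶜ (Set.toFinite _)
      (fun g hg => inv g _ fun x hx => hx.2 g hg) h6
    obtain ⟨g, hg, hg1⟩ := (R.bot_or_exists_ne_one).resolve_left (by
      rintro rfl; simp at hR)
    have h8 := min6 hX hG hA hg1
    have h9 := Set.ncard_le_ncard (s := F) (t := fixedBy X g) fun x hx => hx.2 g hg
    rw [Set.ncard_compl, hX', hR, show F.ncard = 5 by omega] at h7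
    norm_num at h7
  have t3 : IsMultiplyPretransitive G X (2 + 1) := by
    refine mpt_add_of_fixing h2 {a, b} (Set.toFinite _) (Set.ncard_pair hab)
      (is_one_pretransitive_iff.2 (pretransitive_fixing_iff.2 ?_))
    have h4 : ∀ y ∉ ({a, b} : Set X), ∃ g : G, (g • a = a ∧ g • b = b) ∧ g • c = y := by
      intro y hy
      by_cases e : y = c
      · exact ⟨1, by simp, by simp [e]⟩
      obtain ⟨s, hs⟩ := (tr (r • c) (fun h => h.elim hr' (inv r _ (fx2 r hr) c hc1))).ge
        (show y ∈ _ from fun h => h.elim e hy)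
      exact ⟨s * r, by rw [mul_smul, mul_smul, hr.1, hr.2]; exact hS' s s.2, by
        rw [mul_smul]; exact hs⟩
    intro x y hx hy
    obtain ⟨g, g1, rfl⟩ := h4 x hx
    obtain ⟨h, h1, rfl⟩ := h4 y hy
    exact ⟨h * g⁻¹, fun z hz => by
      rw [mul_smul, inv_smul_eq_iff.2 (fx2 g g1 z hz).symm, fx2 h h1 z hz], by simp [mul_smul]⟩
  refine mpt_add_of_fixing (k := 1) t3 (insert c {a, b}) (Set.toFinite _) c3
    (is_one_pretransitive_iff.2 (pretransitive_fixing_iff.2 fun x y hx hy => ?_))
  obtain ⟨s, hs⟩ := (tr x hx).ge (show y ∈ _ from hy)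
  exact ⟨s, fx3 s s.2, hs⟩

omit hev hG hA [IsPretransitive G X] [FaithfulSMul G X] in
theorem card_stab (h4 : IsMultiplyPretransitive G X 4) (x : Fin 4 ↪ X) :
    Nat.card G = 7920 * Nat.card (stabilizer G x) := by
  rw [@card_eq_card_mul_card_stabilizer G _ _ _ h4 x, Nat.card_eq_fintype_card (α := Fin 4 ↪ X),
    Fintype.card_embedding_eq, hX]
  rfl

omit hev in
theorem main : (IsMultiplyPretransitive G X 4 ∧ ∀ x : Fin 4 ↪ X, stabilizer G x = ⊥) ∨
    (Nat.card G = 660 ∧ IsSimpleGroup G) := by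
  have : Finite G := finite_of_faithful (X := X)
  have : Fact (Nat.Prime 11) := ⟨by norm_num⟩
  have hX' : Nat.card X = 11 := by rw [Nat.card_eq_fintype_card, hX]
  have : Nontrivial G := by
    by_contra h
    rw [not_nontrivial_iff_subsingleton] at h
    exact hG inferInstance
  obtain ⟨T, -, h2, h3, h4⟩ := CA.Subn.exists_minimal_normal (N := (⊤ : Subgroup G)) top_ne_bot
  obtain ⟨P⟩ : Nonempty (Sylow 11 G) := inferInstance
  have hP := card_sylow hX' P
  have hPT := sylow_le_of_normal hX' P T h2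
  have h7 : 11 ∣ Nat.card T := hP ▸ Subgroup.card_dvd_of_le hPT
  have hGd := (toPermHom G X).range.card_subgroup_dvd_card
  rw [card_range, Nat.card_perm, hX'] at hGd
  have hT : IsSimpleGroup T := CA.SubA8.simple_of_min (by norm_num) h4 h7 fun h => by
    have := h.trans (T.card_subgroup_dvd_card.trans hGd); norm_num [Nat.factorial] at this
  have hT2 : ¬ IsMulCommutative T := fun h => by
    letI : CommGroup T := { (inferInstance : Group T) with mul_comm := h.1.1 }
    have h5 := (Nat.prime_dvd_prime_iff_eq (by norm_num) (IsSimpleGroup.prime_card (α := T))).1 h7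
    have := Subgroup.eq_of_le_of_card_ge hPT (by omega)
    exact hG ((isSolvable_iff hX' P).2 (this ▸ h3))
  let G0 : Subgroup G := (Equiv.Perm.sign.comp (toPermHom G X)).ker
  have hT0 : T ≤ G0 := fun x hx =>
    CA.SubA8.sign_eq_one hT2 ((Equiv.Perm.sign.comp (toPermHom G X)).comp T.subtype) ⟨x, hx⟩
  have hprim := preprimitive (G := G) hX'
  have htr : IsPretransitive T X := normal_pretransitive T h2
  have hsub : ∀ K : Subgroup G, T ≤ K → IsPretransitive K X ∧ ¬ Group.IsSolvable K ∧
      ¬ alternatingGroup X ≤ (toPermHom K X).range := fun K hK =>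
    ⟨pretransitive_mono hK htr, fun h => hT2 (by
      have := Group.isSolvable_of_isSolvable_injective (Subgroup.inclusion_injective hK)
      exact ⟨⟨IsSimpleGroup.comm_iff_isSolvable.2 this⟩⟩),
      fun h => hA (h.trans (by rintro _ ⟨g, rfl⟩; exact ⟨g, rfl⟩))⟩
  obtain ⟨-, t2, t3⟩ := hsub T le_rfl
  obtain ⟨z1, z2, z3⟩ := hsub G0 hT0
  have t4 := orders_even hX t2 t3 fun g => hT0 g.2
  have z4 := orders_even hX z2 z3 fun g => g.2
  have h8 : G0.index ∣ 2 := by
    rw [Subgroup.index_ker]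
    simpa using (Equiv.Perm.sign.comp (toPermHom G X)).range.card_subgroup_dvd_card
  have h9 := G0.card_mul_index
  have hsh : ∀ (K : Subgroup G), IsMultiplyPretransitive K X 4 → Nat.card K = 7920 →
      ∀ x : Fin 4 ↪ X, ∀ g ∈ K, g • x = x → g = 1 := fun K h hc x => by
    have := card_stab hX h x
    rw [hc] at this
    exact (subgroup_stabilizer_eq_bot_iff K x).1 (Subgroup.card_eq_one.1
      (Nat.eq_of_mul_eq_mul_left (show 0 < 7920 by norm_num) (this.symm.trans (mul_one _).symm)))
  have hidx := (Nat.dvd_prime Nat.prime_two).1 h8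
  rcases z4 with z4 | z4
  · have h10 : Nat.card G = 660 := by
      have := orders hX hG hA
      simp only [List.mem_cons, List.not_mem_nil, or_false] at this
      rcases hidx with e | e <;> rw [e] at h9 <;> omega
    have h11 := Subgroup.card_le_of_le hT0
    have h12 : T = ⊤ := Subgroup.eq_top_of_card_eq T (by omega)
    subst h12
    exact Or.inr ⟨h10, Subgroup.topEquiv.symm.isSimpleGroup⟩
  have z5 := four hX z2 z3 (fun g => g.2) z4
  have g4 := mpt_of_subgroup G0 z5
  refine Or.inl ⟨g4, fun x => ?_⟩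
  rw [eq_bot_iff]
  intro t ht
  by_contra ht1
  have e2 : G0.index = 2 := hidx.resolve_left fun e =>
    ht1 (hsh G0 z5 z4 x t (by rw [Subgroup.index_eq_one.1 e]; trivial) ht)
  have u : ∀ g : G, g ≠ 1 → g • x = x → g = t := fun g hg e => by
    have := hsh G0 z5 z4 x (t⁻¹ * g) ((Subgroup.mul_mem_iff_of_index_two e2).2 (iff_of_false
      (fun h => ht1 (hsh G0 z5 z4 x t (by simpa using h) ht)) fun h => hg (hsh G0 z5 z4 x g h e)))
      (by rw [mul_smul, e]; exact inv_mem ht)
    exact (inv_mul_eq_one.1 this).symm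
  have tt : t ^ 2 ^ 1 = 1 := hsh G0 z5 z4 x _ (Subgroup.sq_mem_of_index_two e2 t) (pow_mem ht _)
  have tx : ∀ i, t • x i = x i := fun i => DFunLike.congr_fun (mem_stabilizer_iff.1 ht) i
  have f5 : (fixedBy X t).ncard = 5 := by
    have a1 := min6 hX hG hA ht1
    have a2 := fix_mod (X := X) Nat.prime_two tt
    have a3 := Set.ncard_le_ncard (s := Set.range x) (t := fixedBy X t) (by
      rintro _ ⟨i, rfl⟩; exact tx i)
    rw [Set.ncard_range_of_injective x.injective, Nat.card_fin] at a3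
    rw [hX, Nat.ModEq] at a2
    omega
  let C := Subgroup.centralizer ({t} : Set G)
  have hC : ∀ g ∈ C, ∀ y ∈ fixedBy X t, g • y ∈ fixedBy X t := fun g hg y hy => by
    rw [mem_fixedBy, ← mul_smul, hg t rfl, mul_smul, hy]
  have ho : orbit C (x 0) = fixedBy X t := by
    refine Set.Subset.antisymm (by rintro _ ⟨g, rfl⟩; exact hC g g.2 _ (tx 0)) fun y hy => ?_
    obtain ⟨g, hg⟩ := mpt_iff_fun.1 g4 x (Equiv.swap (x 0) y ∘ x) x.injective
      ((Equiv.injective _).comp x.injective)
    have a1 := u (g⁻¹ * t * g) (fun e => ht1 (by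
      simpa [mul_assoc] using congrArg (fun y => g * y * g⁻¹) e))
      (Function.Embedding.ext fun i => by
        change (g⁻¹ * t * g) • x i = x i
        rw [mul_smul, mul_smul, inv_smul_eq_iff, hg, Function.comp, Equiv.swap_apply_def]
        split_ifs
        exacts [hy, tx 0, tx i])
    refine ⟨⟨g, ?_⟩, (hg 0).trans (Equiv.swap_apply_left _ _)⟩
    rintro _ rfl
    rw [mul_assoc, inv_mul_eq_iff_eq_mul] at a1
    exact a1
  have a1 := card_orbit_dvd (G := C) (x 0)
  rw [ho, Nat.card_coe_set_eq, f5] at a1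
  have : Fact (Nat.Prime 5) := ⟨by norm_num⟩
  obtain ⟨z, hz⟩ := exists_prime_orderOf_dvd_card' 5 a1
  have z5 : (z : G) ^ 5 ^ 1 = 1 := by
    rw [pow_one, ← hz]; exact congrArg Subtype.val (pow_orderOf_eq_one z)
  obtain ⟨w, hw⟩ := Set.ncard_eq_one.1 (five hX hG hA (g := z) (fun e => by
    rw [show z = 1 from Subtype.ext e] at hz; simp at hz) z5)
  have a2 : (z : G) • w = w := hw.ge rfl
  have a3 : t • w = w := hw.le (show (z : G) • t • w = t • w by
    rw [← mul_smul, ← z.2 t rfl, mul_smul, a2])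
  have a4 := ncard_modEq_fixedBy z5 (fixedBy X t) (Set.toFinite _) (hC z z.2)
  rw [f5, show {y ∈ fixedBy X t | (z : G) • y = y} = {w} from
    Set.Subset.antisymm (fun y hy => hw.le hy.2) (by rintro _ rfl; exact ⟨a3, a2⟩),
    Set.ncard_singleton] at a4
  exact absurd a4 (by decide)

end CA.Deg11
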