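import Cfsg.Agent.Lib.Perm.FcMain
import Cfsg.Agent.Lib.Perm.AutAn
import Cfsg.Agent.Lib.Grp.Two3
import Cfsg.Agent.Lib.Grp.H1Basic
import Cfsg.Agent.S3742

/-! The structure of Frobenius complements modulo a normal Z-subgroup. -/

set_option autoImplicit false

namespace CA.FcStruct

open Subgroup Cfsg CA.Fc CA.MC2 CA.MC3 Equiv CA.Core CA.Fitting

variable {G : Type*} [Group G]

/-- `G / N` is trivial, a four-group, or lies between `A_n` and `S_n` for `n = 4, 5`. -/
def Str (N : Subgroup G) : Prop :=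
  N = ⊤ ∨ (∃ f : G →* DihedralGroup 2, Function.Surjective f ∧ f.ker = N) ∨
    (∃ f : G →* Perm (Fin 4), alternatingGroup (Fin 4) ≤ f.range ∧ f.ker = N) ∨
    (∃ f : G →* Perm (Fin 5), alternatingGroup (Fin 5) ≤ f.range ∧ f.ker = N)

theorem alt_iff {α : Type*} [Fintype α] [DecidableEq α] {N : Subgroup G} :
    (∃ f : G →* Perm α, alternatingGroup α ≤ f.range ∧ f.ker = N) ↔
      (∃ f : G →* alternatingGroup α, Function.Surjective f ∧ f.ker = N) ∨
      (∃ f : G →* Perm α, Function.Surjective f ∧ f.ker = N) := by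
  constructor
  · rintro ⟨f, h, rfl⟩
    by_cases hr : f.range ≤ alternatingGroup α
    · refine Or.inl ⟨f.codRestrict _ fun g => hr ⟨g, rfl⟩, fun a => ?_, f.ker_codRestrict _ _⟩
      obtain ⟨g, e⟩ := h a.2
      exact ⟨g, Subtype.ext e⟩
    · refine Or.inr ⟨f, fun τ => ?_, rfl⟩
      obtain ⟨σ, hσ, hs⟩ := SetLike.not_le_iff_exists.1 hr
      rw [Perm.mem_alternatingGroup] at hs
      rcases Int.units_eq_one_or (Perm.sign τ) with e | e
      · exact h (Perm.mem_alternatingGroup.2 e)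
      · have : τ * σ⁻¹ ∈ f.range := h (Perm.mem_alternatingGroup.2 (by
          rw [map_mul, Perm.sign_inv, e, (Int.units_eq_one_or _).resolve_left hs]; simp))
        simpa using f.range.mul_mem this hσ
  · rintro (⟨f, h, rfl⟩ | ⟨f, h, rfl⟩)
    · refine ⟨(alternatingGroup α).subtype.comp f, fun a ha => ?_, ?_⟩
      · obtain ⟨g, e⟩ := h ⟨a, ha⟩
        exact ⟨g, congrArg Subtype.val e⟩
      · ext g; simp
    · exact ⟨f, by rw [MonoidHom.range_eq_top.2 h]; exact le_top, rfl⟩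

theorem Str.comap {H : Type*} [Group H] {N : Subgroup H} (h : Str N) (π : G →* H)
    (hs : Function.Surjective π) : Str (N.comap π) := by
  have hr : ∀ {Q : Type} [Group Q] (f : H →* Q), (f.comp π).range = f.range := fun f => by
    rw [MonoidHom.range_comp, MonoidHom.range_eq_top.2 hs, ← MonoidHom.range_eq_map]
  rcases h with rfl | ⟨f, h, rfl⟩ | ⟨f, h, rfl⟩ | ⟨f, h, rfl⟩
  · exact Or.inl (comap_top _)
  · exact Or.inr (Or.inl ⟨f.comp π, h.comp hs, (MonoidHom.comap_ker _ _).symm⟩)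
  · exact Or.inr (Or.inr (Or.inl ⟨f.comp π, by rw [hr]; exact h, (MonoidHom.comap_ker _ _).symm⟩))
  · exact Or.inr (Or.inr (Or.inr ⟨f.comp π, by rw [hr]; exact h, (MonoidHom.comap_ker _ _).symm⟩))

theorem exists_hom {α : Type*} [Fintype α] [DecidableEq α] (h4 : 4 ≤ Fintype.card α)
    (h6 : Fintype.card α ≠ 6) (L : Subgroup G) [L.Normal] (π : L →* alternatingGroup α)
    (hs : Function.Surjective π) (hk : ∀ g, π g = 1 ↔ g * g = 1) :
    ∃ f : G →* Perm α, (∀ x : L, f x = π x) ∧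
      ∀ g, f g = 1 → ∀ x : L, π (MulAut.conjNormal g x) = π x := by
  have ex : ∀ g : G, ∃ σ : Perm α, ∀ x : L, MulAut.conjNormal σ (π x) = π (MulAut.conjNormal g x) := by
    intro g
    let φ := π.liftOfSurjective hs ⟨π.comp (MulAut.conjNormal g : MulAut L).toMonoidHom, fun x hx => by
      rw [MonoidHom.mem_ker] at hx ⊢
      show π (MulAut.conjNormal g x) = 1
      rw [hk, ← map_mul, (hk x).1 hx, map_one]⟩
    have hφ : ∀ x, φ (π x) = π (MulAut.conjNormal g x) := fun x =>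
      π.liftOfRightInverse_comp_apply _ _ _ x
    have sφ : Function.Surjective φ := fun a => by
      obtain ⟨x, rfl⟩ := hs a
      exact ⟨π ((MulAut.conjNormal g : MulAut L).symm x), by rw [hφ, MulEquiv.apply_symm_apply]⟩
    obtain ⟨σ, e⟩ := AutAn.exists_conj h4 h6
      (MulEquiv.ofBijective φ (Finite.surjective_iff_bijective.1 sφ))
    exact ⟨σ, fun x => by rw [e]; exact hφ x⟩
  have un : ∀ {σ τ : Perm α}, (∀ x : L, MulAut.conjNormal σ (π x) = MulAut.conjNormal τ (π x)) → σ = τ :=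
    fun h => AutAn.conjNormal_injective h4 (MulEquiv.ext fun a => by
      obtain ⟨x, rfl⟩ := hs a
      exact h x)
  choose s hσ using ex
  refine ⟨MonoidHom.mk' s fun a b => un fun x => ?_, fun x => un fun y => ?_, fun g hg x => ?_⟩
  · rw [map_mul, MulAut.mul_apply, hσ, hσ, hσ, map_mul, MulAut.mul_apply]
  · show MulAut.conjNormal (s x) (π y) = _
    rw [hσ, show MulAut.conjNormal (x : G) y = x * y * x⁻¹ from rfl, map_mul, map_mul, map_inv]
    rfl
  · rw [← hσ, show s g = 1 from hg, map_one]; rfl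

theorem str_of_omega [Finite G] (h : FC G) {α : Type*} [Fintype α] [DecidableEq α]
    (h4 : 4 ≤ Fintype.card α) (h6 : Fintype.card α ≠ 6)
    (π : closure {x : G | x ^ 3 = 1} →* alternatingGroup α)
    (hs : Function.Surjective π) (hk : ∀ g, π g = 1 ↔ g * g = 1) {a : alternatingGroup α}
    (a1 : a ≠ 1) (a2 : a * a = 1) :
    ∃ f : G →* Perm α, alternatingGroup α ≤ f.range ∧ IsZGroup f.ker := by
  have := normal_three (G := G)
  obtain ⟨f, hf, hc⟩ := exists_hom h4 h6 _ π hs hk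
  refine ⟨f, fun b hb => ?_, (h.subgroup _).isZGroup_of_four fun k hk4 => ?_⟩
  · obtain ⟨x, e⟩ := hs ⟨b, hb⟩
    exact ⟨x, by rw [hf, e]⟩
  have hcen : closure {x : G | x ^ 3 = 1} ≤ centralizer {(k : G)} := by
    rw [closure_le]
    intro x hx
    have hx3 : x ^ 3 = 1 := hx
    have e := hc k k.2 ⟨x, subset_closure hx⟩
    rw [← mul_inv_eq_one, ← map_inv, ← map_mul, hk] at e
    have e' : ((k : G) * x * (k : G)⁻¹ * x⁻¹) * ((k : G) * x * (k : G)⁻¹ * x⁻¹) = 1 :=
      congrArg Subtype.val e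
    obtain ⟨y, hy⟩ : ∃ y, y = (k : G) * x * (k : G)⁻¹ * x⁻¹ := ⟨_, rfl⟩
    rw [← hy] at e'
    have c : Commute y x := h.invol_central e' x
    have : (y * x) ^ 3 = 1 := by
      rw [hy, inv_mul_cancel_right, conj_pow, hx3]; simp
    rw [c.mul_pow, hx3, mul_one, pow_succ, sq, e', one_mul] at this
    rw [SetLike.mem_coe, mem_centralizer_singleton_iff]
    rw [this, eq_mul_inv_iff_mul_eq, one_mul, eq_mul_inv_iff_mul_eq] at hy
    exact hy
  obtain ⟨i, rfl⟩ := hs a
  have i4 : (i : G) ^ 4 = 1 := by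
    have := (hk (i * i)).1 (by rw [map_mul, a2])
    rw [show (i : G) ^ 4 = i * i * (i * i) by simp only [pow_succ, pow_zero, one_mul, mul_assoc]]
    exact congrArg Subtype.val this
  have io : orderOf (i : G) = 2 ^ (1 + 1) := orderOf_eq_prime_pow (fun e => a1 ((hk i).2 (Subtype.ext
    (by rw [pow_one, sq] at e; exact e)))) i4
  have c : (k : G) * i = i * k := (mem_centralizer_singleton_iff.1 (hcen i.2)).symm
  obtain ⟨j, hj⟩ := mem_zpowers_iff.1 (h.mem_zpowers_of_commute c (by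
    rw [io]; exact orderOf_dvd_of_pow_eq_one (congrArg Subtype.val hk4)))
  have e : π i ^ j = 1 := Subtype.ext (by
    have := k.2
    rw [MonoidHom.mem_ker, ← hj, map_zpow, hf] at this
    exact this)
  have ao : orderOf (π i) = 2 := orderOf_eq_prime (by rw [sq, a2]) a1
  rw [← orderOf_dvd_iff_zpow_eq_one, ao] at e
  obtain ⟨t, rfl⟩ := e
  apply Subtype.ext
  show (k : G) * k = 1
  rw [← hj, ← zpow_add, show ((2 : ℕ) : ℤ) * t + (2 : ℕ) * t = (4 : ℕ) * t by push_cast; ring, zpow_mul,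
    zpow_natCast, i4, one_zpow]

theorem fc_quotient [Finite G] (h : FC G) (O : Subgroup G) [O.Normal] {p : ℕ} [Fact p.Prime]
    (hO : (Nat.card O).Coprime p) {P : Subgroup (G ⧸ O)} (hP : IsPGroup p P) : FC P := by
  obtain ⟨Q, hQ⟩ := hP.exists_le_sylow
  obtain ⟨S, rfl⟩ := Sylow.mapSurjective_surjective (QuotientGroup.mk'_surjective O) p Q
  have hi : Function.Injective ((QuotientGroup.mk' O).subgroupMap S) := by
    rw [← MonoidHom.ker_eq_bot_iff, ker_subgroupMap, QuotientGroup.ker_mk', subgroupOf_eq_bot,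
      disjoint_iff, inf_comm]
    exact inf_eq_bot_of_isPGroup_of_coprime S.2 hO
  let e := MulEquiv.ofBijective _ ⟨hi, (QuotientGroup.mk' O).subgroupMap_surjective S⟩
  exact ((h.subgroup S).of_injective e.symm.toMonoidHom e.symm.injective).of_injective
    (inclusion hQ) (inclusion_injective hQ)

theorem isZGroup_comap [Finite G] (h : FC G) (O : Subgroup G) [O.Normal]
    (hO : (Nat.card O).Coprime 2) {P : Subgroup (G ⧸ O)} (hP : IsPGroup 2 P) [IsCyclic P] :
    IsZGroup (P.comap (QuotientGroup.mk' O)) := by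
  have : IsZGroup O := (h.subgroup O).isZGroup_of_odd (coprime_iff_not_dvd.1 hO)
  have hle : O ≤ P.comap (QuotientGroup.mk' O) := QuotientGroup.le_comap_mk' O P
  refine isZGroup_of_coprime (f := inclusion hle) (f' := (QuotientGroup.mk' O).subgroupComap P)
    (fun x hx => ?_) (coprime_card_of_isPGroup hP hO.symm).symm
  have : (x : G) ∈ O := (QuotientGroup.eq_one_iff _).1 (congrArg Subtype.val hx)
  exact ⟨⟨x, this⟩, rfl⟩

theorem str_of_mc [Finite G] {m : ℕ} {ε δ : ℤ} {a y : G} (h : MC m ε δ a y) (hm : 1 ≤ m)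
    (e : zpowers a ⊔ zpowers y = ⊤) :
    ∃ f : G →* DihedralGroup 2, Function.Surjective f ∧ f.ker = zpowers (a ^ (2 : ℤ)) := by
  have hc := h.commutator_eq
  rw [e] at hc
  have : (zpowers (a ^ (2 : ℤ))).Normal := by rw [← hc]; infer_instance
  have c1 := h.card
  rw [e, card_top] at c1
  have c2 : Nat.card (zpowers (a ^ (2 : ℤ))) = 2 ^ m := by
    rw [Nat.card_zpowers]; simpa using h.ord_pow (k := 1) (j := m) (by omega)
  have c3 := (zpowers (a ^ (2 : ℤ))).card_eq_card_quotient_mul_card_subgroup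
  rw [c1, c2, pow_add, mul_comm] at c3
  have c4 := Nat.eq_of_mul_eq_mul_right (by positivity) c3
  have : IsKleinFour (G ⧸ zpowers (a ^ (2 : ℤ))) := by
    have hs : ∀ x : G ⧸ zpowers (a ^ (2 : ℤ)), x ^ 2 = 1 := fun x => by
      obtain ⟨g, rfl⟩ := QuotientGroup.mk_surjective x
      rw [← QuotientGroup.mk_pow, QuotientGroup.eq_one_iff]
      obtain ⟨i, rfl | rfl⟩ := h.mem_iff.1 (e ▸ mem_top g)
      · exact ⟨i, by simp only [← zpow_natCast, ← zpow_mul]; congr 1; push_cast; ring⟩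
      · simpa using (h.shift i).sq_mem_pow (k := 1) hm
    have : Nontrivial (G ⧸ zpowers (a ^ (2 : ℤ))) := Finite.one_lt_card_iff_nontrivial.1 (by omega)
    exact ⟨c4.symm, (Monoid.exponent_eq_prime_iff Nat.prime_two).2 fun g hg =>
      orderOf_eq_prime (hs g) hg⟩
  obtain ⟨φ⟩ := IsKleinFour.nonempty_mulEquiv (G₁ := G ⧸ zpowers (a ^ (2 : ℤ))) (G₂ := DihedralGroup 2)
  refine ⟨φ.toMonoidHom.comp (QuotientGroup.mk' _),
    φ.surjective.comp (QuotientGroup.mk'_surjective _), ?_⟩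
  ext g
  simp [QuotientGroup.eq_one_iff]

theorem ker_conjN (A : Subgroup G) [A.Normal] :
    (MulAut.conjNormal : G →* MulAut A).ker = centralizer (A : Set G) := by
  ext g
  rw [MonoidHom.mem_ker, mem_centralizer_iff]
  constructor
  · intro h a ha
    have := congrArg Subtype.val (DFunLike.congr_fun h ⟨a, ha⟩)
    exact (mul_inv_eq_iff_eq_mul.1 this).symm
  · intro h
    ext a
    show g * a * g⁻¹ = a
    rw [← h a a.2, mul_inv_cancel_right]

theorem str_of_q8 [Finite G] {D : Subgroup G} [D.Normal] {a y : G} (h : MC 1 0 1 a y)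
    (e : zpowers a ⊔ zpowers y = D) (hC : centralizer (D : Set G) ≤ D) (hA : Two.Act 2 D) :
    ∃ f : G →* Perm (Fin 4), alternatingGroup (Fin 4) ≤ f.range ∧ f.ker = zpowers (a ^ (2 ^ 1 : ℤ)) := by
  obtain ⟨φ⟩ := h.nonempty_quaternion odd_one rfl
  rw [e] at φ
  obtain ⟨ψ⟩ := Cfsg.Agent.S3742.result
  let χ : MulAut D ≃* Perm (Fin 4) := (MulAut.congr φ).trans ψ
  have hz := h.inf_centralizer le_rfl
  rw [e, inf_eq_right.2 hC] at hz
  have hk : (χ.toMonoidHom.comp (MulAut.conjNormal : G →* MulAut D)).ker = zpowers (a ^ (2 ^ 1 : ℤ)) := by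
    rw [← hz, ← ker_conjN]
    ext g
    simp
  refine ⟨_, Perm.alternatingGroup_le_of_index_le_two ?_, hk⟩
  generalize χ.toMonoidHom.comp (MulAut.conjNormal : G →* MulAut D) = f at hk
  have c1 := f.range.card_mul_index
  rw [Nat.card_perm, Nat.card_fin, show Nat.factorial 4 = 24 from rfl] at c1
  have c2 := H1Basic.card_map_mul_card_inf_ker f D
  have c3 := h.card
  rw [e] at c3
  rw [hk, ← hz, inf_eq_left.2 hC, hz, Nat.card_zpowers, h.ord_z, c3] at c2
  have d4 : 4 ∣ Nat.card f.range := by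
    have : Nat.card (D.map f) = 4 := by omega
    exact this.symm.dvd.trans (card_dvd_of_le (map_le_range f D))
  obtain ⟨n, -, ho, hn⟩ := hA
  rw [hz, ← hk] at hn
  have o1 : orderOf (f n) ∣ Nat.card f.range := orderOf_dvd_natCard _ ⟨n, rfl⟩
  have o2 : (orderOf (f n)).Coprime 2 := ho.coprime_dvd_left (orderOf_map_dvd f n)
  have o3 : orderOf (f n) ≠ 1 := fun e => hn (orderOf_eq_one_iff.1 e)
  have o4 : orderOf (f n) ∣ 3 := by
    have : orderOf (f n) ∣ 2 ^ 3 * 3 := o1.trans ⟨_, c1.symm⟩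
    exact (o2.pow_right 3).dvd_of_dvd_mul_left this
  rw [(Nat.dvd_prime Nat.prime_three).1 o4 |>.resolve_left o3] at o1
  obtain ⟨t, ht⟩ : 4 * 3 ∣ Nat.card f.range := Nat.Coprime.mul_dvd_of_dvd_of_dvd (by norm_num) d4 o1
  rw [ht] at c1
  rcases t with _ | t
  · omega
  · nlinarith

theorem exists_str_two [Finite G] (hC : centralizer (pCore 2 G : Set G) ≤ pCore 2 G)
    (key : ∀ P : Subgroup G, IsPGroup 2 P → IsCyclic P ∨
      ∃ m a y, 1 ≤ m ∧ MC m 0 1 a y ∧ zpowers a ⊔ zpowers y = P) :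
    ∃ N : Subgroup G, IsPGroup 2 N ∧ IsCyclic N ∧
      (N = ⊤ ∨ (∃ f : G →* DihedralGroup 2, Function.Surjective f ∧ f.ker = N) ∨
        (∃ f : G →* Perm (Fin 4), alternatingGroup (Fin 4) ≤ f.range ∧ f.ker = N)) := by
  rcases Two3.isPGroup_or_act hC with h2 | hA
  · rcases key ⊤ (isPGroup_top_iff.2 h2) with c | ⟨m, a, y, hm, h, e⟩
    · exact ⟨⊤, isPGroup_top_iff.2 h2, c, Or.inl rfl⟩
    · exact ⟨_, h2.to_subgroup _, inferInstance, Or.inr (Or.inl (str_of_mc h hm e))⟩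
  · rcases key _ isPGroup_pCore with c | ⟨m, a, y, hm, h, e⟩
    · exact absurd hA (Two.not_act_of_isCyclic c isPGroup_pCore)
    · obtain rfl : m = 1 := by
        by_contra hm1
        exact Two3.not_act_top h hm (fun _ => by omega) (e ▸ hA)
      refine ⟨_, isPGroup_pCore.to_le ?_, inferInstance, Or.inr (Or.inr (str_of_q8 h e hC hA))⟩
      rw [← e]; exact (zpowers_pow_le a _).trans le_sup_left

theorem two_cases [Finite G] (h : FC G) (hP : IsPGroup 2 G) : IsCyclic G ∨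
    ∃ (m : ℕ) (a y : G), 1 ≤ m ∧ MC m 0 1 a y ∧ zpowers a ⊔ zpowers y = ⊤ := by
  rcases h.isCyclic_or_quaternion (isPGroup_top_iff.2 hP) with c | ⟨-, m, ⟨φ⟩⟩
  · exact Or.inl (isCyclic_of_surjective _ topEquiv.surjective)
  · rcases m with _ | m
    · have := QuaternionGroup.quaternionGroup_one_isCyclic
      exact Or.inl (isCyclic_of_surjective _ (φ.symm.trans topEquiv).surjective)
    · obtain ⟨a, y, h1, h2⟩ := exists_of_quaternion φ
      exact Or.inr ⟨_, a, y, by omega, h1, h2⟩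

theorem exists_str_solvable [Finite G] (h : FC G) [Group.IsSolvable G] :
    ∃ N : Subgroup G, IsZGroup N ∧
      (N = ⊤ ∨ (∃ f : G →* DihedralGroup 2, Function.Surjective f ∧ f.ker = N) ∨
        (∃ f : G →* Perm (Fin 4), alternatingGroup (Fin 4) ≤ f.range ∧ f.ker = N)) := by
  have hO : (Nat.card (pPrimeCore 2 G)).Coprime 2 := coprime_pPrimeCore
  obtain ⟨N, h1, h2, h3⟩ := exists_str_two
    (centralizer_pCore_le (G := G ⧸ pPrimeCore 2 G) 2 pPrimeCore_quotient_pPrimeCore) fun P hP => by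
      rcases two_cases (fc_quotient h _ hO hP) hP with c | ⟨m, a, y, hm, h1, h2⟩
      · exact Or.inl c
      · exact Or.inr ⟨m, a, y, hm, h1.map P.subtype P.subtype_injective, map_sup_eq h2⟩
  refine ⟨_, isZGroup_comap h _ hO h1, ?_⟩
  have hs := QuotientGroup.mk'_surjective (pPrimeCore 2 G)
  rcases h3 with rfl | ⟨f, h, rfl⟩ | ⟨f, h, rfl⟩
  · exact Or.inl (comap_top _)
  · exact Or.inr (Or.inl ⟨f.comp _, h.comp hs, (MonoidHom.comap_ker _ _).symm⟩)
  · refine Or.inr (Or.inr ⟨f.comp _, ?_, (MonoidHom.comap_ker _ _).symm⟩)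
    rw [MonoidHom.range_comp, MonoidHom.range_eq_top.2 hs, ← MonoidHom.range_eq_map]; exact h

theorem exists_str [Finite G] (h : FC G) : ∃ N : Subgroup G, IsZGroup N ∧ Str N := by
  by_cases hs : Group.IsSolvable G
  · obtain ⟨N, h1, h2⟩ := exists_str_solvable h
    exact ⟨N, h1, h2.imp_right (Or.imp_right Or.inl)⟩
  obtain ⟨D, -, hD, hp⟩ := exists_perfect hs
  have := (nontrivial_iff_ne_bot D).2 hD
  obtain ⟨x, y, hx, hy, c⟩ := (h.subgroup D).exists_not_commute
  rcases h.omega_three (x := x) (y := y) (congrArg Subtype.val hx) (congrArg Subtype.val hy)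
    (fun e => c (Subtype.ext e)) with ⟨π, h1, h2⟩ | ⟨π, h1, h2⟩
  · obtain ⟨f, h3, h4⟩ := str_of_omega h (by simp) (by simp) π h1 h2
      (a := ⟨swap 0 1 * swap 2 3, Perm.mem_alternatingGroup.2 (by decide)⟩) (by decide) (by decide)
    exact ⟨_, h4, Or.inr (Or.inr (Or.inl ⟨f, h3, rfl⟩))⟩
  · obtain ⟨f, h3, h4⟩ := str_of_omega h (by simp) (by simp) π h1 h2
      (a := ⟨swap 0 1 * swap 2 3, Perm.mem_alternatingGroup.2 (by decide)⟩) (by decide) (by decide)
    exact ⟨_, h4, Or.inr (Or.inr (Or.inr ⟨f, h3, rfl⟩))⟩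

theorem Str.normal {N : Subgroup G} (h : Str N) : N.Normal := by
  rcases h with rfl | ⟨f, -, rfl⟩ | ⟨f, -, rfl⟩ | ⟨f, -, rfl⟩ <;> infer_instance

theorem exists_normal_cyclic [Finite G] {N : Subgroup G} [N.Normal] [IsZGroup N] (hN : N ≠ ⊥) :
    ∃ g ∈ N, g ≠ 1 ∧ (zpowers g).Normal := by
  have key : ∀ A : Subgroup N, A.Characteristic → IsCyclic A → A ≠ ⊥ →
      ∃ g ∈ N, g ≠ 1 ∧ (zpowers g).Normal := by
    intro A _ _ hA
    have hn := H1Basic.normal_map_subtype_of_characteristic A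
    obtain ⟨g, rfl⟩ := (Subgroup.isCyclic_iff_exists_zpowers_eq_top A).1 inferInstance
    rw [MonoidHom.map_zpowers] at hn
    exact ⟨g, g.2, fun e => hA (zpowers_eq_bot.2 (Subtype.ext e)), hn⟩
  by_cases hc : commutator N = ⊥
  · refine key ⊤ inferInstance ?_ fun e => hN ?_
    · have : Group.IsNilpotent N := isNilpotent_of_isMulCommutative
        ⟨⟨fun a b => commutatorElement_eq_one_iff_mul_comm.1 (by
          rw [← mem_bot, ← hc]; exact commutator_mem_commutator (mem_top a) (mem_top b))⟩⟩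
      infer_instance
    · rw [eq_bot_iff]
      intro g hg
      have : (⟨g, hg⟩ : N) = 1 := mem_bot.1 (e ▸ mem_top _)
      exact congrArg Subtype.val this
  · exact key _ inferInstance (IsZGroup.isCyclic_commutator N) hc

theorem le_ker_of_alt [Finite G] {α : Type*} [Fintype α] [DecidableEq α]
    (hα : ∀ g : Perm α, g ≠ 1 → ∃ k : Perm α, Perm.sign k = 1 ∧
      (k * g * k⁻¹ * g ≠ g * (k * g * k⁻¹) ∨ (g * g = 1 ∧ k * g * k⁻¹ ≠ g)))
    (f : G →* Perm α) (hf : alternatingGroup α ≤ f.range) (N : Subgroup G) [hN : N.Normal] [IsZGroup N] :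
    N ≤ f.ker := by
  by_contra hle
  have hs := f.rangeRestrict_surjective
  have : (N.map f.rangeRestrict).Normal := hN.map _ hs
  have : IsZGroup (N.map f.rangeRestrict) := IsZGroup.of_surjective (f.rangeRestrict.subgroupMap_surjective N)
  obtain ⟨g, -, g1, hn⟩ := exists_normal_cyclic (N := N.map f.rangeRestrict) (by
    rw [Ne, Subgroup.map_eq_bot_iff, MonoidHom.ker_rangeRestrict]; exact hle)
  obtain ⟨k, hk, h⟩ := hα g fun e => g1 (Subtype.ext e)
  have hm := hn.conj_mem g (mem_zpowers g) ⟨k, hf (Perm.mem_alternatingGroup.2 hk)⟩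
  rcases h with h | ⟨h2, h⟩
  · obtain ⟨j, hj⟩ := mem_zpowers_iff.1 hm
    have := congrArg Subtype.val ((Commute.zpow_self g j).eq)
    rw [hj] at this
    exact h this
  · rcases (Two.mem_zpowers_two (by rw [sq]; exact Subtype.ext h2)).1 hm with e | e
    · exact g1 (by simpa using e)
    · exact h (congrArg Subtype.val e)

theorem dec4 : ∀ g : Perm (Fin 4), g ≠ 1 → ∃ k : Perm (Fin 4), Perm.sign k = 1 ∧
    (k * g * k⁻¹ * g ≠ g * (k * g * k⁻¹) ∨ (g * g = 1 ∧ k * g * k⁻¹ ≠ g)) := by decide +kernel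

theorem dec5 : ∀ g : Perm (Fin 5), g ≠ 1 → ∃ k : Perm (Fin 5), Perm.sign k = 1 ∧
    (k * g * k⁻¹ * g ≠ g * (k * g * k⁻¹) ∨ (g * g = 1 ∧ k * g * k⁻¹ ≠ g)) := by decide +kernel

theorem index_le_four [Finite G] (h : FC G) {K : Subgroup G} [K.Normal] (hK : ∀ g : G, g ^ 2 ∈ K) :
    K.index ≤ 4 := by
  have h2 : ∀ x : G ⧸ K, x ^ 2 = 1 := fun x => by
    obtain ⟨g, rfl⟩ := QuotientGroup.mk_surjective x
    rw [← QuotientGroup.mk_pow, QuotientGroup.eq_one_iff]; exact hK g
  obtain ⟨S⟩ : Nonempty (Sylow 2 G) := inferInstance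
  have e := sylow_sup_eq_top_of_isPGroup_quotient S (N := K) fun x => ⟨1, by rw [pow_one, h2]⟩
  obtain ⟨a, y, e'⟩ : ∃ a y : G, zpowers a ⊔ zpowers y = S := by
    rcases two_cases (h.subgroup S) S.2 with c | ⟨m, a, y, -, -, e'⟩
    · obtain ⟨g, hg⟩ := (Subgroup.isCyclic_iff_exists_zpowers_eq_top (S : Subgroup G)).1 c
      exact ⟨g, g, by rw [sup_idem, hg]⟩
    · exact ⟨a, y, map_sup_eq e'⟩
  have e2 := congrArg (map (QuotientGroup.mk' K)) e
  rw [← e', Subgroup.map_sup, Subgroup.map_sup, MonoidHom.map_zpowers, MonoidHom.map_zpowers,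
    (Subgroup.map_eq_bot_iff _).2 (QuotientGroup.ker_mk' K).ge, sup_bot_eq,
    map_top_of_surjective _ (QuotientGroup.mk'_surjective K)] at e2
  have : IsMulCommutative (G ⧸ K) := ⟨⟨fun a b => (Commute.of_orderOf_dvd_two
    (fun g => orderOf_dvd_of_pow_eq_one (h2 g)) a b).eq⟩⟩
  have c := H1Basic.card_sup_dvd (zpowers (QuotientGroup.mk' K a)) (zpowers (QuotientGroup.mk' K y))
  rw [e2, card_top, Nat.card_zpowers, Nat.card_zpowers] at c
  have o : ∀ x : G ⧸ K, orderOf x ≤ 2 := fun x => orderOf_le_of_pow_eq_one two_pos (h2 x)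
  exact (Nat.le_of_dvd (Nat.mul_pos (orderOf_pos _) (orderOf_pos _)) c).trans (Nat.mul_le_mul (o _) (o _))

theorem str_unique [Finite G] (h : FC G) {M N : Subgroup G} [IsZGroup M] [IsZGroup N] (hM : Str M)
    (hN : Str N) : M = N := by
  have := hM.normal
  have := hN.normal
  have d2 : ∀ x : DihedralGroup 2, x ^ 2 = 1 := by decide
  have tv : ∀ f : G →* DihedralGroup 2, Function.Surjective f → IsZGroup (⊤ : Subgroup G) → False := by
    intro f hf _
    have : IsZGroup (DihedralGroup 2) := IsZGroup.of_surjective (f := f.comp (⊤ : Subgroup G).subtype)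
      (hf.comp fun g => ⟨⟨g, mem_top g⟩, rfl⟩)
    have : IsCyclic (⊤ : Subgroup (DihedralGroup 2)) :=
      IsPGroup.isCyclic_of_isZGroup (p := 2) fun x => ⟨1, Subtype.ext (by rw [pow_one]; exact d2 _)⟩
    exact IsKleinFour.not_isCyclic (G := DihedralGroup 2) (isCyclic_of_surjective _ topEquiv.surjective)
  have sq : ∀ (f : G →* DihedralGroup 2) (g : G), g ^ 2 ∈ f.ker := fun f g => by
    rw [MonoidHom.mem_ker, map_pow, d2]
  have va : ∀ {n : ℕ} (f : G →* DihedralGroup 2) (f' : G →* Perm (Fin n)),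
      alternatingGroup _ ≤ f'.range → f.ker ≤ f'.ker → (n = 4 ∨ n = 5) → False := by
    intro n f f' hf hle hn
    obtain ⟨σ, h1, h2⟩ : ∃ σ : Perm (Fin n), Perm.sign σ = 1 ∧ σ ^ 2 ≠ 1 := by
      rcases hn with rfl | rfl <;> exact ⟨swap 0 1 * swap 1 2, by decide, by decide⟩
    obtain ⟨g, rfl⟩ := hf (Perm.mem_alternatingGroup.2 h1)
    exact h2 (by rw [← map_pow]; exact hle (sq f g))
  have ta : ∀ {n : ℕ} (f' : G →* Perm (Fin n)),
      alternatingGroup _ ≤ f'.range → ⊤ ≤ f'.ker → (n = 4 ∨ n = 5) → False := fun f' hf hle =>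
    va 1 f' hf (le_top.trans hle)
  rcases hM with rfl | ⟨f, hf, rfl⟩ | ⟨f, hf, rfl⟩ | ⟨f, hf, rfl⟩ <;>
    rcases hN with rfl | ⟨f', hf', rfl⟩ | ⟨f', hf', rfl⟩ | ⟨f', hf', rfl⟩
  · rfl
  · exact (tv f' hf' inferInstance).elim
  · exact (ta f' hf' (le_ker_of_alt dec4 f' hf' _) (Or.inl rfl)).elim
  · exact (ta f' hf' (le_ker_of_alt dec5 f' hf' _) (Or.inr rfl)).elim
  · exact (tv f hf inferInstance).elim
  · have hi := index_le_four h (K := f.ker ⊓ f'.ker) fun g => ⟨sq f g, sq f' g⟩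
    have key : ∀ φ : G →* DihedralGroup 2, Function.Surjective φ → f.ker ⊓ f'.ker ≤ φ.ker →
        f.ker ⊓ f'.ker = φ.ker := fun φ hφ hle => by
      have c := relIndex_mul_index hle
      rw [index_ker, MonoidHom.range_eq_top.2 hφ, card_top, IsKleinFour.card_four] at c
      have c0 : (f.ker ⊓ f'.ker).index ≠ 0 := index_ne_zero_of_finite
      exact le_antisymm hle (relIndex_eq_one.1 (by omega))
    exact (key f hf inf_le_left).symm.trans (key f' hf' inf_le_right)
  · exact (va f f' hf' (le_ker_of_alt dec4 f' hf' _) (Or.inl rfl)).elim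
  · exact (va f f' hf' (le_ker_of_alt dec5 f' hf' _) (Or.inr rfl)).elim
  · exact (ta f hf (le_ker_of_alt dec4 f hf _) (Or.inl rfl)).elim
  · exact (va f' f hf (le_ker_of_alt dec4 f hf _) (Or.inl rfl)).elim
  · exact le_antisymm (le_ker_of_alt dec4 f' hf' _) (le_ker_of_alt dec4 f hf _)
  · exact le_antisymm (le_ker_of_alt dec5 f' hf' _) (le_ker_of_alt dec4 f hf _)
  · exact (ta f hf (le_ker_of_alt dec5 f hf _) (Or.inr rfl)).elim
  · exact (va f' f hf (le_ker_of_alt dec5 f hf _) (Or.inr rfl)).elim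
  · exact le_antisymm (le_ker_of_alt dec4 f' hf' _) (le_ker_of_alt dec5 f hf _)
  · exact le_antisymm (le_ker_of_alt dec5 f' hf' _) (le_ker_of_alt dec5 f hf _)

/-! ### Metacyclic generators -/

theorem conj_pow_pow {x y : G} {r : ℕ} (h : x⁻¹ * y * x = y ^ r) (k : ℕ) :
    (x ^ k)⁻¹ * y * x ^ k = y ^ r ^ k := by
  induction k with
  | zero => simp
  | succ k ih =>
    rw [pow_succ, mul_inv_rev, show x⁻¹ * (x ^ k)⁻¹ * y * (x ^ k * x) = x⁻¹ * ((x ^ k)⁻¹ * y * x ^ k) * x⁻¹⁻¹ by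
      group, ih, ← conj_pow, inv_inv, h, ← pow_mul, pow_succ']

theorem mem_normalizer_of_conj {x y : G} {r : ℕ} (h : x⁻¹ * y * x = y ^ r) (hx : IsOfFinOrder x) (k : ℕ) :
    x ∈ normalizer (zpowers (y ^ k) : Set G) := by
  have key : ∀ (j : ℕ) (g : G), g ∈ zpowers (y ^ k) → (x ^ j)⁻¹ * g * x ^ j ∈ zpowers (y ^ k) := by
    rintro j _ ⟨i, rfl⟩
    refine ⟨(r ^ j : ℕ) * i, ?_⟩
    have := conj_zpow (i := k * i) (a := (x ^ j)⁻¹) (b := y)
    rw [inv_inv, conj_pow_pow h] at this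
    simp only [← zpow_natCast, ← zpow_mul] at this ⊢
    rw [← this]; congr 1; ring
  obtain ⟨n, hn, e⟩ := hx.exists_pow_eq_one
  obtain ⟨n, rfl⟩ : ∃ t, n = t + 1 := ⟨n - 1, by omega⟩
  rw [mem_normalizer_iff]
  refine fun g => ⟨fun hg => ?_, fun hg => ?_⟩
  · have := key n g hg
    rwa [show x ^ n = x⁻¹ from eq_inv_of_mul_eq_one_left (by rw [← pow_succ, e]), inv_inv] at this
  · simpa [mul_assoc] using key 1 _ hg

theorem normal_of_conj {x y : G} {r : ℕ} (h : x⁻¹ * y * x = y ^ r) (hx : IsOfFinOrder x)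
    (e : zpowers x ⊔ zpowers y = ⊤) (k : ℕ) : (zpowers (y ^ k)).Normal := by
  rw [← normalizer_eq_top_iff, eq_top_iff, ← e, sup_le_iff, zpowers_le, zpowers_le]
  refine ⟨mem_normalizer_of_conj h hx k, Subgroup.centralizer_le_normalizer _ ?_⟩
  rintro _ ⟨i, rfl⟩
  exact (((Commute.refl y).pow_left k).zpow_left i).eq

theorem exists_gens [Finite G] [IsZGroup G] : ∃ (x y : G) (r : ℕ), zpowers x ⊔ zpowers y = ⊤ ∧
    x⁻¹ * y * x = y ^ r ∧ (r - 1).Coprime (orderOf y) ∧ (orderOf x).Coprime (orderOf y) ∧ 1 ≤ r := by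
  have hc := IsZGroup.coprime_commutator_index G
  obtain ⟨H, hH⟩ := exists_right_complement'_of_coprime hc
  have h1 : Abelianization G ≃* H := hH.symm.QuotientMulEquiv
  obtain ⟨x, rfl⟩ := (Subgroup.isCyclic_iff_exists_zpowers_eq_top H).1 (isCyclic_of_surjective _ h1.surjective)
  obtain ⟨y, hy⟩ := (Subgroup.isCyclic_iff_exists_zpowers_eq_top _).1 (IsZGroup.isCyclic_commutator G)
  have e : zpowers x ⊔ zpowers y = ⊤ := by rw [hy, sup_comm]; exact hH.sup_eq_top
  have hm : x⁻¹ * y * x ∈ zpowers y := by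
    rw [hy]; exact (inferInstance : (commutator G).Normal).conj_mem' _ (hy ▸ mem_zpowers y) x
  obtain ⟨r, hr⟩ := mem_powers_iff_mem_zpowers.2 hm
  have hr' : x⁻¹ * y * x = y ^ (r + orderOf y) := by rw [pow_add, pow_orderOf_eq_one, mul_one]; exact hr.symm
  have h1 : 1 ≤ r + orderOf y := le_add_left (orderOf_pos y)
  refine ⟨x, y, _, e, hr', ?_, ?_, h1⟩
  · generalize r + orderOf y = s at hr' h1
    have := normal_of_conj hr' (isOfFinOrder_of_finite x) e (s - 1)
    rw [Nat.Coprime, ← mem_zpowers_pow_iff]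
    have c : (x : G ⧸ zpowers (y ^ (s - 1))) * y = y * x := by
      rw [← QuotientGroup.mk_mul, ← QuotientGroup.mk_mul, QuotientGroup.eq,
        show (x * y)⁻¹ * (y * x) = y⁻¹ * (x⁻¹ * y * x) by group, hr', ← Nat.sub_add_cancel h1, pow_succ',
        inv_mul_cancel_left, Nat.add_sub_cancel]
      exact mem_zpowers _
    have e2 := congrArg (map (QuotientGroup.mk' (zpowers (y ^ (s - 1))))) e
    rw [Subgroup.map_sup, MonoidHom.map_zpowers, MonoidHom.map_zpowers,
      map_top_of_surjective _ (QuotientGroup.mk'_surjective _), zpowers_eq_closure (QuotientGroup.mk' _ x),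
      zpowers_eq_closure (QuotientGroup.mk' _ y), ← Subgroup.closure_union] at e2
    have cm := isMulCommutative_closure (k := {QuotientGroup.mk' (zpowers (y ^ (s - 1))) x} ∪
        {QuotientGroup.mk' (zpowers (y ^ (s - 1))) y}) (by
      rintro a (rfl | rfl) b (rfl | rfl)
      exacts [rfl, c, c.symm, rfl])
    rw [e2] at cm
    have cm' : IsMulCommutative (G ⧸ zpowers (y ^ (s - 1))) :=
      ⟨⟨fun a b => congrArg Subtype.val (cm.1.1 ⟨a, mem_top a⟩ ⟨b, mem_top b⟩)⟩⟩
    exact Normal.quotient_commutative_iff_commutator_le.1 cm' (hy ▸ mem_zpowers y)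
  · rw [← Nat.card_zpowers, ← Nat.card_zpowers y, hy, ← hH.symm.index_eq_card]
    exact hc.symm

theorem nonempty_pres [Finite G] {x y : G} {r : ℕ} (e : zpowers x ⊔ zpowers y = ⊤)
    (h : x⁻¹ * y * x = y ^ r) (hc : (orderOf x).Coprime (orderOf y)) :
    Nonempty (G ≃* PresentedGroup
      ({FreeGroup.of (0 : Fin 2) ^ orderOf x, FreeGroup.of (1 : Fin 2) ^ orderOf y,
        (FreeGroup.of (0 : Fin 2))⁻¹ * FreeGroup.of 1 * FreeGroup.of 0 * (FreeGroup.of (1 : Fin 2) ^ r)⁻¹} :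
        Set (FreeGroup (Fin 2)))) := by
  generalize hR : ({FreeGroup.of (0 : Fin 2) ^ orderOf x, FreeGroup.of (1 : Fin 2) ^ orderOf y,
        (FreeGroup.of (0 : Fin 2))⁻¹ * FreeGroup.of 1 * FreeGroup.of 0 * (FreeGroup.of (1 : Fin 2) ^ r)⁻¹} :
        Set (FreeGroup (Fin 2))) = R
  have hf : ∀ w ∈ R, FreeGroup.lift ![x, y] w = 1 := by
    rw [← hR]
    rintro w (rfl | rfl | rfl) <;> simp [pow_orderOf_eq_one, h]
  have hs : Function.Surjective (PresentedGroup.toGroup hf) := by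
    rw [← MonoidHom.range_eq_top, eq_top_iff, ← e, sup_le_iff, zpowers_le, zpowers_le]
    exact ⟨⟨.of 0, PresentedGroup.toGroup.of hf⟩, ⟨.of 1, PresentedGroup.toGroup.of hf⟩⟩
  have r1 : (PresentedGroup.of 0 : PresentedGroup R) ^ orderOf x = 1 :=
    PresentedGroup.one_of_mem (x := FreeGroup.of 0 ^ orderOf x) (by simp [← hR])
  have r2 : (PresentedGroup.of 1 : PresentedGroup R) ^ orderOf y = 1 :=
    PresentedGroup.one_of_mem (x := FreeGroup.of 1 ^ orderOf y) (by simp [← hR])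
  have r3 : (PresentedGroup.of 0 : PresentedGroup R)⁻¹ * .of 1 * .of 0 = .of 1 ^ r :=
    mul_inv_eq_one.1 (PresentedGroup.one_of_mem (x := (FreeGroup.of (0 : Fin 2))⁻¹ * FreeGroup.of 1 *
      FreeGroup.of 0 * (FreeGroup.of (1 : Fin 2) ^ r)⁻¹) (by simp [← hR]))
  have e' : zpowers (PresentedGroup.of 0 : PresentedGroup R) ⊔ zpowers (.of 1) = ⊤ := by
    rw [eq_top_iff]
    refine fun g _ => PresentedGroup.generated_by R _ (fun j => ?_) g
    fin_cases j
    exacts [mem_sup_left (mem_zpowers _), mem_sup_right (mem_zpowers _)]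
  have n1 := normal_of_conj r3 (isOfFinOrder_iff_pow_eq_one.2 ⟨_, orderOf_pos x, r1⟩) e' 1
  have n2 := normal_of_conj h (isOfFinOrder_of_finite x) e 1
  rw [pow_one] at n1 n2
  have c1 := H1Basic.card_sup_dvd (zpowers (PresentedGroup.of 0 : PresentedGroup R)) (zpowers (.of 1))
  have c2 := H1Basic.card_sup_of_coprime (zpowers x) (zpowers y) (by simpa using hc)
  rw [e', card_top, Nat.card_zpowers, Nat.card_zpowers] at c1
  rw [e, card_top, Nat.card_zpowers, Nat.card_zpowers] at c2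
  have c3 := c1.trans (mul_dvd_mul (orderOf_dvd_of_pow_eq_one r1) (orderOf_dvd_of_pow_eq_one r2))
  rw [← c2] at c3
  have : Finite (PresentedGroup R) := Nat.finite_of_card_ne_zero fun e0 =>
    Nat.card_pos.ne' (Nat.eq_zero_of_zero_dvd (e0 ▸ c3))
  exact ⟨(MulEquiv.ofBijective _ (hs.bijective_of_nat_card_le (Nat.le_of_dvd Nat.card_pos c3))).symm⟩

theorem commute_rad [Finite G] (h : FC G) {x y : G} (hn : x ∈ normalizer (zpowers y : Set G))
    (hc : (orderOf x).Coprime (orderOf y)) :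
    Commute (x ^ (orderOf x / ∏ p ∈ (orderOf x).primeFactors, p)) y := by
  let C : Subgroup G := centralizer (zpowers y : Set G)
  have : (C.subgroupOf (normalizer (zpowers y : Set G))).Normal := inferInstance
  let u : _ ⧸ C.subgroupOf (normalizer (zpowers y : Set G)) := (⟨x, hn⟩ : normalizer (zpowers y : Set G))
  have hu : ∀ k, orderOf u ∣ k ↔ x ^ k ∈ C := fun k => by
    rw [orderOf_dvd_iff_pow_eq_one, ← QuotientGroup.mk_pow, QuotientGroup.eq_one_iff, mem_subgroupOf]; rfl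
  obtain ⟨s, hs⟩ := (hu (orderOf x)).2 (by rw [pow_orderOf_eq_one]; exact one_mem _)
  have hp : ∏ p ∈ (orderOf x).primeFactors, p ∣ s := by
    refine Finset.prod_primes_dvd _ (fun p hp => (Nat.prime_of_mem_primeFactors hp).prime) fun p hp => ?_
    have d := Nat.dvd_of_mem_primeFactors hp
    have o : orderOf (x ^ (orderOf x / p)) = p := orderOf_pow_orderOf_div (orderOf_pos x).ne' d
    have := (hu _).2 (h.le_centralizer_of_prime (D := zpowers y) (x := x ^ (orderOf x / p))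
      (by rw [o]; exact Nat.prime_of_mem_primeFactors hp) (pow_mem hn _)
      (by rw [o, Nat.card_zpowers]; exact hc.coprime_dvd_left d))
    rw [Nat.dvd_div_iff_mul_dvd d, hs, mul_comm] at this
    exact Nat.dvd_of_mul_dvd_mul_left (orderOf_pos u) this
  have := (hu (orderOf x / ∏ p ∈ (orderOf x).primeFactors, p)).1 (by
    rw [Nat.dvd_div_iff_mul_dvd (Nat.prod_primeFactors_dvd _), mul_comm]
    conv_rhs => rw [hs]
    exact mul_dvd_mul_left _ hp)
  exact (this y (mem_zpowers y)).symm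

end CA.FcStruct
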