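import Mathlib

/-! Binary actions (relational complexity two): basic principles. -/

set_option autoImplicit false

namespace CA.Bin
open MulAction Subgroup

/-- The action is binary. -/
def Bin (G Ω : Type*) [Group G] [MulAction G Ω] : Prop :=
  ∀ (n : ℕ) (I J : Fin n → Ω), 2 ≤ n →
    (∀ i j : Fin n, i ≠ j → ∃ g : G, g • I i = J i ∧ g • I j = J j) → ∃ g : G, ∀ i, g • I i = J i

variable {G Ω : Type*} [Group G] [MulAction G Ω]

theorem Bin.gen (h : Bin G Ω) {ι : Type*} [Finite ι] (I J : ι → Ω)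
    (hp : ∀ i j : ι, ∃ g : G, g • I i = J i ∧ g • I j = J j) : ∃ g : G, ∀ i, g • I i = J i := by
  rcases isEmpty_or_nonempty ι with hι | ⟨⟨i0⟩⟩
  · exact ⟨1, fun i => isEmptyElim i⟩
  obtain ⟨n, ⟨e⟩⟩ := Finite.exists_equiv_fin ι
  let φ : Fin (n + 2) → ι := fun k => if hk : k.1 < n then e.symm ⟨k.1, hk⟩ else i0
  have hφ : ∀ i, ∃ k, φ k = i := fun i =>
    ⟨⟨(e i).1, by have := (e i).2; omega⟩, by simp [φ]⟩
  obtain ⟨g, hg⟩ := h (n + 2) (I ∘ φ) (J ∘ φ) (by omega) (fun i j _ => hp _ _)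
  refine ⟨g, fun i => ?_⟩
  obtain ⟨k, rfl⟩ := hφ i
  exact hg k

/-- The key principle. -/
theorem Bin.star [Finite Ω] (h : Bin G Ω) (g k : G) :
    ∃ s : G, (∀ x : Ω, g • x = x → s • x = x) ∧ (∀ x : Ω, k • x = x → s • x = x) ∧
      ∀ x : Ω, g • x = k • x → s • x = g • x := by
  obtain ⟨s, hs⟩ := h.gen (ι := {x : Ω // g • x = x} ⊕ {x : Ω // k • x = x} ⊕ {x : Ω // g • x = k • x})
    (Sum.elim (·.1) (Sum.elim (·.1) (·.1))) (Sum.elim (·.1) (Sum.elim (·.1) (g • ·.1))) (by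
      rintro (⟨x, hx⟩ | ⟨x, hx⟩ | ⟨x, hx⟩) (⟨y, hy⟩ | ⟨y, hy⟩ | ⟨y, hy⟩)
      · exact ⟨1, by simp, by simp⟩
      · exact ⟨1, by simp, by simp⟩
      · exact ⟨g, by simpa using hx, by simp⟩
      · exact ⟨1, by simp, by simp⟩
      · exact ⟨1, by simp, by simp⟩
      · exact ⟨k, by simpa using hx, by simpa using hy.symm⟩
      · exact ⟨g, by simp, by simpa using hy⟩
      · exact ⟨k, by simpa using hx.symm, by simpa using hy⟩
      · exact ⟨g, by simp, by simp⟩)
  exact ⟨s, fun x hx => hs (.inl ⟨x, hx⟩), fun x hx => hs (.inr (.inl ⟨x, hx⟩)),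
    fun x hx => hs (.inr (.inr ⟨x, hx⟩))⟩

/-- A sufficient condition. -/
theorem bin_of (h : ∀ (α β γ : Ω) (g k : G), g • α = α → k • β = β → g • γ = k • γ →
    stabilizer G α = stabilizer G β ∨ g • γ = γ) : Bin G Ω := by
  intro n I J hn hp
  by_cases hall : ∀ i j, stabilizer G (I i) = stabilizer G (I j)
  · let i0 : Fin n := ⟨0, by omega⟩
    let i1 : Fin n := ⟨1, by omega⟩
    obtain ⟨g, hg, -⟩ := hp i0 i1 (by simp [i0, i1])
    refine ⟨g, fun j => ?_⟩
    by_cases hj : i0 = j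
    · exact hj ▸ hg
    obtain ⟨k, hk0, hkj⟩ := hp i0 j hj
    have : k⁻¹ * g ∈ stabilizer G (I i0) := by
      rw [mem_stabilizer_iff, mul_smul, hg, ← hk0, inv_smul_smul]
    rw [hall i0 j, mem_stabilizer_iff, mul_smul, inv_smul_eq_iff] at this
    rw [this, hkj]
  push Not at hall
  obtain ⟨i, j, hij⟩ := hall
  have hne : i ≠ j := fun e => hij (e ▸ rfl)
  obtain ⟨g, hgi, hgj⟩ := hp i j hne
  refine ⟨g, fun k => ?_⟩
  by_cases hik : i = k
  · exact hik ▸ hgi
  by_cases hjk : j = k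
  · exact hjk ▸ hgj
  obtain ⟨a, hai, hak⟩ := hp i k hik
  obtain ⟨b, hbj, hbk⟩ := hp j k hjk
  rcases h (I i) (I j) (I k) (g⁻¹ * a) (g⁻¹ * b) (by rw [mul_smul, hai, ← hgi, inv_smul_smul])
    (by rw [mul_smul, hbj, ← hgj, inv_smul_smul]) (by rw [mul_smul, mul_smul, hak, hbk]) with h1 | h1
  · exact absurd h1 hij
  · rw [mul_smul, hak, inv_smul_eq_iff] at h1
    exact h1.symm

theorem bin_comp {G' : Type*} [Group G'] (e : G' →* G) (he : Function.Surjective e) :
    (letI := MulAction.compHom Ω e; Bin G' Ω) ↔ Bin G Ω := by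
  letI := MulAction.compHom Ω e
  have hs : ∀ (g : G') (x : Ω), g • x = e g • x := fun _ _ => rfl
  constructor
  · intro h n I J hn hp
    obtain ⟨g, hg⟩ := h n I J hn (fun i j hij => by
      obtain ⟨g, h1, h2⟩ := hp i j hij
      obtain ⟨g', rfl⟩ := he g
      exact ⟨g', h1, h2⟩)
    exact ⟨e g, hg⟩
  · intro h n I J hn hp
    obtain ⟨g, hg⟩ := h n I J hn (fun i j hij => by
      obtain ⟨g, h1, h2⟩ := hp i j hij
      exact ⟨e g, h1, h2⟩)
    obtain ⟨g', rfl⟩ := he g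
    exact ⟨g', hg⟩

theorem fix_conj {g k : G} {x : Ω} : (k * g * k⁻¹) • (k • x) = k • x ↔ g • x = x := by
  simp [mul_smul]

theorem ncard_fix_conj [Finite Ω] {g k : G} (h : IsConj g k) :
    {x : Ω | g • x = x}.ncard = {x : Ω | k • x = x}.ncard := by
  obtain ⟨c, rfl⟩ := isConj_iff.1 h
  refine Set.ncard_congr (fun x _ => c • x) (fun x hx => fix_conj.2 hx)
    (fun x y _ _ h => smul_left_cancel c h) (fun y hy => ⟨c⁻¹ • y, ?_, by simp⟩)
  simp only [Set.mem_setOf_eq] at hy ⊢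
  rw [← fix_conj (k := c)]
  simpa using hy

theorem fix_of_le [Finite Ω] {g k : G} (h : IsConj g k) (hle : ∀ x : Ω, g • x = x → k • x = x)
    {x : Ω} (hx : k • x = x) : g • x = x := by
  have := Set.eq_of_subset_of_ncard_le (s := {x : Ω | g • x = x}) (t := {x : Ω | k • x = x})
    hle (ncard_fix_conj h).ge
  exact (Set.ext_iff.1 this x).2 hx

theorem exists_inv_pow [Finite G] {s : G} (h : Even (orderOf s)) :
    ∃ j : ℕ, s ^ j ≠ 1 ∧ s ^ j * s ^ j = 1 := by
  obtain ⟨j, hj⟩ := h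
  have hpos := orderOf_pos s
  refine ⟨j, fun h1 => ?_, by rw [← pow_add, ← hj, pow_orderOf_eq_one]⟩
  have := Nat.le_of_dvd (by omega) (orderOf_dvd_of_pow_eq_one h1)
  omega

theorem pow_fix {s : G} {x : Ω} (h : s • x = x) (j : ℕ) : s ^ j • x = x :=
  (stabilizer G x).pow_mem h j

/-- With one class of involutions, commuting involutions have the same fixed points. -/
theorem Bin.fix_of_comm [Finite G] [Finite Ω] (h : Bin G Ω)
    (hone : ∀ s t : G, s ≠ 1 → s * s = 1 → t ≠ 1 → t * t = 1 → IsConj s t)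
    {g k : G} (g1 : g ≠ 1) (g2 : g * g = 1) (k1 : k ≠ 1) (k2 : k * k = 1) (hc : g * k = k * g)
    {x : Ω} (hx : g • x = x) : k • x = x := by
  by_cases hgk : g = k
  · exact hgk ▸ hx
  have hg' : g⁻¹ = g := inv_eq_of_mul_eq_one_right g2
  have gk1 : g * k ≠ 1 := fun e => hgk (by rw [← hg', inv_eq_of_mul_eq_one_right e])
  have gk2 : g * k * (g * k) = 1 := by
    calc g * k * (g * k) = g * (k * g) * k := by group
      _ = (g * g) * (k * k) := by rw [← hc]; group
      _ = 1 := by rw [g2, k2, one_mul]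
  obtain ⟨s, h1, h2, h3⟩ := h.star g k
  have hfx : ∀ y : Ω, (g * k) • y = y ↔ g • y = k • y := fun y => by
    rw [mul_smul, ← hg', inv_smul_eq_iff, hg', eq_comm]
  rcases Nat.even_or_odd (orderOf s) with he | ho
  · obtain ⟨j, j1, j2⟩ := exists_inv_pow he
    exact fix_of_le (hone _ _ k1 k2 j1 j2) (fun y hy => pow_fix (h2 y hy) j) (pow_fix (h1 x hx) j)
  · have hgg : ∀ y : Ω, g • g • y = y := fun y => by rw [← mul_smul, g2, one_smul]
    have key : ∀ y : Ω, (g * k) • y = y → g • y = y := by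
      intro y hy
      have hy' : g • (g • y) = k • (g • y) := by
        rw [← hfx, ← mul_smul, mul_assoc, ← hc, mul_smul, hy]
      have e1 : s • y = g • y := h3 y ((hfx y).1 hy)
      have e2 : (s * s) • y = y := by rw [mul_smul, e1, h3 _ hy', hgg]
      obtain ⟨j, hj⟩ := ho
      have e3 : s ^ (2 * j + 1) • y = y := by rw [← hj, pow_orderOf_eq_one, one_smul]
      rw [pow_succ', mul_smul, pow_mul, sq, pow_fix e2 j] at e3
      rw [← e1, e3]
    have := fix_of_le (hone _ _ gk1 gk2 g1 g2) key hx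
    rw [← (hfx x).1 this, hx]

/-- Sufficient condition for stabilizers of exponent two. -/
theorem bin_of_inv (h2 : ∀ (α : Ω) (g : G), g • α = α → g * g = 1)
    (h : ∀ (α β : Ω) (g k : G), g • α = α → k • β = β → g ≠ 1 → k ≠ 1 → g * k = k * g →
      stabilizer G α = stabilizer G β) : Bin G Ω := by
  refine bin_of fun α β γ g k hg hk hγ => ?_
  by_cases g1 : g = 1
  · right; simp [g1]
  by_cases k1 : k = 1
  · right; simpa [k1] using hγ
  left
  refine h α β g k hg hk g1 k1 ?_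
  have hg' : g⁻¹ = g := inv_eq_of_mul_eq_one_right (h2 _ _ hg)
  have hk' : k⁻¹ = k := inv_eq_of_mul_eq_one_right (h2 _ _ hk)
  have := h2 γ (g⁻¹ * k) (by rw [mul_smul, ← hγ, inv_smul_smul])
  rw [hg'] at this
  have e := inv_eq_of_mul_eq_one_right this
  rw [mul_inv_rev, hg', hk'] at e
  exact e.symm

theorem stab_smul_mem {g k : G} {x : Ω} : g ∈ stabilizer G (k • x) ↔ k⁻¹ * g * k ∈ stabilizer G x := by
  simp only [mem_stabilizer_iff, mul_smul, inv_smul_eq_iff]

theorem bin_bot : Bin G (G ⧸ (⊥ : Subgroup G)) := by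
  refine bin_of fun α β _ _ _ _ _ _ => Or.inl ?_
  have : ∀ α : G ⧸ (⊥ : Subgroup G), stabilizer G α = ⊥ := by
    intro α
    induction α using QuotientGroup.induction_on with
    | H a =>
      rw [eq_bot_iff]
      intro g hg
      rw [mem_stabilizer_iff, MulAction.Quotient.smul_mk, QuotientGroup.eq] at hg
      have h1 : a⁻¹ * g⁻¹ * a = 1 := by simpa using hg
      have h2 : g = a * (a⁻¹ * g⁻¹ * a)⁻¹ * a⁻¹ := by group
      rw [h2, h1]; simp
  rw [this, this]

end CA.Bin
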