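import Cfsg.Agent.Lib.Perm.H19Bin
import Cfsg.Agent.Lib.Lie.TorusCount

/-! Binary actions: obstructions. -/

set_option autoImplicit false

namespace CA.Bin
open MulAction Subgroup CA.TorusCount

variable {G Ω X : Type*} [Group G] [MulAction G Ω] [MulAction G X]

/-- Obstruction in Zassenhaus groups: products of two involutions. -/
theorem Bin.zas [Finite Ω] (h : Bin G Ω) (hB : ∀ ω : Ω, ∃ p : X, ∀ g : G, g • ω = ω → g • p = p)
    (h3 : ∀ (g : G) (a b c : X), a ≠ b → b ≠ c → a ≠ c → g • a = a → g • b = b → g • c = c → g = 1)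
    (hinv : ∀ (s : G) (a b : X), s * s = 1 → a ≠ b → s • a = a → s • b = b → s = 1)
    {g k : G} (g2 : g * g = 1) (k2 : k * k = 1) {α β γ : Ω} (hα : g • α = α) (hβ : k • β = β)
    (hγ : g • γ = k • γ) : ∃ p : X, g • p = p ∧ k • p = p := by
  by_contra hne
  push Not at hne
  obtain ⟨s, h1, h2, h4⟩ := h.star g k
  obtain ⟨a, ha⟩ := hB α
  obtain ⟨b, hb⟩ := hB β
  obtain ⟨c, hc⟩ := hB γ
  have hgk : g • c = k • c := by
    have := hc (g⁻¹ * k) (by rw [mul_smul, ← hγ, inv_smul_smul])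
    rw [mul_smul, inv_smul_eq_iff] at this
    exact this.symm
  have hab : a ≠ b := fun e => hne a (ha g hα) (e ▸ hb k hβ)
  have hac : a ≠ c := fun e => hne a (ha g hα) (by rw [e, ← hgk, ← e]; exact ha g hα)
  have hbc : b ≠ c := fun e => hne b (by rw [e, hgk, ← e]; exact hb k hβ) (hb k hβ)
  have e1 : g • g • γ = γ := by rw [← mul_smul, g2, one_smul]
  have e2 : g • g • γ = k • g • γ := by rw [e1, hγ, ← mul_smul, k2, one_smul]
  have e3 : (s * s) • γ = γ := by rw [mul_smul, h4 γ hγ, h4 _ e2, e1]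
  have sa := ha s (h1 α hα)
  have sb := hb s (h2 β hβ)
  have s2 : s * s = 1 := h3 _ a b c hab hbc hac (by rw [mul_smul, sa, sa]) (by rw [mul_smul, sb, sb])
    (hc _ e3)
  have s1 := hinv s a b s2 hab sa sb
  have e4 : g • γ = γ := by rw [← h4 γ hγ, s1, one_smul]
  exact hne c (hc g e4) (hc k (hγ ▸ e4))

/-- Obstruction when stabilizers act semiregularly off one point. -/
theorem Bin.uni [Finite Ω] (h : Bin G Ω)
    (hB : ∀ ω : Ω, ∃ p : X, ∀ g : G, g • ω = ω → g • p = p ∧ (g ≠ 1 → ∀ q : X, g • q = q → q = p))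
    {g k : G} (g1 : g ≠ 1) (k1 : k ≠ 1) {α β γ : Ω} (hα : g • α = α) (hβ : k • β = β)
    (hγ : g • γ = k • γ) {p q : X} (hp : g • p = p) (hq : k • q = q) : p = q := by
  by_contra hne
  obtain ⟨s, h1, h2, h4⟩ := h.star g k
  obtain ⟨a, ha⟩ := hB α
  obtain ⟨b, hb⟩ := hB β
  obtain ⟨c, hc⟩ := hB γ
  obtain rfl := (ha g hα).2 g1 p hp
  obtain rfl := (hb k hβ).2 k1 q hq
  have s1 : s = 1 := by
    by_contra s1
    exact hne ((hb s (h2 β hβ)).2 s1 p (ha s (h1 α hα)).1)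
  have e4 : g • γ = γ := by rw [← h4 γ hγ, s1, one_smul]
  exact hne (((hc g e4).2 g1 p hp).trans ((hc k (hγ ▸ e4)).2 k1 q hq).symm)

/-- Obstruction when the stabilizer lies in a CC subgroup. -/
theorem Bin.cc [Finite Ω] (h : Bin G Ω) {A : Subgroup G} (hA : CC A) {ω : Ω}
    (hω : stabilizer G ω ≤ A) {g k u w : G} (g1 : g ≠ 1) (hg : g • ω = ω)
    (hk : k • u • ω = u • ω) (k1 : k ≠ 1) (hγ : g • w • ω = k • w • ω) :
    u ∈ normalizer (A : Set G) := by
  obtain ⟨s, h1, h2, h4⟩ := h.star g k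
  have key : ∀ y : G, y ≠ 1 → y ∈ A → y • u • ω = u • ω → u ∈ normalizer (A : Set G) := by
    intro y y1 hy hy'
    have := hω (stab_smul_mem.1 hy')
    exact inv_mem_iff.1 (hA.ti u⁻¹ y hy y1 (by simpa using this))
  by_cases s1 : s = 1
  · have e4 : g • w • ω = w • ω := by rw [← h4 _ hγ, s1, one_smul]
    have a1 := hω (stab_smul_mem.1 e4)
    have a2 := hω (stab_smul_mem.1 (show k • w • ω = w • ω from hγ ▸ e4))
    have a3 := hA.comm a1 a2
    have a4 : g * k = k * g := by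
      have : g * k = w * (w⁻¹ * g * w * (w⁻¹ * k * w)) * w⁻¹ := by group
      rw [this, a3]; group
    refine key k k1 ?_ hk
    rw [← hA g (hω hg) g1, mem_centralizer_singleton_iff]
    exact a4.symm
  · exact key s s1 (hω (h1 ω hg)) (h2 _ hk)

theorem mem_cen {P : Subgroup G} {g : G} :
    g ∈ (center P).map P.subtype ↔ g ∈ P ∧ ∀ h ∈ P, h * g = g * h := by
  constructor
  · rintro ⟨⟨x, hx⟩, h1, rfl⟩
    exact ⟨hx, fun h hh => congrArg Subtype.val (mem_center_iff.1 h1 ⟨h, hh⟩)⟩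
  · rintro ⟨h1, h2⟩
    exact ⟨⟨g, h1⟩, mem_center_iff.2 fun h => Subtype.ext (h2 h.1 h.2), rfl⟩

theorem exists_sylow_equiv {G' : Type*} [Group G'] [Finite G] (e : G ≃* G') {p : ℕ} [Fact p.Prime]
    (P : Sylow p G) : ∃ P' : Sylow p G', ∀ g, g ∈ (P : Subgroup G) ↔ e g ∈ (P' : Subgroup G') := by
  refine ⟨P.mapSurjective (f := e.toMonoidHom) e.surjective, fun g => ?_⟩
  exact (mem_map_iff_mem (f := e.toMonoidHom) (K := (P : Subgroup G)) e.injective).symm

theorem cen_equiv {G' : Type*} [Group G'] (e : G ≃* G') {P : Subgroup G} {P' : Subgroup G'}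
    (h : ∀ g, g ∈ P ↔ e g ∈ P') (g : G) :
    g ∈ (center P).map P.subtype ↔ e g ∈ (center P').map P'.subtype := by
  rw [mem_cen, mem_cen, h]
  refine and_congr_right fun _ => ⟨fun h1 x hx => ?_, fun h1 x hx => e.injective ?_⟩
  · obtain ⟨y, rfl⟩ := e.surjective x
    rw [← map_mul, h1 y ((h y).2 hx), map_mul]
  · rw [map_mul, map_mul, h1 _ ((h x).1 hx)]

theorem exists_inv_of_even [Finite G] {M : Subgroup G} (h : Even (Nat.card M)) :
    ∃ t ∈ M, t ≠ 1 ∧ t * t = 1 := by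
  haveI : Fact (Nat.Prime 2) := ⟨Nat.prime_two⟩
  obtain ⟨x, hx⟩ := exists_prime_orderOf_dvd_card' (G := M) 2 (even_iff_two_dvd.1 h)
  refine ⟨x, x.2, fun e => ?_, ?_⟩
  · have : x = 1 := Subtype.ext e
    simp [this] at hx
  · have := pow_orderOf_eq_one x
    rw [hx, sq] at this
    exact congrArg Subtype.val this

theorem eq_one_of_odd {M : Subgroup G} (h : Odd (Nat.card M)) {t : G} (ht : t ∈ M) (t2 : t * t = 1) :
    t = 1 := by
  obtain ⟨j, hj⟩ := h
  have := pow_card_eq_one' (G := M) (x := ⟨t, ht⟩)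
  have h2 : t ^ (2 * j + 1) = 1 := by rw [← hj]; exact congrArg Subtype.val this
  rwa [pow_succ, pow_mul, sq, t2, one_pow, one_mul] at h2

theorem odd_orderOf {M : Subgroup G} (h : Odd (Nat.card M)) {t : G} (ht : t ∈ M) :
    Odd (orderOf t) := h.of_dvd_nat (M.orderOf_dvd_natCard ht)

theorem mem_of_pow_four {A : Subgroup G} {n : G} (h : Odd (orderOf n)) (h4 : n ^ 4 ∈ A) : n ∈ A := by
  have hc : (orderOf n).Coprime 4 := by
    have : (orderOf n).Coprime 2 := (Nat.coprime_two_right).2 h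
    simpa using this.pow_right 2
  obtain ⟨j, hj⟩ := exists_pow_eq_self_of_coprime hc.symm
  rw [← hj]
  exact pow_mem h4 j

/-- An involution normalising a CC subgroup of odd order inverts it. -/
theorem inv_of_cc {A : Subgroup G} (hA : CC A) (ho : Odd (Nat.card A)) {t y : G}
    (ht : t ∈ normalizer (A : Set G)) (t1 : t ≠ 1) (t2 : t * t = 1) (hy : y ∈ A) :
    t * y * t⁻¹ = y⁻¹ := by
  have h1 : t * y * t⁻¹ ∈ A := (mem_normalizer_iff.1 ht y).1 hy
  have ht' : t⁻¹ = t := inv_eq_of_mul_eq_one_right t2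
  by_contra hne
  have hz : y * (t * y * t⁻¹) ≠ 1 := fun e => hne (eq_inv_of_mul_eq_one_right e)
  have : t ∈ centralizer {y * (t * y * t⁻¹)} := by
    rw [mem_centralizer_singleton_iff]
    calc t * (y * (t * y * t⁻¹)) = (t * y * t⁻¹ * ((t * t) * y)) * t⁻¹ := by group
      _ = (t * y * t⁻¹ * y) * t := by rw [t2, one_mul, ht']
      _ = _ := by rw [hA.comm h1 hy]
  rw [hA _ (mul_mem hy h1) hz] at this
  exact t1 (eq_one_of_odd ho this t2)

end CA.Bin
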