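import Cfsg.Agent.Lib.Perm.H19Bin2
import Cfsg.Agent.Lib.Bend.BendCor
import Cfsg.Agent.Lib.Suz.Cor
import Cfsg.Agent.Lib.Lie.SzClass

/-! Binary actions of simple groups with one class of involutions: reduction to Bender groups. -/

set_option autoImplicit false

namespace CA.Bin
open MulAction Subgroup CA.TorusCount Cfsg
open scoped Pointwise

universe u
variable {G : Type u} {Ω : Type*} [Group G] [MulAction G Ω]

/-- One class of involutions. -/
def One (G : Type*) [Group G] : Prop :=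
  ∀ s t : G, s ≠ 1 → s * s = 1 → t ≠ 1 → t * t = 1 → IsConj s t

/-- The setwise stabilizer of the fixed point set. -/
def NF (Ω : Type*) [MulAction G Ω] (t : G) : Subgroup G where
  carrier := {g | ∀ x : Ω, t • x = x ↔ t • g • x = g • x}
  one_mem' := by simp
  mul_mem' {a b} ha hb x := by rw [mul_smul, ← ha, ← hb]
  inv_mem' {a} ha x := by rw [ha (a⁻¹ • x), smul_inv_smul]

theorem mem_NF_of_comm {t g : G} (h : g * t = t * g) : g ∈ NF Ω t := fun x => by
  rw [← mul_smul, ← h, mul_smul, smul_left_cancel_iff]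

theorem mem_NF_of_fix [Finite Ω] {t s : G} (h : ∀ x : Ω, t • x = x ↔ s • x = x) : s ∈ NF Ω t := fun x => by
  constructor
  · intro hx; rw [(h x).1 hx, hx]
  · intro hx
    exact (h x).2 (smul_left_cancel s ((h _).1 hx))

theorem conj_sq {s : G} (k : G) (hs : s * s = 1) : k * s * k⁻¹ * (k * s * k⁻¹) = 1 := by
  calc _ = k * (s * s) * k⁻¹ := by group
    _ = 1 := by rw [hs]; group

variable [Finite G] [Finite Ω]

theorem Bin.fix_of_mem (h : Bin G Ω) (hone : One G) {t s : G} (t1 : t ≠ 1) (t2 : t * t = 1)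
    (s1 : s ≠ 1) (s2 : s * s = 1) (hs : s ∈ NF Ω t) (x : Ω) : t • x = x ↔ s • x = x := by
  have ht' : t⁻¹ = t := inv_eq_of_mul_eq_one_right t2
  have hs' : s⁻¹ = s := inv_eq_of_mul_eq_one_right s2
  rcases Nat.even_or_odd (orderOf (t * s)) with he | ho
  · obtain ⟨j, j1, j2⟩ := exists_inv_pow he
    have hz : ((t * s) ^ j)⁻¹ = (t * s) ^ j := inv_eq_of_mul_eq_one_right j2
    have c1 : t * (t * s) ^ j = (t * s) ^ j * t := by
      have : t * (t * s) * t⁻¹ = (t * s)⁻¹ := by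
        rw [← mul_assoc, t2, one_mul, mul_inv_rev, ht', hs']
      rw [← mul_inv_eq_iff_eq_mul, ← conj_pow, this, inv_pow, hz]
    have c2 : s * (t * s) ^ j = (t * s) ^ j * s := by
      have : s * (t * s) * s⁻¹ = (t * s)⁻¹ := by
        rw [← mul_assoc, mul_inv_cancel_right, mul_inv_rev, ht', hs']
      rw [← mul_inv_eq_iff_eq_mul, ← conj_pow, this, inv_pow, hz]
    exact ⟨fun e => h.fix_of_comm hone j1 j2 s1 s2 c2.symm (h.fix_of_comm hone t1 t2 j1 j2 c1 e),
      fun e => h.fix_of_comm hone j1 j2 t1 t2 c1.symm (h.fix_of_comm hone s1 s2 j1 j2 c2 e)⟩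
  · obtain ⟨n, hn, -, rfl⟩ := SzClass.exists_inv_conj t2 s2 ho (mem_NF_of_comm (Ω := Ω) rfl) hs
    rw [(inv_mem hn) x, ← fix_conj (k := n), smul_inv_smul]

variable [IsSimpleGroup G] [IsPretransitive G Ω]

omit [Finite G] [Finite Ω] in
theorem NF_ne_top {ω : Ω} (hω : stabilizer G ω ≠ ⊤) {t : G} (t1 : t ≠ 1) (ht : t • ω = ω) :
    NF Ω t ≠ ⊤ := by
  intro e
  rcases (MulAction.toPermHom G Ω).normal_ker.eq_bot_or_eq_top with h | h
  · refine t1 (mem_bot.1 (h ▸ ?_))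
    ext x
    obtain ⟨g, rfl⟩ := exists_smul_eq G ω x
    exact ((e ▸ mem_top g : g ∈ NF Ω t) ω).1 ht
  · apply hω
    rw [eq_top_iff]
    intro g _
    have : g ∈ (MulAction.toPermHom G Ω).ker := h ▸ mem_top g
    exact congrFun (congrArg (⇑) this) ω

theorem Bin.se (h : Bin G Ω) (hone : One G) {ω : Ω} (hω : stabilizer G ω ≠ ⊤) {t : G} (t1 : t ≠ 1)
    (t2 : t * t = 1) (ht : t • ω = ω) : IsStronglyEmbedded (NF Ω t) := by
  refine ⟨NF_ne_top hω t1 ht, ?_, fun g hg => ?_⟩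
  · by_contra ho
    exact t1 (eq_one_of_odd (Nat.not_even_iff_odd.1 ho) (mem_NF_of_comm rfl) t2)
  · by_contra he
    obtain ⟨_, ⟨hs, s, hs', rfl⟩, s1, s2⟩ := exists_inv_of_even (Nat.not_odd_iff_even.1 he)
    change g * s * g⁻¹ ∈ NF Ω t at hs
    change g * s * g⁻¹ ≠ 1 at s1
    change g * s * g⁻¹ * (g * s * g⁻¹) = 1 at s2
    have s1' : s ≠ 1 := by rintro rfl; simp at s1
    have s2' : s * s = 1 := by simpa [mul_assoc] using conj_sq g⁻¹ s2
    refine hg fun x => ?_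
    rw [h.fix_of_mem hone t1 t2 s1' s2' hs', h.fix_of_mem hone t1 t2 s1 s2 hs, fix_conj]

omit [Finite Ω] [IsPretransitive G Ω] in
theorem not_comm {ω : Ω} (hω : stabilizer G ω ≠ ⊤) {t : G} (t1 : t ≠ 1) (ht : t • ω = ω) :
    ¬ IsMulCommutative G := by
  intro hc
  have : (stabilizer G ω).Normal := ⟨fun a ha g => by rwa [hc.is_comm.comm g a, mul_inv_cancel_right]⟩
  exact t1 (mem_bot.1 ((this.eq_bot_or_eq_top.resolve_right hω) ▸ ht))

/-- Principle I: an involution inverting a point-fixing element of odd order fixes that point. -/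
theorem Bin.pI (h : Bin G Ω) (hone : One G) {ω : Ω} (hω : stabilizer G ω ≠ ⊤) {t : G} (t1 : t ≠ 1)
    (t2 : t * t = 1) (ht : t • ω = ω) {g x : G} (g2 : g * g = 1) (hgx : g * x * (g * x) = 1)
    (hx : ∀ n : ℕ, x ^ 2 ^ n ≠ 1) {γ : Ω} (hγ : x • γ = γ) : g • γ = γ := by
  by_cases g1 : g = 1
  · simp [g1]
  have k1 : g * x ≠ 1 := by
    intro e
    have : x = g := by rw [← inv_eq_of_mul_eq_one_right e, inv_eq_of_mul_eq_one_right g2]
    exact hx 1 (by rw [pow_one, sq, this, g2])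
  obtain ⟨s, h1, h2, h3⟩ := h.star g (g * x)
  have e0 : g • γ = (g * x) • γ := by rw [mul_smul, hγ]
  rcases Nat.even_or_odd (orderOf s) with he | ho'
  · exfalso
    obtain ⟨j, j1, j2⟩ := exists_inv_pow he
    have f : ∀ y : Ω, g • y = y ↔ (g * x) • y = y := fun y =>
      ⟨fun e => fix_of_le (hone _ _ k1 hgx j1 j2) (fun y hy => pow_fix (h2 y hy) j) (pow_fix (h1 y e) j),
       fun e => fix_of_le (hone _ _ g1 g2 j1 j2) (fun y hy => pow_fix (h1 y hy) j) (pow_fix (h2 y e) j)⟩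
    obtain ⟨c, hc⟩ := isConj_iff.1 (hone _ _ g1 g2 t1 t2)
    obtain ⟨t', Q, hS, hQ⟩ := BendCor.setup_one (not_comm hω t1 ht) (h.se hone hω t1 t2 ht)
    have m : ∀ s ∈ NF Ω t, s * s = 1 → s ∈ Q := fun s hs s2 =>
      RankOne.mem_Q_of_inv hS (by rw [← mem_stabilizer_iff, stabilizer_quotient]; exact hs) s2
    have m1 := m t (mem_NF_of_comm rfl) t2
    have m2 := m (c * (g * x) * c⁻¹) (mem_NF_of_fix fun y => by
      obtain ⟨y, rfl⟩ := MulAction.surjective c y
      rw [← hc, fix_conj, fix_conj, f]) (conj_sq _ hgx)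
    have m3 : c * x * c⁻¹ ∈ Q := by
      have := mul_mem m1 m2
      rw [← hc] at this
      convert this using 1
      calc _ = c * (g * g) * x * c⁻¹ := by rw [g2]; group
        _ = _ := by group
    obtain ⟨n, hn⟩ := hQ ⟨_, m3⟩
    have := congrArg Subtype.val hn
    simp only [SubgroupClass.coe_pow, conj_pow, OneMemClass.coe_one] at this
    exact conj_ne_one (hx n) c this
  · have e1 : g • g • γ = γ := by rw [← mul_smul, g2, one_smul]
    have e2 : g • g • γ = (g * x) • g • γ := by rw [e1, e0, ← mul_smul, hgx, one_smul]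
    have e3 : (s * s) • γ = γ := by rw [mul_smul, h3 γ e0, h3 _ e2, e1]
    obtain ⟨j, hj⟩ := ho'
    have e4 : s ^ (2 * j + 1) • γ = γ := by rw [← hj, pow_orderOf_eq_one, one_smul]
    rw [pow_succ', mul_smul, pow_mul, sq, pow_fix e3 j] at e4
    rw [← h3 γ e0, e4]

theorem Bin.bender (h : Bin G Ω) (hone : One G) {ω : Ω} (hω : stabilizer G ω ≠ ⊤) {t : G} (t1 : t ≠ 1)
    (t2 : t * t = 1) (ht : t • ω = ω) :
    (∃ (F : Type) (_ : Field F) (_ : Fintype F), (∃ n : ℕ, 2 ≤ n ∧ Fintype.card F = 2 ^ n) ∧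
      Nonempty (G ≃* Matrix.ProjectiveSpecialLinearGroup (Fin 2) F)) ∨ Cfsg.Lie.IsoSuzuki G ∨
    ∃ (F : Type) (_ : Field F) (_ : Fintype F) (n : ℕ), 2 ≤ n ∧ Fintype.card F = (2 ^ n) ^ 2 ∧
      Nonempty (G ≃* Cfsg.PSU 3 F (2 ^ n)) := by
  have hse := h.se hone hω t1 t2 ht
  obtain ⟨t', Q, hS, hQ⟩ := BendCor.setup_one (not_comm hω t1 ht) hse
  haveI : FaithfulSMul G (G ⧸ NF Ω t) := by
    refine ⟨fun {a b} hab => ?_⟩
    rcases (MulAction.toPermHom G (G ⧸ NF Ω t)).normal_ker.eq_bot_or_eq_top with h | h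
    · exact (MonoidHom.ker_eq_bot_iff _).1 h (Equiv.ext hab)
    · exfalso
      apply hse.1
      rw [eq_top_iff, ← stabilizer_quotient (NF Ω t)]
      intro g _
      have : g ∈ (MulAction.toPermHom G (G ⧸ NF Ω t)).ker := h ▸ mem_top g
      exact congrFun (congrArg (⇑) this) ((1 : G) : G ⧸ NF Ω t)
  rcases SuzCor.simple_cases hS (fun hc => not_comm hω t1 ht inferInstance) with
    ⟨-, e⟩ | ⟨-, e⟩ | ⟨-, F, _, _, n, n2, hn, -, e⟩
  · exact Or.inl e
  · exact Or.inr (Or.inl e)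
  · exact Or.inr (Or.inr ⟨F, _, _, n, n2, hn, e⟩)

omit [Finite G] [Finite Ω] [IsSimpleGroup G] [IsPretransitive G Ω] in
theorem bin_quot {G' : Type*} [Group G'] (e : G ≃* G') {H : Subgroup G} {H' : Subgroup G'}
    (h : ∀ g, g ∈ H ↔ e g ∈ H') : Bin G (G ⧸ H) → Bin G' (G' ⧸ H') := by
  let φ : G ⧸ H ≃ G' ⧸ H' := Quotient.congr e.toEquiv (fun a b => by
    rw [QuotientGroup.leftRel_apply, QuotientGroup.leftRel_apply, h, map_mul, map_inv]; rfl)
  have hφ : ∀ (g : G) (x : G ⧸ H), φ (g • x) = e g • φ x := fun g x => by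
    induction x using QuotientGroup.induction_on with
    | H a => exact congrArg (QuotientGroup.mk (s := H')) (e.map_mul g a)
  intro hb n I J hn hp
  obtain ⟨g, hg⟩ := hb n (φ.symm ∘ I) (φ.symm ∘ J) hn (fun i j hij => by
    obtain ⟨g, h1, h2⟩ := hp i j hij
    obtain ⟨g, rfl⟩ := e.surjective g
    exact ⟨g, φ.injective (by simpa [hφ] using h1), φ.injective (by simpa [hφ] using h2)⟩)
  exact ⟨e g, fun i => by simpa [hφ] using congrArg φ (hg i)⟩

end CA.Bin
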