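import Cfsg.Agent.Lib.Perm.Derange
import Cfsg.Agent.Lib.Perm.PrimFit
import Cfsg.Agent.Lib.Loc.AmbIso

/-! Derangements in doubly transitive groups. -/

set_option autoImplicit false

namespace CA.H2Der
open MulAction CA.PermBasic CA.PermMulti CA.Derange Finset
open scoped Classical

variable {G Ω : Type*} [Group G] [Fintype G] [MulAction G Ω] [Fintype Ω]

/-- fixed points -/
noncomputable def F (Ω : Type*) [MulAction G Ω] [Fintype Ω] (g : G) : Finset Ω := univ.filter fun x => g • x = x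
/-- two point stabilizer -/
noncomputable def St (G : Type*) [Group G] [Fintype G] [MulAction G Ω] (a b : Ω) : Finset G :=
  univ.filter fun g => g • a = a ∧ g • b = b
/-- line -/
noncomputable def L (G : Type*) [Group G] [Fintype G] [MulAction G Ω] (a b : Ω) : Finset Ω :=
  univ.filter fun x => ∀ g ∈ St G a b, g • x = x

omit [Fintype G] in
@[simp] theorem mem_F {g : G} {x : Ω} : x ∈ F Ω g ↔ g • x = x := by simp [F]
omit [Fintype Ω] in
@[simp] theorem mem_St {g : G} {a b : Ω} : g ∈ St G a b ↔ g • a = a ∧ g • b = b := by simp [St]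
theorem mem_L {x a b : Ω} : x ∈ L G a b ↔ ∀ g : G, g • a = a → g • b = b → g • x = x := by simp [L]

omit [Fintype G] in
theorem fx_eq (g : G) : fx Ω g = #(F Ω g) := by
  rw [fx, Nat.card_eq_fintype_card, Fintype.card_subtype]; rfl

omit [Fintype G] in
theorem card_F_conj (k g : G) : #(F Ω (k * g * k⁻¹)) = #(F Ω g) :=
  (card_nbij' (k⁻¹ • ·) (k • ·) (fun x => by simp [mul_smul, smul_eq_iff_eq_inv_smul k])
    (fun x => by simp [mul_smul]) (fun x _ => by simp) (fun x _ => by simp))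

omit [Fintype Ω] in
theorem sum_St (φ : G → ℚ) (hφ : ∀ k g, φ (k * g * k⁻¹) = φ g) (k : G) (a b : Ω) :
    ∑ g ∈ St G (k • a) (k • b), φ g = ∑ g ∈ St G a b, φ g :=
  (sum_nbij' (fun g => k * g * k⁻¹) (fun g => k⁻¹ * g * k) (fun g => by simp [mul_smul])
    (fun g => by simp [mul_smul, inv_smul_eq_iff]) (fun g _ => by group) (fun g _ => by group)
    fun g _ => (hφ k g).symm).symm

theorem card_L_smul (k : G) (a b : Ω) : #(L G (k • a) (k • b)) = #(L G a b) :=
  (card_nbij' (k⁻¹ • ·) (k • ·)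
    (fun x hx => mem_coe.2 (mem_L.2 fun g h1 h2 => by
      have := mem_L.1 hx (k * g * k⁻¹) (by simp [mul_smul, h1]) (by simp [mul_smul, h2])
      simpa [mul_smul, smul_eq_iff_eq_inv_smul k] using this))
    (fun x hx => mem_coe.2 (mem_L.2 fun g h1 h2 => by
      have := mem_L.1 hx (k⁻¹ * g * k) (by simp [mul_smul, h1]) (by simp [mul_smul, h2])
      simpa [mul_smul, inv_smul_eq_iff] using this)) (fun x _ => by simp) (fun x _ => by simp))

theorem left_mem_L (a b : Ω) : a ∈ L G a b := mem_L.2 fun _ h _ => h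
theorem right_mem_L (a b : Ω) : b ∈ L G a b := mem_L.2 fun _ _ h => h

variable (h2 : ∀ a b c d : Ω, a ≠ b → c ≠ d → ∃ g : G, g • a = c ∧ g • b = d) {α β : Ω} (hab : α ≠ β)
include h2 hab

theorem dbl (φ : G → ℚ) (hφ : ∀ k g, φ (k * g * k⁻¹) = φ g) :
    ∑ g, (#(F Ω g).offDiag : ℚ) * φ g = #(univ : Finset Ω).offDiag * ∑ g ∈ St G α β, φ g := by
  have : ∀ g, (#(F Ω g).offDiag : ℚ) * φ g = ∑ p ∈ (univ : Finset Ω).offDiag, if g ∈ St G p.1 p.2 then φ g else 0 :=
    fun g => by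
      rw [← sum_filter, sum_const, nsmul_eq_mul]
      congr 3; ext p; simp [and_comm, and_assoc, and_left_comm]
  rw [sum_congr rfl fun g _ => this g, sum_comm, ← nsmul_eq_mul, ← sum_const]
  refine sum_congr rfl fun p hp => ?_
  obtain ⟨k, h3, h4⟩ := h2 α β p.1 p.2 hab (mem_offDiag.1 hp).2.2
  rw [← sum_filter, filter_mem_eq_inter, univ_inter, ← h3, ← h4, sum_St φ hφ]

theorem card_G : Fintype.card G = #(univ : Finset Ω).offDiag * #(St G α β) := by
  rw [← card_univ, card_eq_sum_card_fiberwise (f := fun g : G => (g • α, g • β)) (t := univ.offDiag)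
    (fun g _ => by simpa using hab), ← smul_eq_mul, ← sum_const]
  refine sum_congr rfl fun p hp => ?_
  obtain ⟨k, h3, h4⟩ := h2 α β p.1 p.2 hab (mem_offDiag.1 hp).2.2
  exact card_nbij' (k⁻¹ * ·) (k * ·) (fun g => by simp [mul_smul, inv_smul_eq_iff, Prod.ext_iff, h3, h4])
    (fun g => by simp [mul_smul, Prod.ext_iff, ← h3, ← h4]) (fun x _ => by simp) (fun x _ => by simp)

theorem key : (Nat.card {g : G // ∀ ω : Ω, g • ω ≠ ω} : ℚ) =
    #(univ : Finset Ω).offDiag * ∑ g ∈ St G α β, ((#(F Ω g) : ℚ))⁻¹ := by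
  haveI : Nontrivial Ω := ⟨α, β, hab⟩
  haveI : IsPretransitive G Ω := ⟨fun a b => by
    obtain ⟨c, hc⟩ := exists_ne a
    obtain ⟨d, hd⟩ := exists_ne b
    exact (h2 a c b d hc.symm hd.symm).imp fun _ h => h.1⟩
  have h1 : ∑ g : G, (#(F Ω g) : ℚ) = ∑ g : G, 1 := by
    simp only [← fx_eq]
    rw [← Nat.cast_sum, sum_card_fixedBy_of_pretransitive]; simp
  rw [← dbl h2 hab _ fun k g => by rw [card_F_conj], Nat.card_eq_fintype_card, Fintype.card_subtype, card_filter,
    ← add_left_inj (∑ g : G, (#(F Ω g) : ℚ))]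
  nth_rw 2 [h1]
  rw [Nat.cast_sum, ← sum_add_distrib, ← sum_add_distrib]
  refine sum_congr rfl fun g _ => ?_
  simp only [← fx_eq_zero_iff, fx_eq, offDiag_card]
  rcases Nat.eq_zero_or_pos #(F Ω g) with e | e
  · simp [e]
  · rw [if_neg e.ne', Nat.cast_sub (Nat.le_mul_self _)]; push_cast; field_simp; ring

omit [Fintype Ω] in
theorem card_St {c d : Ω} (hcd : c ≠ d) : #(St G c d) = #(St G α β) := by
  obtain ⟨k, rfl, rfl⟩ := h2 α β c d hab hcd
  simpa using sum_St (fun _ => 1) (fun _ _ => rfl) k α β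

theorem L_eq {c d : Ω} (hcd : c ≠ d) (hc : c ∈ L G α β) (hd : d ∈ L G α β) : L G c d = L G α β := by
  unfold L
  rw [eq_of_subset_of_card_le (s := St G α β) (t := St G c d) (fun g hg => mem_St.2
    ⟨mem_L.1 hc g (mem_St.1 hg).1 (mem_St.1 hg).2, mem_L.1 hd g (mem_St.1 hg).1 (mem_St.1 hg).2⟩)
    (card_St h2 hab hcd).le]

theorem sub {U W : Finset Ω} (hU : ∀ a ∈ U, ∀ b ∈ U, a ≠ b → L G a b ⊆ U)
    (hW : ∀ a ∈ W, ∀ b ∈ W, a ≠ b → L G a b ⊆ W) (h : U ⊆ W) {p : Ω} (h3 : p ∈ W) (h4 : p ∉ U) :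
    #U * (#(L G α β) - 1) + 1 ≤ #W := by
  have ne : ∀ u ∈ U, p ≠ u := fun u hu e => h4 (e ▸ hu)
  have h5 := card_biUnion (s := U) (t := fun u => (L G p u).erase p) fun u hu v hv huv =>
    disjoint_left.2 fun x h6 h7 => by
      rw [mem_erase] at h6 h7
      have e := (L_eq h2 (ne u hu) h6.1.symm (left_mem_L _ _) h6.2).symm.trans
        (L_eq h2 (ne v hv) h6.1.symm (left_mem_L _ _) h7.2)
      exact h4 (hU u hu v hv huv (L_eq h2 (ne v hv) huv (e ▸ right_mem_L _ _) (right_mem_L _ _) ▸ left_mem_L _ _))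
  rw [sum_const_nat (m := #(L G α β) - 1) fun u hu => by
    obtain ⟨k, h6, h7⟩ := h2 α β p u hab (ne u hu)
    rw [card_erase_of_mem (left_mem_L _ _), ← h6, ← h7, card_L_smul]] at h5
  rw [← h5, ← card_erase_add_one h3]
  exact Nat.succ_le_succ (card_le_card (biUnion_subset.2 fun u hu =>
    erase_subset_erase _ (hW p h3 u (h hu) (ne u hu))))

omit h2 hab

/-- the target inequality -/
def Tg (G : Type*) [Group G] [Fintype G] [MulAction G Ω] (α β : Ω) : Prop :=
  2 * (#(St G α β) : ℚ) ≤ Fintype.card Ω * ∑ g ∈ St G α β, ((#(F Ω g) : ℚ))⁻¹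

theorem F_pos {g : G} (hg : g ∈ St G α β) : (0 : ℚ) < #(F Ω g) :=
  Nat.cast_pos.2 (card_pos.2 ⟨α, mem_F.2 (mem_St.1 hg).1⟩)

theorem split (α β : Ω) : (Fintype.card Ω : ℚ) * ∑ g ∈ St G α β, ((#(F Ω g) : ℚ))⁻¹ =
    1 + ∑ g ∈ (St G α β).erase 1, (Fintype.card Ω : ℚ) / #(F Ω g) := by
  haveI : Nonempty Ω := ⟨α⟩
  rw [mul_sum, ← add_sum_erase _ _ (show (1 : G) ∈ _ by simp), show F Ω (1 : G) = univ by ext; simp, card_univ,
    mul_inv_cancel₀ (by simp)]; rfl

theorem T1 (h : ∀ g ∈ St G α β, g ≠ 1 → 2 * #(F Ω g) ≤ Fintype.card Ω) {g : G} (h1 : g ∈ St G α β) (h3 : g ≠ 1)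
    (h4 : 3 * #(F Ω g) ≤ Fintype.card Ω) : Tg G α β := by
  have m1 : g ∈ (St G α β).erase 1 := mem_erase.2 ⟨h3, h1⟩
  have h5 := card_nsmul_le_sum (((St G α β).erase 1).erase g) (fun g => (Fintype.card Ω : ℚ) / #(F Ω g)) 2
    fun x hx => by
      have hx := mem_erase.1 (mem_erase.1 hx).2
      rw [le_div_iff₀ (F_pos hx.2)]; exact_mod_cast h x hx.2 hx.1
  have h6 : (3 : ℚ) ≤ (Fintype.card Ω : ℚ) / #(F Ω g) := by rw [le_div_iff₀ (F_pos h1)]; exact_mod_cast h4
  rw [Tg, split, ← add_sum_erase _ _ m1, ← card_erase_add_one (show (1 : G) ∈ _ by simp), ← card_erase_add_one m1]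
  rw [nsmul_eq_mul] at h5
  push_cast; linarith

theorem T2 (c : ℚ) (hc : 0 < c) (h : ∀ g ∈ St G α β, g ≠ 1 → #(F Ω g) ≤ c)
    (h1 : c * (2 * #(St G α β) - 1) ≤ Fintype.card Ω * (#(St G α β) - 1)) : Tg G α β := by
  have h5 := card_nsmul_le_sum ((St G α β).erase 1) (fun g => (Fintype.card Ω : ℚ) / #(F Ω g)) (Fintype.card Ω / c)
    fun x hx => div_le_div_of_nonneg_left (by positivity) (F_pos (mem_erase.1 hx).2)
      (h x (mem_erase.1 hx).2 (mem_erase.1 hx).1)
  rw [← card_erase_add_one (show (1 : G) ∈ _ by simp)] at h1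
  rw [Tg, split, ← card_erase_add_one (show (1 : G) ∈ _ by simp)]
  rw [nsmul_eq_mul, ← mul_div_assoc, div_le_iff₀ hc] at h5
  push_cast at h1 ⊢
  nlinarith

/-- the points in long orbits -/
noncomputable def Y (G : Type*) [Group G] [Fintype G] [MulAction G Ω] (α β : Ω) : Finset Ω :=
  univ.filter fun x => 3 ≤ Nat.card (orbit (stabilizer G (α, β)) x)

theorem T3 (h : 3 * #(L G α β) < #(Y G α β) + 3) : Tg G α β := by
  set H := stabilizer G (α, β)
  have e : St G α β = univ.filter (· ∈ H) := by ext; simp [H, Prod.ext_iff]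
  have e1 : #(St G α β) = Nat.card H := by rw [e, Nat.card_eq_fintype_card, Fintype.card_subtype]
  have h1 := sum_fx_subgroup (X := Ω) H
  simp only [fx_eq] at h1
  rw [← e] at h1
  have h2 : ∑ g ∈ St G α β, #(F Ω g) = ∑ x : Ω, Nat.card (stabilizer H x) := by
    simp only [F, card_filter]
    rw [sum_comm]
    refine sum_congr rfl fun x _ => ?_
    rw [Nat.card_eq_fintype_card, Fintype.card_subtype, card_filter, sum_subtype (p := (· ∈ H)) _ (by simp [e])]
    rfl
  have h3 : ∑ x : Ω, (6 * Nat.card (stabilizer H x) + Nat.card H * if x ∈ Y G α β then 1 else 0) ≤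
      ∑ x : Ω, (3 * Nat.card H + 3 * Nat.card H * if x ∈ L G α β then 1 else 0) := sum_le_sum fun x _ => by
    have h4 := card_orbit_mul_card_stabilizer (G := H) x
    have h5 : 0 < Nat.card (orbit H x) := @Nat.card_pos _ ⟨⟨x, mem_orbit_self x⟩⟩ _
    by_cases h6 : x ∈ Y G α β
    · have : 3 * _ ≤ Nat.card (orbit H x) * _ := Nat.mul_le_mul_right (Nat.card (stabilizer H x)) (mem_filter.1 h6).2
      simp only [h6, if_true]; omega
    by_cases h7 : x ∈ L G α β
    · have := Nat.mul_le_mul_right (Nat.card (stabilizer H x)) h5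
      simp only [h6, h7, if_true, if_false]; omega
    · have : 2 ≤ Nat.card (orbit H x) := Finite.one_lt_card_iff_nontrivial.2 (by
        rw [mem_L] at h7; push Not at h7
        obtain ⟨g, a, b, c⟩ := h7
        exact ⟨⟨_, (⟨g, Prod.ext a b⟩ : H), rfl⟩, ⟨x, mem_orbit_self x⟩, fun e => c (congrArg Subtype.val e)⟩)
      have := Nat.mul_le_mul_right (Nat.card (stabilizer H x)) this
      simp only [h6, h7, if_false]; omega
  rw [sum_add_distrib, sum_add_distrib, ← mul_sum, ← mul_sum, ← mul_sum, ← mul_sum, ← h2, h1, ← card_filter,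
    ← card_filter, filter_mem_eq_inter, filter_mem_eq_inter, univ_inter, univ_inter, sum_const, card_univ,
    smul_eq_mul] at h3
  have h4 : 2 * Nat.card (orbitRel.Quotient H Ω) ≤ Fintype.card Ω := by
    have : 0 < Nat.card H := Nat.card_pos
    by_contra! h5
    nlinarith
  have h5 : (0 : ℚ) < Fintype.card Ω := Nat.cast_pos.2 (Fintype.card_pos_iff.2 ⟨α⟩)
  have h6 := sum_le_sum (s := St G α β) (f := fun g => 4 - 4 / (Fintype.card Ω : ℚ) * #(F Ω g))
    (g := fun g => (Fintype.card Ω : ℚ) * ((#(F Ω g) : ℚ))⁻¹) fun g hg => by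
      have := F_pos hg
      rw [← div_eq_mul_inv, le_div_iff₀ this, ← sub_nonneg]
      calc (0 : ℚ) ≤ (Fintype.card Ω - 2 * #(F Ω g)) ^ 2 / Fintype.card Ω := by positivity
        _ = _ := by field_simp; ring
  rw [sum_sub_distrib, ← mul_sum, ← mul_sum, ← Nat.cast_sum, h1, sum_const, nsmul_eq_mul, ← e1] at h6
  refine le_trans ?_ h6
  have h7 : 4 / (Fintype.card Ω : ℚ) * Nat.card (orbitRel.Quotient H Ω) ≤ 2 := by
    rw [div_mul_eq_mul_div, div_le_iff₀ h5]
    have : (2 * Nat.card (orbitRel.Quotient H Ω) : ℚ) ≤ Fintype.card Ω := by exact_mod_cast h4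
    linarith
  push_cast
  nlinarith [mul_le_mul_of_nonneg_right h7 (Nat.cast_nonneg #(St G α β))]

theorem mem_Y {g : G} (hg : g ∈ St G α β) {x : Ω} (hx : (g * g) • x ≠ x) : x ∈ Y G α β := by
  refine mem_filter.2 ⟨mem_univ _, ?_⟩
  by_contra! h
  rw [card_orbit_eq_index] at h
  have h1 := (stabilizer (stabilizer G (α, β)) x).index_ne_zero_of_finite
  refine hx (show (_ * _ : stabilizer G (α, β)) ∈ stabilizer _ x from ?_ : ((⟨g, Prod.ext (mem_St.1 hg).1
    (mem_St.1 hg).2⟩ * ⟨g, Prod.ext (mem_St.1 hg).1 (mem_St.1 hg).2⟩ : stabilizer G (α, β))) • x = x)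
  rcases (by omega : (stabilizer (stabilizer G (α, β)) x).index = 1 ∨
    (stabilizer (stabilizer G (α, β)) x).index = 2) with e | e
  · rw [Subgroup.index_eq_one.1 e]; trivial
  · exact Subgroup.mul_self_mem_of_index_two e _

theorem Y_inv {g : G} (hg : g ∈ St G α β) {x : Ω} : g • x ∈ Y G α β ↔ x ∈ Y G α β := by
  simp only [Y, mem_filter, mem_univ, true_and]
  rw [show g • x = (⟨g, Prod.ext (mem_St.1 hg).1 (mem_St.1 hg).2⟩ : stabilizer G (α, β)) • x from rfl, orbit_smul]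

theorem not_mem_Y {x : Ω} (hx : x ∈ L G α β) : x ∉ Y G α β := fun h => by
  have : Subsingleton (orbit (stabilizer G (α, β)) x) := ⟨by
    rintro ⟨_, g, rfl⟩ ⟨_, k, rfl⟩
    exact Subtype.ext ((mem_L.1 hx g (congrArg Prod.fst g.2) (congrArg Prod.snd g.2)).trans
      (mem_L.1 hx k (congrArg Prod.fst k.2) (congrArg Prod.snd k.2)).symm)⟩
  have := Finite.card_le_one_iff_subsingleton.2 this
  have := (mem_filter.1 h).2
  omega

variable [FaithfulSMul G Ω]

theorem exists_mv {g : G} (h : g ≠ 1) : ∃ x : Ω, g • x ≠ x := by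
  by_contra! h1; exact h (eq_one_of_forall_smul h1)

include h2 hab

theorem four_le (hn : 7 ≤ Fintype.card Ω) (hL : #(L G α β) ≤ 2) {g : G} (hg : g ∈ St G α β) (h1 : g * g ≠ 1) :
    4 ≤ #(Y G α β) := by
  by_contra! h3
  have m : g * g ∈ St G α β := by simp [mul_smul, mem_St.1 hg]
  have mv : ∀ x, x ∉ Y G α β → (g * g) • x = x := fun x hx => by_contra fun e => hx (mem_Y hg e)
  obtain ⟨a, ha⟩ := exists_mv (Ω := Ω) h1
  have aY := mem_Y hg ha
  generalize g * g = ρ at *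
  obtain ⟨u, -, hu⟩ := exists_mem_notMem_of_card_lt_card (s := Y G α β ∪ L G α β) (t := univ)
    (by have := card_union_le (Y G α β) (L G α β); rw [card_univ]; omega)
  rw [mem_union, not_or] at hu
  have ua : u ≠ a := fun e => hu.1 (e ▸ aY)
  obtain ⟨k, k1, k2⟩ := h2 a (ρ • a) u a ha.symm ua
  have t1 : (k * ρ * k⁻¹) • u = a := by rw [← k1, mul_smul, mul_smul, inv_smul_smul, k2]
  have t2 : ∀ x y z w : Ω, (k * ρ * k⁻¹) • x ≠ x → (k * ρ * k⁻¹) • y ≠ y → (k * ρ * k⁻¹) • z ≠ z →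
      (k * ρ * k⁻¹) • w ≠ w → x ≠ y → x ≠ z → y ≠ z → w = x ∨ w = y ∨ w = z := fun x y z w hx hy hz hw a b c => by
    have e : ∀ x : Ω, (k * ρ * k⁻¹) • x ≠ x → x ∈ (Y G α β).image (k • ·) := fun x hx => mem_image.2
      ⟨k⁻¹ • x, by_contra fun e => hx (by rw [mul_smul, mul_smul, mv _ e, smul_inv_smul]), smul_inv_smul k x⟩
    by_contra! h4
    have := (card_le_card (show {w, x, y, z} ⊆ (Y G α β).image (k • ·) by
      simp only [insert_subset_iff, singleton_subset_iff]; exact ⟨e w hw, e x hx, e y hy, e z hz⟩)).trans card_image_le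
    rw [card_insert_of_notMem (by simp [h4]), card_eq_three.2 ⟨x, y, z, a, b, c, rfl⟩] at this
    omega
  generalize k * ρ * k⁻¹ = τ at *
  have t3 : τ • u ≠ u := t1 ▸ ua.symm
  have t4 : τ • a ≠ a := fun e => ua (smul_left_cancel τ (t1.trans e.symm))
  have t5 : ∀ w ∈ L G α β, (τ⁻¹ * ρ⁻¹ * τ) • w = w := fun w hw => by
    have : τ • w ∉ Y G α β := fun e => by
      have e1 : τ • w ≠ w := fun e1 => not_mem_Y hw (e1 ▸ e)
      have uw : u ≠ w := fun e => hu.2 (e ▸ hw)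
      rcases t2 u a w (τ • w) t3 t4 e1 (fun e => e1 (smul_left_cancel τ e)) ua uw
        (fun e => not_mem_Y hw (e ▸ aY)) with e2 | e2 | e2
      exacts [hu.1 (e2 ▸ e), uw (smul_left_cancel τ (t1.trans e2.symm)), e1 e2]
    rw [mul_smul, mul_smul, inv_smul_eq_iff.2 (mv _ this).symm, inv_smul_smul]
  refine hu.1 ((Y_inv (mem_St.2 ⟨t5 _ (left_mem_L _ _), t5 _ (right_mem_L _ _)⟩)).1 ?_)
  rw [mul_smul, mul_smul, t1]
  have c1 : ρ⁻¹ • a ∈ Y G α β := (Y_inv m).1 (by rwa [smul_inv_smul])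
  have c2 : a ≠ ρ⁻¹ • a := fun e => ha (eq_inv_smul_iff.1 e)
  generalize ρ⁻¹ • a = c at *
  by_cases e : τ • c = c
  · rwa [inv_smul_eq_iff.2 e.symm]
  rcases t2 u a c (τ⁻¹ • c) t3 t4 e (fun f => e (by rw [smul_inv_smul, eq_inv_smul_iff] at f; exact f)) ua
    (fun e => hu.1 (e ▸ c1)) c2 with f | f | f
  · exact absurd (t1.symm.trans (inv_smul_eq_iff.1 f).symm) c2
  · rwa [f]
  · rwa [f]

omit hab in
theorem prim : IsPreprimitive G Ω := isPreprimitive_of_is_two_pretransitive (two_iff.2 h2)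

theorem elem (h : ∀ g ∈ St G α β, g * g = 1) {t : G} (ht : t ∈ St G α β) (h1 : t ≠ 1) :
    3 * #(F Ω t) ≤ Fintype.card Ω + 2 := by
  haveI := prim h2
  haveI := Fact.mk Nat.prime_two
  obtain ⟨v, v1, v2, v3⟩ := CA.AmbIso.exists_inverted (h t ht) fun e => by
    obtain ⟨h3, -, h4, -⟩ := CA.PrimFit.nilpotent_normal (X := Ω) (Cfsg.pCore 2 G)
      (fun f => h1 (Subgroup.mem_bot.1 (f ▸ e))) (CA.Core.isPGroup_pCore (p := 2)).isNilpotent
    exact h1 ((subgroup_stabilizer_eq_bot_iff _ α).1 (regular_of_comm _ h4 h3 α) t e (mem_St.1 ht).1)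
  have od : ∀ (x : Ω) (w : G), Odd (orderOf w) → (w * w) • x = x → w • x = x := fun x w hw e => by
    obtain ⟨k, hk⟩ := hw
    have : (w * w) ^ (k + 1) = w := by
      rw [← pow_two, ← pow_mul, show 2 * (k + 1) = 2 * k + 1 + 1 by ring, pow_succ, ← hk, pow_orderOf_eq_one, one_mul]
    exact this ▸ pow_mem (show w * w ∈ stabilizer G x from e) (k + 1)
  have c1 : #(F Ω v) ≤ 1 := card_le_one.2 fun a ha b hb => by_contra fun e => by
    obtain ⟨k, h3, h4⟩ := h2 a b α β e hab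
    have := h (k * v * k⁻¹) (by simp [← h3, ← h4, mul_smul, mem_F.1 ha, mem_F.1 hb])
    rw [conj_mul, conj_eq_one_iff] at this
    exact v1 (eq_one_of_forall_smul (X := Ω) fun x => od x v v2 (by rw [this, one_smul]))
  have d : ∀ w : G, t * w * t⁻¹ = w⁻¹ → ∀ x y : Ω, t • x = x → t • y = y → w • x = y → (w * w) • x = x :=
    fun w hw x y hx hy e => by
      rw [← e, ← mul_smul, mul_inv_eq_iff_eq_mul.1 hw, mul_smul, hx, inv_smul_eq_iff, ← mul_smul] at hy
      exact hy.symm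
  set A := F Ω t \ F Ω v
  have A1 : ∀ x ∈ A, ∀ y ∈ A, v • x ≠ y := fun x hx y hy e => (mem_sdiff.1 hx).2
    (mem_F.2 (od x v v2 (d v v3 x y (mem_F.1 (mem_sdiff.1 hx).1) (mem_F.1 (mem_sdiff.1 hy).1) e)))
  have A2 : ∀ x ∈ A, ∀ y ∈ A, v • v • x ≠ y := fun x hx y hy e => (mem_sdiff.1 hx).2
    (mem_F.2 (od x v v2 (od x (v * v) (v2.of_dvd_nat (pow_two v ▸ orderOf_pow_dvd 2))
      (d (v * v) (by rw [← conj_mul, v3, mul_inv_rev]) x y (mem_F.1 (mem_sdiff.1 hx).1) (mem_F.1 (mem_sdiff.1 hy).1)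
        (by rwa [mul_smul])))))
  have inj : ∀ s : Finset Ω, #(s.image (v • ·)) = #s := fun s => card_image_of_injective s (MulAction.injective v)
  have D1 : Disjoint (A.image (v • ·)) A := disjoint_left.2 fun y h3 hy => by
    obtain ⟨x, hx, e⟩ := mem_image.1 h3; exact A1 x hx y hy e
  have D2 : Disjoint ((A.image (v • ·) ∪ A).image (v • ·)) A := disjoint_left.2 fun y h3 hy => by
    obtain ⟨x, hx, e⟩ := mem_image.1 h3
    rcases mem_union.1 hx with hx | hx
    · obtain ⟨z, hz, rfl⟩ := mem_image.1 hx; exact A2 z hz y hy e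
    · exact A1 x hx y hy e
  have h3 := card_le_card (show (A.image (v • ·) ∪ A).image (v • ·) ∪ A ⊆ univ \ F Ω v from fun x hx => by
    simp only [A, mem_union, mem_image, mem_sdiff, mem_F, mem_univ, true_and] at hx ⊢
    rcases hx with ⟨_, ⟨z, hz, rfl⟩ | hz, rfl⟩ | hz
    exacts [by simpa using hz.2, by simpa using hz.2, hz.2])
  rw [card_union_of_disjoint D2, inj, card_union_of_disjoint D1, inj, card_univ_sdiff] at h3
  have h4 : _ ≤ #A + _ := card_le_card_sdiff_add_card (s := F Ω t) (t := F Ω v)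
  have h5 := card_le_univ (F Ω v)
  omega

theorem T4 (hn : 7 ≤ Fintype.card Ω) (hm : 2 ≤ #(St G α β)) (h : ∀ g ∈ St G α β, g ≠ 1 → #(F Ω g) ≤ 3) :
    Tg G α β := by
  by_cases h1 : 3 * (2 * #(St G α β)) + Fintype.card Ω ≤ Fintype.card Ω * #(St G α β) + 3
  · refine T2 3 (by norm_num) (fun g a b => by exact_mod_cast h g a b) ?_
    have : (3 * (2 * #(St G α β)) + Fintype.card Ω : ℚ) ≤ Fintype.card Ω * #(St G α β) + 3 := by exact_mod_cast h1
    linarith
  have h3 : Fintype.card Ω ≤ 8 := by nlinarith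
  haveI := prim h2
  rcases (by omega : Fintype.card Ω = 8 ∨ Fintype.card Ω = 7) with e | e
  · have e1 : #(St G α β) = 2 := by rw [e] at h1; omega
    refine T2 2 two_pos (fun g a b => ?_) (by rw [e, e1]; norm_num)
    have h4 : g ^ 2 ^ 1 = 1 := by
      have := pow_card_eq_one' (x := (⟨g, Prod.ext (mem_St.1 a).1 (mem_St.1 a).2⟩ : stabilizer G (α, β)))
      rw [Nat.card_eq_fintype_card, Fintype.card_subtype, show univ.filter _ = St G α β by
        ext; simp [Prod.ext_iff], e1] at this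
      exact congrArg Subtype.val this
    haveI := Fact.mk Nat.prime_two
    have h5 := ncard_modEq_fixedBy (X := Ω) h4 Set.univ Set.finite_univ fun _ _ => trivial
    rw [Set.ncard_univ, Nat.card_eq_fintype_card, e, show {x ∈ Set.univ | g • x = x} = (F Ω g : Set Ω) by ext; simp,
      Set.ncard_coe_finset, Nat.ModEq] at h5
    have := h g a b
    exact_mod_cast (by omega : #(F Ω g) ≤ 2)
  exfalso
  have h4 := card_G h2 hab
  rw [offDiag_card, card_univ, e, ← Nat.card_eq_fintype_card] at h4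
  rw [e] at h1
  haveI : Fact (Nat.Prime 7) := ⟨by norm_num⟩
  obtain ⟨P⟩ : Nonempty (Sylow 7 G) := inferInstance
  have h5 := P.card_eq_multiplicity
  have h6 := (P : Subgroup G).card_mul_index
  have h7 := P.card_dvd_index
  have h8 := card_sylow_modEq_one 7 G
  have h9 : Nat.card P = 7 ∧ Nat.card (Sylow 7 G) = 1 := by
    rcases (by omega : #(St G α β) = 2 ∨ #(St G α β) = 3) with e | e <;> rw [e] at h4 <;> rw [h4] at h5 h6 <;>
    · have h9 : Nat.card P = 7 := by rw [h5]; decide +kernel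
      rw [h9] at h6
      refine ⟨h9, ?_⟩
      obtain e : (P : Subgroup G).index = _ := (Nat.div_eq_of_eq_mul_right (by norm_num) h6.symm).symm
      rw [e] at h7
      have := Nat.le_of_dvd (by norm_num) h7
      generalize Nat.card (Sylow 7 G) = x at *
      norm_num at this
      interval_cases x <;> simp_all [Nat.ModEq]
  haveI := (Nat.card_eq_one_iff_unique.1 h9.2).1
  haveI := P.normal_of_subsingleton
  haveI := isCyclic_of_prime_card h9.1
  obtain ⟨-, -, -, h10, -⟩ := CA.PrimFit.nilpotent_normal (X := Ω) (P : Subgroup G)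
    (fun f => by rw [f] at h9; simp at h9) P.2.isNilpotent
  have h11 := (MulAut.conjNormal (H := (P : Subgroup G))).ker.card_mul_index
  have h12 : Nat.card (MulAut.conjNormal (H := (P : Subgroup G))).ker ≤ 7 := (Subgroup.card_le_of_le fun x hx =>
    h10 fun y hy => (mul_inv_eq_iff_eq_mul.1 (congrArg (fun f : MulAut (P : Subgroup G) => (f ⟨y, hy⟩ : G))
      (MonoidHom.mem_ker.1 hx))).symm).trans h9.1.le
  have h13 := Subgroup.card_le_card_group (MulAut.conjNormal (H := (P : Subgroup G))).range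
  rw [← Subgroup.index_ker, IsCyclic.card_mulAut, h9.1, Nat.totient_prime Fact.out] at h13
  have := Nat.mul_le_mul h12 h13
  omega

theorem main (hn : 7 ≤ Fintype.card Ω) (hm : 2 ≤ #(St G α β)) : Tg G α β := by
  have cl : ∀ g : G, ∀ a ∈ F Ω g, ∀ b ∈ F Ω g, a ≠ b → L G a b ⊆ F Ω g := fun g a ha b hb _ x hx =>
    mem_F.2 (mem_L.1 hx g (mem_F.1 ha) (mem_F.1 hb))
  have s1 : ∀ g : G, g ≠ 1 → #(F Ω g) * (#(L G α β) - 1) + 1 ≤ Fintype.card Ω := fun g hg => by
    obtain ⟨p, hp⟩ := exists_mv (Ω := Ω) hg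
    exact sub h2 hab (cl g) (fun _ _ _ _ _ => subset_univ _) (subset_univ _) (mem_univ p) (mt mem_F.1 hp)
  obtain ⟨g, g1, g2⟩ := exists_mem_ne hm 1
  by_cases f4 : 4 ≤ #(L G α β)
  · have : ∀ g : G, g ≠ 1 → 3 * #(F Ω g) ≤ Fintype.card Ω := fun g hg => by
      have := s1 g hg
      have := Nat.mul_le_mul_left #(F Ω g) (show 3 ≤ #(L G α β) - 1 by omega)
      omega
    exact T1 (fun g _ hg => by have := this g hg; omega) g1 g2 (this g g2)
  by_cases m4 : #(St G α β) ≤ 3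
  · refine T4 h2 hab hn hm fun g a b => le_trans (card_le_card fun x hx => mem_L.2 fun k k1 k2 => ?_) (by omega :
      #(L G α β) ≤ 3)
    have e : Nat.card (stabilizer G (α, β)) = #(St G α β) := by
      rw [Nat.card_eq_fintype_card, Fintype.card_subtype]; congr 1; ext; simp [Prod.ext_iff]
    haveI : Fact (#(St G α β)).Prime := ⟨by
      rcases (by omega : #(St G α β) = 2 ∨ #(St G α β) = 3) with e | e <;> rw [e] <;> norm_num⟩
    obtain ⟨j, hj⟩ := mem_zpowers_of_prime_card e (g := ⟨g, Prod.ext (mem_St.1 a).1 (mem_St.1 a).2⟩)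
      (g' := ⟨k, Prod.ext k1 k2⟩) fun e => b (congrArg Subtype.val e)
    obtain rfl : g ^ j = k := congrArg Subtype.val hj
    exact zpow_mem (show g ∈ stabilizer G x from mem_F.1 hx) j
  by_cases he : ∀ g ∈ St G α β, g * g = 1
  · refine T2 ((Fintype.card Ω + 2) / 3) (by positivity) (fun t a b => ?_) ?_
    · have : (3 * #(F Ω t) : ℚ) ≤ Fintype.card Ω + 2 := by exact_mod_cast elem h2 hab he a b
      linarith
    · have h3 : (7 : ℚ) ≤ Fintype.card Ω := by exact_mod_cast hn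
      have h4 : (4 : ℚ) ≤ #(St G α β) := by exact_mod_cast (by omega : 4 ≤ #(St G α β))
      nlinarith [mul_nonneg (sub_nonneg.2 h3) (sub_nonneg.2 h4)]
  push Not at he
  obtain ⟨g, g1, g2⟩ := he
  by_cases f2 : #(L G α β) ≤ 2
  · have := four_le h2 hab hn f2 g1 g2
    exact T3 (by omega)
  have f3 : #(L G α β) = 3 := by omega
  simp only [f3] at s1
  have m : g * g ∈ St G α β := by simp [mul_smul, mem_St.1 g1]
  have h3 : L G α β ⊆ F Ω (g * g) := fun x hx => mem_F.2 (mem_L.1 hx _ (mem_St.1 m).1 (mem_St.1 m).2)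
  by_cases h4 : F Ω (g * g) ⊆ L G α β
  · have := card_le_card h4
    by_cases n9 : 9 ≤ Fintype.card Ω
    · exact T1 (fun g _ hg => by have := s1 g hg; omega) m g2 (by omega)
    · exact T4 h2 hab hn hm fun g _ hg => by have := s1 g hg; omega
  obtain ⟨p, p1, p2⟩ := not_subset.1 h4
  have h5 := sub h2 hab (fun a ha b hb e => (L_eq h2 hab e ha hb).le) (cl _) h3 p1 p2
  have h6 := card_le_card (show univ \ F Ω (g * g) ⊆ Y G α β from fun x hx =>
    mem_Y g1 (mt mem_F.2 (mem_sdiff.1 hx).2))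
  rw [card_univ_sdiff] at h6
  rw [f3] at h5
  have := s1 _ g2
  exact T3 (by omega)

end CA.H2Der
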