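import Mathlib
import Cfsg.Agent.Lib.Perm.SRing
import Cfsg.Agent.Lib.Perm.PermMulti

/-! Primitive Schur rings over a generalized dihedral group: basic facts. -/

set_option autoImplicit false
open MonoidAlgebra Finset CA.SRing

namespace CA.H4Dih

section Gen
variable {D : Type*} [Group D] [Fintype D]

/-- The element of the group ring with the given coefficients. -/
noncomputable def fn (f : D → ℤ) : MonoidAlgebra ℤ D := ofCoeff (Finsupp.equivFunOnFinite.symm f)

omit [Group D] in
@[simp] theorem coeff_fn (f : D → ℤ) (g : D) : (fn f).coeff g = f g := rfl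

theorem coeff_mul_sum (x y : MonoidAlgebra ℤ D) (g : D) :
    (x * y).coeff g = ∑ h, x.coeff h * y.coeff (h⁻¹ * g) := by
  rw [coeff_mul_apply_left, Finsupp.sum_fintype]
  simp

open Classical in
/-- Indicator of a set. -/
noncomputable def ind (Y : D → Prop) : MonoidAlgebra ℤ D := fn fun g => if Y g then 1 else 0

open Classical in
omit [Group D] in
theorem coeff_ind (Y : D → Prop) (g : D) : (ind Y).coeff g = if Y g then 1 else 0 := rfl

omit [Group D] in
theorem coeff_ind_pos {Y : D → Prop} {g : D} (h : Y g) : (ind Y).coeff g = 1 := by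
  rw [coeff_ind, if_pos h]

omit [Group D] in
theorem coeff_ind_neg {Y : D → Prop} {g : D} (h : ¬ Y g) : (ind Y).coeff g = 0 := by
  rw [coeff_ind, if_neg h]

open Classical in
theorem coeff_ind_mul (Y Z : D → Prop) (g : D) :
    (ind Y * ind Z).coeff g = #{a | Y a ∧ Z (a⁻¹ * g)} := by
  rw [coeff_mul_sum, Finset.card_filter]
  push_cast
  refine Finset.sum_congr rfl fun a _ => ?_
  rw [coeff_ind, coeff_ind]
  by_cases h1 : Y a <;> by_cases h2 : Z (a⁻¹ * g) <;> simp [h1, h2]

theorem ind_mul_ne_zero {Y Z : D → Prop} {g : D} :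
    (ind Y * ind Z).coeff g ≠ 0 ↔ ∃ a b, Y a ∧ Z b ∧ a * b = g := by
  classical
  rw [coeff_ind_mul, Ne, Nat.cast_eq_zero, Finset.card_eq_zero, Finset.filter_eq_empty_iff]
  push Not
  constructor
  · rintro ⟨a, -, h1, h2⟩
    exact ⟨a, _, h1, h2, by simp⟩
  · rintro ⟨a, b, h1, h2, rfl⟩
    exact ⟨a, mem_univ _, h1, by simpa using h2⟩

/-- Constant on the classes of `E`. -/
def Inv (E : D → D → Prop) (x : MonoidAlgebra ℤ D) : Prop :=
  ∀ g h, E g h → x.coeff g = x.coeff h

/-- A primitive Schur ring. -/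
structure SR (E : D → D → Prop) : Prop where
  eqv : Equivalence E
  one : ∀ g, E g 1 → g = 1
  inv : ∀ g h, E g h → E g⁻¹ h⁻¹
  mul : ∀ x y, Inv E x → Inv E y → Inv E (x * y)
  prim : ∀ Y : D → Prop, (∀ g h, E g h → Y g → Y h) → Y 1 → (∀ g h, Y g → Y h → Y (g * h)) →
    (∀ g, Y g → g = 1) ∨ ∀ g, Y g

variable {E : D → D → Prop}

omit [Fintype D] in
theorem Inv.sub {x y : MonoidAlgebra ℤ D} (hx : Inv E x) (hy : Inv E y) : Inv E (x - y) :=
  fun g h e => by simp only [coeff_sub, Finsupp.sub_apply, hx g h e, hy g h e]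

omit [Fintype D] in
theorem Inv.add {x y : MonoidAlgebra ℤ D} (hx : Inv E x) (hy : Inv E y) : Inv E (x + y) :=
  fun g h e => by simp only [coeff_add, Finsupp.add_apply, hx g h e, hy g h e]

omit [Fintype D] in
theorem Inv.nsmul {x : MonoidAlgebra ℤ D} (hx : Inv E x) (n : ℕ) : Inv E (n • x) :=
  fun g h e => by simp only [coeff_smul, Finsupp.smul_apply, hx g h e]

namespace SR
variable (h : SR E)
include h

theorem inv_ind {Y : D → Prop} (hY : ∀ g g', E g g' → Y g → Y g') : Inv E (ind Y) := by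
  classical
  intro g g' e
  rw [coeff_ind, coeff_ind]
  exact if_congr ⟨hY _ _ e, hY _ _ (h.eqv.symm e)⟩ rfl rfl

theorem inv_cls (g : D) : Inv E (ind (E g)) := h.inv_ind fun _ _ e e' => h.eqv.trans e' e

theorem inv_one : Inv E 1 := by
  classical
  intro g g' e
  rw [one_def, coeff_single, Finsupp.single_apply, Finsupp.single_apply]
  refine if_congr ⟨?_, ?_⟩ rfl rfl
  · rintro rfl; exact (h.one _ (h.eqv.symm e)).symm
  · rintro rfl; exact (h.one _ e).symm

theorem inv_pow {x : MonoidAlgebra ℤ D} (hx : Inv E x) (n : ℕ) : Inv E (x ^ n) := by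
  induction n with
  | zero => simpa using h.inv_one
  | succ n ih => rw [pow_succ]; exact h.mul _ _ ih hx

theorem ne_one {g g' : D} (e : E g g') (hg : g ≠ 1) : g' ≠ 1 := by
  rintro rfl; exact hg (h.one _ e)

theorem prim' (L : D → Prop) (h1 : L 1) (hm : ∀ g g', L g → L g' → L (g * g')) (hL : ∃ g, ¬ L g)
    {g : D} (hg : g ≠ 1) : ∃ g', E g g' ∧ ¬ L g' := by
  by_contra hcon
  push Not at hcon
  have hcl : ∀ a b, E a b → (∀ c, E a c → L c) → ∀ c, E b c → L c :=
    fun a b e ha c e' => ha c (h.eqv.trans e e')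
  rcases h.prim (fun a => ∀ c, E a c → L c) hcl
    (fun c e => by rw [h.one _ (h.eqv.symm e)]; exact h1) (fun a b ha hb c e => by
      have h2 := h.mul _ _ (h.inv_ind hcl) (h.inv_ind hcl) _ _ e
      obtain ⟨u, v, hu, hv, rfl⟩ := ind_mul_ne_zero.1 (h2 ▸ ind_mul_ne_zero.2 ⟨a, b, ha, hb, rfl⟩)
      exact hm _ _ (hu _ (h.eqv.refl _)) (hv _ (h.eqv.refl _))) with h2 | h2
  · exact hg (h2 g hcon)
  · obtain ⟨a, ha⟩ := hL
    exact ha (h2 a a (h.eqv.refl _))

theorem prim'' (hs : ∀ g, E g g⁻¹) (Y : D → Prop) (hY : ∀ g g', E g g' → Y g → Y g')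
    {a b z : D} (ha : Y a) (hb : ¬ Y b) (hz : z ≠ 1) (hYz : ∀ g, Y g → Y (g * z)) : False := by
  classical
  have key : ∀ g, (∀ c, Y c → Y (c * g)) ↔ (ind Y * ind Y).coeff g = #{c | Y c} := by
    intro g
    rw [coeff_ind_mul, Nat.cast_inj]
    constructor
    · intro hg
      congr 1
      ext c
      simp only [mem_filter, mem_univ, true_and, and_iff_left_iff_imp]
      exact fun hc => hg _ (hY _ _ (hs c) hc)
    · intro hg c hc
      have := Finset.eq_of_subset_of_card_le (s := {a | Y a ∧ Y (a⁻¹ * g)}) (t := {c | Y c})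
        (fun a ha => by simp only [mem_filter, mem_univ, true_and] at ha ⊢; exact ha.1) hg.ge
      have h3 : c⁻¹ ∈ ({a | Y a ∧ Y (a⁻¹ * g)} : Finset D) := by
        rw [this]; simpa using hY _ _ (hs c) hc
      simpa using (mem_filter.1 h3).2.2
  rcases h.prim (fun g => ∀ c, Y c → Y (c * g)) (fun g g' e hg => by
      rw [key] at hg ⊢
      rw [← hg]; exact (h.mul _ _ (h.inv_ind hY) (h.inv_ind hY) _ _ e).symm)
    (fun c hc => by simpa using hc) (fun g g' hg hg' c hc => by
      rw [← mul_assoc]; exact hg' _ (hg _ hc)) with h2 | h2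
  · exact hz (h2 z hYz)
  · exact hb (by simpa using h2 (a⁻¹ * b) a ha)

theorem comm (hs : ∀ g, E g g⁻¹) {x y : MonoidAlgebra ℤ D} (hx : Inv E x) (hy : Inv E y) :
    Commute x y := by
  show x * y = y * x
  ext g
  rw [h.mul _ _ hx hy _ _ (hs g), coeff_mul_sum, coeff_mul_sum,
    ← Equiv.sum_comp (Equiv.mulLeft g⁻¹)]
  refine Finset.sum_congr rfl fun a _ => ?_
  rw [mul_comm, hy _ _ (hs a), hx _ _ (hs (a⁻¹ * g))]
  simp [mul_assoc]

end SR

end Gen

/-- The Schur ring of a primitive group with a regular subgroup. -/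
theorem SR_of_action {G Ω D : Type*} [Group G] [MulAction G Ω] [Group D] [Fintype D]
    (hprim : MulAction.IsPreprimitive G Ω) (φ : D →* G) (o : Ω)
    (hbij : Function.Bijective fun d => φ d • o) :
    SR (fun d d' : D => ∃ g : G, g • o = o ∧ g • φ d • o = φ d' • o) := by
  let e := Equiv.ofBijective _ hbij
  have he : ∀ x, φ (e.symm x) • o = x := fun x => e.apply_symm_apply x
  have key : ∀ (g : G) (a b a' b' : D), g • φ a • o = φ a' • o → g • φ b • o = φ b' • o →
      ∃ u : G, u • o = o ∧ u • φ (a⁻¹ * b) • o = φ (a'⁻¹ * b') • o := by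
    intro g a b a' b' h1 h2
    refine ⟨(φ a')⁻¹ * g * φ a, ?_, ?_⟩
    · rw [mul_smul, mul_smul, h1, inv_smul_smul]
    · rw [map_mul, map_mul, map_inv, map_inv, mul_smul, mul_smul, mul_smul, smul_inv_smul, h2,
        mul_smul]
  refine ⟨⟨fun d => ⟨1, one_smul _ _, one_smul _ _⟩, ?_, ?_⟩, ?_, ?_, ?_, ?_⟩
  · rintro a b ⟨g, h1, h2⟩
    exact ⟨g⁻¹, by rw [inv_smul_eq_iff, h1], by rw [inv_smul_eq_iff, h2]⟩
  · rintro a b c ⟨g, h1, h2⟩ ⟨g', h1', h2'⟩
    exact ⟨g' * g, by rw [mul_smul, h1, h1'], by rw [mul_smul, h2, h2']⟩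
  · rintro a ⟨g, h1, h2⟩
    rw [map_one, one_smul] at h2
    exact hbij.1 (by simpa using MulAction.injective g (h2.trans h1.symm))
  · rintro a b ⟨g, h1, h2⟩
    simpa using key g a 1 b 1 h2 (by simpa using h1)
  · rintro x y hx hy a b ⟨g, h1, h2⟩
    rw [coeff_mul_sum, coeff_mul_sum, ← Equiv.sum_comp (e.trans ((MulAction.toPerm g).trans e.symm))
      (fun c => x.coeff c * y.coeff (c⁻¹ * b))]
    refine Finset.sum_congr rfl fun c _ => ?_
    have h3 : g • φ c • o = φ ((e.trans ((MulAction.toPerm g).trans e.symm)) c) • o :=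
      (he _).symm
    rw [hx _ _ ⟨g, h1, h3⟩, hy _ _ (key g _ _ _ _ h3 h2)]
  · intro Y hY h1 hm
    have hpow : ∀ g, Y g → ∀ n : ℕ, Y (g ^ n) := fun g hg n => by
      induction n with
      | zero => simpa using h1
      | succ n ih => rw [pow_succ]; exact hm _ _ ih hg
    have hinv : ∀ g, Y g → Y g⁻¹ := fun g hg => by
      obtain ⟨n, hn⟩ := (mem_powers_iff_mem_zpowers (x := g) (y := g⁻¹)).2
        (inv_mem (Subgroup.mem_zpowers g))
      exact hn ▸ hpow g hg n
    rcases CA.PermMulti.prim_rel hprim (fun x y => Y ((e.symm x)⁻¹ * e.symm y))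
      ⟨fun x => by simpa using h1, fun hxy => by simpa using hinv _ hxy,
        fun hxy hyz => by simpa [mul_assoc] using hm _ _ hxy hyz⟩
      (fun g x y hxy => hY _ _ (key g _ _ _ _ (by rw [he, he]) (by rw [he, he])) hxy) with h2 | h2
    · left
      intro g hg
      have := h2 (e 1) (e g) (by simpa using hg)
      exact (e.injective this).symm
    · right
      intro g
      simpa using h2 (e 1) (e g)

/-- The generalized dihedral group of an abelian group. -/
inductive Dh (C : Type*) where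
  | r : C → Dh C
  | s : C → Dh C

namespace Dh
variable {C : Type*} [CommGroup C]

/-- Multiplication. -/
def mul : Dh C → Dh C → Dh C
  | r a, r b => r (a * b)
  | r a, s b => s (a⁻¹ * b)
  | s a, r b => s (a * b)
  | s a, s b => r (a⁻¹ * b)

/-- Inverse. -/
def inv : Dh C → Dh C
  | r a => r a⁻¹
  | s a => s a

instance : Group (Dh C) where
  mul := mul
  one := r 1
  inv := inv
  mul_assoc := by
    intro x y z
    change mul (mul x y) z = mul x (mul y z)
    rcases x with a | a <;> rcases y with b | b <;> rcases z with c | c <;>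
      simp [mul, mul_assoc, mul_comm, mul_left_comm]
  one_mul := by
    intro x
    change mul (r 1) x = x
    rcases x with a | a <;> simp [mul]
  mul_one := by
    intro x
    change mul x (r 1) = x
    rcases x with a | a <;> simp [mul]
  inv_mul_cancel := by
    intro x
    change mul (inv x) x = r 1
    rcases x with a | a <;> simp [mul, inv]

@[simp] theorem r_mul_r (a b : C) : r a * r b = r (a * b) := rfl
@[simp] theorem r_mul_s (a b : C) : r a * s b = s (a⁻¹ * b) := rfl
@[simp] theorem s_mul_r (a b : C) : s a * r b = s (a * b) := rfl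
@[simp] theorem s_mul_s (a b : C) : s a * s b = r (a⁻¹ * b) := rfl
@[simp] theorem inv_r (a : C) : (r a)⁻¹ = r a⁻¹ := rfl
@[simp] theorem inv_s (a : C) : (s a)⁻¹ = s a := rfl
theorem one_def : (1 : Dh C) = r 1 := rfl
@[simp] theorem r_eq_one {a : C} : r a = 1 ↔ a = 1 := by rw [one_def, r.injEq]
@[simp] theorem s_ne_one (a : C) : s a ≠ 1 := by rw [one_def]; simp

/-- As a set, two copies of `C`. -/
def equivSum (C : Type*) : C ⊕ C ≃ Dh C where
  toFun := Sum.elim r s
  invFun := fun | r a => Sum.inl a | s a => Sum.inr a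
  left_inv := by rintro (a | a) <;> rfl
  right_inv := by rintro (a | a) <;> rfl

noncomputable instance [Fintype C] : Fintype (Dh C) := Fintype.ofEquiv _ (equivSum C)

omit [CommGroup C] in
theorem sum_eq [Fintype C] (f : Dh C → ℤ) : ∑ g, f g = ∑ a, f (r a) + ∑ a, f (s a) := by
  rw [← Equiv.sum_comp (equivSum C), Fintype.sum_sum_type]
  rfl

end Dh

end CA.H4Dih
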