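import Mathlib
import Cfsg.Agent.Lib.Perm.H4Dih1

/-! Primitive Schur rings over a generalized dihedral group: the `p`-adic argument. -/

set_option autoImplicit false
open MonoidAlgebra Finset CA.SRing

namespace CA.H4Dih
open Dh

variable {C : Type*} [CommGroup C] [Fintype C] [DecidableEq C]

local prefix:max "ν" => Nat.cast (R := MonoidAlgebra ℤ _)

/-- Rotation part. -/
noncomputable def P (x : MonoidAlgebra ℤ (Dh C)) : MonoidAlgebra ℤ C := fn fun c => x.coeff (r c)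
/-- Reflection part. -/
noncomputable def Q (x : MonoidAlgebra ℤ (Dh C)) : MonoidAlgebra ℤ C := fn fun c => x.coeff (s c)
/-- Inversion. -/
noncomputable def st (a : MonoidAlgebra ℤ C) : MonoidAlgebra ℤ C := fn fun c => a.coeff c⁻¹

omit [CommGroup C] [DecidableEq C] in
@[simp] theorem coeff_P (x : MonoidAlgebra ℤ (Dh C)) (c : C) : (P x).coeff c = x.coeff (r c) := rfl
omit [CommGroup C] [DecidableEq C] in
@[simp] theorem coeff_Q (x : MonoidAlgebra ℤ (Dh C)) (c : C) : (Q x).coeff c = x.coeff (s c) := rfl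
omit [DecidableEq C] in
@[simp] theorem coeff_st (a : MonoidAlgebra ℤ C) (c : C) : (st a).coeff c = a.coeff c⁻¹ := rfl

omit [DecidableEq C] in
theorem P_mul (x y : MonoidAlgebra ℤ (Dh C)) : P (x * y) = P x * P y + st (Q x) * Q y := by
  ext c
  rw [coeff_add, Finsupp.add_apply, coeff_P, coeff_mul_sum, coeff_mul_sum, coeff_mul_sum, sum_eq,
    ← Equiv.sum_comp (Equiv.inv C) (fun a => (st (Q x)).coeff a * _)]
  simp

omit [DecidableEq C] in
theorem Q_mul (x y : MonoidAlgebra ℤ (Dh C)) : Q (x * y) = st (P x) * Q y + Q x * P y := by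
  ext c
  rw [coeff_add, Finsupp.add_apply, coeff_Q, coeff_mul_sum, coeff_mul_sum, coeff_mul_sum, sum_eq,
    ← Equiv.sum_comp (Equiv.inv C) (fun a => (st (P x)).coeff a * _)]
  simp

theorem P_one : P (1 : MonoidAlgebra ℤ (Dh C)) = 1 := by
  classical
  ext c
  simp only [MonoidAlgebra.one_def, coeff_P, coeff_single, Finsupp.single_apply]
  exact if_congr (by rw [eq_comm, r_eq_one, eq_comm]) rfl rfl

omit [DecidableEq C] in
theorem Q_one : Q (1 : MonoidAlgebra ℤ (Dh C)) = 0 := by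
  classical
  ext c
  simp [MonoidAlgebra.one_def, Finsupp.single_apply, eq_comm]

theorem P_pow {x : MonoidAlgebra ℤ (Dh C)} (hx : st (P x) = P x)
    (S : Subring (MonoidAlgebra ℤ C)) (h1 : P x ∈ S) (h2 : P (x ^ 2) ∈ S) {p : ℕ} (hp : p.Prime)
    (hp2 : p ≠ 2) : ∃ z ∈ S, P (x ^ p) = P x ^ p + ν p * z := by
  have h3 : st (Q x) * Q x ∈ S := by
    have := S.sub_mem h2 (S.mul_mem h1 h1)
    rwa [pow_two, P_mul, add_sub_cancel_left] at this
  let a : S := ⟨_, h1⟩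
  let n : S := ⟨_, h3⟩
  let w : QuadraticAlgebra S n 0 := ⟨a, 1⟩
  have key : ∀ k : ℕ, P (x ^ k) = ((w ^ k).re : S) ∧ Q (x ^ k) = Q x * ((w ^ k).im : S) := by
    intro k
    induction k with
    | zero => simp [P_one, Q_one, QuadraticAlgebra.re_one, QuadraticAlgebra.im_one]
    | succ k ih =>
      rw [pow_succ', pow_succ', P_mul, Q_mul, ih.1, ih.2, hx]
      simp only [QuadraticAlgebra.re_mul, QuadraticAlgebra.im_mul, w, a, n]
      push_cast
      constructor <;> ring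
  have hw : w = .C a + QuadraticAlgebra.omega := by ext <;> simp [w]
  obtain ⟨u, hu⟩ := exists_add_pow_prime_eq hp (QuadraticAlgebra.C a : QuadraticAlgebra S n 0)
    QuadraticAlgebra.omega
  obtain ⟨k, hk⟩ := hp.odd_of_ne_two hp2
  have ho : (QuadraticAlgebra.omega : QuadraticAlgebra S n 0) ^ 2 = .C n := by
    rw [pow_two]; ext <;> simp
  have ho' : ((QuadraticAlgebra.omega : QuadraticAlgebra S n 0) ^ p).re = 0 := by
    rw [hk, pow_succ, pow_mul, ho, ← QuadraticAlgebra.C_pow, QuadraticAlgebra.re_mul,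
      QuadraticAlgebra.im_C]
    simp
  refine ⟨((QuadraticAlgebra.C a * (QuadraticAlgebra.omega * u)).re : S), Subtype.prop _, ?_⟩
  rw [(key p).1, hw, hu, ← QuadraticAlgebra.C_pow, mul_assoc, mul_assoc]
  simp only [QuadraticAlgebra.re_add, ho', QuadraticAlgebra.re_C, add_zero]
  rw [QuadraticAlgebra.re_mul (p : QuadraticAlgebra S n 0)]
  simp [a]

theorem coeff_pw (n : ℕ) (a : MonoidAlgebra ℤ C) (c : C) :
    (pw n a).coeff c = ∑ d, if d ^ n = c then a.coeff d else 0 := by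
  induction a using MonoidAlgebra.induction_linear with
  | zero => simp
  | add x y hx hy =>
    rw [map_add, coeff_add, Finsupp.add_apply, hx, hy, ← Finset.sum_add_distrib]
    refine Finset.sum_congr rfl fun d _ => ?_
    split_ifs <;> simp
  | single m t =>
    rw [Finset.sum_eq_single m]
    · simp [pw, Finsupp.single_apply]
    · intro b _ hb
      simp [Finsupp.single_apply, hb.symm]
    · simp

omit [Fintype C] [DecidableEq C] in
theorem pw_pw (m n : ℕ) (a : MonoidAlgebra ℤ C) : pw m (pw n a) = pw (n * m) a := by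
  rw [pw, pw, ← RingHom.comp_apply, ← mapDomainRingHom_comp]
  congr 2
  ext g
  simp [pow_mul]

/-- Elements whose coefficients outside `L` are divisible by `q`. -/
def Sub (L : Subgroup C) (q : ℤ) : Subring (MonoidAlgebra ℤ C) where
  carrier := {a | ∀ c, c ∉ L → q ∣ a.coeff c}
  mul_mem' := fun {a b} ha hb c hc => by
    rw [coeff_mul_sum]
    refine Finset.dvd_sum fun d _ => ?_
    by_cases hd : d ∈ L
    · exact (hb _ fun h => hc (by simpa using L.mul_mem hd h)).mul_left _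
    · exact (ha _ hd).mul_right _
  one_mem' := fun c hc => by
    rw [MonoidAlgebra.one_def, coeff_single, Finsupp.single_eq_of_ne]
    · simp
    · rintro rfl; exact hc L.one_mem
  add_mem' := fun {a b} ha hb c hc => by
    rw [coeff_add, Finsupp.add_apply]; exact dvd_add (ha c hc) (hb c hc)
  zero_mem' := fun c hc => by simp
  neg_mem' := fun {a} ha c hc => by
    rw [coeff_neg, Finsupp.neg_apply]; exact (ha c hc).neg_right

theorem mem_Sub {L : Subgroup C} {q : ℤ} {a : MonoidAlgebra ℤ C} :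
    a ∈ Sub L q ↔ ∀ c, c ∉ L → q ∣ a.coeff c := Iff.rfl

theorem mul_mem_Sub {L : Subgroup C} {q : ℤ} {a : MonoidAlgebra ℤ C} (p : ℕ) (ha : a ∈ Sub L q) :
    ν p * a ∈ Sub L (q * p) := fun c hc => by
  rw [coeff_natCast_mul, mul_comm q]
  exact mul_dvd_mul_left _ (ha c hc)

theorem stepA {p : ℕ} (hp : p.Prime) (j : ℕ) {a : MonoidAlgebra ℤ C}
    (ha : a ∈ Sub (powMonoidHom (p ^ j) : C →* C).range p) :
    a ^ p ∈ Sub (powMonoidHom (p ^ (j + 1)) : C →* C).range p := by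
  obtain ⟨z, hz⟩ := frob hp a
  intro c hc
  rw [hz, coeff_add, Finsupp.add_apply, coeff_natCast_mul, coeff_pw]
  refine dvd_add (Finset.dvd_sum fun d _ => ?_) (dvd_mul_right _ _)
  split_ifs with hd
  · refine ha d ?_
    rintro ⟨u, rfl⟩
    exact hc ⟨u, by rw [← hd]; simp [pow_succ, pow_mul]⟩
  · simp

theorem stepB {p : ℕ} (hp : p.Prime) (L : Subgroup C) (j : ℕ) {a : MonoidAlgebra ℤ C}
    (ha : a ∈ Sub L (p ^ (j + 1))) : a ^ p ∈ Sub L (p ^ (j + 2)) := by
  classical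
  let u : MonoidAlgebra ℤ C := fn fun c => if c ∈ L then a.coeff c else 0
  let v : MonoidAlgebra ℤ C := fn fun c => if c ∈ L then 0 else a.coeff c / p ^ (j + 1)
  have hu : u ∈ Sub L (p ^ (j + 2)) := fun c hc => by simp [u, hc]
  have huv : a = u + ν (p ^ (j + 1)) * v := by
    ext c
    rw [coeff_add, Finsupp.add_apply, coeff_natCast_mul]
    by_cases hc : c ∈ L
    · simp [u, v, hc]
    · simp [u, v, hc, Int.mul_ediv_cancel' (ha c hc)]
  obtain ⟨w, hw⟩ := exists_add_pow_prime_eq hp u (ν (p ^ (j + 1)) * v)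
  obtain ⟨k, hk⟩ : ∃ k, (j + 1) * p = j + 2 + k :=
    ⟨(j + 1) * p - (j + 2), by have := hp.two_le; have : (j + 1) * 2 ≤ (j + 1) * p := by gcongr
                               omega⟩
  have h2 : a ^ p = u ^ p + ν (p ^ (j + 2)) * (ν p ^ k * v ^ p + u * v * w) := by
    rw [huv, hw, mul_pow, ← Nat.cast_pow, ← pow_mul, hk]
    push_cast
    ring
  rw [h2]
  refine add_mem (pow_mem hu _) fun c hc => ?_
  rw [coeff_natCast_mul]
  push_cast
  exact dvd_mul_right _ _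

variable {E : Dh C → Dh C → Prop}

namespace SR
variable (h : SR E)
include h

omit [DecidableEq C] in
theorem ex_refl {g : Dh C} (hg : g ≠ 1) : ∃ c, E g (s c) := by
  obtain ⟨g', h1, h2⟩ := h.prim' (fun g => ∃ c, g = r c) ⟨1, rfl⟩ (by
    rintro _ _ ⟨a, rfl⟩ ⟨b, rfl⟩; exact ⟨_, rfl⟩) ⟨s 1, by simp⟩ hg
  rcases g' with c | c
  · exact absurd ⟨c, rfl⟩ h2
  · exact ⟨c, h1⟩

omit [DecidableEq C] in
theorem symm (g : Dh C) : E g g⁻¹ := by
  by_cases hg : g = 1
  · subst hg; simpa using h.eqv.refl 1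
  obtain ⟨c, hc⟩ := h.ex_refl hg
  exact h.eqv.trans hc (h.eqv.symm (h.inv _ _ hc))

omit [DecidableEq C] in
theorem st_P {x : MonoidAlgebra ℤ (Dh C)} (hx : Inv E x) : st (P x) = P x := by
  ext c
  exact (hx _ _ (h.symm (r c))).symm

omit [DecidableEq C] in
theorem ex_rot [Nontrivial C] (g : Dh C) : ∃ c, E g (r c) := by
  by_contra hcon
  push Not at hcon
  rcases g with c | c
  · exact hcon c (h.eqv.refl _)
  have h1 : ∀ g, E (s c) g → ∃ d, g = s d := by
    rintro (d | d) e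
    · exact absurd e (hcon d)
    · exact ⟨d, rfl⟩
  have h2 : ∀ g, E (s c) g → g = s c := by
    intro g e
    by_contra hne
    have h3 : s c * g ≠ 1 := fun e' => hne (by rw [mul_eq_one_iff_inv_eq] at e'; exact e'.symm)
    obtain ⟨d, hd⟩ := h.ex_refl h3
    have h4 := h.mul _ _ (h.inv_cls (s c)) (h.inv_cls (s c)) _ _ hd
    obtain ⟨u, v, hu, hv, e'⟩ := ind_mul_ne_zero.1
      (h4 ▸ ind_mul_ne_zero.2 ⟨_, _, h.eqv.refl _, e, rfl⟩)
    obtain ⟨u, rfl⟩ := h1 u hu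
    obtain ⟨v, rfl⟩ := h1 v hv
    simp at e'
  obtain ⟨d, hd⟩ := exists_ne (1 : C)
  obtain ⟨g', h3, h4⟩ := h.prim' (fun g => g = 1 ∨ g = s c) (Or.inl rfl) (by
    rintro _ _ (rfl | rfl) (rfl | rfl) <;> simp) ⟨r d, by simp [hd]⟩ (s_ne_one c)
  exact h4 (Or.inr (h2 _ h3))

theorem frobP {x : MonoidAlgebra ℤ (Dh C)} (hx : Inv E x) {p : ℕ} (hp : p.Prime) (hp2 : p ≠ 2)
    (k : ℕ) : ∃ z, P (x ^ p ^ k) = pw (p ^ k) (P x) + ν p * z := by
  induction k with
  | zero => exact ⟨0, by ext c; simp [coeff_pw]⟩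
  | succ k ih =>
    obtain ⟨z, hz⟩ := ih
    obtain ⟨u, -, hu⟩ := P_pow (h.st_P (h.inv_pow hx (p ^ k))) ⊤ trivial trivial hp hp2
    obtain ⟨v, hv⟩ := frob hp (P (x ^ p ^ k))
    refine ⟨pw p z + v + u, ?_⟩
    rw [pow_succ, pow_mul, hu, hv, hz, map_add, map_mul, map_natCast, pw_pw]
    ring

theorem step {x : MonoidAlgebra ℤ (Dh C)} (hx : Inv E x) {p : ℕ} (hp : p.Prime) (hp2 : p ≠ 2)
    {S S' : Subring (MonoidAlgebra ℤ C)} (h1 : ∀ a ∈ S, a ^ p ∈ S') (h2 : ∀ a ∈ S, ν p * a ∈ S')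
    (h3 : ∀ n : ℕ, P (x ^ n) ∈ S) (n : ℕ) : P ((x ^ p) ^ n) ∈ S' := by
  obtain ⟨z, hz, e⟩ := P_pow (h.st_P (h.inv_pow hx n)) S (h3 n) (by rw [← pow_mul]; exact h3 _)
    hp hp2
  rw [← pow_mul, mul_comm, pow_mul, e]
  exact add_mem (h1 _ (h3 n)) (h2 _ hz)

theorem big {p e m : ℕ} (hp : p.Prime) (hp2 : p ≠ 2) (hm : Fintype.card C = p ^ e * m) (t : ℕ)
    {x : MonoidAlgebra ℤ (Dh C)} (hx : Inv E x) (n : ℕ) :
    P ((x ^ p ^ (e + t)) ^ n) ∈ Sub (powMonoidHom m : C →* C).ker (p ^ (t + 1)) := by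
  induction t generalizing n with
  | zero =>
    have key : ∀ j n : ℕ, P ((x ^ p ^ j) ^ n) ∈ Sub (powMonoidHom (p ^ j) : C →* C).range p := by
      intro j
      induction j with
      | zero => exact fun n c hc => absurd ⟨c, by simp⟩ hc
      | succ j ih =>
        intro n
        rw [pow_succ, pow_mul]
        refine h.step (h.inv_pow hx _) hp hp2 (fun a ha => stepA hp j ha) (fun a _ c _ => ?_) ih n
        rw [coeff_natCast_mul]; exact dvd_mul_right _ _
    intro c hc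
    rw [zero_add, pow_one]
    refine key e n c ?_
    rintro ⟨u, rfl⟩
    refine hc ?_
    simp [MonoidHom.mem_ker, ← pow_mul, ← hm]
  | succ t ih =>
    rw [← add_assoc, pow_succ p, pow_mul]
    refine h.step (h.inv_pow hx _) hp hp2 (fun a ha => stepB hp _ t ha) (fun a ha => ?_) ih n
    rw [pow_succ _ (t + 1)]
    exact mul_mem_Sub p ha

theorem decomp [Nontrivial C] {p e m : ℕ} (hp : p.Prime) (hp2 : p ≠ 2)
    (hm : Fintype.card C = p ^ e * m) (t k : ℕ) (hk : e + t ≤ k) (hk' : p ^ k ≡ 1 [MOD m])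
    {x : MonoidAlgebra ℤ (Dh C)} (hx : Inv E x)
    (hV : ∀ c : C, c ^ m ≠ 1 → (p : ℤ) ^ (t + 1) ∣ x.coeff (r c)) :
    ∃ y, Inv E y ∧ (∀ c : C, c ^ m ≠ 1 → (p : ℤ) ^ t ∣ y.coeff (r c)) ∧ x = x ^ p ^ k - p • y := by
  obtain ⟨z, hz⟩ := h.frobP hx hp hp2 k
  have h1 : ∀ c, (p : ℤ) ∣ (x ^ p ^ k - x).coeff (r c) := by
    intro c
    have h2 := congrArg (fun a => a.coeff c) hz
    simp only [coeff_P, coeff_add, Finsupp.add_apply, coeff_natCast_mul, coeff_pw] at h2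
    rw [coeff_sub, Finsupp.sub_apply, h2, add_sub_right_comm]
    refine dvd_add ?_ (dvd_mul_right _ _)
    have h3 : x.coeff (r c) = ∑ d, if d = c then x.coeff (r d) else 0 := by simp
    rw [h3, ← Finset.sum_sub_distrib]
    refine Finset.dvd_sum fun d _ => ?_
    by_cases hd : d ^ m = 1
    · have : d ^ p ^ k = d := by
        rw [pow_eq_pow_of_modEq hk' hd, pow_one]
      rw [this, sub_self]; simp
    · have := (dvd_pow_self (p : ℤ) (Nat.succ_ne_zero t)).trans (hV d hd)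
      refine dvd_sub ?_ ?_ <;> split_ifs <;> simp [this]
  have hi := (h.inv_pow hx (p ^ k)).sub hx
  have h2 : ∀ g, (p : ℤ) ∣ (x ^ p ^ k - x).coeff g := fun g => by
    obtain ⟨c, hc⟩ := h.ex_rot g
    rw [hi _ _ hc]; exact h1 c
  have hp0 : (p : ℤ) ≠ 0 := Int.natCast_ne_zero.2 hp.ne_zero
  refine ⟨fn fun g => (x ^ p ^ k - x).coeff g / p, fun g g' e => by
    rw [coeff_fn, coeff_fn, hi _ _ e], fun c hc => ?_, ?_⟩
  · rw [coeff_fn]
    refine Int.dvd_ediv_of_mul_dvd ?_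
    rw [← pow_succ', coeff_sub, Finsupp.sub_apply]
    refine dvd_sub ?_ (hV c hc)
    obtain ⟨j, rfl⟩ := Nat.exists_eq_add_of_le hk
    have := h.big hp hp2 hm t hx (p ^ j) c hc
    rwa [← pow_mul, ← pow_add] at this
  · ext g
    rw [coeff_sub, Finsupp.sub_apply, coeff_smul, Finsupp.smul_apply, coeff_fn, nsmul_eq_mul,
      Int.mul_ediv_cancel' (h2 g), coeff_sub, Finsupp.sub_apply]
    ring

theorem mulV [Nontrivial C] {p e m : ℕ} (hp : p.Prime) (hp2 : p ≠ 2)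
    (hm : Fintype.card C = p ^ e * m) (hpm : p.Coprime m) (t : ℕ) :
    ∀ x y : MonoidAlgebra ℤ (Dh C), Inv E x → Inv E y →
      (∀ c : C, c ^ m ≠ 1 → (p : ℤ) ^ t ∣ x.coeff (r c)) →
      (∀ c : C, c ^ m ≠ 1 → (p : ℤ) ^ t ∣ y.coeff (r c)) →
      ∀ c : C, c ^ m ≠ 1 → (p : ℤ) ^ t ∣ (x * y).coeff (r c) := by
  induction t with
  | zero => simp
  | succ t ih =>
    intro x y hx hy hx' hy' c hc
    have hm0 : 0 < m := Nat.pos_of_ne_zero (by
      rintro rfl; exact Fintype.card_ne_zero (hm.trans (mul_zero _)))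
    have hk : e + t ≤ m.totient * (e + t) := Nat.le_mul_of_pos_left _ (Nat.totient_pos.2 hm0)
    have hk' : p ^ (m.totient * (e + t)) ≡ 1 [MOD m] := by
      rw [pow_mul]; simpa using (Nat.ModEq.pow_totient hpm).pow (e + t)
    generalize m.totient * (e + t) = k at hk hk'
    obtain ⟨x', h1, h2, h3⟩ := h.decomp hp hp2 hm t k hk hk' hx hx'
    obtain ⟨y', h4, h5, h6⟩ := h.decomp hp hp2 hm t k hk hk' hy hy'
    have hb : ∀ x, Inv E x → ∀ c : C, c ^ m ≠ 1 → (p : ℤ) ^ (t + 1) ∣ (x ^ p ^ k).coeff (r c) := by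
      intro x hx c hc
      obtain ⟨j, rfl⟩ := Nat.exists_eq_add_of_le hk
      have := h.big hp hp2 hm t hx (p ^ j) c hc
      rwa [← pow_mul, ← pow_add] at this
    have hb' : ∀ x, Inv E x → ∀ c : C, c ^ m ≠ 1 → (p : ℤ) ^ t ∣ (x ^ p ^ k).coeff (r c) :=
      fun x hx c hc => (pow_dvd_pow _ (Nat.le_succ t)).trans (hb x hx c hc)
    have h7 : x * y = (x * y) ^ p ^ k - p • (x' * y ^ p ^ k + x ^ p ^ k * y' - p • (x' * y')) := by
      rw [(h.comm h.symm hx hy).mul_pow]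
      conv_lhs => rw [h3, h6]
      simp only [sub_mul, mul_sub, smul_mul_assoc, mul_smul_comm, smul_sub, smul_add]
      abel
    rw [h7]
    simp only [coeff_sub, Finsupp.sub_apply, coeff_smul, Finsupp.smul_apply, coeff_add,
      Finsupp.add_apply]
    simp only [nsmul_eq_mul]
    refine dvd_sub (hb _ (h.mul _ _ hx hy) c hc) ?_
    rw [pow_succ']
    have i1 := ih _ _ h1 (h.inv_pow hy _) h2 (hb' _ hy) c hc
    have i2 := ih _ _ (h.inv_pow hx _) h4 (hb' _ hx) h5 c hc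
    have i3 := (ih _ _ h1 h4 h2 h5 c hc).mul_left (p : ℤ)
    exact mul_dvd_mul_left _ (dvd_sub (dvd_add i1 i2) i3)

theorem ex_notK {p e m : ℕ} (hp : p.Prime) (hp2 : p ≠ 2)
    (hm : Fintype.card C = p ^ e * m) (hpm : p.Coprime m) (hK : ∃ c : C, c ^ m ≠ 1)
    {g : Dh C} (hg : g ≠ 1) : ∃ c : C, E g (r c) ∧ c ^ m ≠ 1 := by
  obtain ⟨c₀, hc₀⟩ := hK
  have : Nontrivial C := ⟨⟨c₀, 1, fun e => hc₀ (by rw [e, one_pow])⟩⟩
  by_contra hcon
  push Not at hcon
  have hcl : ∀ a b, E a b → (∀ c, E a (r c) → c ^ m = 1) → ∀ c, E b (r c) → c ^ m = 1 :=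
    fun a b e ha c e' => ha c (h.eqv.trans e e')
  have hV : ∀ t : ℕ, ∀ c : C, c ^ m ≠ 1 →
      (p : ℤ) ^ t ∣ (ind fun a => ∀ c, E a (r c) → c ^ m = 1).coeff (r c) := fun t c hc => by
    rw [coeff_ind_neg fun h' => hc (h' c (h.eqv.refl _))]; simp
  rcases h.prim (fun a => ∀ c, E a (r c) → c ^ m = 1) hcl
    (fun c e => by rw [r_eq_one.1 (h.one _ (h.eqv.symm e)), one_pow]) (fun a b ha hb c e => by
      by_contra hc
      have h2 := h.mul _ _ (h.inv_ind hcl) (h.inv_ind hcl) _ _ e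
      refine ind_mul_ne_zero.2 ⟨a, b, ha, hb, rfl⟩ (h2.trans ?_)
      have h3 := fun t =>
        h.mulV hp hp2 hm hpm t _ _ (h.inv_ind hcl) (h.inv_ind hcl) (hV _) (hV _) c hc
      generalize ((ind fun a => ∀ c, E a (r c) → c ^ m = 1) *
          ind fun a => ∀ c, E a (r c) → c ^ m = 1).coeff (r c) = z at h3 ⊢
      refine Int.eq_zero_of_dvd_of_natAbs_lt_natAbs (h3 z.natAbs) ?_
      rw [Int.natAbs_pow, Int.natAbs_natCast]
      exact Nat.lt_pow_self hp.one_lt) with h2 | h2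
  · exact hg (h2 g hcon)
  · exact hc₀ (h2 (r c₀) c₀ (h.eqv.refl _))

end SR

end CA.H4Dih
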