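import Mathlib
import Cfsg.Agent.Lib.Perm.H4Dih2

/-! Primitive Schur rings over a dihedral group are trivial. -/

set_option autoImplicit false
open MonoidAlgebra Finset CA.SRing

namespace CA.H4Dih
open Dh

variable {C : Type*} [CommGroup C] [Fintype C] [DecidableEq C]

local prefix:max "ν" => Nat.cast (R := MonoidAlgebra ℤ _)

theorem mem_zpowers_of_pow [IsCyclic C] {p : ℕ} (hp : p.Prime) {y z : C} (hy : orderOf y = p)
    (hz : z ^ p = 1) : ∃ j : ℕ, y ^ j = z := by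
  have e1 : Subgroup.zpowers y = (powMonoidHom p : C →* C).ker := by
    refine Subgroup.eq_of_le_of_card_ge (Subgroup.zpowers_le.2 (hy ▸ pow_orderOf_eq_one y)) ?_
    rw [IsCyclic.card_powMonoidHom_ker, Nat.card_zpowers, hy]
    exact Nat.gcd_le_right _ hp.pos
  exact (mem_powers_iff_mem_zpowers).2 (e1 ▸ hz)

theorem shift [IsCyclic C] {p e m : ℕ} (hp : p.Prime) (hm : Fintype.card C = p ^ e * m) {c z : C}
    (hc : c ^ (m * p) ≠ 1) (hz : z ^ p = 1) : ∃ k : ℕ, k.Coprime (orderOf c) ∧ c ^ k = c * z := by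
  obtain ⟨n, hn⟩ : p * p ∣ orderOf c := by
    obtain ⟨a, b, ha, hb, hab⟩ := exists_dvd_and_dvd_of_dvd_mul (hm ▸ orderOf_dvd_card (x := c))
    obtain ⟨i, -, rfl⟩ := (Nat.dvd_prime_pow hp).1 ha
    by_contra hcon
    refine hc (orderOf_dvd_iff_pow_eq_one.1 ?_)
    rw [hab, mul_comm m]
    refine mul_dvd_mul ?_ hb
    rcases i with _ | _ | i
    · simp
    · simp
    · exact absurd (hab ▸ Dvd.intro (p ^ i * b) (by ring)) hcon
  have h0 : orderOf c ≠ 0 := (orderOf_pos c).ne'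
  have h1 : orderOf (c ^ (p * n)) = p := by
    rw [orderOf_pow_of_dvd (by rintro h; rw [hn, mul_assoc, h] at h0; simp at h0)
      (hn ▸ Dvd.intro_left p (by ring)), hn, mul_assoc]
    exact Nat.mul_div_cancel _ (Nat.pos_of_ne_zero (by
      rintro h; rw [hn, mul_assoc, h] at h0; simp at h0))
  obtain ⟨j, rfl⟩ := mem_zpowers_of_pow hp h1 hz
  refine ⟨1 + p * n * j, ?_, by rw [pow_add, pow_one, pow_mul]⟩
  have h2 : (1 + p * n * j).Coprime (p * n) := by simp
  rw [hn, mul_assoc p p]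
  exact Nat.Coprime.mul_right (h2.coprime_dvd_right (dvd_mul_right _ _)) h2

theorem coeff_mul_shift {a : MonoidAlgebra ℤ C} {z : C} (ha : ∀ c, a.coeff (c * z) = a.coeff c)
    (b : MonoidAlgebra ℤ C) (c : C) : (a * b).coeff (c * z) = (a * b).coeff c := by
  rw [coeff_mul_sum, coeff_mul_sum, ← Equiv.sum_comp (Equiv.mulRight z)]
  refine Finset.sum_congr rfl fun d _ => ?_
  rw [Equiv.coe_mulRight, ha, mul_inv, mul_mul_mul_comm, inv_mul_cancel, mul_one]

variable {E : Dh C → Dh C → Prop}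

/-- All multipliers act trivially. -/
def Rat (E : Dh C → Dh C → Prop) : Prop :=
  ∀ (c : C) (k : ℕ), k.Coprime (orderOf c) → E (r (c ^ k)) (r c)

namespace SR
variable (h : SR E)
include h

theorem beta_odd [IsCyclic C] (hR : Rat E) {p : ℕ} (hp : p.Prime) (hp2 : p ≠ 2)
    (hpm : p ∣ Fintype.card C) {c z : C} (hc : c ^ p ≠ 1) (hz : z ^ p = 1) :
    E (r c) (r (c * z)) := by
  classical
  obtain ⟨e, m, hm', hm⟩ := Nat.exists_eq_pow_mul_and_not_dvd (Fintype.card_ne_zero (α := C)) p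
    hp.ne_one
  have hcop : p.Coprime m := hp.coprime_iff_not_dvd.2 hm'
  have hK : ∃ c : C, c ^ m ≠ 1 := by
    have := Fact.mk hp
    obtain ⟨w, hw⟩ := exists_prime_orderOf_dvd_card p hpm
    exact ⟨w, fun e => hm' (hw ▸ orderOf_dvd_of_pow_eq_one e)⟩
  let A : Finset C := {d | E (r c) (r d)}
  have hA : P (ind (E (r c))) = S A := by
    ext d; simp [coeff_S, coeff_ind, A]
  obtain ⟨y, hy⟩ := h.frobP (h.inv_cls (r c)) hp hp2 1
  rw [pow_one, hA] at hy
  have h1 : ∀ d, (p : ℤ) ∣ (ind (E (r c)) ^ p).coeff (r d) ↔ p ∣ #{a ∈ A | a ^ p = d} := fun d => by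
    rw [← coeff_P, hy, coeff_add, Finsupp.add_apply, coeff_natCast_mul, coeff_pw_S,
      dvd_add_left (dvd_mul_right _ _), Int.natCast_dvd_natCast]
  have hcA : c ∈ A := by simpa [A] using h.eqv.refl _
  suffices h2 : p ∣ #{a ∈ A | a ^ p = c ^ p} by
    simpa [A] using mul_mem_of_count hp.pos hcA h2 hz
  by_contra hcon
  obtain ⟨d, hd, hdm⟩ := h.ex_notK hp hp2 hm hcop hK (g := r (c ^ p)) (by simpa using hc)
  rw [← h1, h.inv_pow (h.inv_cls _) p _ _ hd, h1] at hcon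
  obtain ⟨a, ha⟩ : ({a ∈ A | a ^ p = d} : Finset C).Nonempty := by
    rw [Finset.nonempty_iff_ne_empty]
    intro e
    rw [e] at hcon
    simp at hcon
  obtain ⟨haA, rfl⟩ := mem_filter.1 ha
  refine hcon (dvd_of_eq ?_)
  have h3 : Nat.card (powMonoidHom p : C →* C).ker = p := by
    rw [IsCyclic.card_powMonoidHom_ker, Nat.card_eq_fintype_card, Nat.gcd_eq_right hpm]
  refine h3.symm.trans ?_
  rw [Nat.card_eq_fintype_card, Fintype.card_subtype]
  refine Finset.card_bij' (fun w _ => a * w) (fun b _ => a⁻¹ * b) (fun w hw => ?_)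
    (fun b hb => ?_) (by simp) (by simp)
  · have hw' : w ^ p = 1 := (mem_filter.1 hw).2
    refine mem_filter.2 ⟨?_, by rw [mul_pow, hw', mul_one]⟩
    obtain ⟨k, hk, hk'⟩ := shift hp hm (c := a) (by rwa [mul_comm, pow_mul]) hw'
    have := hR a k hk
    rw [hk'] at this
    simp only [A, mem_filter, mem_univ, true_and] at haA ⊢
    exact h.eqv.trans haA (h.eqv.symm this)
  · refine mem_filter.2 ⟨mem_univ _, ?_⟩
    simp [MonoidHom.mem_ker, mul_pow, (mem_filter.1 hb).2]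

theorem const {p : ℕ} {z : C} (hz : z ^ p = 1) (hz1 : z ≠ 1)
    (hb : ∀ c : C, c ^ p ≠ 1 → E (r c) (r (c * z)))
    (hH : ∀ c : C, c ^ p = 1 → c ≠ 1 → E (r z) (r c)) {y : MonoidAlgebra ℤ (Dh C)} (hy : Inv E y)
    (hQ : ∀ c, y.coeff (s (c * z)) = y.coeff (s c)) {g : Dh C} (hg : g ≠ 1) :
    y.coeff g = y.coeff (r z) := by
  by_contra hcon
  refine h.prim'' h.symm (fun g => g ≠ 1 ∧ y.coeff g ≠ y.coeff (r z))
    (fun g g' e hg => ⟨h.ne_one e hg.1, hy _ _ e ▸ hg.2⟩) ⟨hg, hcon⟩ (b := 1) (by simp)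
    (z := r z) (by simpa using hz1) ?_
  rintro (c | c) ⟨h1, h2⟩
  · have h3 : c ^ p ≠ 1 := fun e => h2 (hy _ _ (hH c e (by simpa using h1))).symm
    exact ⟨h.ne_one (hb c h3) h1, by rw [r_mul_r, ← hy _ _ (hb c h3)]; exact h2⟩
  · exact ⟨by simp, by rw [s_mul_r, hQ]; exact h2⟩

theorem final_aux [Nontrivial C] {p : ℕ} {z : C} (hz : z ^ p = 1) (hz1 : z ≠ 1)
    (hb : ∀ c : C, c ^ p ≠ 1 → E (r c) (r (c * z)))
    (hH : ∀ c : C, c ^ p = 1 → c ≠ 1 → E (r z) (r c)) (Y : Dh C → Prop)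
    (hY : ∀ g g', E g g' → Y g → Y g') {g₀ : Dh C} (hg₀ : Y g₀)
    (hYz : ∀ c w : C, w ^ p = 1 → Y (r c) → Y (r (c * w))) (A B : Finset C)
    (hA : ∀ c, c ∈ A ↔ Y (r c)) (hB : ∀ c, c ∈ B ↔ Y (s c)) :
    ∃ μ : ℤ, 0 < #A ∧ 2 * #A * #B = μ * Fintype.card C ∧ Even μ ∧
      (∀ c, c ≠ 1 → μ = (S A * S A).coeff c + #{d ∈ B | d * c ∈ B}) ∧
      ∀ w, w ^ p = 1 → (S A * S A).coeff w = #A := by
  classical
  have hx := h.inv_ind hY
  have hP : P (ind Y) = S A := by ext d; simp [coeff_S, coeff_ind, hA]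
  have hQ : Q (ind Y) = S B := by ext d; simp [coeff_S, coeff_ind, hB]
  have hAz : ∀ c w : C, w ^ p = 1 → (c * w ∈ A ↔ c ∈ A) := fun c w hw => by
    rw [hA, hA]
    exact ⟨fun h' => by simpa using hYz _ w⁻¹ (by rw [_root_.inv_pow, hw, _root_.inv_one]) h', hYz c w hw⟩
  have h1 : Q (ind Y * ind Y) = 2 * (S A * S B) := by
    rw [Q_mul, h.st_P hx, hP, hQ]; ring
  have h2 : ∀ c, (ind Y * ind Y).coeff (s c) = 2 * (S A * S B).coeff c := fun c => by
    rw [← coeff_Q, h1, two_mul, two_mul, coeff_add, Finsupp.add_apply]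
  have h3 : ∀ g, g ≠ 1 → (ind Y * ind Y).coeff g = (ind Y * ind Y).coeff (r z) := fun g hg =>
    h.const hz hz1 hb hH (h.mul _ _ hx hx) (fun c => by
      rw [h2, h2, coeff_mul_shift fun c => by simp only [coeff_S, hAz c z hz]]) hg
  refine ⟨(ind Y * ind Y).coeff (r z), ?_, ?_, ?_, fun c hc => ?_, fun w hw => ?_⟩
  · obtain ⟨c, hc⟩ := h.ex_rot g₀
    exact Finset.card_pos.2 ⟨c, (hA c).2 (hY _ _ hc hg₀)⟩
  · have h4 := congrArg aug h1
    rw [aug_eq_sum] at h4
    simp only [coeff_Q, h3 _ (s_ne_one _), Finset.sum_const, card_univ, nsmul_eq_mul, map_mul,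
      aug_S, map_ofNat] at h4
    linarith
  · rw [← h3 _ (s_ne_one 1), h2]; exact even_two_mul _
  · rw [← h3 (r c) (by simpa using hc), ← coeff_P, P_mul, hP, hQ, coeff_add, Finsupp.add_apply,
      coeff_mul_sum (st _), ← Equiv.sum_comp (Equiv.inv C)]
    congr 1
    simp only [coeff_st, coeff_S, Equiv.inv_apply, inv_inv, Finset.card_filter]
    push_cast
    rw [← Finset.sum_subset (Finset.subset_univ B) (fun d _ hd => by simp [hd])]
    exact Finset.sum_congr rfl fun d hd => by simp [hd]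
  · rw [coeff_S_mul_S, Finset.filter_true_of_mem]
    intro a ha
    rw [hAz _ _ hw, hA]
    exact hY _ _ (h.symm (r a)) ((hA a).1 ha)

theorem final [Nontrivial C] {p : ℕ} {z : C} (hz : z ^ p = 1) (hz1 : z ≠ 1)
    (hb : ∀ c w : C, c ^ p ≠ 1 → w ^ p = 1 → E (r c) (r (c * w)))
    (hH : ∀ c : C, c ^ p = 1 → c ≠ 1 → E (r z) (r c)) {g : Dh C} (hg : g ≠ 1)
    (hgz : ¬ E (r z) g) : ∃ (A B : Finset C) (μ : ℤ), A.Nonempty ∧ (∀ c ∈ A, c ^ p ≠ 1) ∧ Even μ ∧
      (∀ c, c ≠ 1 → μ = (S A * S A).coeff c + #{d ∈ B | d * c ∈ B}) ∧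
      ∀ w, w ^ p = 1 → w ≠ 1 → ∀ d, d * w ∈ B ↔ d ∉ B := by
  classical
  have hY : ∀ g g', E g g' → (g ≠ 1 ∧ ¬ E (r z) g) → (g' ≠ 1 ∧ ¬ E (r z) g') :=
    fun g g' e hg => ⟨h.ne_one e hg.1, fun e' => hg.2 (h.eqv.trans e' (h.eqv.symm e))⟩
  have hYp : ∀ c : C, (r c ≠ 1 ∧ ¬ E (r z) (r c)) → c ^ p ≠ 1 :=
    fun c hc e => hc.2 (hH c e (by simpa using hc.1))
  let A : Finset C := {c | r c ≠ 1 ∧ ¬ E (r z) (r c)}
  let B : Finset C := {c | s c ≠ 1 ∧ ¬ E (r z) (s c)}
  obtain ⟨μ, h1, h2, h3, h4, h5⟩ := h.final_aux hz hz1 (fun c hc => hb c z hc hz) hH _ hY ⟨hg, hgz⟩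
    (fun c w hw hc => hY _ _ (hb c w (hYp c hc) hw) hc) A B (by simp [A]) (by simp [B])
  obtain ⟨μ', h1', h2', -, h4', h5'⟩ := h.final_aux hz hz1 (fun c hc => hb c z hc hz) hH
    (fun g => ¬ (g ≠ 1 ∧ ¬ E (r z) g)) (fun g g' e hg hg' => hg (hY _ _ (h.eqv.symm e) hg'))
    (g₀ := 1) (by simp) (fun c w hw hc hc' => hc (by
      simpa using hY _ _ (hb _ w⁻¹ (hYp _ hc') (by rw [_root_.inv_pow, hw, _root_.inv_one])) hc')) Aᶜ Bᶜ
    (by simp [A]) (by simp [B])
  refine ⟨A, B, μ, Finset.card_pos.1 h1, fun c hc => hYp c (by simpa [A] using hc), h3, h4,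
    fun w hw hw1 => ?_⟩
  have e1 := h4 w hw1
  have e2 := h4' w hw1
  rw [h5 w hw] at e1
  rw [h5' w hw] at e2
  have e3 : (#B : ℤ) + #Bᶜ = Fintype.card C := by exact_mod_cast Finset.card_add_card_compl B
  have e4 : (0 : ℤ) < Fintype.card C := by exact_mod_cast Fintype.card_pos
  have e5 : (0 : ℤ) < #A := by exact_mod_cast h1
  have e6 : (0 : ℤ) < #Aᶜ := by exact_mod_cast h1'
  have key : #{d ∈ B | d * w ∈ B} = 0 ∧ #{d ∈ Bᶜ | d * w ∈ Bᶜ} = 0 := by
    generalize #{d ∈ B | d * w ∈ B} = N at *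
    generalize #{d ∈ Bᶜ | d * w ∈ Bᶜ} = N' at *
    generalize (#A : ℤ) = a at *
    generalize (#Aᶜ : ℤ) = a' at *
    generalize (#B : ℤ) = b at *
    generalize (#Bᶜ : ℤ) = b' at *
    generalize (Fintype.card C : ℤ) = m at *
    subst e1 e2
    have f1 : a * (2 * b - m) = N * m := by linarith
    have f2 : a' * (2 * b' - m) = N' * m := by linarith
    have f3 : 0 ≤ 2 * b - m := nonneg_of_mul_nonneg_right (f1 ▸ by positivity) e5 
    have f4 : 0 ≤ 2 * b' - m := nonneg_of_mul_nonneg_right (f2 ▸ by positivity) e6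
    rw [show 2 * b - m = 0 by omega, mul_zero] at f1
    rw [show 2 * b' - m = 0 by omega, mul_zero] at f2
    have f5 := (mul_eq_zero.1 f1.symm).resolve_right e4.ne'
    have f6 := (mul_eq_zero.1 f2.symm).resolve_right e4.ne'
    omega
  rw [Finset.card_eq_zero, Finset.card_eq_zero, Finset.filter_eq_empty_iff,
    Finset.filter_eq_empty_iff] at key
  intro d
  exact ⟨fun h1 h2 => key.1 h2 h1, fun h1 => by simpa using key.2 (mem_compl.2 h1)⟩

theorem triv_rat [IsCyclic C] [Nontrivial C] (hR : Rat E) :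
    ∃ z : C, ∀ g, g ≠ 1 → E (r z) g := by
  have hH : ∀ p : ℕ, p.Prime → ∀ z : C, orderOf z = p → ∀ c : C, c ^ p = 1 → c ≠ 1 →
      E (r z) (r c) := by
    intro p hp z hz c hc hc1
    obtain ⟨j, rfl⟩ := mem_zpowers_of_pow hp hz hc
    refine h.eqv.symm (hR z j ?_)
    rw [hz]
    exact (hp.coprime_iff_not_dvd.2 fun hd => hc1 (orderOf_dvd_iff_pow_eq_one.1 (hz ▸ hd))).symm
  by_cases hodd : ∃ p : ℕ, p.Prime ∧ p ∣ Fintype.card C ∧ p ≠ 2
  · obtain ⟨p, hp, hpm, hp2⟩ := hodd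
    have := Fact.mk hp
    obtain ⟨z, hz⟩ := exists_prime_orderOf_dvd_card p hpm
    have hzp : z ^ p = 1 := hz ▸ pow_orderOf_eq_one z
    have hz1 : z ≠ 1 := by rintro rfl; exact hp.one_lt.ne (by simpa using hz)
    refine ⟨z, fun g hg => by_contra fun hgz => ?_⟩
    obtain ⟨A, B, μ, -, -, -, -, h1⟩ := h.final hzp hz1
      (fun c w hc hw => h.beta_odd hR hp hp2 hpm hc hw) (hH p hp z hz) hg hgz
    have h2 : z * z ≠ 1 := fun e => hp2 ((Nat.prime_dvd_prime_iff_eq hp Nat.prime_two).1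
      (hz ▸ orderOf_dvd_of_pow_eq_one (by rw [pow_two, e])))
    have h3 := h1 (z * z) (by rw [mul_pow, hzp, one_mul]) h2 1
    have h4 := h1 z hzp hz1 1
    have h5 := h1 z hzp hz1 z
    rw [one_mul] at h3 h4
    tauto
  · push Not at hodd
    have hm : Fintype.card C = 2 ^ (Fintype.card C).primeFactorsList.length * 1 := by
      rw [mul_one]
      exact Nat.eq_prime_pow_of_unique_prime_dvd Fintype.card_ne_zero fun hp hd => hodd _ hp hd
    generalize (Fintype.card C).primeFactorsList.length = e at hm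
    obtain ⟨c, hc⟩ := IsCyclic.exists_generator (α := C)
    have hco : orderOf c = Fintype.card C := by
      rw [orderOf_eq_card_of_forall_mem_zpowers hc, Nat.card_eq_fintype_card]
    obtain ⟨e, rfl⟩ : ∃ e', e = e' + 1 := Nat.exists_eq_succ_of_ne_zero (by
      rintro rfl; exact Fintype.one_lt_card.ne' hm)
    have hM : Fintype.card C = 2 ^ e + 2 ^ e := by rw [hm]; ring
    have hpos : 0 < 2 ^ e := by positivity
    have hz1 : c ^ 2 ^ e ≠ 1 := fun e' => by
      have := Nat.le_of_dvd hpos (orderOf_dvd_of_pow_eq_one e'); omega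
    have hzp : (c ^ 2 ^ e) ^ 2 = 1 := by rw [pow_two, ← pow_add, ← hM, pow_card_eq_one]
    refine ⟨c ^ 2 ^ e, fun g hg => by_contra fun hgz => ?_⟩
    obtain ⟨A, B, μ, ⟨a, ha⟩, h1, h2, h3, h4⟩ := h.final hzp hz1
      (fun c w hc hw => by
        obtain ⟨k, hk, hk'⟩ := shift Nat.prime_two hm (c := c) (by simpa using hc) hw
        exact hk' ▸ h.eqv.symm (hR c k hk))
      (hH 2 Nat.prime_two _ (orderOf_eq_prime hzp hz1)) hg hgz
    have hc1 : c ≠ 1 := by rintro rfl; simp at hz1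
    have h5 := h3 c hc1
    obtain ⟨y, hy⟩ := frob Nat.prime_two (S A)
    rw [← pow_two, hy, coeff_add, Finsupp.add_apply, coeff_natCast_mul, coeff_pw_S,
      Finset.filter_false_of_mem (fun d _ e' => hz1 (by
        rw [← e', ← pow_mul, two_mul, ← hM, pow_card_eq_one]))] at h5
    have h6 : Even (#{d ∈ B | d * c ∈ B} : ℤ) := by
      obtain ⟨k, hk⟩ := h2
      exact ⟨k - y.coeff c, by simp at h5; linarith⟩
    let u : ℕ → ℤ := fun j => if c ^ j ∈ B then 1 else 0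
    have hu : ∀ j, u (2 ^ e + j) = 1 - u j := fun j => by
      simp only [u, add_comm (2 ^ e) j, pow_add, h4 _ hzp hz1]
      split_ifs <;> simp
    have h7 : (#{d ∈ B | d * c ∈ B} : ℤ) = ∑ j ∈ range (2 ^ e + 2 ^ e), u j * u (j + 1) := by
      have : (#{d ∈ B | d * c ∈ B} : ℤ) =
          ∑ d : C, (if d ∈ B then 1 else 0) * (if d * c ∈ B then 1 else 0) := by
        rw [Finset.card_filter, ← Finset.sum_subset (Finset.subset_univ B)
          (fun d _ hd => by simp [hd])]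
        push_cast
        exact Finset.sum_congr rfl fun d hd => by simp [hd]
      rw [this, ← IsCyclic.image_range_card hc, Finset.sum_image, Nat.card_eq_fintype_card, hM]
      · simp only [u, pow_succ]
      · rw [Finset.coe_range, Nat.card_eq_fintype_card, ← hco]
        exact pow_injOn_Iio_orderOf
    have h8 : ∑ j ∈ range (2 ^ e + 2 ^ e), u j * u (j + 1) =
        2 ^ e + (u (2 ^ e) - u 0) + 2 * ∑ j ∈ range (2 ^ e), (u j * u (j + 1) - u (j + 1)) := by
      rw [Finset.sum_range_add, ← Finset.sum_range_sub, Finset.mul_sum, ← Finset.sum_add_distrib,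
        show (2 : ℤ) ^ e = ∑ j ∈ range (2 ^ e), 1 by simp, ← Finset.sum_add_distrib,
        ← Finset.sum_add_distrib]
      refine Finset.sum_congr rfl fun j _ => ?_
      rw [add_assoc (2 ^ e) j 1, hu, hu]
      ring
    have h9 := hu 0
    rw [add_zero] at h9
    rw [h7, h8, h9] at h6
    rcases e with _ | e
    · refine h1 a ha ?_
      rw [← pow_card_eq_one (G := C) (x := a), hM]
      rfl
    · obtain ⟨k, hk⟩ := h6
      rw [pow_succ] at hk
      omega

theorem frobc {x : MonoidAlgebra ℤ (Dh C)} (hx : Inv E x) {l : ℕ} (hl : l.Prime)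
    (hlm : Fintype.card C + 2 < l) (c : C) :
    (x ^ l).coeff (r (c ^ l)) ≡ x.coeff (r c) [ZMOD l] := by
  obtain ⟨y, hy⟩ := h.frobP hx hl (by omega) 1
  have hc : (Nat.card C).Coprime l := by
    rw [Nat.card_eq_fintype_card]
    exact ((Nat.coprime_of_lt_prime Fintype.card_ne_zero (by omega) hl)).symm
  have hinj := (Nat.Coprime.pow_left_bijective hc).1
  rw [pow_one] at hy
  rw [← coeff_P, hy, coeff_add, Finsupp.add_apply, coeff_natCast_mul, coeff_pw]
  simp only [hinj.eq_iff (a := _) (b := c), Finset.sum_ite_eq', mem_univ, if_true, coeff_P]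
  exact Int.modEq_iff_dvd.2 ⟨_, by rw [sub_add_cancel_left, ← mul_neg]⟩

theorem frobc' [Nontrivial C] {x y : MonoidAlgebra ℤ (Dh C)} (hx : Inv E x) (hy : Inv E y) {l : ℕ}
    (hl : l.Prime) (hlm : Fintype.card C + 2 < l)
    (hxy : ∀ c, y.coeff (r (c ^ l)) = x.coeff (r c)) (g : Dh C) :
    (x ^ l).coeff g ≡ y.coeff g [ZMOD l] := by
  have hc : (Nat.card C).Coprime l := by
    rw [Nat.card_eq_fintype_card]
    exact ((Nat.coprime_of_lt_prime Fintype.card_ne_zero (by omega) hl)).symm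
  obtain ⟨c, hc'⟩ := h.ex_rot g
  obtain ⟨d, rfl⟩ := (Nat.Coprime.pow_left_bijective hc).2 c
  rw [h.inv_pow hx l _ _ hc', hy _ _ hc', hxy]
  exact h.frobc hx hl hlm d

omit h [DecidableEq C] in
theorem cong_mul {x y x' y' : MonoidAlgebra ℤ (Dh C)} {l : ℤ}
    (hx : ∀ g, x.coeff g ≡ x'.coeff g [ZMOD l]) (hy : ∀ g, y.coeff g ≡ y'.coeff g [ZMOD l])
    (g : Dh C) : (x * y).coeff g ≡ (x' * y').coeff g [ZMOD l] := by
  rw [coeff_mul_sum, coeff_mul_sum, Int.modEq_iff_dvd, ← Finset.sum_sub_distrib]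
  exact Finset.dvd_sum fun a _ => ((hx a).mul (hy _)).dvd

omit h [CommGroup C] [DecidableEq C] in
theorem eq_of_primes {k n : ℕ} (hn : n ≠ 0) (hk : k.Coprime n) {a b : ℤ}
    (hab : ∀ l : ℕ, l.Prime → Fintype.card C + 2 < l → l ≡ k [MOD n] → a ≡ b [ZMOD l]) : a = b := by
  obtain ⟨l, hl, hlp, hlk⟩ := Nat.forall_exists_prime_gt_and_modEq
    (Fintype.card C + 2 + (b - a).natAbs) hn hk
  have := Int.eq_zero_of_dvd_of_natAbs_lt_natAbs (hab l hlp (by omega) hlk).dvd
    (by rw [Int.natAbs_natCast]; omega)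
  omega

theorem mult_aux {k : ℕ} (hk : k.Coprime (Fintype.card C)) {c d : C}
    (e : E (r (c ^ k)) (r (d ^ k))) : E (r c) (r d) := by
  by_contra hcon
  have h1 := coeff_ind_pos (h.eqv.refl (r c))
  have h2 := coeff_ind_neg hcon
  refine one_ne_zero (h1.symm.trans ((eq_of_primes (C := C) Fintype.card_ne_zero hk
    fun l hl hlm hlk => ?_).trans h2))
  refine (h.frobc (h.inv_cls _) hl hlm c).symm.trans
    (Int.ModEq.trans ?_ (h.frobc (h.inv_cls _) hl hlm d))
  rw [pow_eq_pow_of_modEq hlk pow_card_eq_one, pow_eq_pow_of_modEq hlk pow_card_eq_one,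
    h.inv_pow (h.inv_cls _) l _ _ e]

theorem mult {k : ℕ} (hk : k.Coprime (Fintype.card C)) {c d : C} :
    E (r (c ^ k)) (r (d ^ k)) ↔ E (r c) (r d) := by
  refine ⟨h.mult_aux hk, fun e => ?_⟩
  have h1 := Nat.ModEq.pow_totient hk
  obtain ⟨j, hj⟩ := Nat.exists_eq_succ_of_ne_zero (Nat.totient_pos.2 (Fintype.card_pos (α := C))).ne'
  rw [hj, pow_succ'] at h1
  refine h.mult_aux (k := k ^ j) (hk.pow_left j) ?_
  rwa [← pow_mul, ← pow_mul, pow_eq_pow_of_modEq h1 pow_card_eq_one,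
    pow_eq_pow_of_modEq h1 pow_card_eq_one, pow_one, pow_one]

theorem triv [IsCyclic C] [Nontrivial C] : ∃ z : C, ∀ g, g ≠ 1 → E g (r z) := by
  classical
  let T : MonoidAlgebra ℤ (Dh C) → Prop := fun x =>
    Inv E x ∧ ∀ (c : C) (k : ℕ), k.Coprime (Fintype.card C) → x.coeff (r (c ^ k)) = x.coeff (r c)
  let E' : Dh C → Dh C → Prop := fun g g' => ∀ x, T x → x.coeff g = x.coeff g'
  have hEE : ∀ g g', E g g' → E' g g' := fun g g' e x hx => hx.1 _ _ e
  have hT : ∀ x, Inv E' x ↔ T x := fun x =>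
    ⟨fun hx => ⟨fun g g' e => hx _ _ (hEE _ _ e), fun c k hk => hx _ _ fun y hy => hy.2 c k hk⟩,
      fun hx g g' e => e x hx⟩
  have hcop : ∀ l : ℕ, l.Prime → Fintype.card C + 2 < l → l.Coprime (Fintype.card C) :=
    fun l hl hlm => Nat.coprime_of_lt_prime Fintype.card_ne_zero (by omega) hl
  have hbij : ∀ k : ℕ, k.Coprime (Fintype.card C) → Function.Bijective fun c : C => c ^ k :=
    fun k hk => Nat.Coprime.pow_left_bijective (by rw [Nat.card_eq_fintype_card]; exact hk.symm)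
  have heq : Equivalence E' := ⟨fun _ _ _ => rfl, fun e x hx => (e x hx).symm,
    fun e e' x hx => (e x hx).trans (e' x hx)⟩
  have h' : SR E' := by
    refine ⟨heq, fun g e => ?_, fun g g' e => ?_, fun x y hx hy => ?_,
      fun Y hY => h.prim Y fun g g' e => hY g g' (hEE _ _ e)⟩
    · have := e (ind (· = 1)) ⟨h.inv_ind (by rintro _ _ e rfl; exact h.one _ (h.eqv.symm e)),
        fun c k hk => by
          rw [coeff_ind, coeff_ind]
          refine if_congr ?_ rfl rfl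
          rw [r_eq_one, r_eq_one]
          simpa using (hbij k hk).1.eq_iff (a := c) (b := 1)⟩
      rw [coeff_ind_pos (Y := fun x : Dh C => x = 1) (g := 1) rfl] at this
      by_contra hg
      rw [coeff_ind_neg (Y := fun x : Dh C => x = 1) hg] at this
      exact zero_ne_one this
    · exact heq.trans (heq.symm (hEE _ _ (h.symm g))) (heq.trans e (hEE _ _ (h.symm g')))
    · rw [hT] at hx hy ⊢
      refine ⟨h.mul _ _ hx.1 hy.1, fun c k hk => eq_of_primes (C := C) Fintype.card_ne_zero hk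
        fun l hl hlm hlk => ?_⟩
      refine Int.ModEq.trans ?_ (h.frobc (h.mul _ _ hx.1 hy.1) hl hlm c)
      rw [(h.comm h.symm hx.1 hy.1).mul_pow, pow_eq_pow_of_modEq hlk pow_card_eq_one]
      exact (cong_mul (h.frobc' hx.1 hx.1 hl hlm fun c => hx.2 c l (hcop l hl hlm))
        (h.frobc' hy.1 hy.1 hl hlm fun c => hy.2 c l (hcop l hl hlm)) _).symm
  obtain ⟨z, hz⟩ := h'.triv_rat fun c k hk x hx => by
    obtain ⟨l, hl, hlp, hlk⟩ := Nat.forall_exists_prime_gt_and_modEq (Fintype.card C + 2)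
      (orderOf_pos c).ne' hk
    rw [← pow_eq_pow_of_modEq hlk (pow_orderOf_eq_one c)]
    exact hx.2 c l (hcop l hlp hl)
  have hcls : ∀ g g', E g g' → E g = E g' := fun g g' e => funext fun a =>
    propext ⟨fun e' => h.eqv.trans (h.eqv.symm e) e', fun e' => h.eqv.trans e e'⟩
  let f : Dh C → ℤ := fun g => ∑ c, (ind (E g)).coeff (r c)
  let b : Dh C → ℤ := fun g => ∑ c, (ind (E g)).coeff (s c)
  have ht : ∀ g, (ind (E g) * ind (E g)).coeff 1 = f g + b g := fun g => by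
    rw [coeff_mul_sum, ← sum_eq]
    refine Finset.sum_congr rfl fun a _ => ?_
    rw [mul_one, ← h.inv_cls g _ _ (h.symm a), coeff_ind]
    split_ifs <;> simp
  have hf : T (fn f) := ⟨fun g g' e => by simp only [coeff_fn, f, hcls _ _ e], fun c k hk => by
    simp only [coeff_fn, f]
    rw [← (hbij k hk).sum_comp]
    refine Finset.sum_congr rfl fun d _ => ?_
    rw [coeff_ind, coeff_ind]
    exact if_congr (h.mult hk) rfl rfl⟩
  have hfb : T (fn fun g => f g + b g) :=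
    ⟨fun g g' e => by simp only [coeff_fn, f, b, hcls _ _ e], fun c k hk => by
      simp only [coeff_fn, ← ht]
      refine eq_of_primes (C := C) Fintype.card_ne_zero hk fun l hl hlm hlk => ?_
      have h1 := h.frobc (h.mul _ _ (h.inv_cls (r c)) (h.inv_cls (r c))) hl hlm 1
      rw [one_pow, (Commute.refl _).mul_pow] at h1
      refine Int.ModEq.trans ?_ h1
      have h2 := h.frobc' (h.inv_cls (r c)) (h.inv_cls (r (c ^ k))) hl hlm fun d => by
        rw [coeff_ind, coeff_ind, ← pow_eq_pow_of_modEq hlk pow_card_eq_one]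
        exact if_congr (h.mult (hcop l hl hlm)) rfl rfl
      exact (cong_mul h2 h2 1).symm⟩
  have hf' : ∀ g, g ≠ 1 → f g = f (r z) := fun g hg => (hz g hg _ hf).symm
  have hb' : ∀ g, g ≠ 1 → b g = b (r z) := fun g hg => by
    have := hz g hg _ hfb
    simp only [coeff_fn, hf' g hg] at this
    omega
  have hz1 : r z ≠ 1 := fun e => s_ne_one 1 (h'.one _ (heq.symm (e ▸ hz _ (s_ne_one 1))))
  have h1 : ∑ c, b (r c) = ∑ d, f (s d) := by
    simp only [f, b]
    rw [Finset.sum_comm]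
    refine Finset.sum_congr rfl fun d _ => Finset.sum_congr rfl fun c _ => ?_
    rw [coeff_ind, coeff_ind]
    exact if_congr ⟨h.eqv.symm, h.eqv.symm⟩ rfl rfl
  have h2 : b (r 1) = 0 := Finset.sum_eq_zero fun d _ =>
    coeff_ind_neg fun e => s_ne_one d (h.one _ (h.eqv.symm e))
  rw [← Finset.add_sum_erase _ _ (mem_univ 1), h2, zero_add,
    Finset.sum_congr rfl (fun c hc => hb' (r c) (by simpa using hc)),
    Finset.sum_congr rfl (fun c _ => hf' (s c) (s_ne_one c)), Finset.sum_const, Finset.sum_const,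
    Finset.card_erase_of_mem (mem_univ _), card_univ, nsmul_eq_mul, nsmul_eq_mul] at h1
  refine ⟨z, fun g hg => ?_⟩
  rw [← hf' g hg] at h1
  have h3 : f g = #{c | E g (r c)} := by
    simp only [f, coeff_ind, Finset.card_filter]
    push_cast
    rfl
  have h4 : ({c | E g (r c)} : Finset C) ⊆ univ.erase 1 := fun c hc =>
    mem_erase.2 ⟨by simpa using h.ne_one (mem_filter.1 hc).2 hg, mem_univ _⟩
  have h5 : 0 < #{c | E g (r c)} := by
    obtain ⟨c, hc⟩ := h.ex_rot g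
    exact Finset.card_pos.2 ⟨c, by simpa using hc⟩
  have h6 := Finset.eq_of_subset_of_card_le h4 (by
    rw [Finset.card_erase_of_mem (mem_univ _), card_univ]
    rw [h3] at h1
    obtain ⟨n, hn⟩ := Nat.exists_eq_succ_of_ne_zero (Fintype.card_ne_zero (α := C))
    rw [hn] at h1 ⊢
    simp only [Nat.succ_eq_add_one, add_tsub_cancel_right] at h1 ⊢
    refine Nat.le_of_dvd h5 (Int.natCast_dvd_natCast.1 ⟨b (r z) - #{c | E g (r c)}, ?_⟩)
    push_cast at h1
    linarith)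
  have h7 : z ∈ ({c | E g (r c)} : Finset C) := by
    rw [h6]; simpa using hz1
  exact (mem_filter.1 h7).2

end SR

end CA.H4Dih
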