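import Cfsg.Agent.Lib.Perm.NilS2

/-! Nilpotent subgroups of largest order of `S_n`, `A_n` for `n ≡ 3 mod 4`. -/

set_option autoImplicit false

namespace CA.NilS3

open Subgroup Equiv Equiv.Perm CA.NilS1 CA.NilS2

theorem conj_same {G : Type*} [Group G] [Finite G] {x : G} (hx : orderOf x = 3) {a : ℕ}
    (h : ¬ 2 ^ (a + 1) ∣ Nat.card (centralizer ({x} : Set G))) {N M : Subgroup G} (h1 : x ∈ N)
    (h2 : N ≤ centralizer {x}) (h3 : Nat.card N = 3 * 2 ^ a) (h4 : x ∈ M)
    (h5 : M ≤ centralizer {x}) (h6 : Nat.card M = 3 * 2 ^ a) :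
    ∃ g : G, M = N.map (MulAut.conj g).toMonoidHom := by
  have key : ∀ {N : Subgroup G}, x ∈ N → N ≤ centralizer {x} → Nat.card N = 3 * 2 ^ a →
      ∃ T : Sylow 2 (centralizer ({x} : Set G)), 
        N = (T : Subgroup (centralizer ({x} : Set G))).map (Subgroup.subtype _) ⊔ zpowers x := by
    intro N h1 h2 h3
    obtain ⟨T, hT⟩ := Sylow.exists_subgroup_card_pow_prime 2 (n := a) (G := N) (h3 ▸ Dvd.intro_left _ rfl)
    have h4 : T.map N.subtype ≤ centralizer {x} := (map_subtype_le T).trans h2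
    have h5 : Nat.card ((T.map N.subtype).subgroupOf (centralizer {x})) = 2 ^ a := by
      rw [CA.Rad.card_subgroupOf_of_le h4, CA.Rad.card_map_subtype, hT]
    refine ⟨Sylow.ofCard ((T.map N.subtype).subgroupOf _) (h5.trans ?_), ?_⟩
    · rw [Nat.factorization_def _ Nat.prime_two]
      congr 1
      exact le_antisymm ((padicValNat_dvd_iff_le Nat.card_pos.ne').1 (h5 ▸ card_subgroup_dvd_card _))
        (Nat.lt_succ_iff.1 (not_le.1 fun e => h ((padicValNat_dvd_iff_le Nat.card_pos.ne').2 e)))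
    · rw [Sylow.coe_ofCard, map_subgroupOf_eq_of_le h4]
      refine (eq_of_le_of_card_ge (sup_le (map_subtype_le T) (zpowers_le.2 h1))
        (Nat.le_of_dvd Nat.card_pos ?_)).symm
      rw [h3]
      refine Nat.Coprime.mul_dvd_of_dvd_of_dvd (Nat.Coprime.pow_right _ (by decide)) ?_ ?_
      · rw [← hx, ← Nat.card_zpowers]; exact card_dvd_of_le le_sup_right
      · rw [← hT, ← CA.Rad.card_map_subtype]; exact card_dvd_of_le le_sup_left
  obtain ⟨T, rfl⟩ := key h1 h2 h3
  obtain ⟨U, rfl⟩ := key h4 h5 h6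
  obtain ⟨g, rfl⟩ := MulAction.exists_smul_eq (centralizer ({x} : Set G)) T U
  refine ⟨g, ?_⟩
  rw [Subgroup.map_sup, MonoidHom.map_zpowers, Subgroup.map_map, Sylow.coe_subgroup_smul]
  congr 1
  · exact Subgroup.map_map _ _ _
  · simp [mem_centralizer_singleton_iff.1 g.2]

theorem conj_of {G : Type*} [Group G] [Finite G] {x y : G} (hxy : IsConj y x) (hx : orderOf x = 3) {a : ℕ}
    (h : ¬ 2 ^ (a + 1) ∣ Nat.card (centralizer ({x} : Set G))) {N M : Subgroup G} (h1 : y ∈ N)
    (h2 : N ≤ centralizer {y}) (h3 : Nat.card N = 3 * 2 ^ a) (h4 : x ∈ M)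
    (h5 : M ≤ centralizer {x}) (h6 : Nat.card M = 3 * 2 ^ a) :
    ∃ g : G, M = N.map (MulAut.conj g).toMonoidHom := by
  obtain ⟨c, rfl⟩ := isConj_iff.1 hxy
  obtain ⟨g, rfl⟩ := conj_same hx h (N := N.map (MulAut.conj c).toMonoidHom) ⟨y, h1, rfl⟩ (by
    rintro _ ⟨n, hn, rfl⟩
    simp [mem_centralizer_singleton_iff, mul_assoc]
    simp [← mul_assoc, mem_centralizer_singleton_iff.1 (h2 hn)])
    (by rw [card_map_of_injective (MulAut.conj c).injective, h3]) h4 h5 h6
  exact ⟨g * c, by rw [Subgroup.map_map, map_mul]; rfl⟩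

theorem three {t a : ℕ} {N : Subgroup (Perm (Fin (4 * t + 3)))} (hN : Group.IsNilpotent N)
    (h1 : Nat.card N = 3 * 2 ^ a) (h2 : s (4 * t) ≤ 2 * 2 ^ a) :
    ∃ x ∈ N, IsThreeCycle x ∧ N ≤ centralizer {x} := by
  have : Fact (Nat.Prime 3) := ⟨Nat.prime_three⟩
  obtain ⟨x, h3, hx, hc⟩ := exists_central hN Nat.prime_three (h1 ▸ Dvd.intro _ rfl)
  refine ⟨x, h3, ?_, hc⟩
  have ht := cycleType_of_pow_prime_eq_one (orderOf_dvd_iff_pow_eq_one.1 hx.dvd)
  have h0 := card_cycleType_pos.2 (show x ≠ 1 by rintro rfl; simp at hx)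
  have hs := x.sum_cycleType_le
  have hd := (Dvd.intro_left _ h1.symm).trans (card_dvd_of_le hc)
  rw [nat_card_centralizer] at hd
  generalize x.cycleType.card = k at ht h0
  by_cases hk : k = 1
  · rw [IsThreeCycle, ht, hk]; rfl
  simp only [ht, Multiset.sum_replicate, Multiset.prod_replicate, Multiset.toFinset_replicate, h0.ne',
    if_false, Finset.prod_singleton, Multiset.count_replicate_self, Fintype.card_fin, smul_eq_mul,
    mul_comm k 3] at hs hd
  rw [mul_right_comm] at hd
  have := (padicValNat_dvd_iff_le (by positivity)).1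
    ((Nat.Coprime.pow _ _ (by decide)).dvd_of_dvd_mul_right hd)
  rw [padicValNat.mul (by positivity) (by positivity)] at this
  have h5 := four_s (t := t) (k := k) (by omega) hs
  have h6 := Nat.pow_le_pow_right two_pos this
  rw [pow_add] at h6
  have := Nat.pos_of_ne_zero (pow_ne_zero a two_ne_zero)
  unfold s at h5 h2
  omega

theorem card_cent {n : ℕ} {x : Perm (Fin n)} (hx : IsThreeCycle x) :
    Nat.card (centralizer {x}) = (n - 3).factorial * 3 := by
  simp [nat_card_centralizer, hx.cycleType]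

theorem not_dvd {n a : ℕ} (h : s n = 2 ^ a) : ¬ 2 ^ (a + 1) ∣ n.factorial * 3 := fun e => by
  have := dvd_s ((Nat.Coprime.pow_left _ (by decide)).dvd_of_dvd_mul_right e)
  rw [h, Nat.pow_dvd_pow_iff_le_right one_lt_two] at this
  omega

theorem card_cent_alt {n : ℕ} (hn : 5 ≤ n) {x : alternatingGroup (Fin n)}
    (hx : IsThreeCycle (x : Perm (Fin n))) :
    2 * Nat.card (centralizer {x}) = (n - 3).factorial * 3 := by
  have : Nontrivial (Fin n) := Fin.nontrivial_iff_two_le.2 (by omega)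
  have h1 : (centralizer {x}).map (alternatingGroup (Fin n)).subtype =
      alternatingGroup (Fin n) ⊓ centralizer {(x : Perm (Fin n))} := by
    ext g
    simp only [mem_map, mem_centralizer_singleton_iff, mem_inf]
    exact ⟨by rintro ⟨g, h, rfl⟩; exact ⟨g.2, congrArg Subtype.val h⟩,
      fun h => ⟨⟨g, h.1⟩, Subtype.ext h.2, rfl⟩⟩
  rw [← card_cent hx, ← CA.Rad.card_map_subtype, h1,
    ← CA.Rad.card_inf_mul_relIndex (alternatingGroup (Fin n)) (centralizer _), mul_comm]
  congr 1
  have h2 := relIndex_dvd_index_of_normal (alternatingGroup (Fin n)) (centralizer {(x : Perm (Fin n))})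
  rw [alternatingGroup.index_eq_two] at h2
  refine (((Nat.dvd_prime Nat.prime_two).1 h2).resolve_left fun e => ?_).symm
  obtain ⟨a, ha, b, hb, hab⟩ := Finset.one_lt_card.1
    (show 1 < (x : Perm (Fin n)).supportᶜ.card by simp [Finset.card_compl, hx.card_support]; omega)
  have := relIndex_eq_one.1 e (show swap a b ∈ _ from mem_centralizer_singleton_iff.2 (by
    rw [mul_swap_eq_swap_mul]
    simp only [Finset.mem_compl, mem_support, not_not] at ha hb
    rw [ha, hb]))
  simp [hab] at this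

theorem exists_hom {n : ℕ} (hn : 3 ≤ n) :
    ∃ φ : Perm (Fin (n - 3)) × Multiplicative (ZMod 3) →* Perm (Fin n), Function.Injective φ ∧
      ∀ g, sign (φ g) = sign g.1 := by
  have e : Fin (n - 3) ⊕ Multiplicative (ZMod 3) ≃ Fin n := Fintype.equivOfCardEq (by simp; omega)
  refine ⟨e.permCongrHom.toMonoidHom.comp ((sumCongrHom _ _).comp ((MonoidHom.id _).prodMap
    (MulAction.toPermHom (Multiplicative (ZMod 3)) (Multiplicative (ZMod 3))))),
    e.permCongrHom.injective.comp (sumCongrHom_injective.comp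
      (Function.injective_id.prodMap MulAction.toPerm_injective)), fun g => ?_⟩
  have : sign (MulAction.toPermHom (Multiplicative (ZMod 3)) (Multiplicative (ZMod 3)) g.2) = 1 := by
    refine (Int.units_eq_one_or _).resolve_right fun h => ?_
    have h1 : g.2 ^ 3 = 1 := by simpa using pow_card_eq_one' (x := g.2)
    have := congrArg (· ^ 3) h
    simp only [← map_pow, h1, map_one] at this
    exact absurd this (by decide)
  simpa using this

end CA.NilS3
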