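import Cfsg.Agent.Lib.Perm.Atk2

/-! O'Nan's theorem, part 1: the geometry attached to an abelian normal subgroup of a point
stabilizer which is not semiregular. -/

set_option autoImplicit false
open MulAction CA.Atk

namespace CA.ON
variable {G X : Type*} [Group G] [MulAction G X]

theorem card_le [Finite G] (S T : Subgroup G) (f : G → G) (h1 : ∀ s ∈ S, f s ∈ T)
    (h2 : Set.InjOn f S) : Nat.card S ≤ Nat.card T :=
  Nat.card_le_card_of_injective (fun s : S => (⟨f s, h1 _ s.2⟩ : T)) fun s s' e =>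
    Subtype.ext (h2 s.2 s'.2 (congrArg Subtype.val e))

theorem le_of_conj [Finite G] {S T : Subgroup G} (g : G) (h : S ≤ T)
    (h1 : ∀ s ∈ T, g * s * g⁻¹ ∈ S) : T ≤ S :=
  (Subgroup.eq_of_le_of_card_ge h (card_le T S _ h1 fun _ _ _ _ e => by simpa using e)).ge

theorem exists_cent [Finite G] {p : ℕ} [Fact p.Prime] {P Q : Subgroup G} (hP : IsPGroup p P)
    (hQ : IsPGroup p Q) (h0 : ∃ d ∈ Q, d ≠ 1) (hn : ∀ a ∈ P, ∀ d ∈ Q, a * d * a⁻¹ ∈ Q) :
    ∃ d ∈ Q, d ≠ 1 ∧ ∀ a ∈ P, a * d = d * a := by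
  let _ : MulAction P Q :=
    { smul := fun a d => ⟨a * d * a⁻¹, hn a a.2 d d.2⟩
      one_smul := fun d => Subtype.ext (show (1 : G) * d * 1⁻¹ = d by simp)
      mul_smul := fun a b d => Subtype.ext
        (show (a * b : G) * d * (a * b : G)⁻¹ = a * (b * d * (b : G)⁻¹) * (a : G)⁻¹ by group) }
  obtain ⟨d, hd, h1⟩ := h0
  have : Nontrivial Q := ⟨⟨d, hd⟩, 1, fun e => h1 (congrArg Subtype.val e)⟩
  obtain ⟨k, hk0, hk⟩ := hQ.nontrivial_iff_card.mp this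
  obtain ⟨b, hb, hb1⟩ := hP.exists_fixed_point_of_prime_dvd_card_of_fixed_point Q
    (hk ▸ dvd_pow_self p hk0.ne') (a := 1)
    (fun a => Subtype.ext (show (a : G) * 1 * (a : G)⁻¹ = 1 by simp))
  exact ⟨b, b.2, fun e => hb1 (Subtype.ext e.symm), fun a ha =>
    mul_inv_eq_iff_eq_mul.1 (congrArg Subtype.val (hb ⟨a, ha⟩))⟩

structure Sys (p : ℕ) (N : X → Subgroup G) : Prop where
  two : ∀ {a b c d : X}, a ≠ b → c ≠ d → ∃ g : G, g • a = c ∧ g • b = d
  faith : ∀ g : G, (∀ x : X, g • x = x) → g = 1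
  fix : ∀ {x n}, n ∈ N x → n • x = x
  conj : ∀ {x n} (g : G), n ∈ N x → g * n * g⁻¹ ∈ N (g • x)
  comm : ∀ {x a b}, a ∈ N x → b ∈ N x → a * b = b * a
  pg : ∀ x, IsPGroup p (N x)
  ne : ∀ {x y}, x ≠ y → ∃ n ∈ N x, n ≠ 1 ∧ n • y = y

/-- `N^x_u` -/
def A (N : X → Subgroup G) (x u : X) : Subgroup G := N x ⊓ stabilizer G u

theorem mem_A {N : X → Subgroup G} {x u : X} {n : G} : n ∈ A N x u ↔ n ∈ N x ∧ n • u = u := Iff.rfl

/-- `z` lies on the line through `x` and `u` -/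
def Col (N : X → Subgroup G) (x u z : X) : Prop := ∀ n ∈ N x, n • u = u → n • z = z

theorem fix_conj {g n : G} {u : X} (h : n • u = u) : (g * n * g⁻¹) • g • u = g • u := by
  simp [mul_smul, h]

theorem inv_fix {n : G} {u : X} (h : n • u = u) : n⁻¹ • u = u := inv_smul_eq_iff.2 h.symm

theorem fix_cm {g n : G} {u : X} (h : g • u = u) (h' : n • u = u) : (g * n * g⁻¹ * n⁻¹) • u = u := by
  simp [mul_smul, h, h', inv_fix]

theorem fix_comm {g n : G} {u : X} (e : g * n = n * g) (h : n • u = u) : n • g • u = g • u := by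
  rw [← mul_smul, ← e, mul_smul, h]

theorem col_smul {N : X → Subgroup G} {p : ℕ} (h : Sys p N) {x u z : X} (g : G) (H : Col N x u z) :
    Col N (g • x) (g • u) (g • z) := fun n hn e => by
  have h1 := h.conj g⁻¹ hn
  have h2 := fix_conj (g := g⁻¹) e
  rw [inv_smul_smul] at h1 h2
  simpa [mul_assoc] using fix_conj (g := g) (H _ h1 h2)

theorem col_right {N : X → Subgroup G} {x u : X} : Col N x u u := fun _ _ e => e

/-- non-collinear triples -/
def NC (N : X → Subgroup G) (x u v : X) : Prop := u ≠ x ∧ ¬ Col N x u v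

/-- `N^x_{u,v}` -/
def R (N : X → Subgroup G) (x u v : X) : Subgroup G := A N x u ⊓ stabilizer G v

theorem mem_R {N : X → Subgroup G} {x u v : X} {n : G} :
    n ∈ R N x u v ↔ n ∈ N x ∧ n • u = u ∧ n • v = v := and_assoc

theorem R_swap {N : X → Subgroup G} {x u v : X} : R N x u v = R N x v u := by
  ext; simp only [mem_R, and_comm]

namespace Sys
variable {p : ℕ} {N : X → Subgroup G} (h : Sys p N)
include h

theorem conj' {x : X} {n g : G} (hg : g • x = x) (hn : n ∈ N x) : g * n * g⁻¹ ∈ N x := by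
  have := h.conj g hn; rwa [hg] at this

theorem cm {x : X} {n g : G} (hg : g • x = x) (hn : n ∈ N x) : g * n * g⁻¹ * n⁻¹ ∈ N x :=
  mul_mem (h.conj' hg hn) (inv_mem hn)

theorem cm' {x : X} {n g : G} (hg : g • x = x) (hn : n ∈ N x) : n * g * n⁻¹ * g⁻¹ ∈ N x := by
  simpa [mul_assoc] using inv_mem (h.cm hg hn)

variable [Finite G]

theorem ti {x y : X} {d : G} (hx : d ∈ N x) (hy : d ∈ N y) (h1 : d ≠ 1) : x = y := by
  have key : ∀ {u v x y : X}, u ≠ v → x ≠ y → N u ⊓ N v ≤ N x ⊓ N y → N x ⊓ N y ≤ N u ⊓ N v := by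
    intro u v x y huv hxy e
    obtain ⟨g, rfl, rfl⟩ := h.two hxy huv
    exact le_of_conj g e fun s hs => ⟨h.conj g hs.1, h.conj g hs.2⟩
  by_contra hxy
  obtain ⟨u, hu⟩ := not_forall.1 fun e => h1 (h.faith d e)
  have h2 : ∀ {x}, d ∈ N x → N u ⊓ N (d • u) ≤ N x := fun {x} hx =>
    (key (u := u) (v := x) (fun e => hu (e ▸ h.fix hx)) (Ne.symm hu) fun s hs => ⟨hs.1, by
      have := h.conj d hs.1
      rwa [h.comm hx hs.2, mul_inv_cancel_right] at this⟩).trans inf_le_right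
  exact hu (h.fix (key (Ne.symm hu) hxy (le_inf (h2 hx) (h2 hy)) ⟨hx, hy⟩).1)

theorem fix_of_comm {u : X} {b g : G} (hb : b ∈ N u) (h1 : b ≠ 1) (e : g * b = b * g) :
    g • u = u := by
  have := h.conj g hb
  rw [e, mul_inv_cancel_right] at this
  exact h.ti this hb h1

theorem comm_of_fix {x u : X} {a b : G} (ha : a ∈ N x) (hb : b ∈ N u) (h1 : a • u = u)
    (h2 : b • x = x) : a * b = b * a := by
  by_cases e : x = u
  · exact h.comm ha (e ▸ hb)
  by_contra h3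
  exact e (h.ti (h.cm' h2 ha) (h.cm h1 hb) fun e => h3 (by
    rwa [mul_inv_eq_one, mul_inv_eq_iff_eq_mul] at e))

theorem exists_move {x u : X} (hu : u ≠ x) : ∃ n ∈ N x, n • u ≠ u := by
  by_contra H
  push Not at H
  obtain ⟨n, hn, h1, -⟩ := h.ne hu.symm
  refine h1 (h.faith n fun z => ?_)
  by_cases e : z = x
  · exact e ▸ h.fix hn
  obtain ⟨g, h2, rfl⟩ := h.two hu.symm (Ne.symm e)
  have := fix_conj (g := g) (H _ (h.conj' (inv_fix h2) hn))
  simpa [mul_assoc] using this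

theorem card_A {x u y w : X} (h1 : x ≠ u) (h2 : y ≠ w) :
    Nat.card (A N x u) ≤ Nat.card (A N y w) := by
  obtain ⟨g, rfl, rfl⟩ := h.two h1 h2
  exact card_le _ _ _ (fun s hs => ⟨h.conj g hs.1, fix_conj hs.2⟩) fun _ _ _ _ e => by simpa using e

theorem col_swap {x u z : X} (hu : u ≠ x) (hz : z ≠ x) (H : Col N x u z) : Col N x z u :=
  fun n hn e => ((Subgroup.eq_of_le_of_card_ge (H := A N x u) (K := A N x z)
    (fun s hs => ⟨hs.1, H s hs.1 hs.2⟩) (h.card_A hz.symm hu.symm)).ge ⟨hn, e⟩).2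

theorem col_orbit {x u : X} {n : G} (hn : n ∈ N x) : Col N x u (n • u) := fun _ ha e =>
  fix_comm (h.comm hn ha) e

variable [Fact p.Prime]

theorem exists_d {x u z : X} (hu : u ≠ x) (hz : z ≠ u) (H : Col N x u z) :
    ∃ d ∈ N u, d ≠ 1 ∧ d • x = x ∧ d • z = z := by
  obtain ⟨d, hd, h1, h2⟩ := exists_cent (P := A N x u) (Q := A N u z) ((h.pg x).to_le inf_le_left)
    ((h.pg u).to_le inf_le_left) (by
      obtain ⟨n, hn, h1, h2⟩ := h.ne hz.symm; exact ⟨n, ⟨hn, h2⟩, h1⟩) fun a ha d hd =>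
      ⟨h.conj' ha.2 hd.1, by have := fix_conj (g := a) hd.2; rwa [H a ha.1 ha.2] at this⟩
  obtain ⟨n, hn, h3, h4⟩ := h.ne hu.symm
  exact ⟨d, hd.1, h1, h.fix_of_comm hn h3 (h2 n ⟨hn, h4⟩).symm, hd.2⟩

/-- `[N^x, N^u_x] ≤ N^x_u` -/
theorem fix_orbit {x u : X} {n b : G} (hn : n ∈ N x) (hb : b ∈ N u) (hx : b • x = x) :
    b • n • u = n • u := by
  by_cases hu : u = x
  · subst hu; rw [h.fix hn, hx]
  by_cases h0 : n • u = u
  · rw [h0, h.fix hb]
  obtain ⟨d, hd, h1, h2, h3⟩ := h.exists_d hu h0 (h.col_orbit hn)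
  have h4 : (n⁻¹ * d * n⁻¹⁻¹ * d⁻¹) • u = u := by
    simp [mul_smul, inv_fix (h.fix hd), h3]
  have h5 := h.comm_of_fix (h.cm' h2 (inv_mem hn)) hb h4 hx
  have h6 := h.comm hb hd
  have h7 := h.comm (h.conj' h2 hn) (h.cm' hx (inv_mem hn))
  have h8 := h.comm (inv_mem hn) (h.conj' hx hn)
  have := h.fix_of_comm hd h1 (g := n⁻¹ * b * n * b⁻¹) (by
    calc _ = (d * n * d⁻¹)⁻¹ * (d * n * d⁻¹ * (n⁻¹ * b * n⁻¹⁻¹ * b⁻¹)) * d := by group
      _ = (d * n * d⁻¹)⁻¹ * (n⁻¹ * (b * n * b⁻¹)) * (d * n) := by rw [h7]; group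
      _ = d * n⁻¹ * d⁻¹ * b * n * b⁻¹ * (n⁻¹ * d * n⁻¹⁻¹ * d⁻¹ * b) * b⁻¹ * d := by rw [h8]; group
      _ = d * n⁻¹ * d⁻¹ * (b * d) * n * (b * d)⁻¹ * d := by rw [h5]; group
      _ = _ := by nth_rw 1 [h6]; rw [h6]; group)
  rwa [mul_smul, mul_smul, mul_smul, inv_fix (h.fix hb), inv_smul_eq_iff] at this

theorem cm_fix {x u : X} {n b : G} (hn : n ∈ N x) (hb : b ∈ N u) (hx : b • x = x) :
    (n * b * n⁻¹ * b⁻¹) • u = u := by
  rw [mul_smul, mul_smul, mul_smul, inv_fix (h.fix hb), h.fix_orbit (inv_mem hn) hb hx, smul_inv_smul]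

omit [Finite G] [Fact p.Prime] in
theorem col_left {x u : X} : Col N x u x := fun _ hn _ => h.fix hn

theorem col_rot {x u z : X} (hu : u ≠ x) (hz : z ≠ x) (H : Col N x u z) : Col N z x u := by
  intro e he hx
  by_cases h0 : z = u
  · exact h0 ▸ h.fix he
  obtain ⟨d, hd, h1, h2, h3⟩ := h.exists_d hu h0 H
  refine h.fix_of_comm hd h1 (by_contra fun hc => ?_)
  obtain ⟨n, hn, h4⟩ := h.exists_move hz
  refine h4 (h.fix_of_comm (h.cm (inv_fix h3) (inv_mem he)) (fun e' => hc ?_) ?_)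
  · rw [mul_inv_eq_one, inv_inv, mul_assoc, inv_mul_eq_iff_eq_mul, inv_mul_eq_iff_eq_mul,
      ← mul_assoc, eq_mul_inv_iff_mul_eq] at e'
    exact e'.symm
  have a1 := h.cm' h2 (inv_mem hn)
  have a2 := h.cm' hx (inv_mem hn)
  have h5 := h.comm_of_fix a1 he (H _ a1 (h.cm_fix (inv_mem hn) hd h2)) hx
  have h6 := h.comm_of_fix a2 hd (h.col_swap hu hz H _ a2 (h.cm_fix (inv_mem hn) he hx)) h2
  have h7 := h.comm a1 a2
  calc _ = d⁻¹ * e⁻¹ * (e * n * e⁻¹) * (e * (n⁻¹ * d * n⁻¹⁻¹ * d⁻¹)) * e⁻¹ * d * e := by group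
    _ = d⁻¹ * e⁻¹ * n * (n⁻¹ * e * n⁻¹⁻¹ * e⁻¹ * (n⁻¹ * d * n⁻¹⁻¹ * d⁻¹)) * d * e := by
      rw [← h5]; group
    _ = d⁻¹ * e⁻¹ * d * n * d⁻¹ * (n⁻¹ * e * n⁻¹⁻¹ * e⁻¹ * d) * e := by rw [← h7]; group
    _ = _ := by rw [h6]; group

theorem col_symm {x u z : X} (hu : u ≠ x) (H : Col N x u z) : Col N u x z := by
  by_cases hz : z = x
  · exact hz ▸ col_right
  exact h.col_rot hz hu (h.col_swap hu hz H)

theorem col_trans {x u y w z : X} (hu : u ≠ x) (hw : w ≠ y) (H1 : Col N x u y) (H2 : Col N x u w)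
    (H3 : Col N x u z) : Col N y w z := by
  have t : ∀ {x u w z : X}, u ≠ x → w ≠ x → Col N x u w → Col N x u z → Col N x w z :=
    fun hu hw H1 H2 n hn e => H2 n hn (h.col_swap hu hw H1 n hn e)
  by_cases hy : y = x
  · subst hy; exact t hu hw H2 H3
  exact t (Ne.symm hy) hw (h.col_symm hy (t hu hy H1 H2)) (h.col_symm hy (t hu hy H1 H3))

omit [Finite G] [Fact p.Prime] in
theorem nc_ne {x u v : X} (H : NC N x u v) : v ≠ x ∧ v ≠ u :=
  ⟨fun e => H.2 (e ▸ h.col_left), fun e => H.2 (e ▸ col_right)⟩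

omit [Fact p.Prime] in
theorem nc_swap {x u v : X} (H : NC N x u v) : NC N x v u :=
  ⟨(h.nc_ne H).1, fun e => H.2 (h.col_swap (h.nc_ne H).1 H.1 e)⟩

theorem nc_symm {x u v : X} (H : NC N x u v) : NC N u x v :=
  ⟨H.1.symm, fun e => H.2 (h.col_symm H.1.symm e)⟩

omit [Finite G] [Fact p.Prime] in
theorem exists_nc {x u : X} (hu : u ≠ x) : ∃ v, NC N x u v := by
  obtain ⟨n, hn, h1, h2⟩ := h.ne hu.symm
  obtain ⟨v, hv⟩ := not_forall.1 fun e => h1 (h.faith n e)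
  exact ⟨v, hu, fun e => hv (e n hn h2)⟩

omit [Fact p.Prime] in
theorem cm_inj {u : X} {d : G} (hd : d • u ≠ u) :
    Set.InjOn (fun b => d * b * d⁻¹ * b⁻¹) (N u) := fun b hb b' hb' e => by
  by_contra hc
  refine hd (h.fix_of_comm (mul_mem (inv_mem hb') hb) (fun e => hc (inv_mul_eq_one.1 e).symm) ?_)
  calc _ = d * b'⁻¹ * d⁻¹ * (d * b * d⁻¹ * b⁻¹) * b * d := by group
    _ = _ := by rw [show d * b * d⁻¹ * b⁻¹ = d * b' * d⁻¹ * b'⁻¹ from e]; group

theorem card_R {x u v : X} (H : NC N x u v) : Nat.card (R N u x v) = Nat.card (R N x u v) := by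
  have key : ∀ {x u}, NC N x u v → Nat.card (R N u x v) ≤ Nat.card (R N x u v) := fun H => by
    have := (h.nc_swap H).2
    simp only [Col, not_forall] at this
    obtain ⟨d, hd, h1, h2⟩ := this
    exact card_le _ _ _ (fun b hb => ⟨⟨h.cm' hb.1.2 hd, h.cm_fix hd hb.1.1 hb.1.2⟩, fix_cm h1 hb.2⟩)
      ((h.cm_inj h2).mono fun b hb => hb.1.1)
  exact le_antisymm (key H) (key (h.nc_symm H))

/-- fixed point sets are subspaces -/
theorem sub {x u v z : X} {n : G} (hn : n ∈ N x) (hu : n • u = u) (hv : n • v = v) (huv : v ≠ u)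
    (H : Col N u v z) : n • z = z := by
  by_cases hx : Col N u v x
  · by_cases e : u = x
    · exact H n (e ▸ hn) hv
    · exact h.col_trans huv e hx h.col_left H n hn hu
  by_contra hz
  have h1 : z ≠ u := fun e => hz (e ▸ hu)
  have h2 : NC N u z x := ⟨h1, fun e => hx (h.col_trans h1 huv h.col_left (h.col_swap huv h1 H) e)⟩
  have h3 : R N u z x = R N u v x := by
    ext b
    exact ⟨fun e => ⟨⟨e.1.1, h.col_swap huv h1 H b e.1.1 e.1.2⟩, e.2⟩,
      fun e => ⟨⟨e.1.1, H b e.1.1 e.1.2⟩, e.2⟩⟩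
  have h4 : Nat.card (R N z u x) = Nat.card (R N x u v) := by
    rw [h.card_R h2, h3, R_swap, h.card_R (h.nc_symm (h.nc_swap ⟨huv, hx⟩))]
  refine hz ((Subgroup.eq_of_le_of_card_ge (H := R N x u v ⊓ stabilizer G z) inf_le_left (h4 ▸
    card_le _ _ _ (fun e he => ⟨⟨⟨h.cm' he.2 hn, fix_cm hu he.1.2⟩, fix_cm hv ?_⟩,
      h.cm_fix hn he.1.1 he.2⟩) ((h.cm_inj hz).mono fun b hb => hb.1.1))).ge ⟨⟨hn, hu⟩, hv⟩).2
  exact h.col_trans huv h1.symm H h.col_left col_right e he.1.1 he.1.2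

variable [Finite X]

omit [Fact p.Prime] in
theorem ncard_orbit {x u y w : X} (h1 : u ≠ x) (h2 : w ≠ y) :
    (orbit (N x) u).ncard ≤ (orbit (N y) w).ncard := by
  obtain ⟨g, rfl, rfl⟩ := h.two h1 h2
  refine Set.ncard_le_ncard_of_injOn (g • ·) (fun z hz => ?_) (MulAction.injective g).injOn
  obtain ⟨n, hn, rfl⟩ := mem_orbit'.1 hz
  exact mem_orbit'.2 ⟨_, h.conj g hn, by simp [mul_smul]⟩

theorem orbit_A {x u v : X} (H : NC N x u v) : orbit (A N x u) v = orbit (N x) v := by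
  have := (h.nc_symm H).2
  simp only [Col, not_forall] at this
  obtain ⟨b, hb, h1, h2⟩ := this
  have key : ∀ n ∈ N x, (n * b * n⁻¹ * b⁻¹) • v = v → n • u = u := fun n hn e => by
    by_contra hc
    have := Set.ncard_le_ncard_of_injOn (s := insert b (R N u x v)) (t := R N x u v) _ (by
      rintro c (rfl | hc)
      · exact ⟨⟨h.cm' h1 hn, h.cm_fix hn hb h1⟩, e⟩
      · refine ⟨⟨h.cm' hc.1.2 hn, h.cm_fix hn hc.1.1 hc.1.2⟩, show _ • v = v from ?_⟩
        rw [mul_smul, mul_smul, mul_smul, inv_fix hc.2, h.sub hc.1.1 hc.1.2 hc.2 (h.nc_ne H).1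
          (h.col_orbit (inv_mem hn)), smul_inv_smul]) ((h.cm_inj hc).mono (by
        rintro c (rfl | hc)
        exacts [hb, hc.1.1]))
    rw [Set.ncard_insert_of_notMem (fun e => h2 e.2), ← Nat.card_coe_set_eq,
      ← Nat.card_coe_set_eq] at this
    exact absurd (h.card_R H ▸ this) (Nat.not_succ_le_self _)
  refine Set.eq_of_subset_of_ncard_le (fun z hz => ?_)
    ((h.ncard_orbit (h.nc_ne H).1 H.1).trans ?_)
  · obtain ⟨n, hn, e⟩ := mem_orbit'.1 hz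
    exact mem_orbit'.2 ⟨n, hn.1, e⟩
  choose! f hf1 hf2 using fun w (hw : w ∈ orbit (N x) u) => mem_orbit'.1 hw
  refine Set.ncard_le_ncard_of_injOn (fun w => (f w * b * (f w)⁻¹ * b⁻¹) • v) (fun w hw =>
    mem_orbit'.2 ⟨_, ⟨h.cm' h1 (hf1 w hw), h.cm_fix (hf1 w hw) hb h1⟩, rfl⟩) fun w hw w' hw' e => ?_
  have := key _ (mul_mem (inv_mem (hf1 w' hw')) (hf1 w hw)) (by
    have h3 := h.comm (inv_mem (hf1 w' hw')) (h.cm' h1 (hf1 w hw))
    have h4 := h.comm (h.conj' h1 (hf1 w' hw')) (h.cm' h1 (hf1 w hw))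
    have h5 := h.comm (h.conj' h1 (hf1 w' hw')) (inv_mem (hf1 w' hw'))
    have h6 := h.comm (h.conj' h1 (hf1 w' hw')) (h.conj' h1 (inv_mem (hf1 w hw)))
    refine Eq.trans (congrArg (· • v) ?_) (inv_smul_eq_iff.2 e |> fun e => (mul_smul _ _ _).trans e)
    calc _ = (f w')⁻¹ * f w * (b * f w' * b⁻¹ * (b * (f w)⁻¹ * b⁻¹)) := by rw [h6]; group
      _ = (f w')⁻¹ * (f w * b * (f w)⁻¹ * b⁻¹ * (b * f w' * b⁻¹)) := by rw [h6]; group
      _ = b * f w' * b⁻¹ * (f w')⁻¹ * (f w * b * (f w)⁻¹ * b⁻¹) := by rw [← h4, h5]; group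
      _ = _ := by group)
  rw [← hf2 w hw, ← hf2 w' hw', ← inv_smul_eq_iff, ← mul_smul, this]

theorem lines {x u v : X} (H : NC N x u v) :
    {w | Col N u v w}.ncard ≤ (orbit (N u) v).ncard + 1 ∧
      ∀ n ∈ N x, ∃ w, Col N u v w ∧ n • w = w := by
  classical
  obtain ⟨hvx, hvu⟩ := h.nc_ne H
  have h0 : ∀ w, Col N u v w → w ≠ x := fun w hw e => (h.nc_swap (h.nc_symm H)).2 (e ▸ hw)
  have h1 := card_eq_orbit (N x) u
  have h2 := card_eq_orbit (A N x u) v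
  rw [h.orbit_A H, le_antisymm (h.ncard_orbit hvx hvu) (h.ncard_orbit hvu hvx)] at h2
  rw [le_antisymm (h.ncard_orbit H.1 hvu) (h.ncard_orbit hvu H.1)] at h1
  have h3 : (orbit (N u) v).ncard + 1 ≤ {w | Col N u v w}.ncard := by
    rw [← Set.ncard_insert_of_notMem (a := u) fun e => by
      obtain ⟨n, hn, e⟩ := mem_orbit'.1 e
      exact hvu (MulAction.injective n (e.trans (h.fix hn).symm))]
    refine Set.ncard_le_ncard ?_
    rintro w (rfl | hw)
    · exact h.col_left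
    · obtain ⟨n, hn, rfl⟩ := mem_orbit'.1 hw
      exact h.col_orbit hn
  have h4 : 1 < (orbit (N u) v).ncard := by
    obtain ⟨n, hn, e⟩ := h.exists_move hvu
    exact (Set.one_lt_ncard (Set.toFinite _)).2 ⟨_, mem_orbit'.2 ⟨n, hn, rfl⟩, v, mem_orbit_self _, e⟩
  have h5 : ∀ w, Col N u v w → (R N x u v : Set G) ⊆ A N x w := fun w hw n hn =>
    ⟨hn.1.1, h.sub hn.1.1 hn.1.2 hn.2 hvu hw⟩
  have h6 := Set.Finite.ncard_biUnion (Set.toFinite {w | Col N u v w})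
    (s := fun w => (A N x w : Set G) \ R N x u v) (fun _ _ => Set.toFinite _)
    fun w hw w' hw' e => Set.disjoint_left.2 fun n hn hn' => hn.2
      ⟨⟨hn.1.1, h.sub hn.1.1 hn.1.2 hn'.1.2 e.symm (h.col_trans hvu e.symm hw hw' h.col_left)⟩,
        h.sub hn.1.1 hn.1.2 hn'.1.2 e.symm (h.col_trans hvu e.symm hw hw' col_right)⟩
  rw [finsum_mem_congr rfl (g := fun _ => Nat.card (A N x u) - Nat.card (R N x u v)) fun w hw => by
    rw [Set.ncard_sdiff (h5 w hw), le_antisymm (h.card_A H.1.symm (h0 w hw).symm)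
      (h.card_A (h0 w hw).symm H.1.symm)]; rfl, finsum_mem_eq_finite_toFinset_sum _ (Set.toFinite _),
    Finset.sum_const, ← Set.ncard_eq_toFinset_card, smul_eq_mul] at h6
  have h7 : (⋃ w ∈ {w | Col N u v w}, (A N x w : Set G) \ R N x u v) ⊆ (N x : Set G) \ R N x u v :=
    Set.iUnion₂_subset fun w _ n hn => ⟨hn.1.1, hn.2⟩
  have h8 : ((N x : Set G) \ R N x u v).ncard = Nat.card (N x) - Nat.card (R N x u v) :=
    Set.ncard_sdiff fun n hn => hn.1.1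
  have h9 := Set.ncard_le_ncard h7
  have h10 : 0 < Nat.card (R N x u v) := Nat.card_pos
  change _ = _ * Nat.card (A N x u) at h1
  change _ = _ * Nat.card (R N x u v) at h2
  obtain ⟨r, hr⟩ := Nat.exists_eq_add_of_lt h4
  obtain ⟨t, ht⟩ := Nat.exists_eq_add_of_le h3
  have e1 : Nat.card (A N x u) - Nat.card (R N x u v) = (r + 1) * Nat.card (R N x u v) := by
    rw [h2, hr]; exact Nat.sub_eq_of_eq_add (by ring)
  have e2 : Nat.card (N x) - Nat.card (R N x u v) = (r + 3) * ((r + 1) * Nat.card (R N x u v)) := by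
    rw [h1, h2, hr]; exact Nat.sub_eq_of_eq_add (by ring)
  rw [h6, h8, e1, e2, ht, hr] at h9
  have h11 : t = 0 := by have := Nat.le_of_mul_le_mul_right h9 (by positivity); omega
  refine ⟨by omega, fun n hn => ?_⟩
  by_cases e : n ∈ R N x u v
  · exact ⟨v, col_right, e.2⟩
  obtain ⟨w, hw, e'⟩ := Set.mem_iUnion₂.1 ((Set.eq_of_subset_of_ncard_le h7 (by
    rw [h6, h8, e1, e2, ht, hr, h11]; exact le_of_eq (by ring))).ge ⟨hn, e⟩)
  exact ⟨w, hw, e'.1.2⟩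

/-- lines are orbits -/
theorem col_iff {u v w : X} (hv : v ≠ u) : Col N u v w ↔ w = u ∨ ∃ n ∈ N u, n • v = w := by
  refine ⟨fun H => ?_, ?_⟩
  · obtain ⟨x, hx⟩ := h.exists_nc hv
    refine (Set.eq_of_subset_of_ncard_le (s := insert u (orbit (N u) v)) (t := {w | Col N u v w}) ?_
      ?_).ge H |>.imp_right mem_orbit'.1
    · rintro w (rfl | hw)
      · exact h.col_left
      · obtain ⟨n, hn, rfl⟩ := mem_orbit'.1 hw
        exact h.col_orbit hn
    · rw [Set.ncard_insert_of_notMem fun e => by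
        obtain ⟨n, hn, e⟩ := mem_orbit'.1 e
        exact hv (MulAction.injective n (e.trans (h.fix hn).symm))]
      exact (h.lines (h.nc_symm (h.nc_swap hx))).1
  · rintro (rfl | ⟨n, hn, rfl⟩)
    exacts [h.col_left, h.col_orbit hn]

/-- fixed point sets are hyperplanes -/
theorem hyp {x u v : X} {n : G} (hn : n ∈ N x) (hv : v ≠ u) : ∃ w, Col N u v w ∧ n • w = w := by
  by_cases H : Col N u v x
  · exact ⟨x, H, h.fix hn⟩
  exact (h.lines (h.nc_symm (h.nc_swap ⟨hv, H⟩))).2 n hn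

theorem exists_A {x u v : X} (H : NC N x u v) {n : G} (hn : n ∈ N x) :
    ∃ a ∈ N x, a • u = u ∧ a • v = n • v := by
  obtain ⟨a, ha, e⟩ := mem_orbit'.1 ((h.orbit_A H).ge (mem_orbit'.2 ⟨n, hn, rfl⟩))
  exact ⟨a, ha.1, ha.2, e⟩

end Sys
end CA.ON
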