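import Cfsg.Agent.Lib.Perm.AZ
import Cfsg.Agent.Lib.Lin.FieldIso

/-! O'Nan's theorem, part 2: a translation structure with enough shears is a vector space. -/

set_option autoImplicit false

namespace CA.ON
variable {T P : Type*} [AddCommGroup T]

def Adj (C : P → AddSubgroup T) (B : P → AddSubgroup (T →+ T)) (x y z : P) : Prop :=
  ∀ γ ∈ B y, ∃ γ' ∈ B y, (∀ t ∈ C z, γ' t = γ t) ∧ ∀ a ∈ C x, γ' a = 0

structure Mod (C : P → AddSubgroup T) (B : P → AddSubgroup (T →+ T)) : Prop where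
  cover : ∀ t, ∃ z, t ∈ C z
  disj : ∀ {x y t}, t ∈ C x → t ∈ C y → t ≠ 0 → x = y
  nz : ∀ x, ∃ t ∈ C x, t ≠ 0
  im : ∀ {x β}, β ∈ B x → ∀ t, β t ∈ C x
  ker : ∀ {x β t}, β ∈ B x → t ∈ C x → β t = 0
  ev : ∀ {x y k a}, x ≠ y → k ∈ C y → k ≠ 0 → a ∈ C x → ∃ β ∈ B x, β k = a
  perm : ∀ {x β}, β ∈ B x → ∀ y, ∃ z, ∀ k ∈ C y, k + β k ∈ C z
  comp : ∀ {x y β γ}, β ∈ B x → γ ∈ B y → (∀ a ∈ C x, γ a = 0) → β.comp γ ∈ B x
  adj : ∀ {x y}, x ≠ y → ∀ z, z = x ∨ (∃ β ∈ B x, ∀ k ∈ C y, k + β k ∈ C z) ∨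
    (Adj C B x y z ∧ Adj C B x z y ∧ Adj C B y z x)
  ri : ∀ {x y k k'}, x ≠ y → k ∈ C y → k' ∈ C y → k ≠ 0 → k' ≠ 0 → k + k' ≠ 0 →
    ∃ θ ∈ C y, ∀ β ∈ B x, ∀ β' ∈ B x, β k = β' k' → β θ + β' θ = β k

namespace Mod
variable {C : P → AddSubgroup T} {B : P → AddSubgroup (T →+ T)} (h : Mod C B)
include h

theorem eq_zero {x y : P} {t : T} (hxy : x ≠ y) (hx : t ∈ C x) (hy : t ∈ C y) : t = 0 :=
  by_contra fun e => hxy (h.disj hx hy e)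

theorem kill {x y : P} {β : T →+ T} {k k' : T} (hβ : β ∈ B x) (hk : k ∈ C y) (h0 : k ≠ 0)
    (e : β k = 0) (hk' : k' ∈ C y) : β k' = 0 := by
  by_cases hxy : x = y
  · exact h.ker hβ (hxy ▸ hk')
  obtain ⟨z, hz⟩ := h.perm hβ y
  obtain rfl := h.disj hk (by simpa [e] using hz k hk) h0
  exact h.eq_zero hxy (h.im hβ _) (by simpa using sub_mem (hz k' hk') hk')

theorem agree {x y : P} {β β' : T →+ T} {k k' : T} (hβ : β ∈ B x) (hβ' : β' ∈ B x) (hk : k ∈ C y)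
    (h0 : k ≠ 0) (e : β k = β' k) (hk' : k' ∈ C y) : β k' = β' k' :=
  sub_eq_zero.1 (h.kill (sub_mem hβ hβ') hk h0 (sub_eq_zero.2 e) hk')

theorem inj {x y : P} {β : T →+ T} {k t t' : T} (hβ : β ∈ B x) (hk : k ∈ C y) (h0 : β k ≠ 0)
    (ht : t ∈ C y) (ht' : t' ∈ C y) (e : β t = β t') : t = t' :=
  by_contra fun h1 => h0 (h.kill hβ (sub_mem ht ht') (sub_ne_zero.2 h1) (by simp [e]) hk)

theorem back {x y z : P} {β : T →+ T} (hβ : β ∈ B x) (H : ∀ k ∈ C y, k + β k ∈ C z) {t : T}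
    (ht : t ∈ C z) : t - β t ∈ C y := by
  obtain ⟨w, hw⟩ := h.perm (neg_mem hβ) z
  obtain ⟨k, hk, h0⟩ := h.nz y
  obtain rfl := h.disj hk (by simpa [h.ker hβ (h.im hβ _)] using hw _ (H k hk)) h0
  simpa [sub_eq_add_neg] using hw t ht

theorem inv {x y : P} {β : T →+ T} {k : T} (hβ : β ∈ B x) (hk : k ∈ C y) (h0 : β k ≠ 0) :
    ∃ γ ∈ B y, (∀ a ∈ C x, β (γ a) = a) ∧ ∀ k ∈ C y, γ (β k) = k := by
  have hxy : x ≠ y := fun e => h0 (h.ker hβ (e ▸ hk))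
  obtain ⟨γ, hγ, e⟩ := h.ev hxy.symm (h.im hβ k) h0 hk
  obtain ⟨z, hz⟩ := h.perm hβ y
  obtain ⟨w, hw⟩ := h.perm hγ x
  obtain rfl := h.disj (hz k hk) (by simpa [e, add_comm] using hw _ (h.im hβ k)) fun e =>
    h0 (h.eq_zero hxy (h.im hβ k) (eq_neg_of_add_eq_zero_right e ▸ neg_mem hk))
  have h1 : ∀ a ∈ C x, β (γ a) = a := fun a ha => (sub_eq_zero.1 (h.eq_zero hxy
    (sub_mem ha (h.im hβ _)) (by
      have := sub_mem (h.back hβ hz (hw a ha)) (h.im hγ a)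
      rwa [map_add, h.ker hβ ha, zero_add, add_sub_right_comm, add_sub_cancel_right] at this))).symm
  exact ⟨γ, hγ, h1, fun t ht => h.inj hβ hk h0 (h.im hγ _) ht (h1 _ (h.im hβ _))⟩

theorem comm₀ [Finite T] {x y : P} (hxy : x ≠ y) {β β' γ γ' : T →+ T} (hβ : β ∈ B x)
    (hβ' : β' ∈ B x) (hγ : γ ∈ B y) (hγ' : γ' ∈ B y) {a : T} (ha : a ∈ C x) :
    β (γ (β' (γ' a))) = β' (γ' (β (γ a))) := by
  obtain ⟨k, hk, hk0⟩ := h.nz y
  obtain ⟨e, he, he0⟩ := h.nz x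
  obtain ⟨β₀, hβ₀, h1⟩ := h.ev hxy hk hk0 he
  obtain ⟨γ₀, hγ₀, h2, h3⟩ := h.inv hβ₀ hk (h1 ▸ he0)
  have h4 : γ₀ e = k := h1 ▸ h3 k hk
  choose m hm hm' using fun a : C x => h.ev hxy hk hk0 a.2
  have h5 : ∀ {β} (hβ : β ∈ B x) {t}, t ∈ C y → m ⟨β k, h.im hβ k⟩ t = β t := fun hβ _ ht =>
    h.agree (hm _) hβ hk hk0 (hm' _) ht
  have h6 : ∀ a b, ∀ t ∈ C y, m (a + b) t = m a t + m b t := fun a b t ht =>
    h.agree (hm _) (add_mem (hm a) (hm b)) hk hk0 (by simp [hm']) ht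
  let _ : NonAssocRing (C x) :=
    { (inferInstance : AddCommGroup (C x)) with
      mul := fun a w => ⟨m a (γ₀ w), h.im (hm a) _⟩
      one := ⟨e, he⟩
      left_distrib := fun a b c => Subtype.ext (show m a (γ₀ (b + c)) = m a _ + m a _ by simp)
      right_distrib := fun a b c => Subtype.ext (h6 a b _ (h.im hγ₀ _))
      zero_mul := fun a => Subtype.ext (h.kill (hm 0) hk hk0 (hm' 0) (h.im hγ₀ _))
      mul_zero := fun a => Subtype.ext (show m a (γ₀ 0) = 0 by simp)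
      one_mul := fun a => Subtype.ext ((h.agree (hm _) hβ₀ hk hk0 ((hm' _).trans h1.symm)
        (h.im hγ₀ _)).trans (h2 a a.2))
      mul_one := fun a => Subtype.ext (show m a (γ₀ e) = a by rw [h4, hm']) }
  have hmul : ∀ a w : C x, (a * w : C x) = m a (γ₀ w) := fun _ _ => rfl
  have h7 : ∀ a : C x, a ≠ 0 → γ₀ a ≠ 0 := fun a ha e => ha (Subtype.ext (by
    rw [← h2 a a.2, e, map_zero]; rfl))
  have h8 : ∀ a : C x, a ≠ 0 → m a k ≠ 0 := fun a ha e => ha (Subtype.ext ((hm' a).symm.trans e))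
  have : Nontrivial (C x) := ⟨⟨e, he⟩, 0, fun e => he0 (congrArg Subtype.val e)⟩
  obtain ⟨h9, h10⟩ := (CA.AZ.alt_of (R := C x) (fun a b e => by
      by_contra! hc
      exact h8 a hc.1 (h.kill (hm a) (h.im hγ₀ _) (h7 b hc.2) (congrArg Subtype.val e) hk))
    (fun a b ha hb hab => by
      obtain ⟨δ, hδ, -, e1⟩ := h.inv (hm a) hk (h8 a ha)
      obtain ⟨ε, hε, e2, e3⟩ := h.inv (hm b) hk (h8 b hb)
      obtain ⟨θ, hθ, -, e4⟩ := h.inv (add_mem hδ hε) a.2 fun e => hab (Subtype.ext (by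
        have e5 := e1 k hk
        have e6 := congrArg (m b) e
        rw [hm'] at e5
        rwa [AddMonoidHom.add_apply, e5, map_add, hm', e2 a a.2, map_zero, add_comm] at e6))
      refine ⟨⟨θ k, h.im hθ k⟩, fun w w' e => Subtype.ext ?_⟩
      have e5 := congrArg Subtype.val e
      rw [hmul, hmul] at e5
      rw [hmul, h5 hθ (h.im hγ₀ _), ← e4 _ (a * w).2, hmul, AddMonoidHom.add_apply,
        e1 _ (h.im hγ₀ _), e5, e3 _ (h.im hγ₀ _), ← map_add]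
      rfl)
    fun a b ha hb hab => by
      obtain ⟨θ, hθ, e1⟩ := h.ri hxy (h.im hγ₀ a) (h.im hγ₀ b) (h7 a ha) (h7 b hb)
        (by rw [← map_add]; exact h7 _ hab)
      refine ⟨⟨β₀ θ, h.im hβ₀ θ⟩, fun w w' e => Subtype.ext ?_⟩
      rw [hmul, h3 θ hθ, h6 _ _ _ hθ]
      exact e1 _ (hm w) _ (hm w') (congrArg Subtype.val e)).assoc_comm
  have key : ∀ β ∈ B x, ∀ γ ∈ B y, ∃ c : C x, ∀ w : C x, β (γ w) = (c * w : C x) := by
    intro β hβ γ hγ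
    by_cases h0 : γ e = 0
    · exact ⟨0, fun w => by rw [h.kill hγ he he0 h0 w.2, map_zero, zero_mul]; rfl⟩
    obtain ⟨δ, hδ, e1, e2⟩ := h.inv hγ he h0
    have e3 : δ k ≠ 0 := fun e => hk0 (by rw [← e1 k hk, e, map_zero])
    obtain ⟨ε, hε, e4, e5⟩ := h.inv hδ hk e3
    refine ⟨⟨β k, h.im hβ k⟩ * ⟨β₀ (γ e), h.im hβ₀ _⟩, fun w => ?_⟩
    rw [h9, hmul, h5 hβ (h.im hγ₀ _)]
    refine congrArg β (h.inj hδ hk e3 (h.im hγ _) (h.im hγ₀ _) ?_)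
    rw [← h5 hδ (h.im hγ₀ _), ← hmul, ← h9, e2 w w.2]
    refine ((congrArg Subtype.val (one_mul w)).symm.trans ?_)
    congr 2
    exact Subtype.ext (by rw [hmul, h3 _ (h.im hγ e), h5 hδ (h.im hγ e), e2 e he]; rfl)
  obtain ⟨c, hc⟩ := key β hβ γ hγ
  obtain ⟨d, hd⟩ := key β' hβ' γ' hγ'
  rw [hd ⟨a, ha⟩, hc, hc ⟨a, ha⟩, hd, ← h9, ← h9, h10 c]

theorem indep {x y z : P} (hxy : x ≠ y) (hz : z ≠ x) {β γ : T →+ T} (hβ : β ∈ B x)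
    (hγ : γ ∈ B z) : ∃ β' ∈ B x, ∃ γ' ∈ B y, ∀ a ∈ C x, β' (γ' a) = β (γ a) := by
  obtain ⟨e, he, he0⟩ := h.nz x
  by_cases h0 : γ e = 0
  · exact ⟨0, zero_mem _, 0, zero_mem _, fun a ha => by simp [h.kill hγ he he0 h0 ha]⟩
  have hz0 : β (γ e) ∈ C x := h.im hβ _
  rcases h.adj hxy z with H | ⟨δ, hδ, H⟩ | ⟨-, H1, H2⟩
  · exact absurd H hz
  · refine ⟨β, hβ, ?_⟩
    obtain ⟨ε, hε, e1, e2⟩ := h.inv hγ he h0
    have e3 : ε (γ e) ≠ 0 := by rwa [e2 e he]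
    obtain ⟨γ', hγ', e4, -⟩ := h.inv hε (h.back hδ H (h.im hγ e))
      (by rwa [map_sub, h.ker hε (h.im hδ _), sub_zero])
    refine ⟨γ', hγ', fun a ha => ?_⟩
    rw [h.inj hε (h.im hγ e) e3 (h.im hγ a) (H _ (h.im hγ' a))
      (by rw [e2 a ha, map_add, e4 a ha, h.ker hε (h.im hδ _), add_zero]), map_add,
      h.ker hβ (h.im hδ _), add_zero]
  · by_cases hy : z = y
    · exact ⟨β, hβ, γ, hy ▸ hγ, fun _ _ => rfl⟩
    obtain ⟨k, hk, hk0⟩ := h.nz y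
    obtain ⟨δ, hδ, e1⟩ := h.ev (Ne.symm hy) (h.im hγ e) h0 hk
    obtain ⟨ε, hε, -, e2⟩ := h.inv hδ (h.im hγ e) (e1 ▸ hk0)
    obtain ⟨ε', hε', e3, e4⟩ := H1 ε hε
    obtain ⟨γ', hγ', e5, e6⟩ := H2 γ hγ
    exact ⟨_, h.comp hβ hε' e4, _, h.comp hδ hγ' e6, fun a ha => by
      simp [e5 a ha, e3 _ (h.im hδ _), e2 _ (h.im hγ a)]⟩

theorem exists_scal [Finite T] {x y : P} (hxy : x ≠ y) {a a' : T} (ha : a ∈ C x) (h0 : a ≠ 0)
    (ha' : a' ∈ C x) : ∃ φ : T →+ T, (∀ z, ∀ t ∈ C z, φ t ∈ C z) ∧ φ a = a' := by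
  obtain ⟨k, hk, hk0⟩ := h.nz y
  obtain ⟨γ₀, hγ₀, h1⟩ := h.ev hxy.symm ha h0 hk
  obtain ⟨β₁, hβ₁, h2⟩ := h.ev hxy hk hk0 ha'
  obtain ⟨β₀, hβ₀, h3⟩ := h.ev hxy hk hk0 ha
  have h4 : ∀ {z β γ a}, z ≠ x → β ∈ B x → γ ∈ B z → a ∈ C x →
      β (γ (β₁ (γ₀ a))) = β₁ (γ₀ (β (γ a))) := fun hz hβ hγ ha => by
    obtain ⟨β', hβ', γ', hγ', e⟩ := h.indep hxy hz hβ hγ
    rw [← e _ ha, ← e _ (h.im hβ₁ _), h.comm₀ hxy hβ' hβ₁ hγ' hγ₀ ha]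
  have h5 : ∀ t, ∃ t' z, t ∈ C z ∧ t' ∈ C z ∧ (∀ β ∈ B x, β t' = β₁ (γ₀ (β t))) ∧
      (t ∈ C x → t' = β₁ (γ₀ t)) := fun t => by
    by_cases ht : t ∈ C x
    · exact ⟨_, x, ht, h.im hβ₁ _, fun β hβ => by simp [h.ker hβ ht, h.ker hβ (h.im hβ₁ _)],
        fun _ => rfl⟩
    obtain ⟨z, hz⟩ := h.cover t
    have e1 : z ≠ x := fun e => ht (e ▸ hz)
    obtain ⟨δ, hδ, e2⟩ := h.ev e1.symm hz (fun e => ht (e ▸ zero_mem _)) ha
    obtain ⟨ε, hε, -, e3⟩ := h.inv hδ hz (e2 ▸ h0)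
    exact ⟨ε (β₁ (γ₀ (δ t))), z, hz, h.im hε _, fun β hβ => by
      rw [h4 e1 hβ hε (h.im hδ _), e3 t hz], fun e => absurd e ht⟩
  choose φ z hz hz' hφ hφ' using h5
  have h6 : ∀ γ ∈ B y, ∀ t, β₀ (γ (φ t)) = β₁ (γ₀ (β₀ (γ t))) := fun γ hγ t => by
    rcases h.adj hxy (z t) with H | ⟨δ, hδ, H⟩ | ⟨H, -⟩
    · rw [hφ' t (H ▸ hz t), h4 hxy.symm hβ₀ hγ (H ▸ hz t)]
    · have e : ∀ s ∈ C (z t), γ s = γ (δ s) := fun s hs => by
        rw [← sub_eq_zero, ← map_sub, h.ker hγ (h.back hδ H hs)]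
      rw [e _ (hz t), e _ (hz' t), hφ t δ hδ, h4 hxy.symm hβ₀ hγ (h.im hδ _)]
    · obtain ⟨γ', hγ', e1, e2⟩ := H γ hγ
      rw [← e1 _ (hz t), ← e1 _ (hz' t)]
      exact hφ t _ (h.comp hβ₀ hγ' e2)
  have h7 : ∀ {x y a D}, x ≠ y → a ∈ C x → a ≠ 0 → (∀ β ∈ B x, β D = 0) → D ∈ C x := by
    intro x y a D _ ha h0 H
    obtain ⟨w, hw⟩ := h.cover D
    by_contra hc
    obtain ⟨β, hβ, e⟩ := h.ev (x := x) (fun e => hc (e ▸ hw)) hw (fun e => hc (e ▸ zero_mem _)) ha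
    exact h0 (e ▸ H β hβ)
  refine ⟨AddMonoidHom.mk' φ fun t t' => sub_eq_zero.1 (h.eq_zero hxy
    (h7 hxy ha h0 fun β hβ => by simp [hφ _ β hβ]) (h7 hxy.symm hk hk0 fun γ hγ => h.inj hβ₀ hk
      (h3 ▸ h0) (h.im hγ _) (zero_mem _) (by simp [h6 γ hγ]))), fun w t ht => ?_, ?_⟩
  · by_cases e : t = 0
    · rw [e, map_zero]; exact zero_mem _
    · exact h.disj (hz t) ht e ▸ hz' t
  · exact (hφ' a ha).trans (by rw [h1, h2])

theorem exists_field [Finite T] [Nontrivial P] :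
    ∃ (F : Type) (_ : Field F) (_ : Fintype F) (_ : Module F T),
      (∀ z (c : F), ∀ t ∈ C z, c • t ∈ C z) ∧
        ∀ z, ∀ t ∈ C z, t ≠ 0 → ∀ t' ∈ C z, ∃ c : F, c • t = t' := by
  let S : Subring (AddMonoid.End T) :=
    { carrier := {φ | ∀ z, ∀ t ∈ C z, φ t ∈ C z}
      mul_mem' := fun ha hb z t ht => ha z _ (hb z t ht)
      one_mem' := fun _ _ ht => ht
      add_mem' := fun ha hb z t ht => add_mem (ha z t ht) (hb z t ht)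
      zero_mem' := fun _ _ _ => zero_mem _
      neg_mem' := fun ha z t ht => neg_mem (ha z t ht) }
  have h1 : ∀ φ : S, ∀ t, t ≠ 0 → φ.1 t = 0 → φ = 0 := fun φ t h0 e => by
    obtain ⟨z, hz⟩ := h.cover t
    have h2 : ∀ s, s ∉ C z → φ.1 s = 0 := fun s hs => by
      obtain ⟨w, hw⟩ := h.cover s
      obtain ⟨w', hw'⟩ := h.cover (t + s)
      by_contra hc
      obtain rfl := h.disj (φ.2 w s hw) (by simpa [e] using φ.2 w' _ hw') hc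
      exact hs (h.disj (by simpa using sub_mem hw' hw) hz h0 ▸ hw)
    obtain ⟨y, hy⟩ := exists_ne z
    obtain ⟨k, hk, hk0⟩ := h.nz y
    have h3 : k ∉ C z := fun e => hy (h.disj hk e hk0)
    refine Subtype.ext (AddMonoidHom.ext fun s => by_contra fun hc => ?_)
    have h4 : s ∈ C z := by_contra fun e => hc (h2 s e)
    exact hc (show φ.1 s = 0 by
      simpa [h2 k h3] using h2 (s + k) fun e => h3 (by simpa using sub_mem e h4))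
  obtain ⟨x, y, hxy⟩ := exists_pair_ne P
  obtain ⟨k, hk, hk0⟩ := h.nz y
  have : Nontrivial S := ⟨1, 0, fun e => hk0 (congrArg (fun φ : S => φ.1 k) e)⟩
  have : NoZeroDivisors S := ⟨fun {φ ψ} e => by
    by_cases h0 : ψ.1 k = 0
    · exact .inr (h1 ψ k hk0 h0)
    · exact .inl (h1 φ _ h0 (congrArg (fun φ : S => φ.1 k) e))⟩
  have := NoZeroDivisors.to_isDomain S
  have : Finite S := Finite.of_injective (fun φ : S => (φ.1 : T → T)) fun _ _ e =>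
    Subtype.ext (DFunLike.coe_injective e)
  let _ := (Finite.isDomain_to_isField S).toField
  obtain ⟨F, _, _, ⟨e⟩⟩ := CA.FieldIso.exists_model S
  refine ⟨F, inferInstance, inferInstance, Module.compHom T (S.subtype.comp e.symm.toRingHom),
    fun z c t ht => (e.symm c).2 z t ht, fun z t ht h0 t' ht' => ?_⟩
  obtain ⟨w, hw⟩ := exists_ne z
  obtain ⟨φ, hφ, e'⟩ := h.exists_scal hw.symm ht h0 ht'
  exact ⟨e ⟨φ, hφ⟩, show (e.symm (e ⟨φ, hφ⟩)).1 t = t' by rw [e.symm_apply_apply]; exact e'⟩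

end Mod
end CA.ON
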