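import Cfsg.Agent.Lib.Perm.ON1
import Cfsg.Agent.Lib.Perm.ON2

/-! O'Nan's theorem, part 3: coordinates. -/

set_option autoImplicit false
open MulAction CA.Atk

namespace CA.ON
variable {G X : Type*} [Group G] [MulAction G X]

/-- translations with axis the fixed set of `t₀` -/
def Tset (N : X → Subgroup G) (t₀ t : G) : Prop :=
  (∀ z : X, t₀ • z = z → t • z = z) ∧ ∃ y : X, t₀ • y = y ∧ t ∈ N y

namespace Sys
variable {p : ℕ} {N : X → Subgroup G} (h : Sys p N) [Finite G] [Fact p.Prime] [Finite X]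
include h

theorem rigid {a y w : X} {t g : G} (ht : t ∈ N a) (hw : t • w ≠ w) (hg : g ∈ N y)
    (H : ∀ z : X, t • z = z → g • z = z) (e : g • w = w) : g = 1 := h.faith g fun z => by
  by_cases hz : z = w
  · exact hz ▸ e
  obtain ⟨c, h1, h2⟩ := h.hyp ht hz
  have h3 : c ≠ w := fun e => hw (e ▸ h2)
  exact h.sub hg e (H c h2) h3 (h.col_swap hz h3 h1)

omit [Finite X] in
theorem pres {a y z : X} {t n : G} (ht : t ∈ N a) (hy : t • y = y) (hn : n ∈ N y) (hz : t • z = z) :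
    t • n • z = n • z := by
  by_cases e : z = y
  · rw [e, h.fix hn, hy]
  exact h.sub ht hy hz e (h.col_orbit hn)

theorem exists_T {a y w : X} {t n : G} (ht : t ∈ N a) (hy : t • y = y) (hw : t • w ≠ w)
    (hn : n ∈ N y) : ∃ s ∈ N y, (∀ z : X, t • z = z → s • z = z) ∧ s • w = n • w := by
  have key : ∀ {a y : X} {t n : G}, t ∈ N a → t • y = y → t • w ≠ w → n ∈ N y → a ≠ y →
      ∃ s ∈ N y, (∀ z : X, t • z = z → s • z = z) ∧ s • w = n • w := by
    intro a y t n ht hy hw hn ha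
    have h1 : ∀ n ∈ N y, ∀ z : X, t • z = z → (n * t * n⁻¹ * t⁻¹) • z = z := fun n hn z hz => by
      rw [mul_smul, mul_smul, mul_smul, inv_fix hz, h.pres ht hy (inv_mem hn) hz, smul_inv_smul]
    refine (Set.eq_of_subset_of_ncard_le (t := orbit (N y) w)
      (s := {u | ∃ s ∈ N y, (∀ z : X, t • z = z → s • z = z) ∧ s • w = u})
      (fun u ⟨s, hs, _, e⟩ => mem_orbit'.2 ⟨s, hs, e⟩) ((h.ncard_orbit (x := y) (u := w) (fun e => hw (e ▸ hy)) ha).trans
      ?_)).ge (mem_orbit'.2 ⟨n, hn, rfl⟩)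
    choose! f hf1 hf2 using fun u (hu : u ∈ orbit (N y) a) => mem_orbit'.1 hu
    refine Set.ncard_le_ncard_of_injOn (fun u => (f u * t * (f u)⁻¹ * t⁻¹) • w) (fun u hu =>
      ⟨_, h.cm' hy (hf1 u hu), h1 _ (hf1 u hu), rfl⟩) fun u hu u' hu' e => ?_
    have h2 := inv_mul_eq_one.1 (h.rigid ht hw (mul_mem (inv_mem (h.cm' hy (hf1 u hu)))
      (h.cm' hy (hf1 u' hu'))) (fun z hz => by
        rw [mul_smul, h1 _ (hf1 u' hu') z hz, inv_fix (h1 _ (hf1 u hu) z hz)])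
      (by rw [mul_smul, inv_smul_eq_iff]; exact e.symm))
    have h3 := h.fix_of_comm ht (by rintro rfl; exact hw (one_smul _ _)) (g := (f u')⁻¹ * f u) (by
      calc _ = (f u')⁻¹ * (f u * t * (f u)⁻¹ * t⁻¹) * t * f u := by group
        _ = _ := by rw [h2]; group)
    rw [← hf2 u hu, ← hf2 u' hu', ← inv_smul_eq_iff, ← mul_smul, h3]
  by_cases ha : a = y
  swap
  · exact key ht hy hw hn ha
  subst ha
  obtain ⟨v, hv⟩ := h.exists_nc (x := a) (u := w) fun e => hw (e ▸ hy)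
  obtain ⟨c, h1, h2⟩ := h.hyp ht (h.nc_ne hv).2
  have h3 : a ≠ c := fun e => (h.nc_swap (h.nc_symm hv)).2 (e ▸ h1)
  obtain ⟨m, hm, h4⟩ := h.exists_move (x := c) (u := w) fun e => hw (e ▸ h2)
  obtain ⟨s, hs, h5, h6⟩ := key ht h2 hw hm h3
  obtain ⟨s', hs', h7, h8⟩ := key hs (h5 a hy) (h6 ▸ h4) hn h3.symm
  exact ⟨s', hs', fun z hz => h7 z (h5 z hz), h8⟩

variable {y₀ o : X} {t₀ : G} (ht : t₀ ∈ N y₀) (ho : t₀ • o ≠ o)
include ht

omit [Finite X] [Fact p.Prime] ht in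
theorem T_comm {t s : G} (h1 : Tset N t₀ t) (h2 : Tset N t₀ s) : t * s = s * t := by
  obtain ⟨y, hy, e⟩ := h1.2
  obtain ⟨z, hz, e'⟩ := h2.2
  exact h.comm_of_fix e e' (h1.1 z hz) (h2.1 y hy)

omit [Finite X] [Fact p.Prime] ht h [Finite G] in
theorem T_out {t : G} (h1 : Tset N t₀ t) {w : X} (hw : t₀ • w ≠ w) : t₀ • t • w ≠ t • w :=
  fun e => hw (by have : t • w = w := MulAction.injective t (h1.1 _ e); rwa [this] at e)

theorem T_trans {w w' : X} (hw : t₀ • w ≠ w) (hw' : t₀ • w' ≠ w') : ∃ t, Tset N t₀ t ∧ t • w = w' := by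
  by_cases e : w' = w
  · exact ⟨1, ⟨fun z _ => one_smul _ _, y₀, h.fix ht, one_mem _⟩, by rw [one_smul, e]⟩
  obtain ⟨c, h1, h2⟩ := h.hyp ht e
  have h3 : w ≠ c := fun e => hw (e ▸ h2)
  rcases (h.col_iff h3).1 (h.col_trans e h3 h1 h.col_left col_right) with rfl | ⟨n, hn, rfl⟩
  · exact absurd h2 hw'
  obtain ⟨s, hs, h4, h5⟩ := h.exists_T ht h2 hw hn
  exact ⟨s, ⟨h4, c, h2, hs⟩, h5⟩

universe u in
omit h ht in
theorem exists_val {G : Type u} [Group G] [MulAction G X] {N : X → Subgroup G} (h : Sys p N)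
    [Finite G] {t₀ : G} (ht : t₀ ∈ N y₀) (ho : t₀ • o ≠ o) :
    ∃ (T : Type u) (_ : AddCommGroup T) (_ : Finite T) (val : T → G), Function.Injective val ∧
      (∀ t s, val (t + s) = val t * val s) ∧ ∀ g, Tset N t₀ g ↔ ∃ t, val t = g := by
  let S : Subgroup G :=
    { carrier := {t | Tset N t₀ t}
      one_mem' := ⟨fun z _ => one_smul _ _, y₀, h.fix ht, one_mem _⟩
      inv_mem' := fun ⟨h1, y, h2, h3⟩ => ⟨fun z hz => inv_fix (h1 z hz), y, h2, inv_mem h3⟩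
      mul_mem' := fun {t s} h1 h2 => by
        obtain ⟨r, h3, h4⟩ := h.T_trans ht ho (T_out h1 (T_out h2 ho))
        suffices r⁻¹ * (t * s) = 1 from inv_mul_eq_one.1 this ▸ h3
        refine h.faith _ fun z => ?_
        rw [mul_smul, mul_smul, inv_smul_eq_iff]
        by_cases hz : t₀ • z = z
        · rw [h2.1 z hz, h1.1 z hz, h3.1 z hz]
        obtain ⟨q, h5, rfl⟩ := h.T_trans ht ho hz
        rw [← mul_smul s, h.T_comm h2 h5, mul_smul, ← mul_smul t, h.T_comm h1 h5, mul_smul, ← h4,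
          ← mul_smul, h.T_comm h5 h3, mul_smul] }
  let _ : CommGroup S := { (inferInstance : Group S) with
    mul_comm := fun a b => Subtype.ext (h.T_comm a.2 b.2) }
  exact ⟨Additive S, inferInstance, inferInstance, fun t => t.toMul.1,
    fun _ _ e => Subtype.ext e, fun _ _ => rfl, fun g => ⟨fun e => ⟨.ofMul ⟨g, e⟩, rfl⟩,
      fun ⟨t, e⟩ => e ▸ t.toMul.2⟩⟩

end Sys

structure Tr (N : X → Subgroup G) (t₀ : G) (o : X) {T : Type*} [AddCommGroup T] (val : T → G) :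
    Prop where
  mem : ∃ y₀, t₀ ∈ N y₀
  out : t₀ • o ≠ o
  inj : Function.Injective val
  add : ∀ t s, val (t + s) = val t * val s
  iff : ∀ g, Tset N t₀ g ↔ ∃ t, val t = g

namespace Tr
variable {p : ℕ} {N : X → Subgroup G} {t₀ : G} {o : X} {T : Type*} [AddCommGroup T] {val : T → G}
  (H : Tr N t₀ o val)
include H

theorem zero : val 0 = 1 := by simpa using H.add 0 0

theorem neg (t : T) : val (-t) = (val t)⁻¹ := eq_inv_of_mul_eq_one_left (by rw [← H.add]; simp [H.zero])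

theorem ne_one {t : T} (h0 : t ≠ 0) : val t ≠ 1 := fun e => h0 (H.inj (e.trans H.zero.symm))

theorem tset (t : T) : Tset N t₀ (val t) := (H.iff _).2 ⟨t, rfl⟩

def C (z : {z : X // t₀ • z = z}) : AddSubgroup T where
  carrier := {t | val t ∈ N z}
  zero_mem' := show val 0 ∈ N z from H.zero ▸ one_mem _
  add_mem' := fun {a b} ha hb => show val (a + b) ∈ N z from H.add a b ▸ (N z).mul_mem ha hb
  neg_mem' := fun {a} ha => show val (-a) ∈ N z from H.neg a ▸ (N z).inv_mem ha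

def Rep (_ : Tr N t₀ o val) (b : G) (β : T →+ T) : Prop := ∀ t, val (t + β t) = b * val t * b⁻¹

theorem rep_zero {b : G} {β : T →+ T} (e : H.Rep b β) {t : T} : β t = 0 ↔ b * val t = val t * b := by
  rw [← mul_inv_eq_iff_eq_mul, ← e, H.inj.eq_iff, add_eq_left]

variable (h : Sys p N)
include h

theorem rep_im {x : {z : X // t₀ • z = z}} {b : G} {β : T →+ T} (hb : b ∈ N x) (e : H.Rep b β)
    (t : T) : β t ∈ H.C x := by
  have := h.cm' ((H.tset t).1 x x.2) hb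
  rwa [← e, ← H.neg, ← H.add, add_neg_cancel_comm] at this

theorem rep_ker {x : {z : X // t₀ • z = z}} {b : G} {β : T →+ T} (hb : b ∈ N x) (e : H.Rep b β)
    {t : T} (ht : t ∈ H.C x) : β t = 0 := (H.rep_zero e).2 (h.comm hb ht)

def B (x : {z : X // t₀ • z = z}) : AddSubgroup (T →+ T) where
  carrier := {β | ∃ b ∈ N x, b • o = o ∧ H.Rep b β}
  zero_mem' := ⟨1, one_mem _, one_smul _ _, fun t => by simp⟩
  add_mem' := by
    rintro β γ ⟨b, hb, h1, h2⟩ ⟨c, hc, h3, h4⟩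
    refine ⟨b * c, mul_mem hb hc, by rw [mul_smul, h3, h1], fun t => ?_⟩
    have := h2 (t + γ t)
    rw [h4, map_add, H.rep_ker h hb h2 (H.rep_im h hc h4 t), add_zero, add_assoc, add_comm (γ t)] at this
    simpa [mul_assoc] using this
  neg_mem' := by
    rintro β ⟨b, hb, h1, h2⟩
    refine ⟨b⁻¹, inv_mem hb, inv_fix h1, fun t => ?_⟩
    have := h2 (t - β t)
    rw [map_sub, H.rep_ker h hb h2 (H.rep_im h hb h2 t), sub_zero, sub_add_cancel] at this
    simp [this, mul_assoc, ← sub_eq_add_neg]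

variable [Finite G] [Fact p.Prime] [Finite X]

theorem reg {t s : T} (e : val t • o = val s • o) : t = s := by
  obtain ⟨y₀, ht⟩ := H.mem
  obtain ⟨h1, y, -, h2⟩ := H.tset (-s + t)
  refine (neg_add_eq_zero.1 (by_contra fun h0 => H.ne_one h0 (h.rigid ht H.out h2 h1 ?_))).symm
  rw [H.add, H.neg, mul_smul, e, inv_smul_smul]

omit [Finite X] in
theorem exists_rep {x : {z : X // t₀ • z = z}} {b : G} (hb : b ∈ N x) : ∃ β, H.Rep b β := by
  obtain ⟨y₀, ht⟩ := H.mem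
  choose f hf using fun t => (H.iff (b * val t * b⁻¹)).1 (by
    obtain ⟨h1, y, h2, h3⟩ := H.tset t
    exact ⟨fun z hz => by
      rw [mul_smul, mul_smul, h1 _ (h.pres ht x.2 (inv_mem hb) hz), smul_inv_smul],
      _, h.pres ht x.2 hb h2, h.conj b h3⟩)
  exact ⟨AddMonoidHom.mk' f (fun t s => H.inj (by simp [hf, H.add, mul_assoc])) - .id T,
    fun t => by simp [hf]⟩

theorem dec {x : {z : X // t₀ • z = z}} {n : G} (hn : n ∈ N x) {w : X} (hw : t₀ • w ≠ w) :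
    ∃ a ∈ H.C x, val a • w = n • w := by
  obtain ⟨y₀, ht⟩ := H.mem
  obtain ⟨s, hs, h1, h2⟩ := h.exists_T ht x.2 hw hn
  obtain ⟨a, rfl⟩ := (H.iff s).1 ⟨h1, x, x.2, hs⟩
  exact ⟨a, hs, h2⟩

theorem dec' {x : {z : X // t₀ • z = z}} {n : G} (hn : n ∈ N x) :
    ∃ b ∈ N x, b • o = o ∧ (∀ z : X, t₀ • z = z → b • z = n • z) ∧ ∃ β, H.Rep b β := by
  obtain ⟨a, ha, e⟩ := H.dec h (inv_mem hn) H.out
  exact ⟨n * val a, mul_mem hn ha, by rw [mul_smul, e, smul_inv_smul],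
    fun z hz => by rw [mul_smul, (H.tset a).1 z hz], H.exists_rep h (mul_mem hn ha)⟩

omit [Finite X] in
theorem nc {x y : {z : X // t₀ • z = z}} (hxy : x ≠ y) : NC N x y o := by
  obtain ⟨y₀, ht⟩ := H.mem
  exact ⟨fun e => hxy (Subtype.ext e).symm,
    fun e => H.out (h.sub ht x.2 y.2 (fun e => hxy (Subtype.ext e).symm) e)⟩

theorem nz (x : {z : X // t₀ • z = z}) : ∃ t ∈ H.C x, t ≠ 0 := by
  obtain ⟨n, hn, e⟩ := h.exists_move (x := x) (u := o) fun e => H.out (e ▸ x.2)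
  obtain ⟨a, ha, e'⟩ := H.dec h hn H.out
  exact ⟨a, ha, by rintro rfl; exact e (by rw [← e', H.zero, one_smul])⟩

omit [Finite G] [Fact p.Prime] [Finite X] h in
theorem rep_smul {b : G} {β : T →+ T} (e : H.Rep b β) (hb : b • o = o) (t : T) :
    b • val t • o = val (t + β t) • o := by
  rw [e, mul_smul, mul_smul, inv_fix hb]

theorem ev {x y : {z : X // t₀ • z = z}} {k a : T} (hxy : x ≠ y) (hk : k ∈ H.C y) (h0 : k ≠ 0)
    (ha : a ∈ H.C x) : ∃ β ∈ H.B h x, β k = a := by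
  have h1 : val k • o ≠ o := fun e => h0 (H.reg h (by rw [e, H.zero, one_smul]))
  have h2 := H.nc h hxy
  obtain ⟨h3, h4⟩ := h.nc_ne h2
  obtain ⟨b, hb, h5, h6⟩ := h.exists_A (x := x) (u := o) (v := val k • o) ⟨h3, fun e => h2.2
    (h.col_trans h1 h2.1 (h.col_trans h3 h1 col_right e h.col_left)
      (h.col_trans h4 h1 col_right (h.col_orbit hk) h.col_left) h.col_left)⟩ ha
  obtain ⟨β, hβ⟩ := H.exists_rep h hb
  refine ⟨β, ⟨b, hb, h5, hβ⟩, add_left_cancel (a := k) (H.reg h ?_)⟩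
  rw [← H.rep_smul hβ h5, h6, add_comm, H.add, mul_smul]

theorem adj {x y z : {z : X // t₀ • z = z}} (e : NC N y.1 x z) : Adj H.C (H.B h) x y z := by
  rintro γ ⟨c, hc, h1, h2⟩
  obtain ⟨a, ha, h3, h4⟩ := h.exists_A e hc
  obtain ⟨b, hb, h5, h6, β, hβ⟩ := H.dec' h ha
  refine ⟨β, ⟨b, hb, h5, hβ⟩, fun t ht => add_left_cancel (a := t) (H.inj ?_), fun t ht =>
    (H.rep_zero hβ).2 (h.comm_of_fix hb ht (by rw [h6 _ x.2, h3]) ((H.tset t).1 _ y.2))⟩
  have := h.comm_of_fix (mul_mem (inv_mem hc) hb) ht (by rw [mul_smul, h6 _ z.2, h4, inv_smul_smul])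
    ((H.tset t).1 _ y.2)
  rw [hβ, h2]
  calc _ = c * (c⁻¹ * b * val t) * b⁻¹ := by group
    _ = _ := by rw [this]; group

theorem mod : Mod H.C (H.B h) where
  cover t := let ⟨y, h1, h2⟩ := (H.tset t).2; ⟨⟨y, h1⟩, h2⟩
  disj h1 h2 h0 := Subtype.ext (h.ti h1 h2 (H.ne_one h0))
  nz := H.nz h
  im := fun ⟨_, hb, _, e⟩ => H.rep_im h hb e
  ker := fun ⟨_, hb, _, e⟩ => H.rep_ker h hb e
  ev := H.ev h
  perm := fun {x _} ⟨b, hb, _, e⟩ y => let ⟨_, ht⟩ := H.mem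
    ⟨⟨b • y, h.pres ht x.2 hb y.2⟩, fun k hk => show val _ ∈ _ from e k ▸ h.conj b hk⟩
  comp := by
    rintro x y β γ ⟨b, hb, h1, h2⟩ ⟨c, hc, h3, h4⟩ e
    obtain ⟨a, ha, h0⟩ := H.nz h x
    refine ⟨_, h.cm' (h.fix_of_comm ha (H.ne_one h0) ((H.rep_zero h4).1 (e a ha))) hb, fix_cm h1 h3,
      fun t => ?_⟩
    have e1 := fun t => H.rep_ker h hb h2 (H.rep_im h hb h2 t)
    have e2 := fun t => H.rep_ker h hc h4 (H.rep_im h hc h4 t)
    have e3 := fun t => e _ (H.rep_im h hb h2 t)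
    have h5 := h4 (t - γ t)
    have h6 := h2 (t - γ t - β t + β (γ t))
    have h7 := h4 (t - γ t - β t + β (γ t))
    have h8 := h2 (t - β t + β (γ t))
    simp only [map_sub, map_add, e1, e2, e3, sub_zero, add_zero] at h5 h6 h7 h8
    rw [sub_add_cancel] at h5
    rw [show t - γ t - β t + β (γ t) + (β t - β (γ t)) = t - γ t by abel] at h6
    rw [show t - γ t - β t + β (γ t) + γ t = t - β t + β (γ t) by abel] at h7
    rw [show t - β t + β (γ t) + β t = t + β (γ t) by abel, h7] at h8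
    rw [AddMonoidHom.comp_apply, h8, h5, h6]; group
  adj := fun {x y} hxy z => by
    have h1 : y.1 ≠ x := fun e => hxy (Subtype.ext e).symm
    by_cases e : Col N x.1 y z
    · rcases (h.col_iff h1).1 e with e | ⟨n, hn, e⟩
      · exact .inl (Subtype.ext e)
      obtain ⟨b, hb, h5, h6, β, hβ⟩ := H.dec' h hn
      exact .inr (.inl ⟨β, ⟨b, hb, h5, hβ⟩, fun k hk =>
        show val _ ∈ N z from hβ k ▸ e ▸ h6 _ y.2 ▸ h.conj b hk⟩)
    exact .inr (.inr ⟨H.adj h (h.nc_symm ⟨h1, e⟩), H.adj h (h.nc_symm (h.nc_swap ⟨h1, e⟩)),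
      H.adj h (h.nc_swap (h.nc_symm (h.nc_swap ⟨h1, e⟩)))⟩)
  ri := fun {x y k k'} hxy hk hk' h0 h0' h1 => by
    have h2 := H.nc h hxy
    obtain ⟨h3, h4⟩ := h.nc_ne h2
    have h5 : ∀ k, k ≠ 0 → val k • o ≠ o := fun k h0 e => h0 (H.reg h (by rw [e, H.zero, one_smul]))
    obtain ⟨n, hn, h6⟩ := ((h.col_iff h4.symm).1 (h.col_symm h4 (h.col_orbit hk'))).resolve_left
      (h5 k' h0')
    obtain ⟨m, hm, h7, h8⟩ := h.exists_A (h.nc_symm (h.nc_swap h2)) hn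
    have key : ∀ b ∈ N x, ∀ b' ∈ N x, b • o = o → b' • o = o → ∀ β β', H.Rep b β → H.Rep b' β' →
        β k = β' k' → b' • b • m • val k • o = val (β k) • m • val k • o := by
      intro b hb b' hb' e1 e2 β β' e3 e4 e5
      have ha : val (β k) ∈ N x := H.rep_im h hb e3 k
      have f1 := mul_mem ha (h.conj' (inv_fix h7) (mul_mem (inv_mem ha) hb'))
      have f2 : (val (β k) * (m⁻¹ * ((val (β k))⁻¹ * b') * m⁻¹⁻¹)) • o = o := by
        simp only [mul_smul, inv_inv, h.fix hm, e2]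
        rw [h.fix_orbit (inv_mem ha) (inv_mem hm) (inv_fix h7), smul_inv_smul]
      have f3 : (val (β k) * (m⁻¹ * ((val (β k))⁻¹ * b') * m⁻¹⁻¹)) • y.1 = y := by
        simp only [mul_smul, inv_inv, h8, h6]
        rw [H.rep_smul e4 e2, ← e5, add_comm, H.add, mul_smul, inv_smul_smul, ← h6, ← h8,
          inv_smul_smul, (H.tset _).1 _ y.2]
      have f4 := fix_comm (h.comm_of_fix f1 hk f3 ((H.tset _).1 _ x.2)).symm f2
      have f5 := fix_comm (h.comm ha f1) f4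
      rw [mul_smul, smul_left_cancel_iff, mul_smul, mul_smul, inv_smul_eq_iff, mul_smul,
        inv_smul_eq_iff, inv_inv] at f5
      rw [← f5, ← mul_smul b, h.comm_of_fix hb hm e1 h7, mul_smul, H.rep_smul e3 e1, add_comm, H.add,
        mul_smul]
    rcases (h.col_iff h4).1 (h.col_trans (h5 k h0) h4 (h.col_swap h4.symm (h5 k h0)
      (h.col_symm h4 (h.col_orbit hk))) h.col_left (h.col_orbit hm)) with e | ⟨n, hn, e⟩
    · obtain ⟨a, ha, h9⟩ := H.nz h x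
      obtain ⟨β, ⟨b, hb, e1, e3⟩, e5⟩ := H.ev h hxy hk h0 ha
      obtain ⟨β', ⟨b', hb', e2, e4⟩, e6⟩ := H.ev h hxy hk' h0' ha
      have f1 := key b hb b' hb' e1 e2 β β' e3 e4 (e5.trans e6.symm)
      rw [e, (H.tset _).1 _ y.2, ← mul_smul] at f1
      have f2 := h.comm_of_fix (mul_mem hb' hb) hk f1 ((H.tset _).1 _ x.2)
      have f3 := e4 (k + β k)
      rw [e3, map_add, H.rep_ker h hb' e4 (H.rep_im h hb e3 k), add_zero, ← mul_assoc, ← mul_assoc,
        f2, mul_assoc, mul_assoc, mul_assoc, mul_inv_cancel_left, mul_inv_cancel, mul_one,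
        H.inj.eq_iff, add_assoc, add_eq_left, e5, ← e6, ← map_add, add_comm] at f3
      have f4 := h.fix_of_comm (add_mem hk hk' : _ ∈ H.C y) (H.ne_one h1) ((H.rep_zero e4).1 f3)
      exact absurd (e6 ▸ (H.rep_zero e4).2 (h.comm_of_fix hb' hk' f4 ((H.tset _).1 _ x.2))) h9
    obtain ⟨θ, hθ, e'⟩ := H.dec h hn H.out
    refine ⟨θ, hθ, ?_⟩
    rintro β ⟨b, hb, e1, e3⟩ β' ⟨b', hb', e2, e4⟩ e5
    have f1 := key b hb b' hb' e1 e2 β β' e3 e4 e5
    rw [← e, ← e', H.rep_smul e3 e1, H.rep_smul e4 e2, ← mul_smul, ← H.add, map_add,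
      H.rep_ker h hb' e4 (H.rep_im h hb e3 θ), add_zero, add_assoc, add_comm (β k)] at f1
    exact add_left_cancel (H.reg h f1)

omit [Finite X] in
theorem exists_aff {w : X} (hw : t₀ • w ≠ w) [Finite X] : ∃ t, val t • o = w := by
  obtain ⟨y₀, ht⟩ := H.mem
  obtain ⟨g, h1, h2⟩ := h.T_trans ht H.out hw
  obtain ⟨t, rfl⟩ := (H.iff g).1 h1
  exact ⟨t, h2⟩

theorem coords {F : Type*} [Field F] [Module F T] (h1 : ∀ z (c : F), ∀ t ∈ H.C z, c • t ∈ H.C z)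
    (h2 : ∀ z, ∀ t ∈ H.C z, t ≠ 0 → ∀ t' ∈ H.C z, ∃ c : F, c • t = t') :
    ∃ v : X → T × F, (∀ w, v w ≠ 0) ∧ (∀ w w' (c : F), v w = c • v w' → w = w') ∧
      (∀ u ≠ 0, ∃ w, ∃ c : F, u = c • v w) ∧
      ∀ y u w, u ≠ y → (Col N y u w ↔ ∃ a b : F, v w = a • v y + b • v u) := by
  classical
  have M := H.mod h
  obtain ⟨y₀, ht⟩ := H.mem
  choose k hk hk0 using M.nz
  choose! τ hτ using fun w (hw : t₀ • w ≠ w) => H.exists_aff h hw
  obtain ⟨v, hv, hv'⟩ : ∃ v : X → T × F, (∀ w (e : t₀ • w = w), v w = (k ⟨w, e⟩, 0)) ∧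
      ∀ w, t₀ • w ≠ w → v w = (τ w, 1) :=
    ⟨fun w => if e : t₀ • w = w then (k ⟨w, e⟩, 0) else (τ w, 1), fun w e => dif_pos e,
      fun w e => dif_neg e⟩
  have h3 : ∀ w, v w ≠ 0 := fun w => by
    by_cases e : t₀ • w = w
    · simp [hv w e, hk0]
    · simp [hv' w e]
  have h4 : ∀ w w' (c : F), v w = c • v w' → w = w' := fun w w' c e => by
    have hc : c ≠ 0 := by rintro rfl; exact h3 w (by simpa using e)
    by_cases e1 : t₀ • w = w <;> by_cases e2 : t₀ • w' = w'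
    · rw [hv w e1, hv w' e2] at e
      exact congrArg Subtype.val (M.disj (hk ⟨w, e1⟩) (y := ⟨w', e2⟩)
        (by rw [(Prod.mk.inj e).1]; exact h1 _ c _ (hk _)) (hk0 _))
    · simp [hv w e1, hv' w' e2, hc.symm] at e
    · simp [hv' w e1, hv w' e2] at e
    · simp only [hv' w e1, hv' w' e2, Prod.smul_mk, smul_eq_mul, mul_one, Prod.mk.injEq] at e
      rw [← hτ w e1, ← hτ w' e2, e.1, ← e.2, one_smul]
  have h5 : ∀ t, τ (val t • o) = t := fun t => H.reg h (hτ _ (Sys.T_out (H.tset t) H.out))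
  have h6 : ∀ z a w, t₀ • z = z → a ≠ z → (Col N z a w ↔ ∃ c d : F, v w = c • v z + d • v a) := by
    intro z a w hz ha
    rw [h.col_iff ha, hv z hz]
    by_cases e1 : t₀ • a = a
    · rw [hv a e1]
      constructor
      · rintro (rfl | ⟨n, hn, rfl⟩)
        · exact ⟨1, 0, by simp [hv w hz]⟩
        obtain ⟨b, hb, e2, e3, β, hβ⟩ := H.dec' h (x := ⟨z, hz⟩) hn
        have e4 := h.pres ht hz hn e1
        obtain ⟨c, hc⟩ := h2 _ _ (hk _) (hk0 _) _ (H.rep_im h (x := ⟨z, hz⟩) hb hβ (k ⟨a, e1⟩))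
        obtain ⟨d, hd⟩ := h2 ⟨_, e4⟩ (k ⟨a, e1⟩ + β (k ⟨a, e1⟩))
          (show val _ ∈ N (n • a) from hβ _ ▸ e3 a e1 ▸ h.conj b (hk ⟨a, e1⟩)) (fun e => hk0 _
            (M.eq_zero (x := ⟨a, e1⟩) (y := ⟨z, hz⟩) (fun e => ha (congrArg Subtype.val e)) (hk _)
            (eq_neg_of_add_eq_zero_left e ▸ neg_mem (H.rep_im h hb hβ _)))) _ (hk _)
        exact ⟨d * c, d, by simp [hv _ e4, ← hd, ← hc, mul_smul, add_comm]⟩
      · rintro ⟨c, d, e⟩
        by_cases hd : d = 0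
        · exact .inl (h4 _ _ c (by simpa [hd, hv z hz] using e))
        have e2 : t₀ • w = w := by_contra fun e2 => by simp [hv' w e2] at e
        obtain ⟨β, ⟨b, hb, -, hβ⟩, e3⟩ := M.ev (x := ⟨z, hz⟩) (y := ⟨a, e1⟩)
          (fun e => ha (congrArg Subtype.val e).symm) (h1 _ d _ (hk _)) (smul_ne_zero hd (hk0 _))
          (h1 _ c _ (hk _))
        refine .inr ⟨b, hb, h.ti (h.conj b (h1 _ d _ (hk ⟨a, e1⟩))) ?_ ?_⟩ <;>
          rw [← hβ, e3, add_comm, ← show k ⟨w, e2⟩ = c • k ⟨z, hz⟩ + d • k ⟨a, e1⟩ by simpa [hv w e2] using e]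
        exacts [hk ⟨w, e2⟩, H.ne_one (hk0 _)]
    · rw [hv' a e1]
      constructor
      · rintro (rfl | ⟨n, hn, rfl⟩)
        · exact ⟨1, 0, by simp [hv w hz]⟩
        obtain ⟨t, e2, e3⟩ := H.dec h (x := ⟨z, hz⟩) hn e1
        obtain ⟨c, hc⟩ := h2 _ _ (hk _) (hk0 _) _ e2
        refine ⟨c, 1, ?_⟩
        rw [← e3, hv' _ (Sys.T_out (H.tset t) e1), ← hτ a e1, ← mul_smul, ← H.add, h5, h5]
        simp [hc]
      · rintro ⟨c, d, e⟩
        by_cases hd : d = 0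
        · exact .inl (h4 _ _ c (by simpa [hd, hv z hz] using e))
        have e2 : t₀ • w ≠ w := fun e2 => by simp [hv w e2, Ne.symm hd] at e
        simp only [hv' w e2, Prod.smul_mk, smul_eq_mul, mul_one, Prod.mk_add_mk, Prod.mk.injEq,
          mul_zero, zero_add] at e
        refine .inr ⟨_, h1 _ c _ (hk ⟨z, hz⟩), ?_⟩
        rw [← hτ a e1, ← mul_smul, ← H.add, ← hτ w e2, e.1, ← e.2, one_smul]
  refine ⟨v, h3, h4, fun ⟨t, c⟩ h0 => ?_, fun y u w hu => ?_⟩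
  · by_cases hc : c = 0
    · obtain ⟨z, hz⟩ := M.cover t
      obtain ⟨d, hd⟩ := h2 z _ (hk z) (hk0 z) t hz
      exact ⟨z, d, by simp [hv z z.2, hc, hd]⟩
    · exact ⟨val (c⁻¹ • t) • o, c, by simp [hv' _ (Sys.T_out (H.tset _) H.out), h5, hc]⟩
  obtain ⟨z, e1, e2⟩ := h.hyp ht hu
  by_cases e3 : y = z
  · exact h6 y u w (e3 ▸ e2) hu
  have e4 := h.col_trans hu e3 e1 h.col_left col_right
  obtain ⟨c, d, e5⟩ := (h6 z y u e2 e3).1 e4
  have hc : c ≠ 0 := by rintro rfl; exact hu (h4 _ _ d (by simpa using e5))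
  refine ⟨fun e => ?_, fun ⟨a, b, e⟩ => h.col_trans e3 hu col_right e4 ((h6 z y w e2 e3).2
    ⟨b * c, a + b * d, by rw [e, e5]; module⟩)⟩
  obtain ⟨a, b, e⟩ := (h6 z y w e2 e3).1 (h.col_trans hu e3 e1 h.col_left e)
  refine ⟨b - a / c * d, a / c, ?_⟩
  rw [e, e5]
  match_scalars <;> field_simp <;> ring

end Tr

theorem Sys.coords {p : ℕ} {N : X → Subgroup G} (h : Sys p N) [Finite G] [Fact p.Prime] [Finite X]
    [Nontrivial X] : ∃ (F : Type) (_ : Field F) (_ : Fintype F) (n : ℕ) (v : X → Fin n → F),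
      (∀ w, v w ≠ 0) ∧ (∀ w w' (c : F), v w = c • v w' → w = w') ∧
      (∀ u ≠ 0, ∃ w, ∃ c : F, u = c • v w) ∧
      ∀ y u w, u ≠ y → (Col N y u w ↔ ∃ a b : F, v w = a • v y + b • v u) := by
  obtain ⟨x, y, hxy⟩ := exists_pair_ne X
  obtain ⟨t, ht, h1, h2⟩ := h.ne hxy
  obtain ⟨o, ho⟩ := not_forall.1 fun e => h1 (h.faith t e)
  obtain ⟨T, _, _, val, h3, h4, h5⟩ := h.exists_val ht ho
  have H : Tr N t o val := ⟨⟨x, ht⟩, ho, h3, h4, h5⟩
  have : Nontrivial {z : X // t • z = z} :=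
    ⟨⟨x, h.fix ht⟩, ⟨y, h2⟩, fun e => hxy (congrArg Subtype.val e)⟩
  obtain ⟨F, _, _, _, h6, h7⟩ := (H.mod h).exists_field
  obtain ⟨v, e1, e2, e3, e4⟩ := H.coords h h6 h7
  let e := (Module.finBasis F (T × F)).equivFun
  refine ⟨F, inferInstance, inferInstance, _, fun w => e (v w), fun w => by simp [e1],
    fun w w' c e' => e2 w w' c (e.injective (by rw [map_smul]; exact e')), fun u hu => ?_,
    fun y u w hu => ?_⟩
  · obtain ⟨w, c, e'⟩ := e3 (e.symm u) (by simpa using hu)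
    exact ⟨w, c, by rw [← map_smul, ← e', e.apply_symm_apply]⟩
  · simp only [e4 y u w hu, ← map_smul, ← map_add, e.injective.eq_iff]

end CA.ON
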