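import Cfsg.Agent.Lib.Perm.ON3
import Cfsg.Agent.Lib.Lin.SLnGen
import Cfsg.Agent.Lib.Grp.Fstar

/-! O'Nan's theorem, part 4: identification of `PSL`. -/

set_option autoImplicit false
open MulAction CA.Atk
open scoped LinearAlgebra.Projectivization

namespace CA.ON
variable {G X : Type*} [Group G] [MulAction G X] {F V : Type*} [Field F] [AddCommGroup V]
  [Module F V]

variable (F) in
structure Co (N : X → Subgroup G) (v : X → V) : Prop where
  nz : ∀ w, v w ≠ 0
  inj : ∀ w w' (c : F), v w = c • v w' → w = w'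
  surj : ∀ u ≠ 0, ∃ w, ∃ c : F, u = c • v w
  col : ∀ y u w, u ≠ y → (Col N y u w ↔ ∃ a b : F, v w = a • v y + b • v u)

variable (F) in
/-- `w` is the point spanned by `u` -/
def Pt (v : X → V) (u : V) (w : X) : Prop := ∃ c : F, v w = c • u

theorem pt_self {v : X → V} (w : X) : Pt F v (v w) w := ⟨1, (one_smul _ _).symm⟩

namespace Co
variable {N : X → Subgroup G} {v : X → V} (H : Co F N v)
include H

theorem pt_ne {u : V} {w : X} {c : F} (e : v w = c • u) : c ≠ 0 := by
  rintro rfl; exact H.nz w (by simpa using e)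

theorem pt_eq {u : V} {w w' : X} (h1 : Pt F v u w) (h2 : Pt F v u w') : w = w' := by
  obtain ⟨c, hc⟩ := h1
  obtain ⟨d, hd⟩ := h2
  exact H.inj _ _ (c / d) (by rw [hc, hd, smul_smul, div_mul_cancel₀ _ (H.pt_ne hd)])

theorem exists_pt {u : V} (hu : u ≠ 0) : ∃ w, Pt F v u w := by
  obtain ⟨w, c, rfl⟩ := H.surj u hu
  exact ⟨w, c⁻¹, by rw [inv_smul_smul₀ (left_ne_zero_of_smul hu)]⟩

theorem coef {y w w' : X} {a b : F} (hw : w ≠ y) (h1 : Pt F v (v w + a • v y) w')
    (h2 : Pt F v (v w + b • v y) w') : a = b := by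
  obtain ⟨c, hc⟩ := h1
  obtain ⟨d, hd⟩ := h2
  have e : (c - d) • v w = (d * b - c * a) • v y := by linear_combination (norm := module) hd - hc
  by_cases h0 : c - d = 0
  · rw [h0, zero_smul, eq_comm, smul_eq_zero, or_iff_left (H.nz y), ← sub_eq_zero.1 h0,
      ← mul_sub, mul_eq_zero, or_iff_right (H.pt_ne hc), sub_eq_zero] at e
    exact e.symm
  · exact absurd (H.inj _ _ _ (by rw [mul_smul, ← e, inv_smul_smul₀ h0])) hw

variable {p : ℕ} (h : Sys p N) [Finite G] [Fact p.Prime] [Finite X]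
include h

theorem tv {y : X} {n : G} (hn : n ∈ N y) : ∃ f : Module.Dual F V, f (v y) = 0 ∧
    ∀ w, Pt F v (v w + f (v w) • v y) (n • w) := by
  by_cases h0 : ∀ w : X, n • w = w
  · exact ⟨0, rfl, fun w => by simpa [h0] using pt_self w⟩
  obtain ⟨w₀, hw₀⟩ := not_forall.1 h0
  let S : Submodule F V :=
    { carrier := {u | ∀ w, Pt F v u w → n • w = w}
      zero_mem' := fun w ⟨c, hc⟩ => absurd (by simpa using hc) (H.nz w)
      smul_mem' := fun c u hu w ⟨d, hd⟩ => hu w ⟨d * c, by rw [hd, smul_smul]⟩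
      add_mem' := fun {u u'} hu hu' w ⟨c, hc⟩ => by
        by_cases e : u = 0
        · exact hu' w ⟨c, by simpa [e] using hc⟩
        by_cases e' : u' = 0
        · exact hu w ⟨c, by simpa [e'] using hc⟩
        obtain ⟨x, a, ha⟩ := H.exists_pt e
        obtain ⟨x', b, hb⟩ := H.exists_pt e'
        have h1 : v w = (c / a) • v x + (c / b) • v x' := by
          rw [ha, hb, smul_smul, smul_smul, div_mul_cancel₀ _ (H.pt_ne ha),
            div_mul_cancel₀ _ (H.pt_ne hb), hc, smul_add]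
        by_cases e1 : x' = x
        · rw [H.inj w x (c / a + c / b) (by rw [h1, e1, ← add_smul])]; exact hu x ⟨a, ha⟩
        exact h.sub hn (hu x ⟨a, ha⟩) (hu' x' ⟨b, hb⟩) e1 ((H.col _ _ _ e1).2 ⟨_, _, h1⟩) }
  have hS : ∀ w, v w ∈ S ↔ n • w = w := fun w =>
    ⟨fun e => e w (pt_self w), fun e w' e' => H.pt_eq e' (pt_self w) ▸ e⟩
  have hy := (hS y).2 (h.fix hn)
  have h1 : ∀ w, v w ∉ S → w ≠ y := fun w hw e => hw (e ▸ hy)
  have h2 := mt (hS w₀).1 hw₀
  obtain ⟨a, b, e⟩ := (H.col _ _ _ (h1 _ h2)).1 (h.col_orbit hn)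
  have hb : b ≠ 0 := by
    rintro rfl
    exact h1 _ h2 (MulAction.injective n ((H.inj _ _ a (by simpa using e)).trans (h.fix hn).symm))
  have step : ∀ u ∉ S, (∀ w, Pt F v u w → Pt F v (u + (a / b) • v y) (n • w)) → ∀ s ∈ S,
      (∀ c : F, s ≠ c • v y) → ∀ w, Pt F v (u + s) w → Pt F v (u + s + (a / b) • v y) (n • w) := by
    intro u hu H1 s hs H2 w ⟨c, hc⟩
    obtain ⟨x, a₁, e1⟩ := H.exists_pt (u := u) fun e => hu (e ▸ zero_mem _)
    obtain ⟨x', a₂, e2⟩ := H.exists_pt (u := s) fun e => H2 0 (by simp [e])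
    have e3 := hs x' ⟨_, e2⟩
    have e4 : x' ≠ x := fun e => hu ((S.smul_mem_iff (H.pt_ne e1)).1 (e1 ▸ e ▸ (hS x').2 e3))
    have e5 := col_smul h n ((H.col _ _ w e4).2 ⟨c / a₁, c / a₂, by
      rw [e1, e2, smul_smul, smul_smul, div_mul_cancel₀ _ (H.pt_ne e1),
        div_mul_cancel₀ _ (H.pt_ne e2), hc, smul_add]⟩)
    obtain ⟨α, β, e6⟩ := (H.col (n • x) (n • x') _ fun e => e4 (MulAction.injective n e)).1 e5
    obtain ⟨γ, δ, e7⟩ := (H.col _ w _ (h1 w fun e => hu (by
      exact (S.add_mem_iff_left hs).1 ((S.smul_mem_iff (H.pt_ne hc)).1 (hc ▸ e))))).1 (h.col_orbit hn)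
    obtain ⟨a₃, e8⟩ := H1 x ⟨_, e1⟩
    rw [e3, e8, e2] at e6
    rw [hc] at e7
    have e9 : (α * a₃ - δ * c) • u = (δ * c - β * a₂) • s + (γ - α * a₃ * (a / b)) • v y := by
      linear_combination (norm := module) e7 - e6
    have e10 : α * a₃ - δ * c = 0 := by_contra fun e => hu ((S.smul_mem_iff e).1
      (e9 ▸ add_mem (S.smul_mem _ hs) (S.smul_mem _ hy)))
    have e11 : δ * c - β * a₂ = 0 := by_contra fun e => H2 (-((δ * c - β * a₂)⁻¹ *
      (γ - α * a₃ * (a / b)))) (by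
        rw [e10, zero_smul, eq_comm, add_eq_zero_iff_eq_neg] at e9
        rw [neg_smul, mul_smul, ← smul_neg, ← e9, inv_smul_smul₀ e])
    refine ⟨α * a₃, ?_⟩
    rw [e6, smul_smul, smul_smul, ← sub_eq_zero.1 e11, ← sub_eq_zero.1 e10]
    module
  have base : ∀ w, Pt F v (v w₀) w → Pt F v (v w₀ + (a / b) • v y) (n • w) := fun w hw => by
    rw [H.pt_eq hw (pt_self w₀)]
    exact ⟨b, by rw [e, smul_add, smul_smul, mul_div_cancel₀ _ hb, add_comm]⟩
  have all : ∀ s ∈ S, ∀ w, Pt F v (v w₀ + s) w → Pt F v (v w₀ + s + (a / b) • v y) (n • w) := by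
    intro s hs
    by_cases e1 : ∀ c : F, s ≠ c • v y
    · exact step _ h2 base s hs e1
    push Not at e1
    obtain ⟨c, rfl⟩ := e1
    obtain ⟨x, hx⟩ := h.exists_nc (h1 _ h2)
    obtain ⟨z, e1, e2⟩ := h.hyp hn (h.nc_ne hx).2
    have e3 : ∀ c : F, v z ≠ c • v y := fun c e =>
      (h.nc_swap (h.nc_symm hx)).2 (H.inj _ _ c e ▸ e1)
    have := step _ (fun e => h2 (by simpa using sub_mem e ((hS z).2 e2)))
      (step _ h2 base _ ((hS z).2 e2) e3) _ (sub_mem hs ((hS z).2 e2))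
      fun d e => e3 (c - d) (by rw [sub_smul, ← e, sub_sub_cancel])
    rwa [add_assoc (v w₀), add_sub_cancel] at this
  obtain ⟨g, e1, e2⟩ := S.exists_dual_map_eq_bot_of_notMem h2 inferInstance
  have e3 : ∀ s ∈ S, g s = 0 := fun s hs => by simpa [e2] using Submodule.mem_map_of_mem (f := g) hs
  refine ⟨(a / b / g (v w₀)) • g, by simp [e3 _ hy], fun w => ?_⟩
  by_cases e4 : n • w = w
  · simpa [e3 _ ((hS w).2 e4), e4] using pt_self w
  obtain ⟨d, hd, s, hs, e5⟩ : ∃ d : F, d ≠ 0 ∧ ∃ s ∈ S, v w = d • (v w₀ + s) := by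
    by_cases e5 : w = w₀
    · exact ⟨1, one_ne_zero, 0, zero_mem _, by simp [e5]⟩
    obtain ⟨z, e6, e7⟩ := h.hyp hn e5
    obtain ⟨α, β, e8⟩ := (H.col _ _ _ e5).1 e6
    have hα : α ≠ 0 := by rintro rfl; exact e4 (H.inj _ _ β (by simpa using e8) ▸ e7)
    have hβ : β ≠ 0 := by rintro rfl; exact hw₀ (H.inj _ _ α (by simpa using e8) ▸ e7)
    refine ⟨-(α / β), by simp [hα, hβ], _, S.smul_mem (-α⁻¹) ((hS z).2 e7), ?_⟩
    rw [e8]
    match_scalars <;> field_simp <;> ring
  obtain ⟨c, hc⟩ := all s hs w ⟨d, e5⟩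
  refine ⟨c / d, ?_⟩
  simp only [hc, e5, map_smul, map_add, e3 s hs, LinearMap.smul_apply, smul_eq_mul]
  match_scalars <;> field_simp <;> ring

theorem tv' [FiniteDimensional F V] {y : X} {f : Module.Dual F V} (hf : f (v y) = 0) :
    ∃ n ∈ N y, ∀ w, Pt F v (v w + f (v w) • v y) (n • w) := by
  let D : Submodule F (Module.Dual F V) :=
    { carrier := {f | f (v y) = 0 ∧ ∃ n ∈ N y, ∀ w, Pt F v (v w + f (v w) • v y) (n • w)}
      zero_mem' := ⟨rfl, 1, one_mem _, fun w => by simpa using pt_self w⟩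
      add_mem' := by
        rintro f g ⟨h1, n, hn, h2⟩ ⟨h3, m, hm, h4⟩
        refine ⟨by simp [h1, h3], n * m, mul_mem hn hm, fun w => ?_⟩
        obtain ⟨c, hc⟩ := h2 (m • w)
        obtain ⟨d, hd⟩ := h4 w
        refine ⟨c * d, ?_⟩
        simp only [mul_smul, hc, hd, map_smul, map_add, h1, LinearMap.add_apply, smul_eq_mul]
        module
      smul_mem' := by
        rintro c f ⟨h1, n, hn, h2⟩
        refine ⟨by simp [h1], ?_⟩
        by_cases h0 : ∀ w, f (v w) = 0
        · exact ⟨1, one_mem _, fun w => by simpa [h0] using pt_self w⟩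
        obtain ⟨w₀, hw₀⟩ := not_forall.1 h0
        have h3 : w₀ ≠ y := fun e => hw₀ (e ▸ h1)
        have h4 : n • w₀ ≠ w₀ := fun e => hw₀ (H.coef h3 (e ▸ h2 w₀) (by simpa using pt_self w₀))
        obtain ⟨w₁, d, hd⟩ := H.exists_pt (u := v w₀ + (c * f (v w₀)) • v y) fun e =>
          h3 (H.inj _ _ _ (by rw [eq_neg_of_add_eq_zero_left e, ← neg_smul]))
        obtain ⟨m, hm, rfl⟩ := ((h.col_iff h3).1 ((H.col _ _ w₁ h3).2
          ⟨_, _, by rw [hd, smul_add, smul_smul, add_comm]⟩)).resolve_left (by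
            rintro rfl
            refine h3 (H.inj _ _ (d⁻¹ - c * f (v w₀)) ?_)
            rw [sub_smul, eq_sub_iff_add_eq, eq_inv_smul_iff₀ (H.pt_ne hd), ← hd])
        obtain ⟨s, hs, h5, h6⟩ := h.exists_T hn (h.fix hn) h4 hm
        obtain ⟨g, h7, h8⟩ := H.tv h hs
        have h9 : g (v w₀) = c * f (v w₀) := H.coef h3 (h8 w₀) (h6 ▸ ⟨d, hd⟩)
        have h10 : ∀ u, f u = 0 → g u = 0 := fun u hu => by
          by_cases e : u = 0
          · simp [e]
          obtain ⟨w, a, rfl⟩ := H.surj u e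
          rw [map_smul, smul_eq_zero, or_iff_right (left_ne_zero_of_smul e)] at hu ⊢
          by_cases e' : w = y
          · exact e' ▸ h7
          exact H.coef e' (h8 w) (by
            simpa [h5 w (H.pt_eq (by simpa [hu] using h2 w) (pt_self w))] using pt_self w)
        refine ⟨s, hs, fun w => ?_⟩
        have := h10 (f (v w₀) • v w - f (v w) • v w₀) (by simp [mul_comm])
        rw [map_sub, map_smul, map_smul, h9, sub_eq_zero, smul_eq_mul, smul_eq_mul, ← mul_assoc,
          mul_comm, mul_left_inj' hw₀, mul_comm] at this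
        exact (show (c • f) (v w) = g (v w) from this.symm) ▸ h8 w }
  suffices f ∈ D from this.2
  rw [← Subspace.dualCoannihilator_dualAnnihilator_eq (W := D), Submodule.mem_dualAnnihilator]
  intro u hu
  by_cases e : u = 0
  · simp [e]
  obtain ⟨w, a, rfl⟩ := H.surj u e
  obtain rfl : w = y := by
    by_contra e'
    obtain ⟨n, hn, h1⟩ := h.exists_move e'
    obtain ⟨g, h2, h3⟩ := H.tv h hn
    have := (Submodule.mem_dualCoannihilator _).1 hu g ⟨h2, n, hn, h3⟩
    rw [map_smul, smul_eq_zero, or_iff_right (left_ne_zero_of_smul e)] at this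
    exact h1 (H.pt_eq (by simpa [this] using h3 w) (pt_self w))
  simp [hf]

omit [Finite X] [Fact p.Prime] [Finite G] in
theorem three_le [FiniteDimensional F V] [Nontrivial X] : 3 ≤ Module.finrank F V := by
  obtain ⟨x, u, hu⟩ := exists_pair_ne X
  obtain ⟨w, hw⟩ := h.exists_nc hu.symm
  refine (LinearIndependent.fintype_card_le_finrank (R := F) (b := ![v x, v u, v w])
    (Fintype.linearIndependent_iff.2 fun g e => ?_) :)
  simp only [Fin.sum_univ_three, Matrix.cons_val] at e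
  have h2 : g 2 = 0 := by_contra fun h0 => hw.2 ((H.col _ _ _ hu.symm).2
    ⟨-(g 0 / g 2), -(g 1 / g 2), by
      rw [← inv_smul_smul₀ h0 (v w), eq_neg_of_add_eq_zero_right e]
      match_scalars <;> ring⟩)
  rw [h2, zero_smul, add_zero] at e
  have h1 : g 1 = 0 := by_contra fun h0 => hu.symm (H.inj _ _ (-(g 0 / g 1)) (by
    rw [← inv_smul_smul₀ h0 (v u), eq_neg_of_add_eq_zero_right e]
    match_scalars; ring))
  rw [h1, zero_smul, add_zero, smul_eq_zero, or_iff_left (H.nz x)] at e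
  intro i; fin_cases i <;> assumption

end Co

open Matrix Matrix.SpecialLinearGroup in
theorem Sys.main {p : ℕ} {N : X → Subgroup G} (h : Sys p N) [Finite G] [Fact p.Prime] [Finite X]
    [Nontrivial X] : ∃ (F : Type) (_ : Field F) (_ : Fintype F) (n : ℕ), 3 ≤ n ∧
      Nat.card X = (Fintype.card F ^ n - 1) / (Fintype.card F - 1) ∧
      Nonempty (↥(⨆ y, N y) ≃* ProjectiveSpecialLinearGroup (Fin n) F) := by
  obtain ⟨F, _, _, n, v, h1, h2, h3, h4⟩ := h.coords
  have H : Co F N v := ⟨h1, h2, h3, h4⟩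
  let φ : X ≃ ℙ F (Fin n → F) := Equiv.ofBijective (fun w => .mk F (v w) (h1 w)) ⟨fun w w' e => by
    obtain ⟨c, hc⟩ := (Projectivization.mk_eq_mk_iff' _ _ _ _ _).1 e
    exact h2 _ _ c hc.symm, fun q => by
    induction q using Projectivization.ind with | _ u hu =>
    obtain ⟨w, c, hc⟩ := H.exists_pt hu
    exact ⟨w, (Projectivization.mk_eq_mk_iff' _ _ _ _ _).2 ⟨c, hc.symm⟩⟩⟩
  refine ⟨F, inferInstance, inferInstance, n, by simpa using H.three_le h, ?_, ?_⟩
  · rw [Nat.card_congr φ, Projectivization.card'']; simp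
  let ψ := φ.symm.permCongrHom.toMonoidHom.comp
    (Projectivization.PSLAction.toPermHom (K := F) (ι := Fin n))
  have hψ : Function.Injective ψ :=
    φ.symm.permCongrHom.injective.comp ProjectiveSpecialLinearGroup.toPermHom_injective
  have hτ : Function.Injective (toPermHom G X) :=
    (injective_iff_map_eq_one _).2 fun g e => h.faith g fun x => Equiv.congr_fun e x
  have key : ∀ (g : G) (A : SpecialLinearGroup (Fin n) F), (∀ w, Pt F v (A • v w) (g • w)) →
      toPermHom G X g = ψ A := fun g A e => Equiv.ext fun w => φ.eq_symm_apply.2 (by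
    obtain ⟨c, hc⟩ := e w
    exact (Projectivization.mk_eq_mk_iff' _ _ _ _ _).2 ⟨c, hc.symm⟩)
  have h5 : (⨆ y, N y).map (toPermHom G X) = ψ.range := by
    rw [MonoidHom.range_eq_map, ← Subgroup.map_top_of_surjective _ (QuotientGroup.mk'_surjective _),
      ← CA.SLnGen.iSup_lineStab_eq_top, Subgroup.map_map, Subgroup.map_iSup, Subgroup.map_iSup,
      ← φ.iSup_comp]
    refine iSup_congr fun y => le_antisymm ?_ ?_
    · rintro _ ⟨g, hg, rfl⟩
      obtain ⟨f, e1, e2⟩ := H.tv h hg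
      have e3 : ∀ u, (show SpecialLinearGroup (Fin n) F from ⟨LinearMap.toMatrix'
          (LinearMap.transvection f (v y)), by simp [e1]⟩) • u = u + f u • v y := fun u =>
        LinearMap.toMatrix'_mulVec _ _
      exact ⟨_, fun u => by
        rw [e3, add_sub_cancel_left]; exact Submodule.smul_mem _ _ (Submodule.mem_span_singleton_self _),
        (key g _ fun w => e3 _ ▸ e2 w).symm⟩
    · rintro _ ⟨A, hA, rfl⟩
      obtain ⟨g, hg⟩ := Module.Projective.exists_dual_eq_one F (h1 y)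
      have e1 : ∀ u, A • u = u + (g ∘ₗ (A.toLin'.toLinearMap - .id)) u • v y := fun u => by
        obtain ⟨c, hc⟩ := Submodule.mem_span_singleton.1 (hA u)
        rw [show (g ∘ₗ (A.toLin'.toLinearMap - .id)) u = g (A • u - u) from rfl, ← hc,
          map_smul, hg, smul_eq_mul, mul_one, hc, add_sub_cancel]
      obtain ⟨m, hm, e2⟩ := H.tv' h (y := y) (f := g ∘ₗ (A.toLin'.toLinearMap - .id)) (by
        rw [show (g ∘ₗ (A.toLin'.toLinearMap - .id)) (v y) = g (A • v y - v y) from rfl,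
          lineStab_fix_of_span _ (h1 y) A hA, sub_self, map_zero])
      exact ⟨m, hm, key m A fun w => e1 _ ▸ e2 w⟩
  exact ⟨(Subgroup.equivMapOfInjective _ _ hτ).trans ((MulEquiv.subgroupCongr h5).trans
    (MonoidHom.ofInjective hψ).symm)⟩

theorem exists_sys [Finite G] [FaithfulSMul G X] (h2 : IsMultiplyPretransitive G X 2) (x : X)
    (N : Subgroup G) (hx : N ≤ stabilizer G x) (hN : ∀ g ∈ stabilizer G x, ∀ n ∈ N, g * n * g⁻¹ ∈ N)
    (hc : ∀ a ∈ N, ∀ b ∈ N, a * b = b * a) (h0 : ∃ n ∈ N, n ≠ 1 ∧ ∃ y : X, y ≠ x ∧ n • y = y) :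
    ∃ (p : ℕ) (_ : Fact p.Prime) (M : X → Subgroup G), Sys p M ∧ M x ≤ N := by
  obtain ⟨n, hn, h1, y, hy, h3⟩ := h0
  obtain ⟨p, hp, hd⟩ := Nat.exists_prime_and_dvd (mt orderOf_eq_one_iff.1 h1)
  have := Fact.mk hp
  let M : X → Subgroup G := fun z =>
    { carrier := {a | (∀ g : G, g • z = x → g * a * g⁻¹ ∈ N) ∧ ∃ k, a ^ p ^ k = 1}
      one_mem' := ⟨fun g _ => by simp, 0, by simp⟩
      inv_mem' := fun ⟨h1, k, h2⟩ => ⟨fun g e => by simpa [mul_assoc] using inv_mem (h1 g e),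
        k, by rw [inv_pow, h2, inv_one]⟩
      mul_mem' := fun {a b} ⟨h1, k, h4⟩ ⟨h5, l, h6⟩ => ⟨fun g e => by
        simpa [mul_assoc] using mul_mem (h1 g e) (h5 g e), k + l, by
        obtain ⟨g, e⟩ := (isPretransitive_of_is_two_pretransitive (h2 := h2)).exists_smul_eq z x
        have : Commute a b := (MulAut.conj g).injective (by
          simpa only [map_mul, MulAut.conj_apply] using hc _ (h1 g e) _ (h5 g e))
        rw [this.mul_pow, pow_add, pow_mul, h4, mul_comm (p ^ k), pow_mul, h6]; simp⟩ }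
  have tr := (isPretransitive_of_is_two_pretransitive (h2 := h2)).exists_smul_eq
  have h : Sys p M :=
    { two := fun h1 h3 => is_two_pretransitive_iff.1 h2 h1 h3
      faith := fun g e => eq_of_smul_eq_smul (α := X) fun x => by rw [e, one_smul]
      fix := fun {z a} ha => by
        obtain ⟨g, rfl⟩ := tr z x
        simpa [mul_smul] using hx (ha.1 g rfl)
      conj := fun {z a} g ⟨h1, k, h4⟩ => ⟨fun g' e => by
        simpa [mul_assoc] using h1 (g' * g) (by rw [mul_smul, e]), k, by simp [conj_pow, h4]⟩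
      comm := fun {z a b} ha hb => by
        obtain ⟨g, e⟩ := tr z x
        exact (MulAut.conj g).injective (by simpa only [map_mul, MulAut.conj_apply] using hc _ (ha.1 g e) _ (hb.1 g e))
      pg := fun z a => let ⟨k, hk⟩ := a.2.2; ⟨k, Subtype.ext hk⟩
      ne := fun {z w} e => by
        obtain ⟨g, rfl, rfl⟩ := is_two_pretransitive_iff.1 h2 hy.symm e
        have h4 := orderOf_pow_orderOf_div (orderOf_pos n).ne' hd
        refine ⟨g * n ^ (orderOf n / p) * g⁻¹, ⟨fun g' e => ?_, 1, ?_⟩, fun e => hp.ne_one ?_,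
          fix_conj (pow_mem (mem_stabilizer_iff.2 h3) _)⟩
        · simpa [mul_assoc] using hN (g' * g) (by rw [mem_stabilizer_iff, mul_smul, e]) _
            (pow_mem hn (orderOf n / p))
        · rw [conj_pow, pow_one, ← pow_mul, Nat.div_mul_cancel hd, pow_orderOf_eq_one]; simp
        · rw [← h4, orderOf_eq_one_iff]; simpa using e }
  exact ⟨p, this, M, h, fun a ha => by simpa using ha.1 1 (one_smul _ _)⟩

/-- O'Nan's theorem on abelian normal subgroups of point stabilizers. -/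
theorem onan [Finite G] [Finite X] [FaithfulSMul G X] (h2 : IsMultiplyPretransitive G X 2) (x : X)
    (N : Subgroup G) (hx : N ≤ stabilizer G x) (hN : ∀ g ∈ stabilizer G x, ∀ n ∈ N, g * n * g⁻¹ ∈ N)
    (hc : ∀ a ∈ N, ∀ b ∈ N, a * b = b * a) (h0 : ∃ n ∈ N, n ≠ 1 ∧ ∃ y : X, y ≠ x ∧ n • y = y) :
    ∃ (F : Type) (_ : Field F) (_ : Fintype F) (n : ℕ), 3 ≤ n ∧
      Nat.card X = (Fintype.card F ^ n - 1) / (Fintype.card F - 1) ∧ ∃ L : Subgroup G, L.Normal ∧
      Nonempty (L ≃* Matrix.ProjectiveSpecialLinearGroup (Fin n) F) ∧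
      Subgroup.centralizer (L : Set G) = ⊥ := by
  obtain ⟨p, _, M, h, -⟩ := exists_sys h2 x N hx hN hc h0
  obtain ⟨-, -, -, y, hy, -⟩ := h0
  have : Nontrivial X := ⟨y, x, hy⟩
  obtain ⟨F, _, _, k, h4, h5, h6⟩ := h.main
  refine ⟨F, inferInstance, inferInstance, k, h4, h5, _, ⟨fun a ha g => ?_⟩, h6,
    eq_bot_iff.2 fun g hg => h.faith g fun z => ?_⟩
  · induction ha using Subgroup.iSup_induction' with
    | hp z a ha => exact Subgroup.mem_iSup_of_mem _ (h.conj g ha)
    | h1 => simp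
    | hmul a b _ _ ha hb => simpa [mul_assoc] using mul_mem ha hb
  · obtain ⟨w, hw⟩ := exists_ne z
    obtain ⟨a, ha, h7, -⟩ := h.ne hw.symm
    exact h.fix_of_comm ha h7 (hg a (Subgroup.mem_iSup_of_mem z ha)).symm

theorem fstar_eq [Finite G] {L : Subgroup G} [hL : L.Normal] (hs : IsSimpleGroup L)
    (hc : Subgroup.centralizer (L : Set G) = ⊥) : Cfsg.generalizedFittingSubgroup G = L := by
  have h1 : Cfsg.IsComponent L := ⟨hL.isSubnormal, CA.Quasi.isQuasisimple_iff.2 ⟨⟨(hs.eq_bot_or_eq_top_of_normal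
    (commutator L) inferInstance).resolve_left fun e => by
      obtain ⟨a, ha⟩ := exists_ne (1 : L)
      refine ha (Subtype.ext (hc.le fun b hb => ?_))
      exact congrArg Subtype.val (commutatorElement_eq_one_iff_mul_comm.1
        (e.le (Subgroup.commutator_mem_commutator (Subgroup.mem_top (⟨b, hb⟩ : L)) (Subgroup.mem_top a))))⟩,
    hs.toNontrivial, fun N hN => (hs.eq_bot_or_eq_top_of_normal N hN).symm.imp_right fun e => e.le.trans bot_le⟩⟩
  exact le_antisymm (CA.Fstar.fstar_le (CA.Fstar.layer_le_of_centralizer_le hL.isSubnormal (hc ▸ bot_le))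
    ((CA.Comp.fitting_le_centralizer_comp h1).trans (hc ▸ bot_le))) (CA.Fstar.comp_le_fstar h1)

end CA.ON
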