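import Mathlib

/-! Order types of direct products: semidirect towers, counting solutions of `g ^ d = 1`. -/

namespace CA.OT
open Finset

structure Act (V K : Type) [AddCommGroup V] [Group K] where
  ρ : K → V → V
  add : ∀ k v w, ρ k (v + w) = ρ k v + ρ k w
  mul : ∀ k l v, ρ (k * l) v = ρ k (ρ l v)
  one : ∀ v, ρ 1 v = v

@[ext] structure SD {V K : Type} [AddCommGroup V] [Group K] (A : Act V K) where
  a : V
  k : K

section
variable {V K : Type} [AddCommGroup V] [Group K] (A : Act V K)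

theorem Act.zero (k : K) : A.ρ k 0 = 0 := by
  have := A.add k 0 0
  rw [add_zero] at this
  exact left_eq_add.1 this

instance [DecidableEq V] [DecidableEq K] : DecidableEq (SD A) := fun x y =>
  decidable_of_iff (x.k = y.k ∧ x.a = y.a) ⟨fun h => SD.ext h.2 h.1, fun h => by simp [h]⟩

instance : Mul (SD A) := ⟨fun x y => ⟨x.a + A.ρ x.k y.a, x.k * y.k⟩⟩
instance : One (SD A) := ⟨⟨0, 1⟩⟩
instance : Inv (SD A) := ⟨fun x => ⟨A.ρ x.k⁻¹ (-x.a), x.k⁻¹⟩⟩

theorem mul_a (x y : SD A) : (x * y).a = x.a + A.ρ x.k y.a := rfl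
theorem mul_k (x y : SD A) : (x * y).k = x.k * y.k := rfl

instance : Group (SD A) := Group.ofLeftAxioms
  (fun x y z => SD.ext (by simp only [mul_a, mul_k, A.add, A.mul, add_assoc])
    (by simp only [mul_k, mul_assoc]))
  (fun x => SD.ext (by show 0 + A.ρ 1 x.a = x.a; rw [A.one, zero_add])
    (by show 1 * x.k = x.k; rw [one_mul]))
  (fun x => SD.ext (by
      show A.ρ x.k⁻¹ (-x.a) + A.ρ x.k⁻¹ x.a = 0
      rw [← A.add, neg_add_cancel, A.zero])
    (by show x.k⁻¹ * x.k = 1; rw [inv_mul_cancel]))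

def eqv : V × K ≃ SD A := ⟨fun p => ⟨p.1, p.2⟩, fun x => (x.a, x.k), fun _ => rfl, fun _ => rfl⟩

instance [Fintype V] [Fintype K] : Fintype (SD A) := Fintype.ofEquiv _ (eqv A)

instance [Group.IsSolvable K] : Group.IsSolvable (SD A) := by
  let f : Multiplicative V →* SD A :=
    { toFun := fun v => ⟨v.toAdd, 1⟩
      map_one' := rfl
      map_mul' := fun v w => SD.ext (by
        show v.toAdd + w.toAdd = v.toAdd + A.ρ 1 w.toAdd
        rw [A.one]) (by show (1 : K) = 1 * 1; rw [one_mul]) }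
  let g : SD A →* K := { toFun := fun x => x.k, map_one' := rfl, map_mul' := fun _ _ => rfl }
  refine Group.isSolvable_of_ker_le_range f g fun x hx => ⟨Multiplicative.ofAdd x.a, ?_⟩
  exact SD.ext rfl (show (1 : K) = x.k from (show x.k = 1 from hx).symm)
end

/-- action on `ZMod m` through a character -/
def mkA (m : ℕ) {K : Type} [Group K] (χ : K → ZMod m) (h1 : χ 1 = 1)
    (hm : ∀ k l, χ (k * l) = χ k * χ l) : Act (ZMod m) K where
  ρ k v := χ k * v
  add k v w := mul_add _ _ _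
  mul k l v := by rw [hm, mul_assoc]
  one v := by rw [h1, one_mul]

def DIV : List ℕ := [1, 2, 3, 4, 6, 7, 8, 12, 14, 21, 24, 28, 42, 56, 84, 168]

def tb (l : List ℕ) (d : ℕ) : ℕ := ((DIV.zip l).lookup d).getD 0

def Ev (G : Type) [Group G] (f : ℕ → ℕ) : Prop :=
  (∀ g : G, g ^ 168 = 1) ∧ ∀ d ∈ DIV, Nat.card {g : G // g ^ d = 1} = f d

def Real (s : Bool) (f : ℕ → ℕ) : Prop :=
  ∃ (G : Type) (_ : Group G) (_ : Finite G), (Group.IsSolvable G ↔ s = true) ∧ Ev G f

theorem Ev.prod {G H : Type} [Group G] [Group H] {f g : ℕ → ℕ} (h1 : Ev G f) (h2 : Ev H g) :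
    Ev (G × H) fun d => f d * g d := by
  refine ⟨fun x => Prod.ext (h1.1 x.1) (h2.1 x.2), fun d hd => ?_⟩
  show _ = f d * g d
  rw [← h1.2 d hd, ← h2.2 d hd, ← Nat.card_prod]
  refine Nat.card_congr ((Equiv.subtypeEquivRight fun x => ?_).trans
    (Equiv.subtypeProdEquivProd (p := fun a : G => a ^ d = 1) (q := fun a : H => a ^ d = 1)))
  exact Prod.ext_iff

theorem Real.mul {s t : Bool} {f g : ℕ → ℕ} (h1 : Real s f) (h2 : Real t g) :
    Real (s && t) fun d => f d * g d := by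
  obtain ⟨G, _, _, hs, e1⟩ := h1
  obtain ⟨H, _, _, ht, e2⟩ := h2
  refine ⟨G × H, inferInstance, inferInstance, ?_, e1.prod e2⟩
  rw [Bool.and_eq_true, ← hs, ← ht]
  exact ⟨fun _ => ⟨Group.isSolvable_of_surjective (f := MonoidHom.fst G H) Prod.fst_surjective,
    Group.isSolvable_of_surjective (f := MonoidHom.snd G H) Prod.snd_surjective⟩,
    fun ⟨_, _⟩ => inferInstance⟩

theorem Real.pow {s : Bool} {f : ℕ → ℕ} (h : Real s f) (n : ℕ) :
    Real s fun d => f d ^ (n + 1) := by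
  induction n with
  | zero => simpa using h
  | succ n ih =>
    have := ih.mul h
    rw [Bool.and_self] at this
    simpa [pow_succ] using this

def ordF {G : Type} [Mul G] (p : G → Bool) (g : G) : ℕ → G → ℕ → ℕ
  | 0, _, _ => 0
  | f + 1, x, c => cond (p x) c (ordF p g f (x * g) (c + 1))

def ord {G : Type} [Mul G] (p : G → Bool) (g : G) : ℕ := ordF p g 200 g 1

theorem ordF_spec {G : Type} [Group G] (p : G → Bool) (g : G) (f c : ℕ)
    (h : ordF p g f (g ^ c) c ≠ 0) :
    p (g ^ ordF p g f (g ^ c) c) = true ∧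
      ∀ m, c ≤ m → m < ordF p g f (g ^ c) c → p (g ^ m) = false := by
  induction f generalizing c with
  | zero => exact absurd rfl h
  | succ f ih =>
    cases hp : p (g ^ c) with
    | true =>
      have e : ordF p g (f + 1) (g ^ c) c = c := by simp [ordF, hp]
      rw [e]
      exact ⟨hp, fun m h1 h2 => by omega⟩
    | false =>
      have e : ordF p g (f + 1) (g ^ c) c = ordF p g f (g ^ (c + 1)) (c + 1) := by
        simp [ordF, hp, pow_succ]
      rw [e] at h ⊢
      refine ⟨(ih _ h).1, fun m h1 h2 => ?_⟩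
      rcases Nat.eq_or_lt_of_le h1 with rfl | h3
      · exact hp
      · exact (ih _ h).2 m h3 h2

theorem ord_eq {G H : Type} [Group G] [Group H] (π : G →* H) (p : G → Bool)
    (hp : ∀ x, p x = true ↔ π x = 1) (g : G) (h : ord p g ≠ 0) : orderOf (π g) = ord p g := by
  have e : ord p g = ordF p g 200 (g ^ 1) 1 := by rw [pow_one]; rfl
  rw [e] at h ⊢
  obtain ⟨h1, h2⟩ := ordF_spec p g 200 1 h
  rw [orderOf_eq_iff (Nat.pos_of_ne_zero h), ← map_pow, ← hp]
  refine ⟨h1, fun m a b => ?_⟩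
  rw [← map_pow, Ne, ← hp, h2 m b a]
  simp

def Chk (G : Type) [Mul G] [Fintype G] (p : G → Bool) (c : ℕ) (l : List ℕ) : Prop :=
  (∀ o ∈ (univ : Finset G).val.map (ord p), o ≠ 0 ∧ 168 % o = 0) ∧
    ∀ d ∈ DIV, ((univ : Finset G).val.map (ord p)).countP (fun o => d % o = 0) = c * tb l d

instance (G : Type) [Mul G] [Fintype G] (p : G → Bool) (c : ℕ) (l : List ℕ) :
    Decidable (Chk G p c l) := by unfold Chk; infer_instance

theorem ev_of_chk {G : Type} [Group G] [Fintype G] (N : Subgroup G) [N.Normal] (p : G → Bool)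
    (hp : ∀ x, p x = true ↔ x ∈ N) (c : ℕ) (hc : Nat.card N = c) (l : List ℕ)
    (h : Chk G p c l) : Ev (G ⧸ N) (tb l) := by
  classical
  have hp' : ∀ x, p x = true ↔ QuotientGroup.mk' N x = 1 := fun x => by
    rw [hp]; exact (QuotientGroup.eq_one_iff x).symm
  have h0 : ∀ g : G, ord p g ≠ 0 ∧ 168 % ord p g = 0 := fun g =>
    h.1 _ (Multiset.mem_map_of_mem _ (mem_univ g))
  have ho : ∀ g : G, orderOf (QuotientGroup.mk' N g) = ord p g := fun g =>
    ord_eq _ p hp' g (h0 g).1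
  refine ⟨fun x => ?_, fun d hd => ?_⟩
  · obtain ⟨g, rfl⟩ := QuotientGroup.mk'_surjective N x
    rw [← orderOf_dvd_iff_pow_eq_one, ho]
    exact Nat.dvd_of_mod_eq_zero (h0 g).2
  · have h1 := QuotientGroup.card_preimage_mk N {x : G ⧸ N | x ^ d = 1}
    have h2 := h.2 d hd
    rw [Multiset.countP_map] at h2
    have hc0 : 0 < c := hc ▸ Nat.card_pos
    apply Nat.eq_of_mul_eq_mul_left hc0
    rw [← h2, ← hc]
    refine h1.symm.trans ?_
    have : (QuotientGroup.mk ⁻¹' {x : G ⧸ N | x ^ d = 1}) =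
        ((univ.filter fun g : G => d % ord p g = 0 : Finset G) : Set G) := by
      ext g
      simp only [Set.mem_preimage, Set.mem_setOf_eq, coe_filter, mem_univ, true_and]
      rw [← orderOf_dvd_iff_pow_eq_one, ← Nat.dvd_iff_mod_eq_zero, ← ho]
      rfl
    rw [this, Nat.card_coe_set_eq, Set.ncard_coe_finset]
    rfl

theorem real_of_chk (G : Type) [Group G] [Fintype G] [DecidableEq G] [Group.IsSolvable G]
    (l : List ℕ) (h : Chk G (fun x => decide (x = 1)) 1 l) : Real true (tb l) :=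
  ⟨G ⧸ (⊥ : Subgroup G), inferInstance, inferInstance, ⟨fun _ => rfl, fun _ => inferInstance⟩,
    ev_of_chk ⊥ _ (by simp) 1 (by simp) l h⟩

theorem card_order_eq {G H : Type} [Group G] [Group H] [Finite G] [Finite H] {f : ℕ → ℕ}
    (h1 : Ev G f) (h2 : Ev H f) (n : ℕ) :
    Nat.card {g : G // orderOf g = n} = Nat.card {h : H // orderOf h = n} := by
  classical
  have := Fintype.ofFinite G
  have := Fintype.ofFinite H
  simp only [Nat.card_eq_fintype_card, Fintype.card_subtype]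
  induction n using Nat.strong_induction_on with
  | _ n ih =>
    by_cases hn : n ∣ 168
    · have hn0 : n ≠ 0 := by rintro rfl; simp at hn
      have hd : n ∈ DIV := by
        have : ∀ n ∈ Nat.divisors 168, n ∈ DIV := by decide +kernel
        exact this n (Nat.mem_divisors.2 ⟨hn, by norm_num⟩)
      have a := sum_card_orderOf_eq_card_pow_eq_one (G := G) hn0
      have b := sum_card_orderOf_eq_card_pow_eq_one (G := H) hn0
      have a' := h1.2 n hd
      have b' := h2.2 n hd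
      rw [Nat.card_eq_fintype_card, Fintype.card_subtype] at a' b'
      rw [← Nat.cons_self_properDivisors hn0, sum_cons] at a b
      have : ∑ m ∈ n.properDivisors, #{x : G | orderOf x = m} =
          ∑ m ∈ n.properDivisors, #{x : H | orderOf x = m} :=
        sum_congr rfl fun m hm => ih m (Nat.mem_properDivisors.1 hm).2
      omega
    · rw [card_eq_zero.2, card_eq_zero.2]
      · exact filter_eq_empty_iff.2 fun x _ e => hn (e ▸ orderOf_dvd_of_pow_eq_one (h2.1 x))
      · exact filter_eq_empty_iff.2 fun x _ e => hn (e ▸ orderOf_dvd_of_pow_eq_one (h1.1 x))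

instance solvQ : Group.IsSolvable (QuaternionGroup 4) := by
  have : IsPGroup 2 (QuaternionGroup 4) := IsPGroup.of_card (n := 4) (by
    rw [Nat.card_eq_fintype_card, QuaternionGroup.card]; rfl)
  have := this.isNilpotent
  infer_instance

instance solvD4 : Group.IsSolvable (DihedralGroup 4) := by
  have : IsPGroup 2 (DihedralGroup 4) := IsPGroup.of_card (n := 3) (by
    rw [DihedralGroup.nat_card]; rfl)
  have := this.isNilpotent
  infer_instance

abbrev C (n : ℕ) := Multiplicative (ZMod n)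

def chC {m n : ℕ} (u : ZMod m) (k : C n) : ZMod m := u ^ k.toAdd.val
def chQ {m : ℕ} (u w : ZMod m) : QuaternionGroup 4 → ZMod m
  | .a i => u ^ i.val
  | .xa i => w * u ^ i.val
def chD {m : ℕ} (u w : ZMod m) : DihedralGroup 4 → ZMod m
  | .r i => u ^ i.val
  | .sr i => w * u ^ i.val

def chP {m : ℕ} {K L : Type} (a : K → ZMod m) (b : L → ZMod m) (k : K × L) : ZMod m :=
  a k.1 * b k.2

/-! `AΓL(1,8)` -/
abbrev V8 := ZMod 2 × ZMod 2 × ZMod 2
def mulT (v : V8) : V8 := (v.2.2, v.1 + v.2.2, v.2.1)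
def frob (v : V8) : V8 := (v.1, v.2.2, v.2.1 + v.2.2)
abbrev K21 := SD (mkA 7 (K := C 3) (chC 2) (by decide +kernel) (by decide +kernel))
def actAG : Act V8 K21 where
  ρ k v := mulT^[k.a.val] (frob^[k.k.toAdd.val] v)
  add := by decide +kernel
  mul := by decide +kernel
  one := by decide +kernel
abbrev AG := SD actAG

/-! `PGL(2,7)` as the quotient of the matrices of determinant `±1` by `±1` -/
@[ext] structure M2 where
  a : ZMod 7
  b : ZMod 7
  c : ZMod 7
  d : ZMod 7
  h : (a * d - b * c) * (a * d - b * c) = 1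

instance : DecidableEq M2 := fun x y =>
  decidable_of_iff (x.a = y.a ∧ x.b = y.b ∧ x.c = y.c ∧ x.d = y.d)
    ⟨fun h => M2.ext h.1 h.2.1 h.2.2.1 h.2.2.2, fun h => by simp [h]⟩

instance : Mul M2 := ⟨fun x y => ⟨x.a * y.a + x.b * y.c, x.a * y.b + x.b * y.d,
  x.c * y.a + x.d * y.c, x.c * y.b + x.d * y.d, by
    have h1 := x.h
    have h2 := y.h
    linear_combination ((y.a * y.d - y.b * y.c) * (y.a * y.d - y.b * y.c)) * h1 + h2⟩⟩
instance : One M2 := ⟨⟨1, 0, 0, 1, by decide⟩⟩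
instance : Inv M2 := ⟨fun x => ⟨x.d * (x.a * x.d - x.b * x.c), -x.b * (x.a * x.d - x.b * x.c),
  -x.c * (x.a * x.d - x.b * x.c), x.a * (x.a * x.d - x.b * x.c), by
    have h1 := x.h
    linear_combination (((x.a * x.d - x.b * x.c) * (x.a * x.d - x.b * x.c)) ^ 2 +
      (x.a * x.d - x.b * x.c) * (x.a * x.d - x.b * x.c) + 1) * h1⟩⟩

theorem M2.mul_def (x y : M2) : (x * y).a = x.a * y.a + x.b * y.c ∧
    (x * y).b = x.a * y.b + x.b * y.d ∧ (x * y).c = x.c * y.a + x.d * y.c ∧
    (x * y).d = x.c * y.b + x.d * y.d := ⟨rfl, rfl, rfl, rfl⟩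
theorem M2.one_def : (1 : M2).a = 1 ∧ (1 : M2).b = 0 ∧ (1 : M2).c = 0 ∧ (1 : M2).d = 1 :=
  ⟨rfl, rfl, rfl, rfl⟩
theorem M2.inv_def (x : M2) : x⁻¹.a = x.d * (x.a * x.d - x.b * x.c) ∧
    x⁻¹.b = -x.b * (x.a * x.d - x.b * x.c) ∧ x⁻¹.c = -x.c * (x.a * x.d - x.b * x.c) ∧
    x⁻¹.d = x.a * (x.a * x.d - x.b * x.c) := ⟨rfl, rfl, rfl, rfl⟩

instance : Group M2 := Group.ofLeftAxioms
  (fun x y z => by ext <;> simp only [M2.mul_def] <;> ring)
  (fun x => by ext <;> simp only [M2.mul_def, M2.one_def] <;> ring)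
  (fun x => by
    have h := x.h
    ext <;> simp only [M2.mul_def, M2.one_def, M2.inv_def]
    · linear_combination h
    · ring
    · ring
    · linear_combination h)

def eqvM : {t : ZMod 7 × ZMod 7 × ZMod 7 × ZMod 7 //
    (t.1 * t.2.2.2 - t.2.1 * t.2.2.1) * (t.1 * t.2.2.2 - t.2.1 * t.2.2.1) = 1} ≃ M2 :=
  ⟨fun t => ⟨t.1.1, t.1.2.1, t.1.2.2.1, t.1.2.2.2, t.2⟩, fun x => ⟨(x.a, x.b, x.c, x.d), x.h⟩,
    fun _ => rfl, fun _ => rfl⟩

instance : Fintype M2 := Fintype.ofEquiv _ eqvM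

def mOne : M2 := ⟨6, 0, 0, 6, by decide⟩

def NZ : Subgroup M2 where
  carrier := {x | x = 1 ∨ x = mOne}
  mul_mem' := by
    rintro x y (rfl | rfl) (rfl | rfl)
    · exact Or.inl (by decide +kernel)
    · exact Or.inr (by decide +kernel)
    · exact Or.inr (by decide +kernel)
    · exact Or.inl (by decide +kernel)
  one_mem' := Or.inl rfl
  inv_mem' := by
    rintro x (rfl | rfl)
    · exact Or.inl (by decide +kernel)
    · exact Or.inr (by decide +kernel)

instance : NZ.Normal := ⟨by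
  have : ∀ g : M2, g * mOne * g⁻¹ = mOne := by decide +kernel
  rintro x (rfl | rfl) g
  · exact Or.inl (by simp)
  · exact Or.inr (this g)⟩

theorem card_NZ : Nat.card NZ = 2 := by
  have : (NZ : Set M2) = {1, mOne} := rfl
  have h2 : Nat.card NZ = Nat.card (NZ : Set M2) := rfl
  rw [h2, this, Nat.card_coe_set_eq, Set.ncard_pair (by decide +kernel)]

open scoped commutatorElement in
theorem not_solv : ¬ Group.IsSolvable (M2 ⧸ NZ) := by
  let x : M2 := ⟨0, 6, 1, 6, by decide⟩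
  let y : M2 := ⟨0, 1, 6, 0, by decide⟩
  let z : M2 := ⟨0, 2, 3, 4, by decide⟩
  have key : x = z * (x * (y * x * y⁻¹) * x⁻¹ * (y * x * y⁻¹)⁻¹) * z⁻¹ := by decide +kernel
  let π := QuotientGroup.mk' NZ
  have key' : π x = π z * ⁅π x, π y * π x * (π y)⁻¹⁆ * (π z)⁻¹ := by
    conv_lhs => rw [key]
    simp only [map_mul, map_inv, commutatorElement_def]
  have h1 : π x ≠ 1 := fun h => by
    have : x = 1 ∨ x = mOne := (QuotientGroup.eq_one_iff x).1 h
    revert this
    decide +kernel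
  refine not_isSolvable_of_mem_derivedSeries h1 fun n => ?_
  induction n with
  | zero => exact Subgroup.mem_top _
  | succ n ih =>
    rw [key', (derivedSeries_normal _ _).mem_comm_iff, inv_mul_cancel_left]
    exact Subgroup.commutator_mem_commutator ih ((derivedSeries_normal _ _).conj_mem _ ih _)

theorem rP : Real false
    (tb [1, 50, 57, 92, 162, 49, 176, 204, 98, 105, 288, 140, 210, 224, 252, 336]) :=
  ⟨M2 ⧸ NZ, inferInstance, inferInstance, by simp [not_solv],
    ev_of_chk NZ (fun x => decide (x = 1 ∨ x = mOne)) (fun x => by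
      rw [decide_eq_true_iff]; rfl) 2 card_NZ _ (by decide +kernel)⟩

theorem r0 : Real true (tb [1, 2, 3, 92, 6, 7, 176, 108, 14, 21, 192, 140, 42, 224, 252, 336]) :=
  real_of_chk (SD (mkA 21 (K := QuaternionGroup 4) (chQ 20 1) (by decide +kernel) (by decide +kernel))) _ (by decide +kernel)

theorem r1 : Real true (tb [1, 2, 15, 16, 30, 7, 16, 72, 14, 21, 72, 28, 42, 28, 84, 84]) :=
  real_of_chk (SD (mkA 7 (K := C 12) (chC 3) (by decide +kernel) (by decide +kernel))) _ (by decide +kernel)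

theorem r2 : Real true (tb [1, 2, 1, 4, 2, 1, 4, 4, 2, 1, 4, 4, 2, 4, 4, 4]) :=
  real_of_chk (C 4) _ (by decide +kernel)

theorem r3 : Real true (tb [1, 2, 1, 12, 2, 1, 16, 12, 2, 1, 16, 12, 2, 16, 12, 16]) :=
  real_of_chk (QuaternionGroup 4) _ (by decide +kernel)

theorem r4 : Real true (tb [1, 8, 57, 8, 120, 49, 8, 120, 56, 105, 120, 56, 168, 56, 168, 168]) :=
  real_of_chk (AG) _ (by decide +kernel)

theorem r5 : Real true (tb [1, 1, 15, 1, 15, 7, 1, 15, 7, 21, 15, 7, 21, 7, 21, 21]) :=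
  real_of_chk (SD (mkA 7 (K := C 3) (chC 2) (by decide +kernel) (by decide +kernel))) _ (by decide +kernel)

theorem r6 : Real true (tb [1, 8, 15, 8, 36, 7, 8, 36, 14, 21, 36, 14, 42, 14, 42, 42]) :=
  real_of_chk (SD (mkA 7 (K := C 6) (chC 3) (by decide +kernel) (by decide +kernel))) _ (by decide +kernel)

theorem r7 : Real true (tb [1, 8, 1, 8, 8, 7, 8, 8, 14, 7, 8, 14, 14, 14, 14, 14]) :=
  real_of_chk (SD (mkA 7 (K := C 2) (chC 6) (by decide +kernel) (by decide +kernel))) _ (by decide +kernel)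

theorem r8 : Real true (tb [1, 10, 3, 16, 18, 1, 16, 24, 10, 3, 24, 16, 18, 16, 24, 24]) :=
  real_of_chk (SD (mkA 3 (K := DihedralGroup 4) (chD 2 1) (by decide +kernel) (by decide +kernel))) _ (by decide +kernel)

theorem r9 : Real true (tb [1, 2, 15, 36, 30, 7, 64, 204, 14, 21, 288, 84, 42, 112, 252, 336]) :=
  real_of_chk (SD (mkA 7 (K := (QuaternionGroup 4 × C 3)) (chP (chQ 6 1) (chC 2)) (by decide +kernel) (by decide +kernel))) _ (by decide +kernel)

theorem r10 : Real true (tb [1, 50, 3, 64, 54, 7, 64, 96, 98, 21, 96, 112, 126, 112, 168, 168]) :=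
  real_of_chk (SD (mkA 21 (K := DihedralGroup 4) (chD 13 8) (by decide +kernel) (by decide +kernel))) _ (by decide +kernel)

theorem r11 : Real true (tb [1, 10, 1, 12, 10, 1, 16, 12, 10, 1, 16, 12, 10, 16, 12, 16]) :=
  real_of_chk (SD (mkA 8 (K := C 2) (chC 7) (by decide +kernel) (by decide +kernel))) _ (by decide +kernel)

theorem r12 : Real true (tb [1, 2, 1, 36, 2, 7, 64, 36, 14, 7, 64, 84, 14, 112, 84, 112]) :=
  real_of_chk (SD (mkA 7 (K := QuaternionGroup 4) (chQ 6 1) (by decide +kernel) (by decide +kernel))) _ (by decide +kernel)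

theorem r13 : Real true (tb [1, 2, 1, 2, 2, 1, 2, 2, 2, 1, 2, 2, 2, 2, 2, 2]) :=
  real_of_chk (C 2) _ (by decide +kernel)

theorem r14 : Real true (tb [1, 1, 3, 1, 3, 1, 1, 3, 1, 3, 3, 1, 3, 1, 3, 3]) :=
  real_of_chk (C 3) _ (by decide +kernel)

theorem r15 : Real true (tb [1, 84, 3, 128, 144, 7, 128, 192, 168, 21, 192, 224, 252, 224, 336, 336]) :=
  real_of_chk (SD (mkA 21 (K := (C 2 × DihedralGroup 4)) (chP (chC 20) (chD 1 8)) (by decide +kernel) (by decide +kernel))) _ (by decide +kernel)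

theorem r16 : Real true (tb [1, 14, 3, 16, 18, 1, 16, 24, 14, 3, 24, 16, 18, 16, 24, 24]) :=
  real_of_chk (SD (mkA 3 (K := DihedralGroup 4) (chD 1 2) (by decide +kernel) (by decide +kernel))) _ (by decide +kernel)

theorem r17 : Real true (tb [1, 30, 1, 32, 30, 7, 32, 32, 42, 7, 32, 56, 42, 56, 56, 56]) :=
  real_of_chk (SD (mkA 7 (K := DihedralGroup 4) (chD 1 6) (by decide +kernel) (by decide +kernel))) _ (by decide +kernel)

theorem r18 : Real true (tb [1, 2, 1, 16, 2, 7, 16, 16, 14, 7, 16, 28, 14, 28, 28, 28]) :=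
  real_of_chk (SD (mkA 7 (K := C 4) (chC 6) (by decide +kernel) (by decide +kernel))) _ (by decide +kernel)

theorem r19 : Real true (tb [1, 22, 3, 64, 54, 7, 64, 96, 70, 21, 96, 112, 126, 112, 168, 168]) :=
  real_of_chk (SD (mkA 21 (K := DihedralGroup 4) (chD 20 8) (by decide +kernel) (by decide +kernel))) _ (by decide +kernel)

theorem r20 : Real true (tb [1, 2, 3, 44, 6, 7, 44, 48, 14, 21, 48, 56, 42, 56, 84, 84]) :=
  real_of_chk (SD (mkA 21 (K := C 4) (chC 20) (by decide +kernel) (by decide +kernel))) _ (by decide +kernel)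

theorem r21 : Real true (tb [1, 22, 3, 22, 24, 7, 22, 24, 28, 21, 24, 28, 42, 28, 42, 42]) :=
  real_of_chk (SD (mkA 21 (K := C 2) (chC 20) (by decide +kernel) (by decide +kernel))) _ (by decide +kernel)

theorem r22 : Real true (tb [1, 6, 1, 8, 6, 1, 8, 8, 6, 1, 8, 8, 6, 8, 8, 8]) :=
  real_of_chk (DihedralGroup 4) _ (by decide +kernel)

theorem r23 : Real true (tb [1, 2, 3, 8, 6, 1, 8, 12, 2, 3, 12, 8, 6, 8, 12, 12]) :=
  real_of_chk (SD (mkA 3 (K := C 4) (chC 2) (by decide +kernel) (by decide +kernel))) _ (by decide +kernel)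

theorem r24 : Real true (tb [1, 4, 3, 4, 6, 1, 4, 6, 4, 3, 6, 4, 6, 4, 6, 6]) :=
  real_of_chk (SD (mkA 3 (K := C 2) (chC 2) (by decide +kernel) (by decide +kernel))) _ (by decide +kernel)

theorem main : ∃ f g : ℕ → ℕ, Real true f ∧ Real false g ∧ ∀ d ∈ DIV, f d = g d :=
  ⟨_, _, (((((((((((r0.pow 5).mul (r2.pow 10)).mul (r4.pow 5)).mul (r6.pow 5)).mul (r9.pow 5)).mul (r10.pow 9)).mul (r11.pow 5)).mul (r15.pow 3)).mul (r19.pow 1)).mul (r20.pow 1)).mul (r22.pow 1)),
  (((((((((((((((rP.pow 5).mul (r1.pow 5)).mul (r3.pow 5)).mul (r5.pow 5)).mul (r7.pow 4)).mul (r8.pow 7)).mul (r12.pow 5)).mul (r13.pow 18)).mul (r14.pow 5)).mul (r16.pow 3)).mul (r17.pow 5)).mul (r18.pow 4)).mul (r21.pow 1)).mul (r23.pow 1)).mul (r24.pow 1)),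
  by decide +kernel⟩

theorem thompson : ∃ (G : Type) (_ : Group G) (_ : Finite G) (H : Type) (_ : Group H) (_ : Finite H),
    Group.IsSolvable G ∧ ¬ Group.IsSolvable H ∧
      ∀ n : ℕ, Nat.card {g : G // orderOf g = n} = Nat.card {h : H // orderOf h = n} := by
  obtain ⟨f, g, ⟨G, _, _, hs, e1⟩, ⟨H, _, _, ht, e2⟩, h⟩ := main
  refine ⟨G, inferInstance, inferInstance, H, inferInstance, inferInstance, hs.2 rfl,
    fun h => by simpa using ht.1 h, fun n => card_order_eq e1 ⟨e2.1, fun d hd => ?_⟩ n⟩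
  rw [e2.2 d hd, h d hd]

end CA.OT
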