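import Mathlib

/-! A weak form of Sylvester's theorem on prime divisors of binomial coefficients. -/

namespace CA.SylvLite

theorem card_primes_lt (s : ℕ) (hs : 9 ≤ s) :
    2 * ((Finset.range (s + 1)).filter Nat.Prime).card < s := by
  have key : ∀ t : ℕ, 2 * ((Finset.range (9 + t + 1)).filter Nat.Prime).card + (if t % 2 = 0 then 1 else 2) ≤ 9 + t := by
    intro t
    induction t with
    | zero => decide
    | succ t ih =>
      rw [show 9 + (t + 1) + 1 = (9 + t + 1) + 1 by ring, Finset.range_add_one, Finset.filter_insert]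
      by_cases h : t % 2 = 0
      · have hp : ¬ (9 + t + 1).Prime := fun hp => by
          have := hp.eq_two_or_odd
          omega
        rw [if_neg hp, if_neg (by omega)]
        rw [if_pos h] at ih
        omega
      · rw [if_neg h] at ih
        rw [if_pos (show (t + 1) % 2 = 0 by omega)]
        split_ifs
        · have := Finset.card_insert_le (9 + t + 1) ((Finset.range (9 + t + 1)).filter Nat.Prime)
          omega
        · omega
  obtain ⟨t, rfl⟩ := Nat.exists_eq_add_of_le hs
  have := key t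
  split_ifs at this <;> omega

theorem choose_le_pow {n k s : ℕ} (hn : 0 < n) (hk : k ≤ n) (h : ∀ p : ℕ, p.Prime → p ∣ n.choose k → p ≤ s) :
    n.choose k ≤ n ^ ((Finset.range (s + 1)).filter Nat.Prime).card := by
  have h0 : n.choose k ≠ 0 := (Nat.choose_pos hk).ne'
  conv_lhs => rw [← Nat.prod_factorization_pow_eq_self h0]
  rw [Finsupp.prod]
  calc _ ≤ n ^ (n.choose k).factorization.support.card :=
        Finset.prod_le_pow_card _ _ _ fun p _ => Nat.pow_factorization_choose_le hn
    _ ≤ _ := by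
        refine Nat.pow_le_pow_right hn (Finset.card_le_card fun p hp => ?_)
        rw [Nat.support_factorization, Nat.mem_primeFactors] at hp
        exact Finset.mem_filter.2 ⟨Finset.mem_range.2 (Nat.lt_succ_of_le (h p hp.1 hp.2.1)), hp.1⟩

theorem pow_le (n : ℕ) : ∀ k ≤ n, n ^ k ≤ k ^ k * n.choose k := by
  induction n with
  | zero => intro k hk; obtain rfl : k = 0 := by omega
            simp
  | succ n ih =>
    intro k hk
    rcases k with _ | k
    · simp
    have h1 := ih k (by omega)
    have h2 := Nat.add_one_mul_choose_eq n k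
    -- (n+1)^k * k^k ≤ (k+1)^k * n^k
    have h3 : ((n + 1) * k) ^ k ≤ ((k + 1) * n) ^ k := Nat.pow_le_pow_left (by nlinarith) k
    rw [mul_pow, mul_pow] at h3
    have hk0 : 0 < k ^ k := Nat.pos_of_ne_zero (by
      rcases k with _ | k
      · simp
      · positivity)
    have h4 : (n + 1) ^ k ≤ (k + 1) ^ k * n.choose k := by
      refine Nat.le_of_mul_le_mul_right ?_ hk0
      calc _ ≤ (k + 1) ^ k * n ^ k := h3
        _ ≤ (k + 1) ^ k * (k ^ k * n.choose k) := Nat.mul_le_mul_left _ h1
        _ = _ := by ring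
    calc (n + 1) ^ (k + 1) = (n + 1) ^ k * (n + 1) := pow_succ _ _
      _ ≤ (k + 1) ^ k * n.choose k * (n + 1) := Nat.mul_le_mul_right _ h4
      _ = (k + 1) ^ k * ((n + 1) * n.choose k) := by ring
      _ = _ := by rw [h2]; ring

theorem choose_mono_half {n s k : ℕ} (hs : s ≤ k) (hk : 2 * k ≤ n) : n.choose s ≤ n.choose k := by
  induction k, hs using Nat.le_induction with
  | base => exact le_rfl
  | succ k _ ih => exact (ih (by omega)).trans (Nat.choose_le_succ_of_lt_half_left (by omega))

/-- Boolean check. -/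
def chk (n k : ℕ) : Bool := (List.range 94).any fun p => decide (2 ≤ p) &&
  ((List.range p).all fun d => decide (d < 2) || decide (p % d ≠ 0)) &&
    decide ((n.descFactorial k / k.factorial) % p = 0) && (decide (k < p) || decide (n < p * p))

theorem small0 : (List.range 94).all (fun n => (List.range 48).all fun k =>
    decide (k < 1) || decide (n < 2 * k) || chk n k) = true := by decide +kernel

theorem small (n : ℕ) (hn : n < 94) (k : ℕ) (hk : k < 48) (h1 : 1 ≤ k) (h2 : 2 * k ≤ n) :
    ∃ p < 94, 2 ≤ p ∧ (∀ d < p, 2 ≤ d → p % d ≠ 0) ∧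
    (n.descFactorial k / k.factorial) % p = 0 ∧ (k < p ∨ n < p * p) := by
  have h := List.all_eq_true.1 (List.all_eq_true.1 small0 n (List.mem_range.2 hn)) k (List.mem_range.2 hk)
  simp only [Bool.or_eq_true, decide_eq_true_eq] at h
  rcases h with (h | h) | h
  · omega
  · omega
  · simp only [chk, List.any_eq_true, List.mem_range, Bool.and_eq_true, decide_eq_true_eq, List.all_eq_true,
      Bool.or_eq_true] at h
    obtain ⟨p, hp, ⟨⟨a, b⟩, c⟩, d⟩ := h
    exact ⟨p, hp, a, fun e he h2 => (b e he).resolve_left (by omega), c, d⟩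

/-- Some prime divisor of `C(n,k)` exceeds `k` or `√n`. -/
theorem exists_prime {n k : ℕ} (h1 : 1 ≤ k) (hk : 2 * k ≤ n) :
    ∃ p : ℕ, p.Prime ∧ p ∣ n.choose k ∧ (k < p ∨ n < p * p) := by
  by_cases hn : n < 94
  · obtain ⟨p, -, h2, h3, h4, h5⟩ := small n hn k (by omega) h1 hk
    refine ⟨p, Nat.prime_def_lt'.2 ⟨h2, fun d hd hd' hdp => h3 d hd' hd (Nat.mod_eq_zero_of_dvd hdp)⟩, ?_, h5⟩
    rw [Nat.choose_eq_descFactorial_div_factorial]
    exact Nat.dvd_of_mod_eq_zero h4
  by_contra hc
  push Not at hc hn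
  have hn0 : 0 < n := by omega
  by_cases h8 : k ≤ 8
  · have a1 := choose_le_pow hn0 (show k ≤ n by omega) (s := k) fun p hp hd => (hc p hp hd).1
    have a2 := (pow_le n k (by omega)).trans (Nat.mul_le_mul_left _ a1)
    have a3 : ∀ a b c : ℕ, n ^ (a + b) ≤ c * n ^ b → 94 ^ a ≤ c := fun a b c h => by
      rw [pow_add] at h
      exact (Nat.pow_le_pow_left hn a).trans (Nat.le_of_mul_le_mul_right h (by positivity))
    interval_cases k
    · exact absurd (a3 1 0 _ a2) (by norm_num)
    · exact absurd (a3 1 1 _ a2) (by norm_num)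
    · exact absurd (a3 1 2 _ a2) (by norm_num)
    · exact absurd (a3 2 2 _ a2) (by norm_num)
    · exact absurd (a3 2 3 _ a2) (by norm_num)
    · exact absurd (a3 3 3 _ a2) (by norm_num)
    · exact absurd (a3 3 4 _ a2) (by norm_num)
    · exact absurd (a3 4 4 _ a2) (by norm_num)
  · set s := min k n.sqrt with hs
    have hs9 : 9 ≤ s := le_min (by omega) (Nat.le_sqrt.2 (by omega))
    have hsk : s ≤ k := min_le_left _ _
    have hsn : s * s ≤ n := Nat.le_sqrt.1 (min_le_right _ _)
    have a1 := choose_le_pow hn0 (show k ≤ n by omega) (s := s) fun p hp hd =>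
      le_min (hc p hp hd).1 (Nat.le_sqrt.2 (hc p hp hd).2)
    have a2 := (pow_le n s (by omega)).trans (Nat.mul_le_mul_left _ ((choose_mono_half hsk hk).trans a1))
    have a3 := card_primes_lt s hs9
    generalize ((Finset.range (s + 1)).filter Nat.Prime).card = c at a2 a3
    have a4 : n ^ s * n ^ s ≤ n ^ s * n ^ (2 * c) := by
      calc n ^ s * n ^ s ≤ (s ^ s * n ^ c) * (s ^ s * n ^ c) := Nat.mul_le_mul a2 a2
        _ = (s * s) ^ s * n ^ (2 * c) := by rw [mul_pow, two_mul, pow_add]; ring
        _ ≤ _ := Nat.mul_le_mul_right _ (Nat.pow_le_pow_left hsn s)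
    have a5 := Nat.le_of_mul_le_mul_left a4 (by positivity)
    have := (Nat.pow_le_pow_iff_right (by omega)).1 a5
    omega

theorem mod_lt {n k r : ℕ} (hr : r.Prime) (hd : r ∣ n.choose k) (hk : k ≤ n) (h : k < r ∨ n < r * r) :
    n % r < k % r := by
  by_contra hc
  push Not at hc
  have := Fact.mk hr
  have h1 := Choose.choose_modEq_choose_mod_mul_choose_div_nat (n := n) (k := k) (p := r)
  have h2 := (h1.dvd_iff (dvd_refl r)).1 hd
  have nd : ∀ a b : ℕ, a < r → b ≤ a → ¬ r ∣ a.choose b := fun a b ha hb hd => by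
    have := (hr.dvd_factorial).1 (hd.trans ⟨b.factorial * (a - b).factorial, by
      rw [← Nat.choose_mul_factorial_mul_factorial hb]; ring⟩)
    omega
  rcases (Nat.Prime.dvd_mul hr).1 h2 with h3 | h3
  · exact nd _ _ (Nat.mod_lt _ hr.pos) hc h3
  · rcases h with h | h
    · rw [Nat.div_eq_of_lt h, Nat.choose_zero_right] at h3
      exact hr.one_lt.ne' (Nat.dvd_one.1 h3)
    · exact nd _ _ ((Nat.div_lt_iff_lt_mul hr.pos).2 h) (Nat.div_le_div_right hk) h3

end CA.SylvLite
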