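import Mathlib
import Cfsg.Agent.Lib.Perm.PermChar
import Cfsg.Agent.Lib.Perm.PermJordan
import Cfsg.Agent.Lib.Perm.Neumann3
import Cfsg.Agent.Lib.Char.CharInt
import Cfsg.Agent.Lib.Block.BlkGal
import Cfsg.Agent.S4503

/-! Wielandt's theorem on primitive groups of degree `2p`. -/

open Cfsg Module MulAction CChar.CharRep CChar.CharFun CChar.CharOrth CChar.CharInt CChar.CharKer
open CA.PermBasic CA.PermMulti CA.Commutant CA.PermChar
open scoped ComplexConjugate

namespace CA.W2p
variable {G X : Type*} [Group G] [MulAction G X] [Fintype X] [DecidableEq X] [Fintype G]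

variable (G) in
noncomputable def TT (M : Matrix X X ℂ) (g : G) : ℂ := ∑ x, M (g⁻¹ • x) x

noncomputable def th (χ : G → ℂ) (M : Matrix X X ℂ) : ℂ := classInner (TT G M) χ

omit [Fintype G] in
theorem TT_eq (M : Matrix X X ℂ) (g : G) :
    LinearMap.trace ℂ _ (permRep ℂ G X g * Matrix.toLin' M) = TT G M g := by
  rw [trace_permRep_mul, LinearMap.toMatrix'_toLin']; rfl

omit [Fintype G] [DecidableEq X] in
theorem classFun_TT {M : Matrix X X ℂ} (h : InvM G M) : IsClassFunction G (TT G M) := by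
  rw [classFun_iff]
  intro a b hab
  obtain ⟨c, rfl⟩ := isConj_iff.1 hab
  unfold TT
  rw [← Equiv.sum_comp (MulAction.toPerm c) (fun x => M ((c * a * c⁻¹)⁻¹ • x) x)]
  refine Finset.sum_congr rfl fun x _ => ?_
  rw [← h c]
  simp [mul_smul]

theorem trace_E_M (χ : G → ℂ) (M : Matrix X X ℂ) :
    LinearMap.trace ℂ _ (E (permRep ℂ G X) χ * Matrix.toLin' M) = Nat.card G * th χ M := by
  rw [trace_E_mul, th, card_mul_inner]
  exact Finset.sum_congr rfl fun g _ => by rw [TT_eq, mul_comm]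

omit [DecidableEq X] in
theorem th_add (χ : G → ℂ) (M N : Matrix X X ℂ) : th χ (M + N) = th χ M + th χ N := by
  rw [th, th, th, ← CChar.CharFun.inner_add_left]; congr 1; ext g; simp [TT, Finset.sum_add_distrib]

omit [DecidableEq X] in
theorem th_smul (χ : G → ℂ) (c : ℂ) (M : Matrix X X ℂ) : th χ (c • M) = c * th χ M := by
  rw [th, th, ← CChar.CharFun.inner_smul_left]; congr 1; ext g; simp [TT, Finset.mul_sum]

omit [DecidableEq X] in
theorem th_sum {ι : Type*} (s : Finset ι) (χ : G → ℂ) (M : ι → Matrix X X ℂ) :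
    th χ (∑ i ∈ s, M i) = ∑ i ∈ s, th χ (M i) := by
  simp only [th]
  rw [← inner_sum_left]; congr 1; ext g
  simp only [TT, Matrix.sum_apply, Finset.sum_apply]
  exact Finset.sum_comm

omit [Fintype G] in
theorem TT_one : TT G (1 : Matrix X X ℂ) = pc G X := by
  ext g
  rw [← TT_eq, Matrix.toLin'_one, ← character_permRep]
  rfl

omit [DecidableEq X] in
theorem th_J {χ : G → ℂ} (hχ : IsIrrCharacter G χ) (h1 : χ ≠ fun _ => 1) :
    th χ (Matrix.of fun _ _ : X => (1 : ℂ)) = 0 := by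
  have : TT G (Matrix.of fun _ _ : X => (1 : ℂ)) = (Fintype.card X : ℂ) • fun _ => 1 := by
    ext g; simp [TT]
  rw [th, this, CChar.CharFun.inner_smul_left, inner_irr_of_ne irr_one hχ h1.symm, mul_zero]

theorem th_triv [IsPretransitive G X] (a b : X) :
    th (fun _ : G => 1) (adj G a b) = Nat.card (orbit (stabilizer G a) b) := by
  have := inner_trace_one (invM_adj (G := G) a b) a
  simp only [TT_eq] at this
  rw [← sum_adj a b a]
  exact this

omit [Fintype G] [DecidableEq X] in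
theorem TT_nat (a b : X) (g : G) : ∃ n : ℕ, TT G (adj G a b) g = n := by
  classical
  refine ⟨∑ x : X, if ∃ h : G, h • a = g⁻¹ • x ∧ h • b = x then 1 else 0, ?_⟩
  simp only [TT, adj]
  push_cast
  rfl

omit [DecidableEq X] in
theorem th_transpose {χ : G → ℂ} (hχ : IsCharacter G χ) (a b : X) :
    th χ (adj G b a) = conj (th χ (adj G a b)) := by
  have e : ∀ g : G, TT G (adj G b a) g = TT G (adj G a b) g⁻¹ := fun g => by
    unfold TT
    rw [← adj_transpose, ← Equiv.sum_comp (MulAction.toPerm g)]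
    simp
  rw [th, th, inner_def, inner_def, map_mul, map_sum, ← Equiv.sum_comp (Equiv.inv G)]
  congr 1
  · simp
  refine Finset.sum_congr rfl fun g _ => ?_
  obtain ⟨n, hn⟩ := TT_nat (G := G) a b g
  simp only [Equiv.inv_apply, e, inv_inv, hn, char_apply_inv hχ, map_mul, map_natCast]

omit [Fintype G] [DecidableEq X] in
theorem InvM.mul {M N : Matrix X X ℂ} (h : InvM G M) (h' : InvM G N) : InvM G (M * N) := by
  intro g x y
  simp only [Matrix.mul_apply]
  rw [← Equiv.sum_comp (MulAction.toPerm g)]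
  exact Finset.sum_congr rfl fun z _ => by simp [h g, h' g]

omit [Fintype G] [DecidableEq X] in
theorem TT_adj_one {a b : X} (hab : a ≠ b) : TT G (adj G a b) 1 = 0 := by
  simp [TT, adj_diag hab]

omit [Fintype G] [DecidableEq X] in
theorem TT_adj_adj [IsPretransitive G X] (a b : X) : TT G (adj G a b * adj G b a) 1 =
    Fintype.card X * Nat.card (orbit (stabilizer G a) b) := by
  classical
  simp only [TT, inv_one, one_smul, Matrix.mul_apply]
  rw [← nsmul_eq_mul, ← Finset.card_univ, ← Finset.sum_const]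
  refine Finset.sum_congr rfl fun x _ => ?_
  rw [← sum_adj a b x]
  refine Finset.sum_congr rfl fun y _ => ?_
  rw [← adj_transpose a b, Matrix.transpose_apply]
  unfold adj
  split_ifs <;> simp

section MF
variable {s : Finset (IrrCharacter G)} (hπ : pc G X = ∑ χ ∈ s, χ.1)
include hπ

omit [Fintype X] [DecidableEq X] in
open Classical in
theorem inner_pc (ψ : IrrCharacter G) : classInner (pc G X) ψ.1 = if ψ ∈ s then 1 else 0 := by
  rw [hπ, inner_sum_left]
  simp only [inner_irr_irr', Finset.sum_ite_eq']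

theorem hmf (χ : G → ℂ) (hχ : IsIrrCharacter G χ) :
    classInner (permRep ℂ G X).character χ = 0 ∨ classInner (permRep ℂ G X).character χ = 1 := by
  rw [character_permRep, inner_pc hπ ⟨χ, hχ⟩]
  split_ifs <;> simp

theorem th_E {M : Matrix X X ℂ} (h : InvM G M) {χ : IrrCharacter G} (hχ : χ ∈ s) :
    Matrix.toLin' M * E (permRep ℂ G X) χ.1 = th χ.1 M • E (permRep ℂ G X) χ.1 := by
  obtain ⟨c, hc⟩ := exists_mul_E_eq _ (hmf hπ) h.comm χ.2
  have h1 := trace_E_M χ.1 M
  rw [LinearMap.trace_mul_comm, hc, map_smul, trace_E, character_permRep, inner_pc hπ, if_pos hχ,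
    mul_one, smul_eq_mul, mul_comm] at h1
  rw [hc, mul_left_cancel₀ card_ne_zero h1]

theorem E_ne {χ : IrrCharacter G} (hχ : χ ∈ s) : E (permRep ℂ G X) χ.1 ≠ 0 := by
  rw [Ne, E_eq_zero_iff _ χ.2, character_permRep, inner_pc hπ, if_pos hχ]
  exact one_ne_zero

theorem th_mul {M N : Matrix X X ℂ} (h : InvM G M) (h' : InvM G N) {χ : IrrCharacter G}
    (hχ : χ ∈ s) : th χ.1 (M * N) = th χ.1 M * th χ.1 N := by
  have h1 := th_E hπ (InvM.mul h h') hχ
  rw [Matrix.toLin'_mul, ← Module.End.mul_eq_comp, mul_assoc, th_E hπ h' hχ, mul_smul_comm,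
    th_E hπ h hχ, smul_smul, mul_comm] at h1
  exact (smul_left_injective ℂ (E_ne hπ hχ) h1).symm

theorem th_int (a b : X) {χ : IrrCharacter G} (hχ : χ ∈ s) : IsIntegral ℤ (th χ.1 (adj G a b)) := by
  obtain ⟨v, hv⟩ : ∃ v, E (permRep ℂ G X) χ.1 v ≠ 0 := by
    by_contra h
    push Not at h
    exact E_ne hπ hχ (LinearMap.ext h)
  refine isIntegral_of_hasEigenvalue_adj (G := G) a b (End.hasEigenvalue_of_hasEigenvector
    ⟨End.mem_eigenspace_iff.2 ?_, hv⟩)
  exact LinearMap.congr_fun (th_E hπ (invM_adj a b) hχ) v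

theorem TT_sum {M : Matrix X X ℂ} (h : InvM G M) (g : G) :
    TT G M g = ∑ χ ∈ s, th χ.1 M * χ.1 g := by
  classical
  rw [classFun_apply_eq_sum (classFun_TT h)]
  refine (Finset.sum_subset (Finset.subset_univ s) fun χ _ hχ => ?_).symm
  have h1 := trace_E_M χ.1 M
  rw [(E_eq_zero_iff _ χ.2).2 (by rw [character_permRep, inner_pc hπ, if_neg hχ]), zero_mul,
    map_zero] at h1
  rw [show classInner (TT G M) χ.1 = 0 from (mul_eq_zero.1 h1.symm).resolve_left card_ne_zero,
    zero_mul]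

theorem th_one {χ : IrrCharacter G} (hχ : χ ∈ s) : th χ.1 (1 : Matrix X X ℂ) = 1 := by
  rw [th, TT_one, inner_pc hπ, if_pos hχ]

end MF

theorem int_of_mul {z : ℂ} (hz : IsIntegral ℤ z) {n m : ℤ} (hn : n ≠ 0) (h : (n : ℂ) * z = m) :
    ∃ k : ℤ, z = k := by
  have e : z = (((m : ℚ) / n : ℚ) : ℂ) := by
    have : (n : ℂ) ≠ 0 := by exact_mod_cast hn
    push_cast
    rw [← h]; field_simp
  rw [e] at hz ⊢
  exact exists_int_of_rat_isIntegral hz

omit [Fintype X] [DecidableEq X] [Fintype G] in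
theorem adj_row (a b y : X) [Decidable (y ∈ orbit (stabilizer G a) b)] :
    adj G a b a y = if y ∈ orbit (stabilizer G a) b then 1 else 0 := by
  classical
  unfold adj
  refine if_congr ⟨fun ⟨g, h1, h2⟩ => ⟨⟨g, h1⟩, h2⟩, fun ⟨g, h⟩ => ⟨g, g.2, h⟩⟩ rfl rfl

omit [Fintype X] [DecidableEq X] [Fintype G] in
theorem InvM.ext_row [IsPretransitive G X] {M N : Matrix X X ℂ} (h : InvM G M) (h' : InvM G N)
    (a : X) (e : ∀ y, M a y = N a y) : M = N := by
  ext x y
  obtain ⟨g, rfl⟩ := exists_smul_eq G a x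
  rw [← smul_inv_smul g y, h, h', e]

omit [Fintype X] [DecidableEq X] [Fintype G] in
theorem InvM.row {M : Matrix X X ℂ} (h : InvM G M) {a b y : X}
    (hy : y ∈ orbit (stabilizer G a) b) : M a y = M a b := by
  obtain ⟨g, rfl⟩ := hy
  rw [← h g a b, show (g : G) • a = a from g.2]
  rfl

omit [Fintype X] [DecidableEq X] [Fintype G] in
/-- a suborbit of length one in a primitive group makes all suborbits trivial -/
theorem all_one [Finite G] (h : IsPreprimitive G X) {a b : X} (hab : a ≠ b)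
    (h1 : Nat.card (orbit (stabilizer G a) b) = 1) (c : X) :
    Nat.card (orbit (stabilizer G a) c) = 1 := by
  have hle : stabilizer G a ≤ stabilizer G b := fun g hg => by
    have := (Nat.card_eq_one_iff_unique.1 h1).1
    exact congrArg Subtype.val (Subsingleton.elim (⟨_, mem_orbit b (⟨g, hg⟩ : stabilizer G a)⟩ :
      orbit (stabilizer G a) b) ⟨b, mem_orbit_self b⟩)
  have he : stabilizer G a = stabilizer G b :=
    Subgroup.eq_of_le_of_card_ge hle (card_stabilizer_eq b a).le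
  rcases prim_rel h (fun x y => stabilizer G x = stabilizer G y) ⟨fun _ => rfl, Eq.symm, Eq.trans⟩
    (fun g x y e => by rw [stabilizer_smul_eq_stabilizer_map_conj,
      stabilizer_smul_eq_stabilizer_map_conj, e]) with h2 | h2
  · exact absurd (h2 a b he) hab
  · rw [Nat.card_eq_one_iff_unique]
    refine ⟨⟨?_⟩, ⟨⟨c, mem_orbit_self c⟩⟩⟩
    rintro ⟨_, g, rfl⟩ ⟨_, g', rfl⟩
    have a1 : (g : G) ∈ stabilizer G c := h2 a c ▸ g.2
    have a2 : (g' : G) ∈ stabilizer G c := h2 a c ▸ g'.2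
    exact Subtype.ext (a1.trans a2.symm)

theorem mul_succ_nonneg (θ : ℤ) : 0 ≤ θ * (θ + 1) := by
  rcases le_or_gt 0 θ with h | h
  · positivity
  · exact mul_nonneg_of_nonpos_of_nonpos h.le (by omega)

theorem arith3 {m k θ r : ℤ} (hm : 2 ≤ m) (hk : 2 ≤ k) (hk' : k + 3 ≤ 2 * m)
    (h1 : k + (m - 1) * r + m * θ = 0) (h2 : k * k + (m - 1) * (r * r) + m * (θ * θ) = 2 * m * k) :
    ∃ a : ℕ, 0 < a ∧ m = 2 * a ^ 2 + 2 * a + 1 ∧
      ((k = a * (2 * a + 1)) ∨ k = (a + 1) * (2 * a + 1)) := by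
  obtain ⟨c, hc⟩ : ∃ c, c = -(θ + r) := ⟨_, rfl⟩
  have e1 : k = (m - 1) * c - θ := by rw [hc]; linear_combination h1
  have e2 : r = -c - θ := by rw [hc]; ring
  have e3 : m * ((m - 1) * (c * (2 - c)) - 2 * (θ * (θ + 1))) = 0 := by
    rw [e1, e2] at h2; linear_combination -h2
  have e4 : (m - 1) * (c * (2 - c)) = 2 * (θ * (θ + 1)) := by
    have := (mul_eq_zero.1 e3).resolve_left (by omega); linarith
  have t0 := mul_succ_nonneg θ
  have c0 : 0 ≤ c * (2 - c) := by
    by_contra h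
    have := mul_neg_of_pos_of_neg (show 0 < m - 1 by omega) (not_le.1 h)
    omega
  have c1 : 0 ≤ c := by nlinarith
  have c2 : c ≤ 2 := by nlinarith
  have z : θ * (θ + 1) = 0 → θ = 0 ∨ θ = -1 := fun h => by
    rcases mul_eq_zero.1 h with h | h <;> omega
  interval_cases c
  · rcases z (by omega) with h | h <;> omega
  · rcases le_or_gt 0 θ with h | h
    · obtain ⟨a, rfl⟩ := Int.eq_ofNat_of_zero_le h
      refine ⟨a, Nat.pos_of_ne_zero ?_, by linarith, Or.inl (by linarith)⟩
      rintro rfl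
      simp at e4; omega
    · obtain ⟨a, ha⟩ := Int.eq_ofNat_of_zero_le (show 0 ≤ -θ - 1 by omega)
      obtain rfl : θ = -a - 1 := by omega
      refine ⟨a, Nat.pos_of_ne_zero ?_, by linarith, Or.inr (by linarith)⟩
      rintro rfl
      simp at e4; omega
  · rcases z (by omega) with h | h <;> omega

theorem arith4 {f k θ a W : ℤ} {p : ℕ} (hp : p.Prime) (hf : (p : ℤ) = 2 * f + 1) (hk : 2 ≤ k)
    (h1 : k + p * θ + f * a = 0)
    (h2 : p * (2 * (k * k) + 2 * p * (θ * θ) + f * (a * a) - 4 * p * k) + f * (W * W) = 0)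
    (h3 : (W - a) % 2 = 0) : 2 * f ≤ k + θ := by
  have hp2 := hp.two_le
  have f0 : 1 ≤ f := by omega
  obtain ⟨c, hc⟩ : ∃ c, c = -(2 * θ + a) := ⟨_, rfl⟩
  have e1 : k = f * c - θ := by rw [hc]; rw [hf] at h1; linear_combination h1
  have e2 : a = -c - 2 * θ := by rw [hc]; ring
  have e3 : f * (W * W) = p * p * (f * (c * (4 - c)) - 4 * (θ * (θ + 1))) := by
    rw [e1, e2] at h2; rw [hf] at h2 ⊢; linear_combination h2
  have t0 := mul_succ_nonneg θ
  have p0 : (0 : ℤ) < p * p := by positivity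
  have e4 : 0 ≤ f * (c * (4 - c)) - 4 * (θ * (θ + 1)) := by
    by_contra h
    have := mul_neg_of_pos_of_neg p0 (not_le.1 h)
    have := mul_nonneg (show 0 ≤ f by omega) (mul_self_nonneg W)
    omega
  have c0 : 0 ≤ c * (4 - c) := by
    by_contra h
    have := mul_neg_of_pos_of_neg (show 0 < f by omega) (not_le.1 h)
    omega
  have c1 : 0 ≤ c := by nlinarith
  by_contra hlt
  have c2 : c ≤ 1 := by nlinarith
  interval_cases c
  · have : θ * (θ + 1) = 0 := by omega
    rcases mul_eq_zero.1 this with h | h <;> omega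
  · have hpp : Prime (p : ℤ) := Nat.prime_iff_prime_int.1 hp
    have d1 : (p : ℤ) ∣ f * (W * W) := by rw [e3, mul_assoc]; exact Dvd.intro _ rfl
    have d2 : ¬ (p : ℤ) ∣ f := fun h => by have := Int.le_of_dvd (by omega) h; omega
    obtain ⟨w, rfl⟩ : (p : ℤ) ∣ W := by
      rcases hpp.dvd_or_dvd ((hpp.dvd_or_dvd d1).resolve_left d2) with h | h <;> exact h
    have e5 : f * (w * w) = f * 3 - 4 * (θ * (θ + 1)) :=
      mul_left_cancel₀ p0.ne' (by linear_combination e3)
    have w0 : w ≠ 0 := by rintro rfl; omega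
    have w1 : w * w ≤ 3 := by nlinarith
    have w2 : w = 1 ∨ w = -1 := by
      have : w ≤ 1 := by nlinarith
      have : -1 ≤ w := by nlinarith
      omega
    have e6 : (p : ℤ) = (2 * θ + 1) * (2 * θ + 1) := by
      rcases w2 with rfl | rfl <;> linarith
    have := congrArg Int.natAbs e6
    rw [Int.natAbs_mul, Int.natAbs_natCast] at this
    rw [this] at hp hp2
    exact Nat.not_prime_mul (by rintro h; rw [h] at hp2; omega) (by rintro h; rw [h] at hp2; omega) hp

omit [Fintype X] [DecidableEq X] [Fintype G] in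
theorem mk_eq_iff {H : Subgroup G} {x y : X} :
    (Quotient.mk _ x : orbitRel.Quotient H X) = Quotient.mk _ y ↔ x ∈ orbit H y :=
  Quotient.eq

omit [Fintype X] [DecidableEq X] [Fintype G] in
theorem orbit_self (a : X) : orbit (stabilizer G a) a = {a} := by
  ext y
  exact ⟨fun ⟨g, hg⟩ => hg.symm.trans g.2, fun h => h ▸ mem_orbit_self _⟩

open Classical in
theorem sum_adj_out [IsPretransitive G X] (a : X) :
    ∑ q : orbitRel.Quotient (stabilizer G a) X, adj G a q.out = Matrix.of fun _ _ => 1 := by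
  refine InvM.ext_row (G := G) (fun g x y => ?_) (fun _ _ _ => rfl) a fun y => ?_
  · simp only [Matrix.sum_apply]
    exact Finset.sum_congr rfl fun q _ => invM_adj a _ g x y
  · simp only [Matrix.sum_apply, adj_row, ← mk_eq_iff, Quotient.out_eq]
    simp

theorem adj_self [IsPretransitive G X] (a : X) : adj G a a = 1 := by
  classical
  refine InvM.ext_row (G := G) (invM_adj a a) (fun g x y => by simp [Matrix.one_apply]) a fun y => ?_
  rw [adj_row, orbit_self]
  simp [Matrix.one_apply, eq_comm]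

open Classical in
omit [DecidableEq X] in
theorem sum_card_out (H : Subgroup G) :
    ∑ q : orbitRel.Quotient H X, Nat.card (orbit H q.out) = Fintype.card X := by
  have := sum_card_orbits (X := X) H
  rw [finsum_eq_sum_of_fintype, Nat.card_eq_fintype_card] at this
  rw [← this]
  exact Finset.sum_congr rfl fun q _ => by rw [orbitRel.Quotient.orbit_eq_orbit_out q Quotient.out_eq']

theorem rank3 (hprim : IsPreprimitive G X) {m : ℕ} (hm : Fintype.card X = 2 * m) (a : X)
    (hrank : Nat.card (orbitRel.Quotient (stabilizer G a) X) = 3) {χ₁ χ₂ : G → ℂ}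
    (h₁ : IsIrrCharacter G χ₁) (h₂ : IsIrrCharacter G χ₂)
    (hπ : pc G X = fun g => 1 + χ₁ g + χ₂ g) (hd₁ : χ₁ 1 = (m : ℂ) - 1) (hd₂ : χ₂ 1 = m)
    {b : X} (hb : b ≠ a) : ∃ n : ℕ, 0 < n ∧ m = 2 * n ^ 2 + 2 * n + 1 ∧
      (Nat.card (orbit (stabilizer G a) b) = n * (2 * n + 1) ∨
        Nat.card (orbit (stabilizer G a) b) = (n + 1) * (2 * n + 1)) := by
  classical
  have : Nonempty X := ⟨a⟩
  have h12 : χ₁ ≠ χ₂ := fun e => by
    rw [e, hd₂] at hd₁; exact one_ne_zero (α := ℂ) (by linear_combination hd₁)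
  have hi := inner_pc_one_of_pretransitive (G := G) (X := X)
  rw [hπ, show (fun g => 1 + χ₁ g + χ₂ g) = (fun _ => 1) + χ₁ + χ₂ from rfl,
    CChar.CharFun.inner_add_left, CChar.CharFun.inner_add_left, inner_one_one,
    inner_irr_irr h₁ irr_one, inner_irr_irr h₂ irr_one] at hi
  have n1 : χ₁ ≠ fun _ => 1 := fun e => by
    rw [if_pos e] at hi; split_ifs at hi <;> norm_num at hi
  have n2 : χ₂ ≠ fun _ => 1 := fun e => by
    rw [if_pos e, if_neg n1] at hi; norm_num at hi
  let c1 : IrrCharacter G := ⟨χ₁, h₁⟩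
  let c2 : IrrCharacter G := ⟨χ₂, h₂⟩
  have m1 : irrOne G ∉ ({c1, c2} : Finset (IrrCharacter G)) := by
    simp only [Finset.mem_insert, Finset.mem_singleton, not_or]
    exact ⟨fun e => n1 (congrArg Subtype.val e).symm, fun e => n2 (congrArg Subtype.val e).symm⟩
  have m2 : c1 ≠ c2 := fun e => h12 (congrArg Subtype.val e)
  have hs : pc G X = ∑ χ ∈ ({irrOne G, c1, c2} : Finset (IrrCharacter G)), χ.1 := by
    rw [Finset.sum_insert m1, Finset.sum_pair m2, hπ, ← add_assoc]; rfl
  have ts : ∀ {M : Matrix X X ℂ}, InvM G M → TT G M 1 =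
      th (irrOne G).1 M + th c1.1 M * (m - 1) + th c2.1 M * m := fun h => by
    rw [TT_sum hs h, Finset.sum_insert m1, Finset.sum_pair m2, ← hd₁, ← hd₂, ← add_assoc,
      irrOne_apply, mul_one]
  have i1 : c1 ∈ ({irrOne G, c1, c2} : Finset (IrrCharacter G)) := by simp
  have i2 : c2 ∈ ({irrOne G, c1, c2} : Finset (IrrCharacter G)) := by simp
  have i0 : irrOne G ∈ ({irrOne G, c1, c2} : Finset (IrrCharacter G)) := by simp
  -- the third orbit
  have hab : (Quotient.mk _ b : orbitRel.Quotient (stabilizer G a) X) ≠ Quotient.mk _ a := by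
    rw [Ne, mk_eq_iff, orbit_self]; exact hb
  obtain ⟨q, hq⟩ : ∃ q : orbitRel.Quotient (stabilizer G a) X,
      (Finset.univ : Finset _) = {Quotient.mk _ a, Quotient.mk _ b, q} ∧ q ≠ Quotient.mk _ a ∧
        q ≠ Quotient.mk _ b := by
    rw [Nat.card_eq_fintype_card] at hrank
    obtain ⟨q, -, h⟩ := Finset.exists_mem_notMem_of_card_lt_card
      (s := {Quotient.mk _ a, Quotient.mk _ b})
      (t := (Finset.univ : Finset (orbitRel.Quotient (stabilizer G a) X))) (by
        rw [Finset.card_pair hab.symm, Finset.card_univ, hrank]; norm_num)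
    simp only [Finset.mem_insert, Finset.mem_singleton, not_or] at h
    refine ⟨q, (Finset.eq_univ_of_card _ ?_).symm, h⟩
    rw [hrank, Finset.card_eq_three]
    exact ⟨_, _, _, hab.symm, Ne.symm h.1, Ne.symm h.2, rfl⟩
  obtain ⟨c, rfl⟩ := Quotient.exists_rep q
  obtain ⟨hu, hca, hcb⟩ := hq
  have oo : ∀ y : X, orbit (stabilizer G a)
      (Quotient.mk _ y : orbitRel.Quotient (stabilizer G a) X).out = orbit (stabilizer G a) y :=
    fun y => orbit_eq_iff.2 (mk_eq_iff.1 (Quotient.out_eq _))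
  have hsum := sum_card_out (X := X) (stabilizer G a)
  rw [hu, Finset.sum_insert (by simp [hab.symm, hca.symm]), Finset.sum_pair hcb.symm, oo, oo, oo,
    orbit_self, hm] at hsum
  simp only [Nat.card_unique] at hsum
  have hca' : c ≠ a := fun e => hca (by rw [e])
  have k1 : Nat.card (orbit (stabilizer G a) b) ≠ 1 := fun h => by
    have := all_one hprim hb.symm h c; omega
  have k2 : Nat.card (orbit (stabilizer G a) c) ≠ 1 := fun h => by
    have := all_one hprim hca'.symm h b; omega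
  have k3 : 0 < Nat.card (orbit (stabilizer G a) b) := Nat.card_pos_iff.2 ⟨⟨⟨b, mem_orbit_self b⟩⟩, inferInstance⟩
  have k4 : 0 < Nat.card (orbit (stabilizer G a) c) := Nat.card_pos_iff.2 ⟨⟨⟨c, mem_orbit_self c⟩⟩, inferInstance⟩
  have cov : ∀ y, y = a ∨ y ∈ orbit (stabilizer G a) b ∨ y ∈ orbit (stabilizer G a) c := fun y => by
    have : (Quotient.mk _ y : orbitRel.Quotient (stabilizer G a) X) ∈ (Finset.univ : Finset _) :=
      Finset.mem_univ _
    rw [hu] at this
    simpa only [Finset.mem_insert, Finset.mem_singleton, mk_eq_iff, orbit_self,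
      Set.mem_singleton_iff] using this
  have hA := invM_adj (G := G) a b
  have hA2 := InvM.mul hA hA
  have ent : ∀ y, ∃ n : ℕ, (adj G a b * adj G a b) a y = n := fun y =>
    ⟨∑ z, (if ∃ g : G, g • a = a ∧ g • b = z then 1 else 0) *
      (if ∃ g : G, g • a = z ∧ g • b = y then 1 else 0), by
      simp only [Matrix.mul_apply, adj]; push_cast
      exact Finset.sum_congr rfl fun z _ => by split_ifs <;> rfl⟩
  obtain ⟨α, hα⟩ := ent a
  obtain ⟨l, hl⟩ := ent b
  obtain ⟨μ, hμ⟩ := ent c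
  have sq : adj G a b * adj G a b = ((α : ℂ) - μ) • (1 : Matrix X X ℂ) + ((l : ℂ) - μ) • adj G a b +
      (μ : ℂ) • Matrix.of fun _ _ => 1 := by
    refine InvM.ext_row (G := G) hA2 (fun g x y => by simp [Matrix.one_apply, hA g]) a fun y => ?_
    simp only [Matrix.add_apply, Matrix.smul_apply, adj_row, Matrix.of_apply, smul_eq_mul]
    rcases cov y with rfl | h | h
    · rw [hα, if_neg (by rw [← mk_eq_iff]; exact hab.symm)]; simp
    · have : a ≠ y := by rintro rfl; exact hab.symm (mk_eq_iff.2 h)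
      rw [InvM.row hA2 h, hl, if_pos h, Matrix.one_apply_ne this]; ring
    · have : a ≠ y := by rintro rfl; exact hca.symm (mk_eq_iff.2 h)
      rw [InvM.row hA2 h, hμ, if_neg (fun h' => hcb ((mk_eq_iff.2 h).symm.trans (mk_eq_iff.2 h'))),
        Matrix.one_apply_ne this]; ring
  have q1 := th_mul hs hA hA i1
  have q2 := th_mul hs hA hA i2
  rw [sq, th_add, th_add, th_smul, th_smul, th_smul] at q1 q2
  rw [th_one hs i1, th_J h₁ n1] at q1
  rw [th_one hs i2, th_J h₂ n2] at q2
  have r1 := th_int hs a b i1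
  have r2 := th_int hs a b i2
  have t1 := ts hA
  have t2 := ts (InvM.mul hA (invM_adj b a))
  change _ = th (fun _ : G => 1) _ + th χ₁ _ * _ + th χ₂ _ * _ at t1
  rw [TT_adj_one hb.symm, th_triv] at t1
  rw [TT_adj_adj, th_mul hs hA (invM_adj b a) i0, th_mul hs hA (invM_adj b a) i1,
    th_mul hs hA (invM_adj b a) i2, th_transpose (char_of_irr c1.2) a b, th_transpose (char_of_irr c2.2) a b,
    hm] at t2
  change _ = th (fun _ : G => 1) _ * th (fun _ : G => 1) _ + _ + _ at t2
  rw [th_triv, th_triv, ← card_paired a b] at t2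
  change _ = th χ₁ _ * th χ₁ _ at q1
  change _ = th χ₂ _ * th χ₂ _ at q2
  change IsIntegral ℤ (th χ₁ _) at r1
  change IsIntegral ℤ (th χ₂ _) at r2
  change _ = _ + th χ₁ _ * _ * _ + th χ₂ _ * _ * _ at t2
  generalize th χ₁ (adj G a b) = r at *
  generalize th χ₂ (adj G a b) = θ at *
  generalize Nat.card (orbit (stabilizer G a) b) = k at *
  have hne : r ≠ θ := by
    rintro rfl
    obtain ⟨z, rfl⟩ := int_of_mul r1 (n := 2 * m - 1) (m := -k) (by omega) (by
      push_cast; linear_combination -t1)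
    have e : (0 : ℤ) = k + z * (m - 1) + z * m := by exact_mod_cast t1
    rcases le_or_gt 0 z with h | h
    · nlinarith
    · nlinarith
  have hsum' : r + θ = (l : ℂ) - μ :=
    mul_left_cancel₀ (sub_ne_zero.2 hne) (by linear_combination q2 - q1)
  obtain ⟨θ, rfl⟩ : ∃ z : ℤ, θ = z := ⟨-k - (m - 1) * (l - μ), by
    push_cast; rw [← hsum']; linear_combination -t1⟩
  obtain ⟨r, rfl⟩ : ∃ z : ℤ, r = z := ⟨l - μ - θ, by push_cast; rw [← hsum']; ring⟩
  simp only [map_intCast] at t2
  have e1 : (0 : ℤ) = k + r * (m - 1) + θ * m := by exact_mod_cast t1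
  have e2 : ((2 * m : ℕ) : ℤ) * k = k * k + r * r * (m - 1) + θ * θ * m := by exact_mod_cast t2
  obtain ⟨n, a1, a2, a3⟩ := arith3 (m := m) (k := k) (θ := θ) (r := r) (by omega) (by omega)
    (by omega) (by linarith) (by push_cast at e2; linarith)
  exact ⟨n, a1, by exact_mod_cast a2, by exact_mod_cast a3⟩

theorem rank3' (hprim : IsPreprimitive G X) {m : ℕ} (hm : Fintype.card X = 2 * m) (a : X)
    (hrank : Nat.card (orbitRel.Quotient (stabilizer G a) X) = 3) {χ₁ χ₂ : G → ℂ}
    (h₁ : IsIrrCharacter G χ₁) (h₂ : IsIrrCharacter G χ₂)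
    (hπ : pc G X = fun g => 1 + χ₁ g + χ₂ g) (hd₁ : χ₁ 1 = (m : ℂ) - 1) (hd₂ : χ₂ 1 = m) :
    ∃ n : ℕ, 0 < n ∧ m = 2 * n ^ 2 + 2 * n + 1 ∧ ∀ b : X, b ≠ a →
      (Nat.card (orbit (stabilizer G a) b) = n * (2 * n + 1) ∨
        Nat.card (orbit (stabilizer G a) b) = (n + 1) * (2 * n + 1)) := by
  obtain ⟨b, hb⟩ : ∃ b, b ≠ a := by
    by_contra h
    push Not at h
    have : Subsingleton X := ⟨fun x y => (h x).trans (h y).symm⟩
    have : Subsingleton (orbitRel.Quotient (stabilizer G a) X) := Quotient.instSubsingletonQuotient _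
    have := Finite.card_le_one_iff_subsingleton.2 this
    omega
  obtain ⟨n, n0, n1, -⟩ := rank3 hprim hm a hrank h₁ h₂ hπ hd₁ hd₂ hb
  refine ⟨n, n0, n1, fun c hc => ?_⟩
  obtain ⟨n', -, n1', h⟩ := rank3 hprim hm a hrank h₁ h₂ hπ hd₁ hd₂ hc
  obtain rfl : n' = n := by nlinarith
  exact h

end CA.W2p
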