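import Mathlib
import Cfsg.Agent.Lib.Perm.W2p

/-! Wielandt's theorem on primitive groups of degree `2p`, second part. -/

open Cfsg Module MulAction CChar.CharRep CChar.CharFun CChar.CharOrth CChar.CharInt CChar.CharKer
open CA.PermBasic CA.PermMulti CA.Commutant CA.PermChar
open scoped ComplexConjugate

namespace CA.W2p
variable {G X : Type*} [Group G] [MulAction G X]

theorem two_le_sub [Finite G] [FaithfulSMul G X] (h : IsPreprimitive G X)
    (hn : ¬ (Nat.card X).Prime) {a b : X} (hab : b ≠ a) :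
    2 ≤ Nat.card (orbit (stabilizer G a) b) := by
  have : Finite X := finite_of_pretransitive (G := G)
  have k3 : 0 < Nat.card (orbit (stabilizer G a) b) :=
    Nat.card_pos_iff.2 ⟨⟨⟨b, mem_orbit_self b⟩⟩, inferInstance⟩
  by_contra hlt
  have h1 := all_one h hab.symm (by omega)
  have hb : stabilizer G a = ⊥ := by
    rw [eq_bot_iff]
    intro g hg
    refine eq_of_smul_eq_smul (α := X) fun c => ?_
    have := (Nat.card_eq_one_iff_unique.1 (h1 c)).1
    rw [one_smul]
    exact congrArg Subtype.val (Subsingleton.elim (⟨_, mem_orbit c (⟨g, hg⟩ : stabilizer G a)⟩ :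
      orbit (stabilizer G a) c) ⟨c, mem_orbit_self c⟩)
  have : Nontrivial X := ⟨_, _, hab⟩
  have hc := (isCoatom_stabilizer_iff_preprimitive G a).2 h
  have he := card_eq_of_regular a hb
  rw [hb] at hc
  obtain ⟨q, hq, hd⟩ := Nat.exists_prime_and_dvd (n := Nat.card G)
    (by rw [he]; exact (Finite.one_lt_card (α := X)).ne')
  have := Fact.mk hq
  obtain ⟨g, hg⟩ := exists_prime_orderOf_dvd_card' q hd
  have h2 : Subgroup.zpowers g = ⊤ := hc.2 _ (bot_lt_iff_ne_bot.2 (by
    rw [Ne, Subgroup.zpowers_eq_bot]; rintro rfl; rw [orderOf_one] at hg; exact hq.one_lt.ne hg))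
  rw [← he, ← Subgroup.card_top, ← h2, Nat.card_zpowers, hg] at hn
  exact hn hq

theorem sum_ge {Q : Type*} [Fintype Q] (F : Q → ℝ) (q₀ : Q) (c : ℝ) (h : ∀ q, q ≠ q₀ → c ≤ F q) :
    F q₀ + (Fintype.card Q - 1) * c ≤ ∑ q, F q := by
  classical
  rw [← Finset.add_sum_erase _ _ (Finset.mem_univ q₀)]
  have := Finset.card_nsmul_le_sum (Finset.univ.erase q₀) F c
    fun q hq => h q (Finset.ne_of_mem_erase hq)
  rw [Finset.card_erase_of_mem (Finset.mem_univ _), Finset.card_univ, nsmul_eq_mul,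
    Nat.cast_pred (Fintype.card_pos_iff.2 ⟨q₀⟩)] at this
  linarith

theorem out_ne {a : X} {q : orbitRel.Quotient (stabilizer G a) X} (h : q ≠ Quotient.mk _ a) :
    q.out ≠ a := fun e => h ((Quotient.out_eq q).symm.trans (congrArg _ e))

theorem out_self (a : X) : (Quotient.mk _ a : orbitRel.Quotient (stabilizer G a) X).out = a := by
  have := mk_eq_iff.1 (Quotient.out_eq (Quotient.mk _ a : orbitRel.Quotient (stabilizer G a) X))
  rwa [orbit_self] at this

theorem deg4 [Finite G] [FaithfulSMul G X] (h : IsPreprimitive G X) (h4 : Nat.card X = 4) :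
    IsMultiplyPretransitive G X 2 := by
  classical
  have : Finite X := finite_of_pretransitive (G := G)
  have := Fintype.ofFinite X
  have := Fintype.ofFinite G
  have : Nontrivial X := Finite.one_lt_card_iff_nontrivial.1 (by omega)
  obtain ⟨a, b, hab⟩ := exists_pair_ne X
  rw [← rank_eq_two_iff a, Nat.card_eq_fintype_card]
  have h1 := sum_ge (fun q : orbitRel.Quotient (stabilizer G a) X =>
    (Nat.card (orbit (stabilizer G a) q.out) : ℝ)) (Quotient.mk _ a) 2 fun q hq => by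
      exact_mod_cast two_le_sub h (by rw [h4]; norm_num) (out_ne hq)
  rw [← Nat.cast_sum, sum_card_out, out_self, orbit_self, ← Nat.card_eq_fintype_card (α := X), h4] at h1
  simp only [Nat.card_unique] at h1
  have h2 : 1 < Fintype.card (orbitRel.Quotient (stabilizer G a) X) :=
    Fintype.one_lt_card_iff.2 ⟨Quotient.mk _ b, Quotient.mk _ a, by
      rw [Ne, mk_eq_iff, orbit_self]; exact hab.symm⟩
  have h3 : (Fintype.card (orbitRel.Quotient (stabilizer G a) X) : ℝ) < 3 := by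
    push_cast at h1; linarith
  have h3 : Fintype.card (orbitRel.Quotient (stabilizer G a) X) < 3 := by exact_mod_cast h3
  omega

variable [Fintype G]

theorem faithful [Finite X] [Nonempty X] [FaithfulSMul G X] (h : IsPreprimitive G X) {χ : G → ℂ}
    (hχ : IsIrrCharacter G χ) (hi : classInner (pc G X - fun _ => 1) χ ≠ 0) (g : G)
    (hg : χ g = χ 1) : g = 1 := by
  classical
  by_contra h1
  have hN : charKer χ ≠ ⊥ := fun e => h1 (by
    rw [← Subgroup.mem_bot, ← e]; exact (mem_charKer (char_of_irr hχ)).2 hg)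
  have := normal_pretransitive (X := X) (charKer χ) hN
  obtain ⟨n, hn⟩ := inner_char_char (char_restrict (char_sub_irr char_pc_sub_one hχ hi) (charKer χ))
    char_one
  obtain ⟨d, d0, hd⟩ := irr_apply_one hχ
  have e : (fun x : charKer χ => ((pc G X - fun _ => 1) - χ : G → ℂ) x) =
      pc (charKer χ) X - ((d + 1 : ℂ)) • fun _ => 1 := by
    ext x
    have := apply_of_mem_charKer x.2
    simp only [Pi.sub_apply, this, hd, Pi.smul_apply, smul_eq_mul]
    change (Nat.card (fixedBy X (x : G)) : ℂ) - _ - _ = Nat.card (fixedBy X (x : G)) - _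
    ring
  rw [e, CChar.CharFun.inner_sub_left, inner_pc_one_of_pretransitive,
    CChar.CharFun.inner_smul_left, inner_one_one] at hn
  have : ((d + n : ℕ) : ℂ) = 0 := by push_cast; linear_combination -hn
  have : d + n = 0 := by exact_mod_cast this
  omega

theorem rank_eq [Finite X] [IsPretransitive G X] {s : Finset (IrrCharacter G)}
    (hπ : pc G X = ∑ χ ∈ s, χ.1) (a : X) :
    Nat.card (orbitRel.Quotient (stabilizer G a) X) = s.card := by
  have h := inner_pc_self (G := G) a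
  conv_lhs at h => enter [2]; rw [hπ]
  rw [inner_sum_right, Finset.sum_congr rfl fun χ hχ => (inner_pc hπ χ).trans (if_pos hχ)] at h
  simp only [Finset.sum_const, nsmul_eq_mul, mul_one] at h
  exact_mod_cast h.symm

theorem sP_nat (P : Subgroup G) [Fintype P] {φ ψ : G → ℂ} (h : IsCharacter G φ)
    (h' : IsCharacter G ψ) : ∃ n : ℕ, ∑ g : P, φ g * conj (ψ g) = Nat.card P * n := by
  obtain ⟨n, hn⟩ := inner_char_char (char_restrict h P) (char_restrict h' P)
  exact ⟨n, by rw [← hn, card_mul_inner]⟩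

theorem sP_nat' (P : Subgroup G) [Fintype P] {φ : G → ℂ} (h : IsCharacter G φ) :
    ∃ n : ℕ, ∑ g : P, φ g = Nat.card P * n := by
  simpa using sP_nat P h char_one

omit [Fintype G] in
theorem sP_const (P : Subgroup G) [Fintype P] {F : G → ℂ} {c : ℂ}
    (h : ∀ g ∈ P, g ≠ 1 → F g = c) : ∑ g : P, F g = F 1 + (Nat.card P - 1) * c := by
  classical
  rw [← Finset.add_sum_erase _ _ (Finset.mem_univ (1 : P)), Finset.sum_congr rfl fun (g : P) hg =>
    h g g.2 fun e => Finset.ne_of_mem_erase hg (Subtype.ext e), Finset.sum_const,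
    Finset.card_erase_of_mem (Finset.mem_univ _), Finset.card_univ, nsmul_eq_mul,
    Nat.cast_pred Fintype.card_pos, Nat.card_eq_fintype_card]
  rfl

theorem sP_pw (P : Subgroup G) [Fintype P] {k : ℕ} (hk : k.Coprime (Nat.card G)) (F : G → ℂ) :
    ∑ g : P, F (g ^ k) = ∑ g : P, F g :=
  Function.Bijective.sum_comp (CA.BlkGal.pow_bijective (CA.BlkGal.coprime_subgroup hk P))
    (fun g : P => F g)

theorem pc_pw {k : ℕ} (hk : k.Coprime (Nat.card G)) (g : G) : pc G X (g ^ k) = pc G X g := by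
  obtain ⟨m, -, hm⟩ := CA.BlkGal.exists_pow_pow hk
  have : fixedBy X (g ^ k) = fixedBy X g :=
    subset_antisymm (by
      have := fixedBy_subset_fixedBy_zpow X (g ^ k) m
      rwa [zpow_natCast, hm] at this) (by
      have := fixedBy_subset_fixedBy_zpow X g k
      rwa [zpow_natCast] at this)
  simp only [pc, this]

theorem exists_pw {p : ℕ} (hp : p.Prime) {P : Subgroup G} (hP : Nat.card P = p) {x g : G}
    (hx : x ∈ P) (hx1 : x ≠ 1) (hg : g ∈ P) (hg1 : g ≠ 1) :
    ∃ k : ℕ, k.Coprime (Nat.card G) ∧ x ^ k = g := by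
  classical
  have := Fact.mk hp
  have ho : orderOf x = p := by
    have := Subgroup.orderOf_dvd_natCard P hx
    rw [hP] at this
    exact ((Nat.dvd_prime hp).1 this).resolve_left (by simpa using hx1)
  have hz : Subgroup.zpowers x = P := Subgroup.eq_of_le_of_card_ge (by simpa using hx)
    (by rw [Nat.card_zpowers, ho, hP])
  rw [← hz, mem_zpowers_iff_mem_range_orderOf, Finset.mem_image] at hg
  obtain ⟨i, -, rfl⟩ := hg
  have hi : i.Coprime p := ((Nat.Prime.coprime_iff_not_dvd hp).2 fun h =>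
    hg1 (orderOf_dvd_iff_pow_eq_one.1 (ho ▸ h))).symm
  obtain ⟨k, k1, k2, k3⟩ := Nat.forall_exists_prime_gt_and_modEq (Nat.card G) hp.ne_zero hi
  refine ⟨k, (Nat.Prime.coprime_iff_not_dvd k2).2 fun h => ?_, ?_⟩
  · exact absurd (Nat.le_of_dvd Nat.card_pos h) (by omega)
  · exact pow_eq_pow_iff_modEq.2 (ho ▸ k3)

theorem inner_ne_of_sub {φ ψ χ : G → ℂ} (hψ : IsCharacter G ψ) (h : IsCharacter G (φ - ψ))
    (hχ : IsIrrCharacter G χ) (hi : classInner (φ - ψ) χ ≠ 0) : classInner φ χ ≠ 0 := by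
  obtain ⟨m, hm⟩ := inner_char_char hψ (char_of_irr hχ)
  obtain ⟨n, hn⟩ := inner_char_char h (char_of_irr hχ)
  rw [← sub_add_cancel φ ψ, CChar.CharFun.inner_add_left, hm, hn]
  rw [hn] at hi
  have : n ≠ 0 := by exact_mod_cast hi
  exact_mod_cast (by omega : n + m ≠ 0)

section Main
variable [Fintype X] [DecidableEq X] [FaithfulSMul G X] (hprim : IsPreprimitive G X) {p : ℕ}
  (hp : p.Prime) (hX : Fintype.card X = 2 * p) {P : Subgroup G} [Fintype P] (hP : Nat.card P = p)
  (hfp : ∀ g ∈ P, g ≠ 1 → pc G X g = 0)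
include hprim hp hX hP hfp

theorem chi1 : IsMultiplyPretransitive G X 2 ∨ ∃ χ : G → ℂ, IsIrrCharacter G χ ∧
    classInner (pc G X - fun _ => 1) χ ≠ 0 ∧ χ 1 = p ∧ (∀ g ∈ P, g ≠ 1 → χ g = 0) ∧
      ∀ k : ℕ, k.Coprime (Nat.card G) → ∀ g, χ (g ^ k) = χ g := by
  have hp2 := hp.two_le
  have : Nontrivial X := Fintype.one_lt_card_iff_nontrivial.1 (by omega)
  have hφ : IsCharacter G (pc G X - fun _ => 1) := char_pc_sub_one
  have φ1 : (pc G X - fun _ => 1 : G → ℂ) 1 = ((2 * p - 1 : ℕ) : ℂ) := by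
    rw [Pi.sub_apply, pc_one, Nat.card_eq_fintype_card, hX, Nat.cast_pred (by omega)]
  have p0 : (p : ℂ) ≠ 0 := by exact_mod_cast hp.ne_zero
  have s1 : ∑ g : P, (pc G X - fun _ => 1 : G → ℂ) g = p := by
    rw [sP_const P (c := -1) fun g hg h1 => by simp [hfp g hg h1], φ1, hP,
      Nat.cast_pred (by omega)]
    push_cast; ring
  have φk : ∀ k : ℕ, k.Coprime (Nat.card G) → (fun g => (pc G X - fun _ => 1 : G → ℂ) (g ^ k)) =
      pc G X - fun _ => 1 := fun k hk => funext fun g => by simp only [Pi.sub_apply, pc_pw hk]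
  generalize hφe : (pc G X - fun _ => 1 : G → ℂ) = φ at *
  obtain ⟨χ, hχ, hi, hs⟩ : ∃ χ, IsIrrCharacter G χ ∧ classInner φ χ ≠ 0 ∧ ∑ g : P, χ g ≠ 0 := by
    by_contra h
    push Not at h
    refine p0 ?_
    rw [← s1, Finset.sum_congr rfl fun (g : P) _ => classFun_apply_eq_sum (char_classFun hφ) (g : G),
      Finset.sum_comm]
    refine Finset.sum_eq_zero fun χ _ => ?_
    rw [← Finset.mul_sum]
    by_cases h0 : classInner φ χ.1 = 0
    · rw [h0, zero_mul]
    · rw [h χ.1 χ.2 h0, mul_zero]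
  have hψ := char_sub_irr hφ hχ hi
  obtain ⟨n, hn⟩ := sP_nat' P (char_of_irr hχ)
  obtain ⟨m, hm⟩ := sP_nat' P hψ
  rw [hP] at hn hm
  have n0 : n ≠ 0 := by rintro rfl; simp [hn] at hs
  have e1 : ((n + m : ℕ) : ℂ) = (1 : ℕ) := mul_left_cancel₀ p0 (by
    simp only [Pi.sub_apply, Finset.sum_sub_distrib] at hm
    push_cast; linear_combination -hn - hm + s1)
  have e1 : n + m = 1 := by exact_mod_cast e1
  obtain rfl : n = 1 := by omega
  obtain rfl : m = 0 := by omega
  have hk : ∀ k : ℕ, k.Coprime (Nat.card G) → ∀ g, χ (g ^ k) = χ g := fun k hk => by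
    have a1 := CA.BlkGal.irr_pw hk hχ
    have a2 := CA.BlkGal.inner_pw hk φ χ
    rw [φk k hk] at a2
    by_contra hne
    have a3 : classInner (φ - χ) (fun g => χ (g ^ k)) ≠ 0 := by
      rw [CChar.CharFun.inner_sub_left, a2, inner_irr_of_ne hχ a1 fun e => hne fun g =>
        (congrFun e g).symm, sub_zero]
      exact hi
    obtain ⟨m, hm'⟩ := sP_nat' P (char_sub_irr hψ a1 a3)
    simp only [Pi.sub_apply, Finset.sum_sub_distrib] at hm hm'
    rw [hP, sP_pw P hk χ, hm, hn] at hm'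
    have e1 : ((1 + m : ℕ) : ℂ) = (0 : ℕ) := mul_left_cancel₀ p0 (by
      push_cast at hm' ⊢; linear_combination -hm')
    have e1 : 1 + m = 0 := by exact_mod_cast e1
    omega
  obtain ⟨⟨x, hx⟩, hx1⟩ : ∃ x : P, x ≠ 1 := by
    have : Nontrivial P := Finite.one_lt_card_iff_nontrivial.1 (by omega)
    exact exists_ne 1
  have hx1 : x ≠ 1 := fun e => hx1 (Subtype.ext e)
  have hc : ∀ g ∈ P, g ≠ 1 → χ g = χ x := fun g hg h1 => by
    obtain ⟨k, k1, rfl⟩ := exists_pw hp hP hx hx1 hg h1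
    exact hk k k1 x
  obtain ⟨d, d0, hd⟩ := irr_apply_one hχ
  rw [sP_const P hc, hP, hd] at hn
  obtain ⟨z, hz⟩ := int_of_mul (char_isIntegral (char_of_irr hχ) x) (n := p - 1) (m := p - d)
    (by omega) (by push_cast at hn ⊢; linear_combination hn)
  have dl := degree_le_of_inner_ne_zero hφ hχ hi hd φ1
  rw [hz, Nat.cast_one, mul_one] at hn
  have e2 : (d : ℤ) + (p - 1) * z = p := by exact_mod_cast hn
  have z1 : z ≤ 1 := by nlinarith
  have z2 : -1 ≤ z := by
    have : (d : ℤ) ≤ 2 * p - 1 := by omega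
    nlinarith
  interval_cases z
  · left
    rw [← irr_iff_two, hφe, eq_of_inner_ne_zero_of_apply_one hφ hχ hi (by
      rw [φ1, hd]; congr 1; omega)]
    exact hχ
  · refine Or.inr ⟨χ, hχ, hi, by rw [hd]; congr 1; omega, fun g hg h1 => ?_, hk⟩
    rw [hc g hg h1, hz]; simp
  · subst hφe
    refine absurd (faithful hprim hχ hi x ?_) hx1
    rw [hz, hd, show d = 1 by omega]; simp

omit hprim hX hfp [Fintype X] [DecidableEq X] [FaithfulSMul G X] in
theorem gam {f : ℕ} (hf : p = 2 * f + 1) {χ₂ χ₃ : G → ℂ} (h₂ : IsCharacter G χ₂)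
    (h₃ : IsCharacter G χ₃) (d₂ : χ₂ 1 = f) (d₃ : χ₃ 1 = f)
    (hs : ∀ g ∈ P, g ≠ 1 → χ₂ g + χ₃ g = -1) (s₂ : ∑ g : P, χ₂ g = 0) {x : G} (hx : x ∈ P)
    (hx1 : x ≠ 1) (hv : ∀ g ∈ P, g ≠ 1 → χ₂ g = χ₂ x ∨ χ₂ g = χ₃ x) :
    (2 * χ₂ x + 1) * conj (2 * χ₂ x + 1) = p := by
  have hp2 := hp.two_le
  have p0 : (p : ℂ) ≠ 0 := by exact_mod_cast hp.ne_zero
  have hfc : (p : ℂ) = 2 * f + 1 := by exact_mod_cast hf
  obtain ⟨n, hn⟩ := sP_nat P h₂ h₂
  obtain ⟨m, hm⟩ := sP_nat P h₂ h₃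
  rw [hP] at hn hm
  have a1 := sP_const P (F := fun g => χ₂ g * conj (χ₂ g) + χ₂ g * conj (χ₃ g) + χ₂ g) (c := 0)
    fun g hg h1 => by
      have := congrArg conj (hs g hg h1)
      simp only [map_add, map_neg, map_one] at this
      linear_combination χ₂ g * this
  simp only [Finset.sum_add_distrib, hn, hm, s₂, d₂, d₃, map_natCast] at a1
  have e1 : ((n + m : ℕ) : ℂ) = f := mul_left_cancel₀ p0 (by
    push_cast; linear_combination a1 - f * hfc)
  have e1 : n + m = f := by exact_mod_cast e1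
  have a2 := sP_const P (F := fun g => (2 * χ₂ g + 1) * conj (2 * χ₂ g + 1))
    (c := (2 * χ₂ x + 1) * conj (2 * χ₂ x + 1)) fun g hg h1 => by
      rcases hv g hg h1 with h | h
      · rw [h]
      · rw [show 2 * χ₂ g + 1 = -(2 * χ₂ x + 1) by linear_combination 2 * h + 2 * hs x hx hx1,
          map_neg]; ring
  have a3 : ∑ g : P, (2 * χ₂ g + 1) * conj (2 * χ₂ g + 1) =
      4 * ∑ g : P, χ₂ g * conj (χ₂ g) + 2 * ∑ g : P, χ₂ g + 2 * conj (∑ g : P, χ₂ g) + p := by
    rw [← hP, Nat.card_eq_fintype_card, ← Finset.card_univ, Finset.card_eq_sum_ones]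
    simp only [map_sum, Finset.mul_sum, Nat.cast_sum, ← Finset.sum_add_distrib]
    refine Finset.sum_congr rfl fun g _ => ?_
    simp only [map_add, map_mul, map_one, map_ofNat]; push_cast; ring
  rw [a3, hn, s₂, hP, d₂] at a2
  simp only [map_add, map_mul, map_one, map_ofNat, map_natCast, map_zero, ← hfc] at a2
  have i1 := char_isIntegral h₂ x
  have i2 := char_isIntegral h₂ x⁻¹
  rw [char_apply_inv h₂] at i2
  have i3 : IsIntegral ℤ ((2 * χ₂ x + 1) * conj (2 * χ₂ x + 1)) := by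
    simp only [map_add, map_mul, map_one, map_ofNat]
    have t : IsIntegral ℤ (2 : ℂ) := by exact_mod_cast isIntegral_algebraMap (R := ℤ) (A := ℂ) (x := 2)
    exact ((t.mul i1).add isIntegral_one).mul ((t.mul i2).add isIntegral_one)
  obtain ⟨z, hz⟩ := int_of_mul i3 (n := p - 1) (m := p * (4 * n + 1 - p)) (by omega) (by
    simp only [map_add, map_mul, map_one, map_ofNat]; push_cast; linear_combination -a2)
  have e2 : ((p - 1) * z : ℤ) = p * (4 * n + 1 - p) := by
    have : (((p - 1) * z : ℤ) : ℂ) = (p * (4 * n + 1 - p) : ℤ) := by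
      simp only [map_add, map_mul, map_one, map_ofNat] at hz
      push_cast; rw [← hz]; linear_combination -a2
    exact_mod_cast this
  have z0 : 0 < z := by
    rw [Complex.mul_conj] at hz
    have h1 : Complex.normSq (2 * χ₂ x + 1) = z := by exact_mod_cast hz
    have h2 : 0 < Complex.normSq (2 * χ₂ x + 1) := Complex.normSq_pos.2 fun h => by
      obtain ⟨w, hw⟩ := int_of_mul i1 (n := 2) (m := -1) (by norm_num) (by
        push_cast; linear_combination h)
      rw [hw] at h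
      have : 2 * w + 1 = 0 := by exact_mod_cast h
      omega
    rw [h1] at h2
    exact_mod_cast h2
  have hpp : Prime (p : ℤ) := Nat.prime_iff_prime_int.1 hp
  have d1 : (p : ℤ) ∣ z := (hpp.dvd_or_dvd (a := p - 1) ⟨_, e2⟩).resolve_left fun h => by
    have := Int.le_of_dvd (by omega) h; omega
  have l1 := Int.le_of_dvd z0 d1
  have l2 : 4 * (n : ℤ) + 1 - p ≤ p - 1 := by omega
  rw [hz, show z = p by nlinarith]; simp

omit hfp in
theorem no4 {f : ℕ} (hf : p = 2 * f + 1) {c₁ c₂ c₃ : IrrCharacter G}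
    (m0 : irrOne G ∉ ({c₁, c₂, c₃} : Set _)) (m1 : c₁ ≠ c₂) (m2 : c₁ ≠ c₃) (m3 : c₂ ≠ c₃)
    (hπ : pc G X = (irrOne G).1 + (c₁.1 + (c₂.1 + c₃.1))) (d₁ : c₁.1 1 = p) (d₂ : c₂.1 1 = f)
    (d₃ : c₃.1 1 = f) (s₁ : ∑ g : P, c₁.1 g = p) (s₂ : ∑ g : P, c₂.1 g = 0)
    (s₃ : ∑ g : P, c₃.1 g = 0) {x : G} (v₁ : c₁.1 x = 0) (v₂ : c₂.1 x + c₃.1 x = -1)
    (hγ : (2 * c₂.1 x + 1) * conj (2 * c₂.1 x + 1) = p) : False := by
  classical
  have hp2 := hp.two_le
  have p0 : (p : ℂ) ≠ 0 := by exact_mod_cast hp.ne_zero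
  simp only [Set.mem_insert_iff, Set.mem_singleton_iff] at m0
  have u0 : irrOne G ∉ ({c₁, c₂, c₃} : Finset _) := by simpa using m0
  have u1 : c₁ ∉ ({c₂, c₃} : Finset _) := by simp [m1, m2]
  have hs : pc G X = ∑ χ ∈ ({irrOne G, c₁, c₂, c₃} : Finset _), χ.1 := by
    rw [Finset.sum_insert u0, Finset.sum_insert u1, Finset.sum_pair m3, hπ]
  obtain ⟨a⟩ : Nonempty X := Fintype.card_pos_iff.1 (by omega)
  have hr := rank_eq hs a
  rw [Finset.card_insert_of_notMem u0, Finset.card_insert_of_notMem u1, Finset.card_pair m3,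
    Nat.card_eq_fintype_card] at hr
  have i0 : irrOne G ∈ ({irrOne G, c₁, c₂, c₃} : Finset _) := by simp
  have i1 : c₁ ∈ ({irrOne G, c₁, c₂, c₃} : Finset _) := by simp
  have i2 : c₂ ∈ ({irrOne G, c₁, c₂, c₃} : Finset _) := by simp
  have i3 : c₃ ∈ ({irrOne G, c₁, c₂, c₃} : Finset _) := by simp
  have ts : ∀ {M : Matrix X X ℂ}, InvM G M → ∀ g, TT G M g = th (irrOne G).1 M +
      (th c₁.1 M * c₁.1 g + (th c₂.1 M * c₂.1 g + th c₃.1 M * c₃.1 g)) := fun h g => by
    rw [TT_sum hs h, Finset.sum_insert u0, Finset.sum_insert u1, Finset.sum_pair m3,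
      irrOne_apply, mul_one]
  have key : ∀ b, b ≠ a → (2 * f : ℝ) ≤ Nat.card (orbit (stabilizer G a) b) +
      (th c₁.1 (adj G a b)).re := fun b hb => by
    have k2 := two_le_sub hprim (by
      rw [Nat.card_eq_fintype_card, hX]; exact Nat.not_prime_mul (by omega) (by omega)) hb
    have hA := invM_adj (G := G) a b
    have t0 : th (irrOne G).1 (adj G a b) = _ := th_triv a b
    have t0' : th (irrOne G).1 (adj G b a) = _ := th_triv b a
    have t1 := ts hA 1
    have t2 := ts (InvM.mul hA (invM_adj b a)) 1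
    have t3 := ts hA x
    have t4 := Finset.sum_congr (rfl : (Finset.univ : Finset P) = _) fun g _ => ts hA g
    choose N hN using TT_nat (G := G) a b
    simp only [hN, Finset.sum_add_distrib, ← Finset.mul_sum, s₁, s₂, s₃, t0, Finset.sum_const,
      Finset.card_univ, ← Nat.card_eq_fintype_card, hP, ← Nat.cast_sum, nsmul_eq_mul] at t4
    rw [TT_adj_one hb.symm, t0, d₁, d₂, d₃] at t1
    rw [TT_adj_adj, th_mul hs hA (invM_adj b a) i0, th_mul hs hA (invM_adj b a) i1,
      th_mul hs hA (invM_adj b a) i2, th_mul hs hA (invM_adj b a) i3,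
      th_transpose (char_of_irr c₁.2) a b, th_transpose (char_of_irr c₂.2) a b,
      th_transpose (char_of_irr c₃.2) a b, hX, t0, t0', ← card_paired a b, d₁, d₂, d₃] at t2
    rw [hN, t0, v₁] at t3
    have r1 := th_int hs a b i1
    have r2 := (th_int hs a b i2).add (th_int hs a b i3)
    generalize th c₁.1 (adj G a b) = θ at *
    generalize th c₂.1 (adj G a b) = θ₂ at *
    generalize th c₃.1 (adj G a b) = θ₃ at *
    generalize Nat.card (orbit (stabilizer G a) b) = k at *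
    generalize ∑ g : P, N g = S at *
    generalize N x = T at *
    obtain ⟨θ, rfl⟩ := int_of_mul r1 (n := p) (m := S - p * k) (by omega) (by
      push_cast; linear_combination -t4)
    obtain ⟨α, hα⟩ := int_of_mul r2 (n := f) (m := -k - p * θ) (by omega) (by
      push_cast; linear_combination -t1)
    have hW : ((2 * T - 2 * k + α : ℤ) : ℂ) = (θ₂ - θ₃) * (2 * c₂.1 x + 1) := by
      push_cast; linear_combination 2 * t3 - hα + 2 * θ₃ * v₂
    have hW' := congrArg conj hW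
    have hα' := congrArg conj hα
    rw [map_intCast, map_mul, map_sub] at hW'
    rw [map_intCast, map_add] at hα'
    rw [map_intCast] at t2
    have := arith4 (f := f) (k := k) (θ := θ) (a := α) (W := 2 * T - 2 * k + α) hp (by omega)
      (by omega) (by
        have : ((k + p * θ + f * α : ℤ) : ℂ) = (0 : ℤ) := by
          push_cast; linear_combination -t1 - f * hα
        exact_mod_cast this) (by
        have : ((p * (2 * (k * k) + 2 * p * (θ * θ) + f * (α * α) - 4 * p * k) +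
            f * ((2 * T - 2 * k + α) * (2 * T - 2 * k + α)) : ℤ) : ℂ) = (0 : ℤ) := by
          rw [Int.cast_add, Int.cast_mul (f : ℤ), Int.cast_mul (2 * (T : ℤ) - _ + _)]
          nth_rw 1 [hW]
          rw [hW']
          push_cast at t2 ⊢
          linear_combination -2 * p * t2 + f * (θ₂ - θ₃) * (conj θ₂ - conj θ₃) * hγ -
            p * f * (α * hα + (θ₂ + θ₃) * hα')
        exact_mod_cast this) (by omega)
    simp only [Complex.intCast_re]
    exact_mod_cast this
  have h1 := sum_ge (fun q : orbitRel.Quotient (stabilizer G a) X =>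
    (Nat.card (orbit (stabilizer G a) q.out) : ℝ) + (th c₁.1 (adj G a q.out)).re)
    (Quotient.mk _ a) _ fun q hq => key _ (out_ne hq)
  rw [Finset.sum_add_distrib, ← Nat.cast_sum, sum_card_out, ← Complex.re_sum, ← th_sum, sum_adj_out,
    th_J c₁.2 (fun e => m0 (Or.inl (Subtype.ext e).symm)), out_self, orbit_self, adj_self,
    th_one hs i1, hr, hX, hf] at h1
  simp only [Nat.card_unique, Complex.one_re, Complex.zero_re] at h1
  have : (1 : ℝ) ≤ f := by exact_mod_cast (by omega : 1 ≤ f)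
  push_cast at h1
  linarith

theorem main (hp3 : p ≠ 2) (hsq : ¬ p ^ 2 ∣ Nat.card G) (a : X) : IsMultiplyPretransitive G X 2 ∨
    (Nat.card (orbitRel.Quotient (stabilizer G a) X) = 3 ∧ ∃ n : ℕ, 0 < n ∧
      p = 2 * n ^ 2 + 2 * n + 1 ∧ ∀ b : X, b ≠ a →
      (Nat.card (orbit (stabilizer G a) b) = n * (2 * n + 1) ∨
        Nat.card (orbit (stabilizer G a) b) = (n + 1) * (2 * n + 1))) := by
  classical
  refine (chi1 hprim hp hX hP hfp).imp_right ?_
  rintro ⟨χ, hχ, hi, d₁, v₁, hk⟩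
  have hp2 := hp.two_le
  obtain ⟨f, hf⟩ := hp.odd_of_ne_two hp3
  have hfc : (p : ℂ) = 2 * f + 1 := by exact_mod_cast hf
  have p0 : (p : ℂ) ≠ 0 := by exact_mod_cast hp.ne_zero
  have : Nonempty X := ⟨a⟩
  have hφ : IsCharacter G (pc G X - fun _ => 1) := char_pc_sub_one
  have hψ := char_sub_irr hφ hχ hi
  have ψ1 : ((pc G X - fun _ => 1) - χ : G → ℂ) 1 = ((2 * f : ℕ) : ℂ) := by
    rw [Pi.sub_apply, Pi.sub_apply, pc_one, Nat.card_eq_fintype_card, hX, d₁]
    push_cast; linear_combination hfc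
  have ψP : ∀ g ∈ P, g ≠ 1 → ((pc G X - fun _ => 1) - χ : G → ℂ) g = -1 := fun g hg h1 => by
    simp [hfp g hg h1, v₁ g hg h1]
  have ψk : ∀ k : ℕ, k.Coprime (Nat.card G) →
      (fun g => ((pc G X - fun _ => 1) - χ : G → ℂ) (g ^ k)) = (pc G X - fun _ => 1) - χ :=
    fun k h => funext fun g => by simp only [Pi.sub_apply, pc_pw h, hk k h]
  have hn1 : ∀ θ, IsIrrCharacter G θ → classInner (pc G X - fun _ => 1) θ ≠ 0 →
      θ ≠ fun _ => 1 := by
    rintro θ - h rfl
    rw [CChar.CharFun.inner_sub_left, inner_pc_one_of_pretransitive, inner_one_one, sub_self] at h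
    exact h rfl
  have hdeg : ∀ θ, IsIrrCharacter G θ → classInner ((pc G X - fun _ => 1) - χ) θ ≠ 0 →
      (θ ≠ fun _ => 1) ∧ ∃ d : ℕ, f ≤ d ∧ θ 1 = d := fun θ hθ h => by
    have h' := inner_ne_of_sub (char_of_irr hχ) hψ hθ h
    refine ⟨hn1 θ hθ h', charDegree θ, ?_, irr_apply_one_eq hθ⟩
    have := Cfsg.Agent.S4503.result p hp (hP ▸ Subgroup.card_subgroup_dvd_card P) hsq
      (fun H hH e => by
        have := normal_pretransitive (X := X) H (by rintro rfl; simp at e; omega)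
        have := card_dvd_card (G := H) (X := X)
        rw [e, Nat.card_eq_fintype_card, hX] at this
        have := Nat.le_of_dvd hp.pos this
        omega) θ (char_of_irr hθ) (faithful hprim hθ h')
    omega
  have hπ : pc G X = (fun _ => 1) + (χ + ((pc G X - fun _ => 1) - χ)) := by abel
  have n1 := hn1 χ hχ hi
  generalize ((pc G X - fun _ => 1) - χ : G → ℂ) = ψ at *
  have f0 : ((2 * f : ℕ) : ℂ) ≠ 0 := by exact_mod_cast (by omega)
  obtain ⟨χ₂, h₂, i₂⟩ := char_exists_irr_constituent hψ (by rintro rfl; exact f0 ψ1.symm)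
  obtain ⟨n2, d₂, l₂, e₂⟩ := hdeg χ₂ h₂ i₂
  have hψ₂ := char_sub_irr hψ h₂ i₂
  by_cases h0 : ψ - χ₂ = 0
  · obtain rfl : ψ = χ₂ := sub_eq_zero.1 h0
    have hπ' : pc G X = fun g => 1 + ψ g + χ g := by rw [hπ]; ext g; simp; ring
    have e : ψ 1 = (p : ℂ) - 1 := by rw [ψ1]; push_cast; linear_combination -hfc
    have u1 : (⟨ψ, h₂⟩ : IrrCharacter G) ≠ ⟨χ, hχ⟩ := fun h => by
      rw [show ψ = χ from congrArg Subtype.val h, d₁] at e
      exact one_ne_zero (α := ℂ) (by linear_combination e)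
    have u0 : irrOne G ∉ ({⟨ψ, h₂⟩, ⟨χ, hχ⟩} : Finset (IrrCharacter G)) := by
      simp only [Finset.mem_insert, Finset.mem_singleton, not_or]
      exact ⟨fun e => n2 (congrArg Subtype.val e).symm, fun e => n1 (congrArg Subtype.val e).symm⟩
    have hr := rank_eq (X := X) (s := {irrOne G, ⟨ψ, h₂⟩, ⟨χ, hχ⟩}) (by
      rw [Finset.sum_insert u0, Finset.sum_pair u1, hπ', ← add_assoc]; rfl) a
    rw [Finset.card_insert_of_notMem u0, Finset.card_pair u1] at hr
    exact ⟨hr, rank3' hprim hX a hr h₂ hχ hπ' e d₁⟩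
  exfalso
  obtain ⟨χ₃, h₃, i₃⟩ := char_exists_irr_constituent hψ₂ h0
  obtain ⟨n3, d₃, l₃, e₃⟩ := hdeg χ₃ h₃ (inner_ne_of_sub (char_of_irr h₂) hψ₂ h₃ i₃)
  have hψ₃ := char_sub_irr hψ₂ h₃ i₃
  obtain ⟨m, hm⟩ := char_apply_one hψ₃
  have e : ((d₂ + d₃ + m : ℕ) : ℂ) = (2 * f : ℕ) := by
    simp only [Pi.sub_apply] at hm
    rw [← ψ1]; push_cast; linear_combination -hm - e₂ - e₃
  have e : d₂ + d₃ + m = 2 * f := by exact_mod_cast e
  obtain rfl : d₂ = f := by omega
  obtain rfl : d₂ = d₃ := by omega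
  obtain rfl : m = 0 := by omega
  obtain rfl : ψ = χ₂ + χ₃ := by
    have := char_eq_zero_of_apply_one hψ₃ (by simpa using hm)
    rw [sub_sub, sub_eq_zero] at this; exact this
  obtain ⟨⟨x, hx⟩, hx1⟩ : ∃ x : P, x ≠ 1 := by
    have : Nontrivial P := Finite.one_lt_card_iff_nontrivial.1 (by omega)
    exact exists_ne 1
  have hx1 : x ≠ 1 := fun e => hx1 (Subtype.ext e)
  obtain ⟨a₂, s₂⟩ := sP_nat' P (char_of_irr h₂)
  obtain ⟨a₃, s₃⟩ := sP_nat' P (char_of_irr h₃)
  have s := sP_const P ψP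
  simp only [Pi.add_apply, Finset.sum_add_distrib, s₂, s₃, hP, e₂, e₃] at s
  have e' : ((a₂ + a₃ : ℕ) : ℂ) = (0 : ℕ) := mul_left_cancel₀ p0 (by
    push_cast; linear_combination s - hfc)
  have e' : a₂ + a₃ = 0 := by exact_mod_cast e'
  obtain rfl : a₂ = 0 := by omega
  obtain rfl : a₃ = 0 := by omega
  rw [Nat.cast_zero, mul_zero] at s₂ s₃
  have dn : ∀ θ : G → ℂ, θ 1 = d₂ → χ ≠ θ := by
    rintro θ h rfl
    rw [d₁] at h
    have : p = d₂ := by exact_mod_cast h
    omega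
  refine no4 hprim hp hX hP hf (c₁ := ⟨χ, hχ⟩) (c₂ := ⟨χ₂, h₂⟩) (c₃ := ⟨χ₃, h₃⟩) ?_
    (fun e => dn _ e₂ (congrArg Subtype.val e)) (fun e => dn _ e₃ (congrArg Subtype.val e))
    (fun e => ?_) hπ d₁ e₂ e₃ ?_ s₂ s₃ (v₁ x hx hx1) (ψP x hx hx1)
    (gam hp hP hf (char_of_irr h₂) (char_of_irr h₃) e₂ e₃ ψP s₂ hx hx1 fun g hg h1 => ?_)
  · simp only [Set.mem_insert_iff, Set.mem_singleton_iff, not_or]
    exact ⟨fun e => n1 (congrArg Subtype.val e).symm, fun e => n2 (congrArg Subtype.val e).symm,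
      fun e => n3 (congrArg Subtype.val e).symm⟩
  · obtain rfl : χ₂ = χ₃ := congrArg Subtype.val e
    have h := ψP x hx hx1
    obtain ⟨w, hw⟩ := int_of_mul (char_isIntegral (char_of_irr h₂) x) (n := 2) (m := -1)
      (by norm_num) (by rw [Pi.add_apply] at h; push_cast; linear_combination h)
    rw [Pi.add_apply, hw] at h
    have : w + w = -1 := by exact_mod_cast h
    omega
  · change ∑ g : P, χ g = _
    rw [sP_const P v₁, d₁]; simp
  · obtain ⟨k, k1, rfl⟩ := exists_pw hp hP hx hx1 hg h1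
    have a1 := CA.BlkGal.irr_pw k1 h₂
    have a2 := CA.BlkGal.inner_pw k1 (χ₂ + χ₃) χ₂
    rw [ψk k k1] at a2
    by_contra hne
    rw [not_or] at hne
    rw [← a2, CChar.CharFun.inner_add_left, inner_irr_of_ne h₂ a1 fun e => hne.1 (congrFun e x).symm,
      inner_irr_of_ne h₃ a1 fun e => hne.2 (congrFun e x).symm, add_zero] at i₂
    exact i₂ rfl

end Main

theorem wielandt {α : Type*} [Fintype α] [DecidableEq α] {p : ℕ} (hp : p.Prime)
    (hα : Fintype.card α = 2 * p) (G : Subgroup (Equiv.Perm α)) (hG : IsPreprimitive G α) (a : α) :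
    IsMultiplyPretransitive G α 2 ∨
    (Nat.card (orbitRel.Quotient (stabilizer G a) α) = 3 ∧ ∃ n : ℕ, 0 < n ∧
      p = 2 * n ^ 2 + 2 * n + 1 ∧ ∀ b : α, b ≠ a →
      (Nat.card (orbit (stabilizer G a) b) = n * (2 * n + 1) ∨
        Nat.card (orbit (stabilizer G a) b) = (n + 1) * (2 * n + 1))) := by
  classical
  by_cases hp3 : p = 2
  · exact Or.inl (deg4 hG (by rw [Nat.card_eq_fintype_card, hα, hp3]))
  have := Fact.mk hp
  have hp2 := hp.two_le
  have hc : ∀ b : α, Nat.card G = 2 * p * Nat.card (stabilizer G b) := fun b => by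
    rw [card_eq_card_mul_card_stabilizer b, Nat.card_eq_fintype_card (α := α), hα]
  by_cases hsq : p ^ 2 ∣ Nat.card G
  · left
    have h1 : p ∣ Nat.card (stabilizer G a) := by
      rw [hc a, mul_comm 2, mul_assoc, sq, Nat.mul_dvd_mul_iff_left hp.pos] at hsq
      exact ((Nat.Prime.dvd_mul hp).1 hsq).resolve_left fun h => by
        have := Nat.le_of_dvd two_pos h; omega
    obtain ⟨g, hg⟩ := exists_prime_orderOf_dvd_card' p h1
    have ho : orderOf ((g : G) : Equiv.Perm α) = p := by simpa using hg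
    have hcy : ((g : G) : Equiv.Perm α).IsCycle := Equiv.Perm.isCycle_of_prime_order (ho ▸ hp) (by
      rw [ho, ← hα]
      exact Finset.card_lt_univ_of_notMem (x := a) (Equiv.Perm.notMem_support.2 g.2))
    have h2 := CA.PermJordan.alt_le_of_prime_cycle G hG hp (by omega) hcy
      (hcy.orderOf.symm.trans ho) (g : G).2
    exact CA.Neumann3.mpt_of_alt_le (fun σ hσ => ⟨⟨σ, h2 hσ⟩, rfl⟩)
      (by rw [Nat.card_eq_fintype_card]; omega)
  obtain ⟨x, hx⟩ := exists_prime_orderOf_dvd_card' p (G := G) (by rw [hc a]; exact Dvd.dvd.mul_right (Dvd.intro_left 2 rfl) _)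
  have hP : Nat.card (Subgroup.zpowers x) = p := by rw [Nat.card_zpowers, hx]
  refine main hG hp hα hP (fun g hg h1 => ?_) hp3 hsq a
  have ho : orderOf g = p := by
    have := Subgroup.orderOf_dvd_natCard _ hg
    rw [hP] at this
    exact ((Nat.dvd_prime hp).1 this).resolve_left (by simpa using h1)
  have : IsEmpty (fixedBy α g) := ⟨fun ⟨b, hb⟩ => hsq (by
    obtain ⟨c, e⟩ := Subgroup.orderOf_dvd_natCard (stabilizer G b) (x := g) hb
    rw [hc b, e, ho]; exact ⟨2 * c, by ring⟩)⟩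
  simp [pc]

end CA.W2p
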